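import Cfsg.Agent.H896.SzEven
import Cfsg.Agent.H896.SzOddFact
import Cfsg.Statements.S5737
set_option linter.all false

-- part: H896/SzOdd
section
/-!
# Binary actions of the Suzuki groups with point stabilisers of odd order (helper896)
-/

set_option autoImplicit false
set_option linter.unusedSectionVars false

namespace Cfsg.Agent.H896

open Cfsg.Agent.LieRecognition Cfsg.Agent.LieRecognition.SzMatrix
  Cfsg.Agent.LieRecognition.RankOneAbstract

namespace SzG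

variable {F : Type*} [Field F] {θ : F →+* F} {e : ℕ}

/-- trace in the natural representation -/
def tr (g : ↥(Cfsg.Lie.Sz F e)) : F := Matrix.trace (g.1.1)

theorem tr_conj (g h : ↥(Cfsg.Lie.Sz F e)) : tr (g * h * g⁻¹) = tr h := by
  show Matrix.trace (g.1.1 * h.1.1 * (g.1⁻¹).1) = Matrix.trace (h.1.1)
  rw [Matrix.trace_mul_cycle, ← Units.val_mul, inv_mul_cancel, Units.val_one, Matrix.one_mul]

theorem wuw_val (H : Good F θ e) (β : F) : (H.w * H.u 0 β * H.w).1.1 =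
    !![1, 0, 0, 0; 0, 1, 0, 0; β, 0, 1, 0; θ β, β, 0, 1] := by
  show (W F).1 * (H.U 0 β).1 * (W F).1 = _
  rw [W_val, H.U_val, Umat_def]
  ext i j
  fin_cases i <;> fin_cases j <;>
    simp [J, Matrix.mul_apply, Fin.sum_univ_four]

theorem tr_two (H : Good F θ e) (c β : F) : tr (H.u 0 c * (H.w * H.u 0 β * H.w)) = θ (c * β) := by
  have h0 := H.two
  show Matrix.trace ((H.U 0 c).1 * (H.w * H.u 0 β * H.w).1.1) = _
  rw [wuw_val, H.U_val, Umat_def]
  simp [Matrix.trace, Fin.sum_univ_four]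
  linear_combination (2 + c * β) * h0

/-- the quadratic form-like invariant -/
def Nf (θ : F →+* F) (a b : F) : F := a * b + a ^ 2 * θ a + θ b

theorem tr_three (H : Good F θ e) (a b β : F) :
    tr ((H.w * H.u 0 β * H.w) * (H.u a b * (H.w * H.u 0 β * H.w) * (H.u a b)⁻¹)) =
      (θ β * Nf θ a b) ^ 2 := by
  have h0 := H.two
  have hs := H.sq a
  rw [H.u_inv]
  show Matrix.trace ((H.w * H.u 0 β * H.w).1.1 *
    ((H.U a b).1 * (H.w * H.u 0 β * H.w).1.1 * (H.U a (b + a * θ a)).1)) = _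
  rw [wuw_val, H.U_val, H.U_val, Umat_def, Umat_def, map_add, map_mul, hs]
  unfold Nf
  generalize θ a = A
  generalize θ b = B
  generalize θ β = T
  simp [Matrix.trace, Fin.sum_univ_four]
  linear_combination (2 + 2*B*T + 1*A*B*β^2 + 4*b*β + 2*b*B*β*T + 1*b^2*β^2 + 6*a*A*β + 2*a*A*B*β*T
    + 4*a*b*T + 3*a*b*A*β^2 + 2*a*b^2*β*T + 6*a^2*A*T + 1*a^2*A*B*T^2 + 3*a^2*A^2*β^2
    + 6*a^2*b*A*β*T + 3*a^3*A^2*β*T + 1*a^3*b*A*T^2 + 1*a^4*A^2*T^2) * h0

theorem Nf_scale (H : Good F θ e) (k : Fˣ) (a b : F) :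
    Nf θ (a * k ^ 2 * (θ k)⁻¹) (b * θ k) = (k : F) ^ 2 * Nf θ a b := by
  have hθ : θ (k : F) ≠ 0 := theta_ne_zero θ k
  have hk := k.ne_zero
  unfold Nf
  simp only [map_mul, map_pow, map_inv₀, H.sq]
  field_simp

theorem Nf_ne (H : Good F θ e) {a b : F} (h : Nf θ a b = 0) : a = 0 ∧ b = 0 := by
  have h1 : (H.w)⁻¹ * H.u a b * H.w ∈ H.borel := by
    rw [H.w_inv, H.mem_borel]
    show ((W F).1 * (H.U a b).1 * (W F).1) 3 0 = 0
    rw [W_val, H.U_val, Umat_def]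
    simp [J, Matrix.mul_apply, Fin.sum_univ_four]
    exact h
  have h2 := H.inter_trivial _ (H.u_mem_unip a b) h1
  rw [← H.u_zero] at h2
  exact H.u_inj h2

theorem sq_inj' (H : Good F θ e) {x y : F} (h : x ^ 2 = y ^ 2) : x = y := by
  have h1 : (x + y) ^ 2 = 0 := by
    linear_combination h + (x * y + y ^ 2) * H.two
  have h2 := pow_eq_zero_iff two_ne_zero |>.1 h1
  linear_combination h2 - H.add_self y

/-- the number of points with a given value of the form -/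
theorem card_Nf [Finite F] (H : Good F θ e) {c : F} (hc : c ≠ 0) :
    Nat.card F + 1 ≤ Nat.card {p : F × F // Nf θ p.1 p.2 = c} := by
  have hq : 2 ≤ Nat.card F := Finite.one_lt_card
  let f : Fˣ × {p : F × F // Nf θ p.1 p.2 = c} → {p : F × F // p ≠ 0} := fun x =>
    ⟨(x.2.1.1 * x.1 ^ 2 * (θ x.1)⁻¹, x.2.1.2 * θ x.1), by
      intro h
      have h1 := congrArg Prod.fst h
      have h2 := congrArg Prod.snd h
      have h3 := Nf_scale H x.1 x.2.1.1 x.2.1.2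
      have h1' : x.2.1.1 * (x.1 : F) ^ 2 * (θ x.1)⁻¹ = 0 := h1
      have h2' : x.2.1.2 * θ x.1 = 0 := h2
      rw [h1', h2', x.2.2] at h3
      unfold Nf at h3
      rw [map_zero] at h3
      have h4 : (x.1 : F) ^ 2 * c = 0 := by rw [← h3]; ring
      exact (mul_ne_zero (pow_ne_zero 2 x.1.ne_zero) hc) h4⟩
  have hf : Function.Surjective f := by
    rintro ⟨⟨a, b⟩, hab⟩
    have hn : Nf θ a b ≠ 0 := by
      intro h
      obtain ⟨rfl, rfl⟩ := Nf_ne H h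
      exact hab rfl
    obtain ⟨k, hk⟩ := Finite.surjective_of_injective (f := fun x : F => x ^ 2)
      (fun x y h => sq_inj' H h) (c / Nf θ a b)
    have hk : k ^ 2 = c / Nf θ a b := hk
    have hk0 : k ≠ 0 := by
      rintro rfl
      rw [zero_pow two_ne_zero] at hk
      exact div_ne_zero hc hn hk.symm
    set l : Fˣ := Units.mk0 k hk0 with hl
    have hθ : θ k ≠ 0 := theta_ne_zero θ l
    refine ⟨(l⁻¹, ⟨(a * l ^ 2 * (θ l)⁻¹, b * θ l), ?_⟩), ?_⟩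
    · rw [Nf_scale H]
      show k ^ 2 * Nf θ a b = c
      rw [hk]
      field_simp
    · apply Subtype.ext
      apply Prod.ext
      · show a * k ^ 2 * (θ k)⁻¹ * ((l⁻¹ : Fˣ) : F) ^ 2 * (θ ((l⁻¹ : Fˣ) : F))⁻¹ = a
        rw [Units.val_inv_eq_inv_val, hl, Units.val_mk0, map_inv₀]
        field_simp
      · show b * θ k * θ ((l⁻¹ : Fˣ) : F) = b
        rw [Units.val_inv_eq_inv_val, hl, Units.val_mk0, map_inv₀]
        field_simp
  have h1 := Nat.card_le_card_of_surjective f hf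
  have h2 : Nat.card {p : F × F // p ≠ 0} = Nat.card F ^ 2 - 1 := by
    classical
    let _ : Fintype F := Fintype.ofFinite F
    rw [Nat.card_eq_fintype_card, Fintype.card_subtype_compl, Fintype.card_subtype_eq,
      Fintype.card_prod, Nat.card_eq_fintype_card, pow_two]
  rw [h2, Nat.card_prod, Nat.card_units] at h1
  have h3 : Nat.card F ^ 2 - 1 = (Nat.card F - 1) * (Nat.card F + 1) := by
    obtain ⟨q, hq'⟩ : ∃ q, Nat.card F = q + 1 := ⟨Nat.card F - 1, by omega⟩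
    rw [hq']
    have : (q + 1) ^ 2 = q * (q + 1 + 1) + 1 := by ring
    rw [this]
    simp
  rw [h3] at h1
  exact Nat.le_of_mul_le_mul_left h1 (by omega)

/-- canonical form of a pair of noncommuting involutions -/
theorem pair_form [Finite F] (H : Good F θ e) {c c' : F} (hc : c ≠ 0) (hc' : c' ≠ 0)
    {g : ↥(Cfsg.Lie.Sz F e)} (hg : g ∉ H.borel) : ∃ (k : ↥(Cfsg.Lie.Sz F e)) (β : F), β ≠ 0 ∧
      k * H.u 0 c * k⁻¹ = H.u 0 1 ∧ k * (g * H.u 0 c' * g⁻¹) * k⁻¹ = H.w * H.u 0 β * H.w := by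
  obtain ⟨s, hs, hb⟩ := H.bruhat_sz g hg
  set b := (s * H.w)⁻¹ * g with hb'
  have hg' : g = s * H.w * b := by rw [hb']; group
  obtain ⟨c'', hc''⟩ := (frame H).Zn b hb (H.u 0 c') ((u_mem_Z H).2 rfl)
  have hc''0 : c'' ≠ 0 := by
    rintro rfl
    rw [H.u_zero] at hc''
    have h1 : H.u 0 c' = b⁻¹ * (b * H.u 0 c' * b⁻¹) * b := by group
    rw [hc'', mul_one, inv_mul_cancel, ← H.u_zero] at h1
    exact hc' (H.u_inj h1).2
  obtain ⟨k, hk⟩ := exists_theta (θ := θ) (Units.mk0 c hc)⁻¹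
  rw [Units.val_inv_eq_inv_val, Units.val_mk0] at hk
  have hθ : θ (k : F) ≠ 0 := theta_ne_zero θ k
  refine ⟨H.d k * s⁻¹, c'' * (θ k)⁻¹, mul_ne_zero hc''0 (inv_ne_zero hθ), ?_, ?_⟩
  · obtain ⟨x, y, rfl⟩ := (H.mem_unip_iff s).1 hs
    have h1 : (H.u x y)⁻¹ * H.u 0 c * H.u x y = H.u 0 c := by
      rw [mul_assoc, inv_mul_eq_iff_eq_mul, H.u_mul, H.u_mul, map_zero, mul_zero, zero_mul,
        add_comm 0 x, add_comm c y]
    have h2 : H.d k * (H.u x y)⁻¹ * H.u 0 c * (H.d k * (H.u x y)⁻¹)⁻¹ =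
        H.d k * ((H.u x y)⁻¹ * H.u 0 c * H.u x y) * (H.d k)⁻¹ := by group
    rw [h2, h1, d_mul_Z, hk, mul_inv_cancel₀ hc]
  · have h1 : H.d k * s⁻¹ * (g * H.u 0 c' * g⁻¹) * (H.d k * s⁻¹)⁻¹ =
        (H.d k * H.w) * (b * H.u 0 c' * b⁻¹) * (H.d k * H.w)⁻¹ := by
      rw [hg']; group
    have h3 : H.d k * H.w = H.w * H.d k⁻¹ := by
      rw [H.w_mul_d, inv_inv]
    have h4 : (H.w * H.d k⁻¹) * H.u 0 c'' * (H.w * H.d k⁻¹)⁻¹ =
        H.w * (H.d k⁻¹ * H.u 0 c'' * (H.d k⁻¹)⁻¹) * (H.w)⁻¹ := by group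
    rw [h1, hc'', h3, h4, d_mul_Z, H.w_inv, Units.val_inv_eq_inv_val, map_inv₀]

/-- **a nontrivial subgroup of odd order is not the point stabiliser of a binary action** -/
theorem odd_false [Finite F] (H : Good F θ e) (hF : 4 ≤ Nat.card F)
    (hodd : ∀ h : ↥(Cfsg.Lie.Sz F e), h ≠ 1 → Odd (orderOf h) → OddFact h)
    (hab : ∀ K : Subgroup ↥(Cfsg.Lie.Sz F e), Odd (Nat.card K) → ∀ a ∈ K, ∀ b ∈ K, a * b = b * a)
    {K : Subgroup ↥(Cfsg.Lie.Sz F e)} (hK : Odd (Nat.card K)) (hne : K ≠ ⊥) (hb : Binary K) : False := by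
  have hf := frame H
  have hord : ∀ K : Subgroup ↥(Cfsg.Lie.Sz F e), Odd (Nat.card K) → ∀ x ∈ K, Odd (orderOf x) := by
    intro K hK x hx
    have h1 : orderOf (⟨x, hx⟩ : K) ∣ Nat.card K := orderOf_dvd_natCard _
    rw [← Subgroup.orderOf_coe] at h1
    exact Odd.of_dvd_nat hK h1
  obtain ⟨⟨h, hhK⟩, hh⟩ := (Subgroup.ne_bot_iff_exists_ne_one (H := K)).1 hne
  have hh1 : h ≠ 1 := fun h1 => hh (Subtype.ext h1)
  have o := hodd h hh1 (hord K hK h hhK)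
  -- `h` is a product of two noncommuting involutions
  obtain ⟨t, htt, hth⟩ := o.inv
  have hhh : h * h ≠ 1 := by
    intro h1
    apply hh1
    exact o.two h h1 rfl
  have ht1 : t ≠ 1 := by
    rintro rfl
    rw [one_mul, mul_one] at hth
    apply hhh
    nth_rewrite 1 [hth]
    exact inv_mul_cancel h
  have hs2 : t * h * (t * h) = 1 := by
    rw [← mul_assoc, hth, inv_mul_cancel]
  have hs1 : t * h ≠ 1 := by
    intro h1
    have h2 : h = t := by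
      calc h = (t * t) * h := by rw [htt, one_mul]
        _ = t * (t * h) := by rw [mul_assoc]
        _ = t := by rw [h1, mul_one]
    apply hhh
    rw [h2, htt]
  obtain ⟨g₁, hg₁⟩ := hf.exists_conj_Z (Z_ne_bot H) (orderOf_eq_two htt ht1)
  obtain ⟨g₂, hg₂⟩ := hf.exists_conj_Z (Z_ne_bot H) (orderOf_eq_two hs2 hs1)
  obtain ⟨c₁, hc₁⟩ := hg₁
  obtain ⟨c₂, hc₂⟩ := hg₂
  have hnz : ∀ (g x : ↥(Cfsg.Lie.Sz F e)) (c : F), x ≠ 1 → g * x * g⁻¹ = H.u 0 c → c ≠ 0 := by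
    rintro g x c hx h rfl
    apply hx
    have : x = g⁻¹ * (g * x * g⁻¹) * g := by group
    rw [this, h, H.u_zero]; group
  have hc₁0 := hnz _ _ _ ht1 hc₁
  have hc₂0 := hnz _ _ _ hs1 hc₂
  -- conjugating
  have hgB : g₁ * g₂⁻¹ ∉ H.borel := by
    intro hB
    have h1 := hf.Zn _ hB (H.u 0 c₂) ((u_mem_Z H).2 rfl)
    have h2 : g₁ * g₂⁻¹ * H.u 0 c₂ * (g₁ * g₂⁻¹)⁻¹ = g₁ * (t * h) * g₁⁻¹ := by
      rw [← hc₂]; group
    rw [h2] at h1
    have h3 : g₁ * t * g₁⁻¹ ∈ Z H := by rw [hc₁]; exact (u_mem_Z H).2 rfl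
    have h4 := hf.comm h3 h1
    have e1 : g₁ * t * g₁⁻¹ * (g₁ * (t * h) * g₁⁻¹) = g₁ * ((t * t) * h) * g₁⁻¹ := by group
    have e2 : g₁ * (t * h) * g₁⁻¹ * (g₁ * t * g₁⁻¹) = g₁ * (t * h * t) * g₁⁻¹ := by group
    rw [e1, e2, htt, one_mul, hth] at h4
    have h5 : h = h⁻¹ := mul_left_cancel (mul_right_cancel h4)
    apply hhh
    nth_rewrite 1 [h5]
    exact inv_mul_cancel h
  obtain ⟨k, β, hβ, hk1, hk2⟩ := pair_form H hc₁0 hc₂0 hgB
  set g := k * g₁ with hg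
  have e1 : g * t * g⁻¹ = H.u 0 1 := by
    rw [← hk1, ← hc₁, hg]; group
  have e2 : g * (t * h) * g⁻¹ = H.w * H.u 0 β * H.w := by
    rw [← hk2, ← hc₂, hg]; group
  have e3 : g * h * g⁻¹ = H.u 0 1 * (H.w * H.u 0 β * H.w) := by
    rw [← e1, ← e2]
    have : g * t * g⁻¹ * (g * (t * h) * g⁻¹) = g * ((t * t) * h) * g⁻¹ := by group
    rw [this, htt, one_mul]
  clear_value g
  -- replace `K`
  set K' := cj g K with hK'
  have hb' : Binary K' := binary_cj.2 hb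
  have hKo : Odd (Nat.card K') := by
    have : Nat.card K' = Nat.card K := card_map_equiv (MulAut.conj g) K
    rwa [this]
  set h₀ := H.u 0 1 * (H.w * H.u 0 β * H.w) with hh₀
  have hh₀K : h₀ ∈ K' := by
    rw [hK', mem_cj, ← e3]
    have : g⁻¹ * (g * h * g⁻¹) * g = h := by group
    rw [this]; exact hhK
  have hh₀1 : h₀ ≠ 1 := by
    intro h1
    apply hh1
    have : h = g⁻¹ * (g * h * g⁻¹) * g := by group
    rw [this, e3, h1]; group
  clear_value K'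
  have o₀ := hodd h₀ hh₀1 (hord K' hKo h₀ hh₀K)
  -- the element `x`
  obtain ⟨γ, hγ⟩ := exists_theta (θ := θ) (Units.mk0 β hβ)
  rw [Units.val_mk0] at hγ
  have hγ0 : (γ : F) ≠ 0 := γ.ne_zero
  obtain ⟨a, b, hab', hx⟩ : ∃ a b : F, Nf θ a b = (γ : F)⁻¹ ∧
      (H.u a b * h₀ * (H.u a b)⁻¹) * h₀ ≠ h₀ * (H.u a b * h₀ * (H.u a b)⁻¹) := by
    by_contra hcon
    push Not at hcon
    -- the subgroup
    let S : Subgroup ↥(Cfsg.Lie.Sz F e) :=
      H.unip ⊓ Subgroup.normalizer ((Subgroup.centralizer ({h₀} : Set ↥(Cfsg.Lie.Sz F e)) :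
        Subgroup ↥(Cfsg.Lie.Sz F e)) : Set ↥(Cfsg.Lie.Sz F e))
    have hS2 : IsPGroup 2 S := by
      intro x
      obtain ⟨n, hn⟩ := hf.twoU ⟨x, x.2.1⟩
      have hn' : (x : ↥(Cfsg.Lie.Sz F e)) ^ 2 ^ n = 1 := congrArg Subtype.val hn
      exact ⟨n, Subtype.ext hn'⟩
    have hSc : ∀ x ∈ S, (x * h₀ * x⁻¹) * h₀ = h₀ * (x * h₀ * x⁻¹) := by
      intro x hx
      have h1 := (Subgroup.mem_normalizer_iff.1 hx.2 h₀).1 (by
        rw [Subgroup.mem_centralizer_singleton_iff])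
      rw [Subgroup.mem_centralizer_singleton_iff] at h1
      exact h1
    have hle := o₀.four S hS2 hSc
    have hmem : ∀ x ∈ H.unip, (x * h₀ * x⁻¹) * h₀ = h₀ * (x * h₀ * x⁻¹) → x ∈ S := by
      intro x hxU hx
      refine Subgroup.mem_inf.2 ⟨hxU, ?_⟩
      have hy1 : x * h₀ * x⁻¹ ≠ 1 := by
        intro h1
        apply hh₀1
        have : h₀ = x⁻¹ * (x * h₀ * x⁻¹) * x := by group
        rw [this, h1]; group
      have o₁ := hodd (x * h₀ * x⁻¹) hy1 (by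
        have := (MulAut.conj x).orderOf_eq h₀
        have e : MulAut.conj x h₀ = x * h₀ * x⁻¹ := rfl
        rw [e] at this
        rw [this]
        exact hord K' hKo h₀ hh₀K)
      have hcc : ∀ y, y * h₀ = h₀ * y ↔ y * (x * h₀ * x⁻¹) = (x * h₀ * x⁻¹) * y := by
        intro y
        constructor
        · intro h1
          exact o₀.comm y _ h1 hx
        · intro h1
          exact o₁.comm y _ h1 hx.symm
      rw [Subgroup.mem_normalizer_iff]
      intro y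
      rw [Subgroup.mem_centralizer_singleton_iff,
        Subgroup.mem_centralizer_singleton_iff, hcc (x * y * x⁻¹)]
      constructor
      · intro h6
        have e1 : x * y * x⁻¹ * (x * h₀ * x⁻¹) = x * (y * h₀) * x⁻¹ := by group
        have e2 : x * h₀ * x⁻¹ * (x * y * x⁻¹) = x * (h₀ * y) * x⁻¹ := by group
        rw [e1, e2, h6]
      · intro h6
        have e1 : y * h₀ = x⁻¹ * (x * y * x⁻¹ * (x * h₀ * x⁻¹)) * x := by group
        have e2 : h₀ * y = x⁻¹ * (x * h₀ * x⁻¹ * (x * y * x⁻¹)) * x := by group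
        rw [e1, e2, h6]
    let f : {p : F × F // Nf θ p.1 p.2 = (γ : F)⁻¹} → S := fun p =>
      ⟨H.u p.1.1 p.1.2, hmem _ (H.u_mem_unip _ _) (hcon _ _ p.2)⟩
    have hf' : Function.Injective f := by
      intro p q hpq
      have h1 := H.u_inj (congrArg Subtype.val hpq)
      exact Subtype.ext (Prod.ext h1.1 h1.2)
    have h1 := Nat.card_le_card_of_injective f hf'
    have h2 := card_Nf H (inv_ne_zero hγ0)
    omega
  set x := H.u a b with hx'
  have hxU : x ∈ H.unip := H.u_mem_unip a b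
  have hx1 : x ≠ 1 := by
    intro h1
    apply hx
    rw [h1]; simp
  set z₂ := H.w * H.u 0 β * H.w with hz₂
  have hz₂2 : z₂ * z₂ = 1 := by
    have : z₂ * z₂ = H.w * (H.u 0 β * (H.w * H.w) * H.u 0 β) * H.w := by rw [hz₂]; group
    rw [this, H.w_mul_w, mul_one, H.u_mul, H.add_self 0, H.add_self β, zero_mul, add_zero,
      H.u_zero, mul_one, H.w_mul_w]
  have hz₁2 : H.u 0 1 * H.u 0 1 = 1 := hf.inv _ ((u_mem_Z H).2 rfl)
  have hz₁x : x * H.u 0 1 * x⁻¹ = H.u 0 1 := by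
    rw [mul_inv_eq_iff_eq_mul, hx', H.u_mul, H.u_mul, map_zero, mul_zero, zero_mul, add_comm a 0,
      add_comm b 1]
  -- the conjugates
  set y₀ := x * h₀ * x⁻¹ with hy₀
  have hz23 : h₀⁻¹ * y₀ = z₂ * (x * z₂ * x⁻¹) := by
    have h1 : h₀⁻¹ = z₂ * H.u 0 1 := by
      rw [hh₀, mul_inv_rev, inv_eq_of_mul_eq_one_right hz₂2, inv_eq_of_mul_eq_one_right hz₁2]
    have h2 : y₀ = (x * H.u 0 1 * x⁻¹) * (x * z₂ * x⁻¹) := by rw [hy₀, hh₀]; group
    rw [h1, h2, hz₁x]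
    calc z₂ * H.u 0 1 * (H.u 0 1 * (x * z₂ * x⁻¹)) = z₂ * (H.u 0 1 * H.u 0 1) * (x * z₂ * x⁻¹) := by
          group
      _ = _ := by rw [hz₁2, mul_one]
  obtain ⟨g₃, hg₃⟩ : ∃ g₃ : ↥(Cfsg.Lie.Sz F e), g₃⁻¹ * (h₀⁻¹ * y₀) * g₃ = h₀ := by
    have hwB : H.w * x * H.w ∉ H.borel := by
      intro h1
      rw [← H.w_inv, H.w_inv] at h1
      have h2 : (H.w)⁻¹ * x * H.w ∈ H.borel := by rw [H.w_inv]; exact h1
      exact hx1 (H.inter_trivial x hxU h2)
    obtain ⟨k', β', hβ', hk1', hk2'⟩ := pair_form H hβ hβ hwB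
    have h1 : (k' * H.w) * (z₂ * (x * z₂ * x⁻¹)) * (k' * H.w)⁻¹ = H.u 0 1 * (H.w * H.u 0 β' * H.w) := by
      rw [← hk1', ← hk2', hz₂]
      have hwi := H.w_inv
      have hww := H.w_mul_w
      have e4 : k' * H.w * (H.w * H.u 0 β * H.w * (x * (H.w * H.u 0 β * H.w) * x⁻¹)) * (k' * H.w)⁻¹ =
        k' * (H.w * H.w) * H.u 0 β * H.w * x * H.w * H.u 0 β * H.w * x⁻¹ * (H.w)⁻¹ * k'⁻¹ := by group
      have e5 : k' * H.u 0 β * k'⁻¹ * (k' * (H.w * x * H.w * H.u 0 β * (H.w * x * H.w)⁻¹) * k'⁻¹) =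
        k' * H.u 0 β * H.w * x * H.w * H.u 0 β * (H.w)⁻¹ * x⁻¹ * (H.w)⁻¹ * k'⁻¹ := by group
      rw [e4, e5, hww, mul_one, hwi]
    have h2 : tr (z₂ * (x * z₂ * x⁻¹)) = θ β' := by
      rw [← tr_conj (k' * H.w), h1, tr_two, one_mul]
    rw [hz₂, hx', tr_three, hab'] at h2
    have h3 : θ β' = θ β := by
      rw [← h2, ← hγ, H.sq]
      field_simp
    have h4 : β' = β := θ.injective h3
    refine ⟨(k' * H.w)⁻¹, ?_⟩
    rw [inv_inv, hz23, h1, h4]
  -- the ternary obstruction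
  obtain ⟨A, hA, hA2, hA3⟩ := hb'.ternary (x := h₀) (y := y₀) (g₂ := x) (g₃ := g₃) hh₀K
    (by
      have : x⁻¹ * y₀ * x = h₀ := by rw [hy₀]; group
      rw [this]; exact hh₀K)
    (by rw [hg₃]; exact hh₀K)
  have hcomm := hab K' hKo
  apply hx
  by_cases hA1 : A = 1
  · -- `h₀⁻¹` and `h₀⁻¹ y₀` commute
    rw [hA1, mul_one] at hA3
    have hg₃' : g₃⁻¹ * (h₀⁻¹ * y₀) * g₃ ∈ K' := by rw [hg₃]; exact hh₀K
    have h1 := hcomm _ hA3 _ hg₃'
    have h2 : h₀⁻¹ * (h₀⁻¹ * y₀) = h₀⁻¹ * y₀ * h₀⁻¹ := by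
      have e4 : g₃⁻¹ * h₀⁻¹ * g₃ * (g₃⁻¹ * (h₀⁻¹ * y₀) * g₃) = g₃⁻¹ * (h₀⁻¹ * (h₀⁻¹ * y₀)) * g₃ := by group
      have e5 : g₃⁻¹ * (h₀⁻¹ * y₀) * g₃ * (g₃⁻¹ * h₀⁻¹ * g₃) = g₃⁻¹ * (h₀⁻¹ * y₀ * h₀⁻¹) * g₃ := by group
      rw [e4, e5] at h1
      exact mul_left_cancel (mul_right_cancel h1)
    calc y₀ * h₀ = h₀ * (h₀ * (h₀⁻¹ * (h₀⁻¹ * y₀))) * h₀ := by group
      _ = h₀ * (h₀ * (h₀⁻¹ * y₀ * h₀⁻¹)) * h₀ := by rw [h2]
      _ = h₀ * y₀ := by group
  · have oA := hodd A hA1 (hord K' hKo A hA)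
    have h1 : h₀ * A = A * h₀ := hcomm _ hh₀K _ hA
    have h2 : y₀ * A = A * y₀ := by
      have h3 := hcomm _ hh₀K _ hA2
      have e4 : y₀ * A = x * (h₀ * (x⁻¹ * A * x)) * x⁻¹ := by rw [hy₀]; group
      have e5 : A * y₀ = x * (x⁻¹ * A * x * h₀) * x⁻¹ := by rw [hy₀]; group
      rw [e4, e5, h3]
    exact oA.comm _ _ h2 h1

end SzG

end Cfsg.Agent.H896
end

-- part: S5737
section
set_option autoImplicit false
open Cfsg

namespace Cfsg.Agent.S5737

open Cfsg.Agent.H896 Cfsg.Agent.LieRecognition.SzMatrix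

/-- Let G = Sz(q) be a Suzuki group, q = 2^(2a+1) with a ≥ 1 (realised inside Sp₄ over the field with q elements), and let H be a proper subgroup of G. Then the action of G on the cosets of H is binary if and only if H is trivial or H is the centre of a Sylow 2-subgroup of G. Here an action is binary (relational complexity 2) when, for every n ≥ 2 and all n-tuples I, J of points, if for every pair of positions some group element carries the corresponding pair of entries of I to those of J, then a single group element carries I to J. -/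
theorem result {F : Type*} [Field F] [Fintype F] (a : ℕ) (ha : 1 ≤ a) (hF : Fintype.card F = 2 ^ (2 * a + 1))
    (H : Subgroup (Cfsg.Lie.Sz F (2 ^ (a + 1)))) (hH : H ≠ ⊤) :
    (∀ (n : ℕ) (I J : Fin n → (Cfsg.Lie.Sz F (2 ^ (a + 1))) ⧸ H), 2 ≤ n →
        (∀ i j : Fin n, i ≠ j → ∃ g : (Cfsg.Lie.Sz F (2 ^ (a + 1))), g • I i = J i ∧ g • I j = J j) → ∃ g : (Cfsg.Lie.Sz F (2 ^ (a + 1))), ∀ i, g • I i = J i) ↔
      (H = ⊥ ∨ ∃ P : Sylow 2 (Cfsg.Lie.Sz F (2 ^ (a + 1))), H = (Subgroup.center (P : Subgroup (Cfsg.Lie.Sz F (2 ^ (a + 1))))).map (P : Subgroup (Cfsg.Lie.Sz F (2 ^ (a + 1)))).subtype) := by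
  have hq : 8 ≤ Nat.card F := by
    rw [Nat.card_eq_fintype_card, hF]
    calc 8 = 2 ^ 3 := by norm_num
      _ ≤ 2 ^ (2 * a + 1) := Nat.pow_le_pow_right (by norm_num) (by omega)
  have hg := good hF
  show Binary H ↔ _
  constructor
  · intro hb
    by_cases heven : Even (Nat.card H)
    · right
      exact (SzG.binary_iff hg (by omega) hH heven).1 hb
    · left
      rw [Nat.not_even_iff_odd] at heven
      by_contra hne
      have hodd : ∀ h : ↥(Cfsg.Lie.Sz F (2 ^ (a + 1))), h ≠ 1 → Odd (orderOf h) → OddFact h :=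
        fun h h1 h2 => oddFact ha hF h1 h2
      refine SzG.odd_false hg (by omega) hodd ?_ heven hne hb
      intro K hK
      refine comm_of_oddFact hodd ?_ hK
      intro p hp hp2 P
      have : Fact p.Prime := ⟨hp⟩
      exact Cfsg.Agent.H67.SzOdd.sylow_cyclic ha hF hp2 P
  · rintro (rfl | ⟨P, rfl⟩)
    · exact binary_bot
    · have hf := SzG.frame hg
      have h1 := (hf.center_iff (SzG.Z_ne_bot hg) (SzG.mem_Z_iff hg (by omega)) _).1 ⟨P, rfl⟩
      obtain ⟨g, hg'⟩ := h1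
      rw [hg']
      exact hf.binary_cj_Z g

end Cfsg.Agent.S5737
end
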