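import Cfsg.Statements.S5747
set_option linter.all false

set_option autoImplicit false
open Cfsg

namespace Cfsg.Agent.S5747

/-- `f` is a base: only `1` fixes all its points. -/
def IsB {G Ω : Type*} [Group G] [MulAction G Ω] {t : ℕ} (f : Fin t → Ω) : Prop :=
  ∀ g : G, (∀ i : Fin t, g • f i = f i) → g = 1

/-- `f` is irredundant: each point is moved by something fixing the previous ones. -/
def IsI (G : Type*) {Ω : Type*} [Group G] [MulAction G Ω] {t : ℕ} (f : Fin t → Ω) : Prop :=
  ∀ i : Fin t, ∃ g : G, (∀ j : Fin t, j < i → g • f j = f j) ∧ g • f i ≠ f i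

/-- pointwise stabiliser of a set is trivial -/
def SB (G : Type*) {Ω : Type*} [Group G] [MulAction G Ω] (A : Finset Ω) : Prop :=
  ∀ g : G, (∀ a ∈ A, g • a = a) → g = 1

section
variable {G Ω : Type*} [Group G] [MulAction G Ω]

theorem exists_le_irred (n : ℕ) : ∀ h : Fin n → Ω, IsB (G := G) h →
    ∃ (m : ℕ) (k : Fin m → Ω), m ≤ n ∧ IsB (G := G) k ∧ IsI G k := by
  induction n with
  | zero =>
    intro h hb
    exact ⟨0, h, le_rfl, hb, fun i => i.elim0⟩
  | succ n ih =>
    intro h hb
    by_cases hi : IsI G h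
    · exact ⟨n + 1, h, le_rfl, hb, hi⟩
    · unfold IsI at hi
      push Not at hi
      obtain ⟨i, hi⟩ := hi
      have hb' : IsB (G := G) (fun j => h (i.succAbove j)) := by
        intro g hg
        refine hb g fun j => ?_
        by_cases hj : j = i
        · subst hj
          refine hi g fun k hk => ?_
          obtain ⟨l, rfl⟩ := Fin.exists_succAbove_eq (ne_of_lt hk)
          exact hg l
        · obtain ⟨l, rfl⟩ := Fin.exists_succAbove_eq hj
          exact hg l
      obtain ⟨m, k, hm, hk⟩ := ih _ hb'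
      exact ⟨m, k, hm.trans (Nat.le_succ n), hk⟩

theorem exists_lt_irred (n : ℕ) (h : Fin n → Ω) (hb : IsB (G := G) h) (hn : ¬ IsI G h) :
    ∃ (m : ℕ) (k : Fin m → Ω), m < n ∧ IsB (G := G) k ∧ IsI G k := by
  cases n with
  | zero => exact absurd (fun i : Fin 0 => i.elim0) hn
  | succ n =>
    unfold IsI at hn
    push Not at hn
    obtain ⟨i, hi⟩ := hn
    have hb' : IsB (G := G) (fun j => h (i.succAbove j)) := by
      intro g hg
      refine hb g fun j => ?_
      by_cases hj : j = i
      · subst hj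
        refine hi g fun k hk => ?_
        obtain ⟨l, rfl⟩ := Fin.exists_succAbove_eq (ne_of_lt hk)
        exact hg l
      · obtain ⟨l, rfl⟩ := Fin.exists_succAbove_eq hj
        exact hg l
    obtain ⟨m, k, hm, hk⟩ := exists_le_irred n _ hb'
    exact ⟨m, k, Nat.lt_succ_of_le hm, hk⟩

/-- an irredundant sequence is injective -/
theorem IsI.inj {t : ℕ} {f : Fin t → Ω} (h : IsI G f) : Function.Injective f := by
  intro i j hij
  by_contra hne
  rcases lt_or_gt_of_ne hne with hlt | hlt
  · obtain ⟨g, hg, hg'⟩ := h j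
    exact hg' (by rw [← hij]; exact hg i hlt)
  · obtain ⟨g, hg, hg'⟩ := h i
    exact hg' (by rw [hij]; exact hg j hlt)

/-- reorderability: every irredundant base has each of its points moved by the stabiliser of the
others. -/
theorem moved_of_reorder
    (H : ∀ (t : ℕ) (f : Fin t → Ω) (σ : Equiv.Perm (Fin t)), (IsB (G := G) f ∧ IsI G f) →
      (IsB (G := G) (f ∘ σ) ∧ IsI G (f ∘ σ)))
    {t : ℕ} (f : Fin t → Ω) (hf : IsB (G := G) f ∧ IsI G f) (i : Fin t) :
    ∃ g : G, (∀ j : Fin t, j ≠ i → g • f j = f j) ∧ g • f i ≠ f i := by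
  cases t with
  | zero => exact i.elim0
  | succ t =>
    obtain ⟨_, h2⟩ := H (t + 1) f (Equiv.swap i (Fin.last t)) hf
    obtain ⟨g, hg, hg'⟩ := h2 (Fin.last t)
    refine ⟨g, fun j hj => ?_, by simpa using hg'⟩
    have hne : Equiv.swap i (Fin.last t) j ≠ Fin.last t := by
      intro hh
      apply hj
      have := congrArg (Equiv.swap i (Fin.last t)) hh
      simpa using this
    have := hg (Equiv.swap i (Fin.last t) j) (lt_of_le_of_ne (Fin.le_last _) hne)
    simpa using this

/-- set version -/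
theorem not_SB_erase [DecidableEq Ω]
    (H : ∀ (t : ℕ) (f : Fin t → Ω) (σ : Equiv.Perm (Fin t)), (IsB (G := G) f ∧ IsI G f) →
      (IsB (G := G) (f ∘ σ) ∧ IsI G (f ∘ σ)))
    {t : ℕ} (f : Fin t → Ω) (hf : IsB (G := G) f ∧ IsI G f) (a : Ω)
    (ha : a ∈ Finset.univ.image f) : ¬ SB G ((Finset.univ.image f).erase a) := by
  simp only [Finset.mem_image, Finset.mem_univ, true_and] at ha
  obtain ⟨i, rfl⟩ := ha
  obtain ⟨g, hg, hg'⟩ := moved_of_reorder H f hf i
  intro hS
  apply hg'
  rw [hS g ?_, one_smul]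
  intro b hb
  simp only [Finset.mem_erase, Finset.mem_image, Finset.mem_univ, true_and] at hb
  obtain ⟨hb1, j, rfl⟩ := hb
  exact hg j (fun h => hb1 (h ▸ rfl))

/-- exchange -/
theorem exchange [DecidableEq Ω]
    (H : ∀ (t : ℕ) (f : Fin t → Ω) (σ : Equiv.Perm (Fin t)), (IsB (G := G) f ∧ IsI G f) →
      (IsB (G := G) (f ∘ σ) ∧ IsI G (f ∘ σ)))
    (A B : Finset Ω) (hA : SB G A) (hA' : ∀ a ∈ A, ¬ SB G (A.erase a)) (hB : SB G B)
    (a : Ω) (ha : a ∈ A) :
    ∃ c ∈ B, c ∉ A.erase a ∧ SB G (insert c (A.erase a)) ∧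
      ∀ x ∈ insert c (A.erase a), ¬ SB G ((insert c (A.erase a)).erase x) := by
  -- enumerate `A.erase a`
  obtain ⟨n, f, hfi, hfr⟩ : ∃ (n : ℕ) (f : Fin n → Ω), Function.Injective f ∧
      Finset.univ.image f = A.erase a := by
    refine ⟨(A.erase a).card, fun i => ((A.erase a).equivFin.symm i : Ω), ?_, ?_⟩
    · intro i j hij
      exact (A.erase a).equivFin.symm.injective (Subtype.ext hij)
    · ext x
      simp only [Finset.mem_image, Finset.mem_univ, true_and]
      constructor
      · rintro ⟨i, rfl⟩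
        exact ((A.erase a).equivFin.symm i).2
      · intro hx
        exact ⟨(A.erase a).equivFin ⟨x, hx⟩, by simp⟩
  have hmem : ∀ i, f i ∈ A.erase a := fun i => hfr ▸ Finset.mem_image_of_mem f (Finset.mem_univ i)
  have hex : ∀ x ∈ A.erase a, ∃ i, f i = x := by
    intro x hx
    rw [← hfr] at hx
    simpa using hx
  -- each `f i` is moved by something fixing the others and `a`
  have hmove : ∀ i : Fin n, ∃ g : G, (∀ j : Fin n, j ≠ i → g • f j = f j) ∧ g • f i ≠ f i := by
    intro i
    have h1 := hA' (f i) (Finset.mem_of_mem_erase (hmem i))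
    unfold SB at h1
    push Not at h1
    obtain ⟨g, hg, hg1⟩ := h1
    refine ⟨g, fun j hj => hg _ ?_, ?_⟩
    · exact Finset.mem_erase.2 ⟨fun h => hj (hfi h), Finset.mem_of_mem_erase (hmem j)⟩
    · intro hgi
      apply hg1
      apply hA
      intro b hb
      by_cases hbi : b = f i
      · rw [hbi]; exact hgi
      · exact hg b (Finset.mem_erase.2 ⟨hbi, hb⟩)
  -- a nontrivial element fixing `A.erase a`
  have h0 := hA' a ha
  unfold SB at h0
  push Not at h0
  obtain ⟨g0, hg0, hg01⟩ := h0
  -- a point of `B` moved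
  obtain ⟨c, hcB, hc⟩ : ∃ c ∈ B, g0 • c ≠ c := by
    by_contra hcon
    push Not at hcon
    exact hg01 (hB g0 hcon)
  have hcA : c ∉ A.erase a := fun h => hc (hg0 c h)
  -- the sequence `f, c` is irredundant
  have hI1 : IsI G (Fin.snoc (α := fun _ => Ω) f c) := by
    intro i
    refine Fin.lastCases ?_ (fun i => ?_) i
    · refine ⟨g0, fun j hj => ?_, by simpa using hc⟩
      obtain ⟨j', rfl⟩ := Fin.exists_castSucc_eq.2 (ne_of_lt hj)
      simpa using hg0 _ (hmem j')
    · obtain ⟨g, hg, hg'⟩ := hmove i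
      refine ⟨g, fun j hj => ?_, by simpa using hg'⟩
      obtain ⟨j', rfl⟩ := Fin.exists_castSucc_eq.2 (ne_of_lt (lt_of_lt_of_le hj (Fin.le_last _)))
      simpa using hg j' (fun h => by subst h; exact lt_irrefl _ hj)
  have hSB1 : SB G (insert c (A.erase a)) := by
    by_contra hcon
    unfold SB at hcon
    push Not at hcon
    obtain ⟨g1, hg1, hg11⟩ := hcon
    have hg1a : g1 • a ≠ a := by
      intro h
      apply hg11
      apply hA
      intro b hb
      by_cases hba : b = a
      · rw [hba]; exact h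
      · exact hg1 b (Finset.mem_insert_of_mem (Finset.mem_erase.2 ⟨hba, hb⟩))
    have hca : c ≠ a := by
      rintro rfl
      exact hg1a (hg1 c (Finset.mem_insert_self _ _))
    have hI2 : IsI G (Fin.snoc (α := fun _ => Ω) (Fin.snoc (α := fun _ => Ω) f c) a) := by
      intro i
      refine Fin.lastCases ?_ (fun i => ?_) i
      · refine ⟨g1, fun j hj => ?_, by simpa using hg1a⟩
        obtain ⟨j', rfl⟩ := Fin.exists_castSucc_eq.2 (ne_of_lt hj)
        simp only [Fin.snoc_castSucc]
        refine Fin.lastCases ?_ (fun j'' => ?_) j'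
        · simpa using hg1 c (Finset.mem_insert_self _ _)
        · simpa using hg1 _ (Finset.mem_insert_of_mem (hmem j''))
      · obtain ⟨g, hg, hg'⟩ := hI1 i
        refine ⟨g, fun j hj => ?_, by simpa using hg'⟩
        obtain ⟨j', rfl⟩ := Fin.exists_castSucc_eq.2
          (ne_of_lt (lt_of_lt_of_le hj (Fin.le_last _)))
        simpa using hg j' (by simpa using hj)
    have hB2 : IsB (G := G) (Fin.snoc (α := fun _ => Ω) (Fin.snoc (α := fun _ => Ω) f c) a) := by
      intro g hg
      apply hA
      intro b hb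
      by_cases hba : b = a
      · rw [hba]; simpa using hg (Fin.last _)
      · obtain ⟨i, rfl⟩ := hex b (Finset.mem_erase.2 ⟨hba, hb⟩)
        simpa using hg i.castSucc.castSucc
    obtain ⟨g, hg, hg'⟩ := moved_of_reorder H _ ⟨hB2, hI2⟩ (Fin.last n).castSucc
    apply hg'
    have : g = 1 := by
      apply hA
      intro b hb
      by_cases hba : b = a
      · rw [hba]
        have := hg (Fin.last _) (ne_of_gt (Fin.castSucc_lt_last _))
        simpa using this
      · obtain ⟨i, rfl⟩ := hex b (Finset.mem_erase.2 ⟨hba, hb⟩)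
        have := hg i.castSucc.castSucc
          (by
            intro h
            have h' := Fin.castSucc_injective _ h
            exact absurd h' (ne_of_lt (Fin.castSucc_lt_last i)))
        simpa using this
    rw [this, one_smul]
  refine ⟨c, hcB, hcA, hSB1, ?_⟩
  have hB1 : IsB (G := G) (Fin.snoc (α := fun _ => Ω) f c) := by
    intro g hg
    apply hSB1
    intro b hb
    rcases Finset.mem_insert.1 hb with rfl | hb
    · simpa using hg (Fin.last _)
    · obtain ⟨i, rfl⟩ := hex b hb
      simpa using hg i.castSucc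
  have himg : Finset.univ.image (Fin.snoc (α := fun _ => Ω) f c) = insert c (A.erase a) := by
    ext x
    simp only [Finset.mem_image, Finset.mem_univ, true_and, Finset.mem_insert]
    constructor
    · rintro ⟨i, rfl⟩
      refine Fin.lastCases ?_ (fun i => ?_) i
      · left; simp
      · right
        have := hmem i
        simpa using this
    · rintro (rfl | hx)
      · exact ⟨Fin.last _, by simp⟩
      · obtain ⟨i, rfl⟩ := hex x hx
        exact ⟨i.castSucc, by simp⟩
  intro x hx
  rw [← himg] at hx ⊢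
  exact not_SB_erase H _ ⟨hB1, hI1⟩ x hx

/-- two minimal bases have equal size -/
theorem card_le [DecidableEq Ω]
    (H : ∀ (t : ℕ) (f : Fin t → Ω) (σ : Equiv.Perm (Fin t)), (IsB (G := G) f ∧ IsI G f) →
      (IsB (G := G) (f ∘ σ) ∧ IsI G (f ∘ σ)))
    (B : Finset Ω) (hB : SB G B) (n : ℕ) :
    ∀ A : Finset Ω, (A \ B).card = n → SB G A → (∀ a ∈ A, ¬ SB G (A.erase a)) →
      A.card ≤ B.card := by
  induction n with
  | zero =>
    intro A h0 _ _
    rw [Finset.card_eq_zero, Finset.sdiff_eq_empty_iff_subset] at h0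
    exact Finset.card_le_card h0
  | succ n ih =>
    intro A h0 hA hA'
    obtain ⟨a, haAB⟩ : (A \ B).Nonempty := by
      rw [← Finset.card_pos, h0]; exact Nat.succ_pos n
    obtain ⟨haA, haB⟩ := Finset.mem_sdiff.1 haAB
    obtain ⟨c, hcB, hcA, hS, hS'⟩ := exchange H A B hA hA' hB a haA
    have hcard : (insert c (A.erase a)).card = A.card := by
      rw [Finset.card_insert_of_notMem hcA, Finset.card_erase_of_mem haA]
      have : 0 < A.card := Finset.card_pos.2 ⟨a, haA⟩
      omega
    rw [← hcard]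
    refine ih _ ?_ hS hS'
    have : insert c (A.erase a) \ B = (A \ B).erase a := by
      ext x
      simp only [Finset.mem_sdiff, Finset.mem_insert, Finset.mem_erase]
      constructor
      · rintro ⟨rfl | ⟨h1, h2⟩, h3⟩
        · exact absurd hcB h3
        · exact ⟨h1, h2, h3⟩
      · rintro ⟨h1, h2, h3⟩
        exact ⟨Or.inr ⟨h1, h2⟩, h3⟩
    rw [this, Finset.card_erase_of_mem haAB, h0]
    rfl

theorem len_le
    (H : ∀ (t : ℕ) (f : Fin t → Ω) (σ : Equiv.Perm (Fin t)), (IsB (G := G) f ∧ IsI G f) →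
      (IsB (G := G) (f ∘ σ) ∧ IsI G (f ∘ σ)))
    {t t' : ℕ} (f : Fin t → Ω) (f' : Fin t' → Ω) (hf : IsB (G := G) f ∧ IsI G f)
    (hf' : IsB (G := G) f' ∧ IsI G f') : t ≤ t' := by
  classical
  have h1 : (Finset.univ.image f).card = t := by
    rw [Finset.card_image_of_injective _ hf.2.inj, Finset.card_univ, Fintype.card_fin]
  have h2 : (Finset.univ.image f').card = t' := by
    rw [Finset.card_image_of_injective _ hf'.2.inj, Finset.card_univ, Fintype.card_fin]
  have sb : ∀ {s : ℕ} (k : Fin s → Ω), IsB (G := G) k → SB G (Finset.univ.image k) := by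
    intro s k hk g hg
    exact hk g fun i => hg _ (Finset.mem_image_of_mem k (Finset.mem_univ i))
  have := card_le H (Finset.univ.image f') (sb f' hf'.1) _ (Finset.univ.image f) rfl
    (sb f hf.1) (fun a ha => not_SB_erase H f hf a ha)
  omega

end

/-- Let a finite group G act on a finite set Ω. An irredundant base is a sequence of points ω₁, …, ω_t whose pointwise stabiliser is trivial and in which each ω_i is moved by some element fixing ω₁, …, ω_{i−1}. Then all irredundant bases have the same length if and only if every reordering of an irredundant base is again an irredundant base. -/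
theorem result {G Ω : Type*} [Group G] [Finite G] [MulAction G Ω] [Fintype Ω] :
    (∀ (t t' : ℕ) (f : Fin t → Ω) (f' : Fin t' → Ω), ((∀ g : G, (∀ i : Fin t, g • f i = f i) → g = 1) ∧ ∀ i : Fin t, ∃ g : G, (∀ j : Fin t, j < i → g • f j = f j) ∧ g • f i ≠ f i) → ((∀ g : G, (∀ i : Fin t', g • f' i = f' i) → g = 1) ∧ ∀ i : Fin t', ∃ g : G, (∀ j : Fin t', j < i → g • f' j = f' j) ∧ g • f' i ≠ f' i) → t = t') ↔
    (∀ (t : ℕ) (f : Fin t → Ω) (σ : Equiv.Perm (Fin t)), ((∀ g : G, (∀ i : Fin t, g • f i = f i) → g = 1) ∧ ∀ i : Fin t, ∃ g : G, (∀ j : Fin t, j < i → g • f j = f j) ∧ g • f i ≠ f i) → ((∀ g : G, (∀ i : Fin t, g • (f ∘ σ) i = (f ∘ σ) i) → g = 1) ∧ ∀ i : Fin t, ∃ g : G, (∀ j : Fin t, j < i → g • (f ∘ σ) j = (f ∘ σ) j) ∧ g • (f ∘ σ) i ≠ (f ∘ σ) i)) := by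
  constructor
  · intro H t f σ hf
    have hB : IsB (G := G) (f ∘ σ) := by
      intro g hg
      refine hf.1 g fun i => ?_
      have := hg (σ.symm i)
      simpa using this
    refine ⟨hB, ?_⟩
    by_contra hn
    obtain ⟨m, k, hm, hk⟩ := exists_lt_irred t (f ∘ σ) hB hn
    exact absurd (H m t k f hk hf) (ne_of_lt hm)
  · intro H t t' f f' hf hf'
    exact le_antisymm (len_le H f f' hf hf') (len_le H f' f hf' hf)

end Cfsg.Agent.S5747
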