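import Mathlib
import Cfsg.Agent.H900.BinLin.Cover
import Cfsg.Statements.S5753
set_option linter.all false

-- part: H900/BinLin/Odd
section
/-!
# The case `p` odd: a noncommuting pair is good
-/

set_option autoImplicit false
set_option linter.unusedSectionVars false
set_option linter.unusedVariables false

namespace Cfsg.Agent.H900.BinLin

namespace BinN

variable {p : ℕ} {H V : Type*} [Group H] [AddCommGroup V] [DistribMulAction H V]
  [Finite V] [Finite H]

theorem perp_of_fix_Im (hB : BinN p H V) (hp : p ≠ 2) {g : H} {c w : V} (hc : g • c = c)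
    (hw : w ∈ Im V g) : Perp H c w := by
  obtain ⟨t, _, h1, h2, _⟩ := hB.exists_perp_inv hp w
  rw [h2]
  exact mem_U.mp (U_le_of_trans hw (fun v hv => (h1 v).mp hv) (mem_U.mpr hc))

theorem neg_hf_add (hB : BinN p H V) (hp : p ≠ 2) (y : V) : -hf p y + y = hf p y := by
  nth_rewrite 2 [← hB.hf_add hp y]
  abel

theorem mem_Im_of_neg (hB : BinN p H V) (hp : p ≠ 2) {g : H} {y : V} (h : g • y = -y) :
    y ∈ Im V g := by
  refine mem_Im.mpr ⟨-hf p y, ?_⟩
  rw [hB.neg_hf_add hp, smul_neg, hf, smul_comm, h, smul_neg, neg_neg]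

theorem perp_YZ (hB : BinN p H V) (hp : p ≠ 2) {s t : H} (hs : s ∈ TT H V) (ht : t ∈ TT H V)
    {y z : V} (hy : y ∈ YY V s t) (hz : z ∈ ZZ V s t) : Perp H y z := by
  obtain ⟨a, ha, b, hb, rfl⟩ := mem_YY.mp hy
  exact hB.perp_add hp (perp_of_fix_neg hB (hB.TT_smul_Im hs ha) (mem_U.mp hz.1))
    (perp_of_fix_neg hB (hB.TT_smul_Im ht hb) (mem_U.mp hz.2))

theorem sub_mem_YY_odd (hB : BinN p H V) (hp : p ≠ 2) {s t : H} (hs : s ∈ TT H V)
    (ht : t ∈ TT H V) (hst : s * t ≠ t * s) {g : H} (hg : g ∈ KK V s t) {w : V}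
    (hw : w ∈ Im V g) : w ∈ YY V s t := by
  obtain ⟨y, hy, z, hz, rfl⟩ := hB.exists_decomp hs ht hst w
  have h1 : Perp H z (y + z) := hB.perp_of_fix_Im hp (hg z hz) hw
  have h2 := hB.perp_symm h1
  have h3 : Perp H z z := by
    have h4 := hB.perp_add hp h2 (hB.perp_neg hp (hB.perp_YZ hp hs ht hy hz))
    have : y + z + -y = z := by abel
    rwa [this] at h4
  rw [hB.perp_self hp h3, add_zero]
  exact hy

theorem smul_mem_YY_odd (hB : BinN p H V) (hp : p ≠ 2) {s t : H} (hs : s ∈ TT H V)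
    (ht : t ∈ TT H V) (hst : s * t ≠ t * s) {g : H} (hg : g ∈ KK V s t) {y : V}
    (hy : y ∈ YY V s t) : g • y ∈ YY V s t := by
  have h1 := hB.sub_mem_YY_odd hp hs ht hst hg (sub_mem_Im g y)
  have : g • y = (g • y - y) + y := by abel
  rw [this]
  exact (YY V s t).add_mem h1 hy

theorem exists_e (hB : BinN p H V) (hp : p ≠ 2) {s t : H} (hs : s ∈ TT H V) (ht : t ∈ TT H V)
    (hst : s * t ≠ t * s) : ∃ e ∈ KK V s t, (∀ y ∈ YY V s t, e • y = -y) := by
  have h0 : ∀ y ∈ YY V s t, ∀ z ∈ ZZ V s t, Cj H (y + z) (-y + z) := by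
    intro y hy z hz
    have h1 := (hB.perp_YZ hp hs ht hy hz).trans (hB.cj_neg _)
    convert h1 using 1
    abel
  obtain ⟨e, he⟩ := hB.bin' (ι := YY V s t × ZZ V s t) (fun x => (x.1 : V) + (x.2 : V))
    (fun x => -(x.1 : V) + (x.2 : V)) (fun x => h0 _ x.1.2 _ x.2.2) (by
      intro x x'
      have h1 := h0 _ ((YY V s t).sub_mem x.1.2 x'.1.2) _ ((ZZ V s t).sub_mem x.2.2 x'.2.2)
      convert h1 using 1 <;> abel)
  refine ⟨e, ?_, ?_⟩
  · intro z hz
    have := he (0, ⟨z, hz⟩)
    simpa using this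
  · intro y hy
    have := he (⟨y, hy⟩, 0)
    simpa using this

section withE

variable {s t e : H}

theorem e_sq (hB : BinN p H V) (hs : s ∈ TT H V) (ht : t ∈ TT H V)
    (hst : s * t ≠ t * s) (he : e ∈ KK V s t) (heY : ∀ y ∈ YY V s t, e • y = -y) : e * e = 1 := by
  apply hB.faith
  intro v
  obtain ⟨y, hy, z, hz, rfl⟩ := hB.exists_decomp hs ht hst v
  rw [mul_smul, smul_add, smul_add, he z hz, he z hz, heY y hy, smul_neg, heY y hy, neg_neg]

theorem e_comm (hB : BinN p H V) (hp : p ≠ 2) (hs : s ∈ TT H V) (ht : t ∈ TT H V)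
    (hst : s * t ≠ t * s) (he : e ∈ KK V s t) (heY : ∀ y ∈ YY V s t, e • y = -y) {k : H}
    (hk : k ∈ KK V s t) : e * k = k * e := by
  have : (e * k)⁻¹ * (k * e) = 1 := by
    apply hB.faith
    intro v
    rw [mul_smul, inv_smul_eq_iff]
    obtain ⟨y, hy, z, hz, rfl⟩ := hB.exists_decomp hs ht hst v
    rw [mul_smul, mul_smul, smul_add, smul_add, smul_add, smul_add, he z hz, hk z hz, he z hz,
      heY y hy, heY _ (hB.smul_mem_YY_odd hp hs ht hst hk hy), smul_neg]
  have h2 := eq_of_inv_mul_eq_one this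
  exact h2

theorem er_mem (hB : BinN p H V) (hp : p ≠ 2) (hs : s ∈ TT H V) (ht : t ∈ TT H V)
    (hst : s * t ≠ t * s) (he : e ∈ KK V s t) (heY : ∀ y ∈ YY V s t, e • y = -y) {r : H}
    (hr : r ∈ TT H V) (hrK : r ∈ KK V s t) : e * r ∈ TT H V ∧ e * r ∈ KK V s t := by
  have herK : e * r ∈ KK V s t := (KK V s t).mul_mem he hrK
  refine ⟨?_, herK⟩
  have hrY : Im V r ≤ YY V s t := fun w hw => hB.sub_mem_YY_odd hp hs ht hst hrK hw
  have hne : e * r ≠ 1 := by
    intro h
    have h1 : e = r := by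
      have := eq_inv_of_mul_eq_one_left h
      rwa [hB.TT_inv hr] at this
    subst h1
    exact hB.not_comm_both hs ht hst hr hrK
      (hB.e_comm hp hs ht hst he heY (left_mem_KK s t))
      (hB.e_comm hp hs ht hst he heY (right_mem_KK s t))
  obtain ⟨r'', hr'', hle⟩ := exists_TT_ge (V := V) (e * r) hne
  have hr''K : r'' ∈ KK V s t := mem_KK_iff_le.mpr ((mem_KK_iff_le.mp herK).trans hle)
  have h1 : Im V r ⊔ ZZ V s t ≤ U V (e * r) := by
    refine sup_le ?_ (mem_KK_iff_le.mp herK)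
    intro w hw
    rw [mem_U, mul_smul, hB.TT_smul_Im hr hw, smul_neg, heY w (hrY hw), neg_neg]
  have h2 : Nat.card (U V r'') ≤ Nat.card (Im V r ⊔ ZZ V s t : AddSubgroup V) := by
    rw [hB.card_U_K hs ht hst hr'' hr''K, ← hB.card_Im_K hs ht hst hr hrK, ← Nat.card_prod]
    refine Nat.card_le_card_of_injective (fun x : Im V r × ZZ V s t =>
      (⟨(x.1 : V) + (x.2 : V), AddSubgroup.mem_sup.mpr ⟨_, x.1.2, _, x.2.2, rfl⟩⟩ :
        (Im V r ⊔ ZZ V s t : AddSubgroup V))) ?_
    rintro ⟨a, z⟩ ⟨a', z'⟩ h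
    have h' : (a : V) + (z : V) = (a' : V) + (z' : V) := congrArg Subtype.val h
    have h1 : (a : V) - (a' : V) = (z' : V) - (z : V) := by
      have : (a : V) - (a' : V) = ((a : V) + (z : V)) - (a' : V) - (z : V) := by abel
      rw [this, h']; abel
    have h2 : (a : V) - (a' : V) = 0 := by
      refine hB.Im_inf_ZZ hs ht hst hr hrK ((Im V r).sub_mem a.2 a'.2) ?_
      rw [h1]; exact (ZZ V s t).sub_mem z'.2 z.2
    have e1 : a = a' := Subtype.ext (sub_eq_zero.mp h2)
    rw [h2] at h1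
    have e3 : z = z' := (Subtype.ext (sub_eq_zero.mp h1.symm)).symm
    rw [e1, e3]
  have h3 : U V r'' ≤ U V (e * r) := by
    have h4 : (Im V r ⊔ ZZ V s t : AddSubgroup V) = U V r'' := by
      apply SetLike.coe_injective
      apply Set.eq_of_subset_of_ncard_le (h1.trans hle) _ (Set.toFinite _)
      rw [← Nat.card_coe_set_eq, ← Nat.card_coe_set_eq]
      exact h2
    rw [← h4]; exact h1
  exact (TT_of_U_le hr'' hne h3).1

theorem mem_Im_er (hB : BinN p H V) (hp : p ≠ 2) (heY : ∀ y ∈ YY V s t, e • y = -y) {r : H}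
    {y : V} (hy : y ∈ YY V s t) (h : r • y = y) : y ∈ Im V (e * r) := by
  apply hB.mem_Im_of_neg hp
  rw [mul_smul, h, heY y hy]

/-- the trichotomy for `w ∈ Y`. -/
theorem B_odd (hB : BinN p H V) (hp : p ≠ 2) (hs : s ∈ TT H V) (ht : t ∈ TT H V)
    (hst : s * t ≠ t * s) (he : e ∈ KK V s t) (heY : ∀ y ∈ YY V s t, e • y = -y) {w : V}
    (hw : w ∈ YY V s t) (hw0 : w ≠ 0) :
    (∃ r ∈ TT H V, r ∈ KK V s t ∧ w ∈ Im V r) ∨ (∀ v : V, Cj H v (v + w) → e • v = v + w) := by
  obtain ⟨τ, hτ, hτv, hτp, hτw⟩ := hB.exists_perp_inv hp w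
  have hτK : τ ∈ KK V s t := by
    intro z hz
    rw [← hτp]
    exact hB.perp_symm (hB.perp_YZ hp hs ht hw hz)
  have hτ1 : τ ≠ 1 := by
    rintro rfl
    rw [one_smul] at hτw
    apply hw0
    apply hB.two_nsmul_eq_zero hp
    nth_rewrite 1 [hτw]
    abel
  obtain ⟨r, hr, hle⟩ := exists_TT_ge (V := V) τ hτ1
  have hrK : r ∈ KK V s t := mem_KK_iff_le.mpr ((mem_KK_iff_le.mp hτK).trans hle)
  obtain ⟨her, herK⟩ := hB.er_mem hp hs ht hst he heY hr hrK
  by_cases hex : ∃ w' ∈ YY V s t, τ • w' = w' ∧ w' ≠ 0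
  · left
    obtain ⟨w', hw'Y, hw'τ, hw'0⟩ := hex
    have hrw' : r • w' = w' := mem_U.mp (hle (mem_U.mpr hw'τ))
    have hw'I : w' ∈ Im V (e * r) := hB.mem_Im_er hp heY hw'Y hrw'
    have h1 : Perp H w w' := hB.perp_symm ((hτp w').mpr hw'τ)
    obtain ⟨τ', _, hτ'v, hτ'p, _⟩ := hB.exists_perp_inv hp w'
    have h2 := hB.TT_eq her hw'0 hw'I hτ'v
    have h3 : (e * r) • w = w := by
      rw [h2]; exact (hτ'p w).mp h1
    refine ⟨r, hr, hrK, hB.mem_Im_of_neg hp ?_⟩
    rw [mul_smul, heY _ (hB.smul_mem_YY_odd hp hs ht hst hrK hw)] at h3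
    exact neg_eq_iff_eq_neg.mp h3
  · right
    push Not at hex
    have h1 : ∀ y ∈ YY V s t, τ • y = -y := by
      intro y hy
      have h2 : τ • (y + τ • y) = y + τ • y := by
        rw [smul_add, ← mul_smul, hτ, one_smul]; abel
      have h3 := hex (y + τ • y)
        ((YY V s t).add_mem hy (hB.smul_mem_YY_odd hp hs ht hst hτK hy)) h2
      exact (neg_eq_of_add_eq_zero_right h3).symm
    have h2 : ∀ v : V, e • v = τ • v := by
      intro v
      obtain ⟨y, hy, z, hz, rfl⟩ := hB.exists_decomp hs ht hst v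
      rw [smul_add, smul_add, he z hz, hτK z hz, heY y hy, h1 y hy]
    intro v hv
    rw [h2]
    exact (hτv v).mp hv

end withE

theorem good_odd (hB : BinN p H V) (hp : p ≠ 2) {s t : H} (hs : s ∈ TT H V) (ht : t ∈ TT H V)
    (hst : s * t ≠ t * s) : Good V s t := by
  obtain ⟨e, he, heY⟩ := hB.exists_e hp hs ht hst
  have hUe : U V e ≤ ZZ V s t := by
    intro v hv
    rw [mem_U] at hv
    obtain ⟨y, hy, z, hz, rfl⟩ := hB.exists_decomp hs ht hst v
    rw [smul_add, he z hz, heY y hy] at hv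
    have h1 : -y = y := add_right_cancel hv
    have h2 : y = 0 := by
      apply hB.two_nsmul_eq_zero hp
      nth_rewrite 1 [← h1]
      abel
    rw [h2, zero_add]
    exact hz
  have hPB : PropB V s t := by
    intro g hg w hw hw0
    have hwY := hB.sub_mem_YY_odd hp hs ht hst hg hw
    rcases hB.B_odd hp hs ht hst he heY hwY hw0 with ⟨r, hr, hrK, hwr⟩ | h
    · exact ⟨r, hrK, hB.TT_sq hr, Or.inl hr, fun v hv => (hB.TT_iff hr hw0 hwr v).mp hv⟩
    · exact ⟨e, he, hB.e_sq hs ht hst he heY, Or.inr hUe, h⟩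
  have hPU : PropU V s t := by
    intro r hr hrK r' hr' hrK' x hx hrx hrx'
    obtain ⟨y, hy, z, hz, rfl⟩ := hB.exists_decomp hs ht hst x
    have hy0 : y ≠ 0 := by
      rintro rfl
      rw [zero_add] at hx
      exact hx hz
    rw [smul_add, hrK z hz] at hrx
    rw [smul_add, hrK' z hz] at hrx'
    have h1 := hB.mem_Im_er hp heY hy (add_right_cancel hrx)
    have h2 := hB.mem_Im_er hp heY hy (add_right_cancel hrx')
    have h3 := hB.TT_unique (hB.er_mem hp hs ht hst he heY hr hrK).1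
      (hB.er_mem hp hs ht hst he heY hr' hrK').1 hy0 h1 h2
    exact mul_left_cancel h3
  refine ⟨hPU, ?_, fun r hr hrK x hx hrx k hk hkx =>
    hB.stab_of_B hs ht hst hPB hPU hr hrK hx hrx hk hkx⟩
  intro k hk x hx
  by_cases hkx : k • x = x
  · rw [hkx]
    exact hB.exists_fix_of_B hs ht hst hPB hx
  · have hw0 : k • x - x ≠ 0 := fun h => hkx (sub_eq_zero.mp h)
    have hwY := hB.sub_mem_YY_odd hp hs ht hst hk (sub_mem_Im k x)
    have hCj : Cj H x (x + (k • x - x)) := ⟨k, by abel⟩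
    rcases hB.B_odd hp hs ht hst he heY hwY hw0 with ⟨r, hr, hrK, hwr⟩ | h
    · refine ⟨r, hr, hrK, ?_⟩
      have := (hB.TT_iff hr hw0 hwr x).mp hCj
      rw [this]; abel
    · -- `k x = e x`; take `r` fixing `x`
      obtain ⟨r, hr, hrK, hrx⟩ := hB.exists_fix_of_B hs ht hst hPB hx
      obtain ⟨h1, h2⟩ := hB.er_mem hp hs ht hst he heY hr hrK
      refine ⟨e * r, h1, h2, ?_⟩
      rw [mul_smul, hrx, h x hCj]
      abel

end BinN

end Cfsg.Agent.H900.BinLin
end

-- part: H900/BinLin/Two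
section
/-!
# The case `p = 2`: a noncommuting pair is good
-/

set_option autoImplicit false
set_option linter.unusedSectionVars false
set_option linter.unusedVariables false

namespace Cfsg.Agent.H900.BinLin

namespace BinN

variable {H V : Type*} [Group H] [AddCommGroup V] [DistribMulAction H V]
  [Finite V] [Finite H]

theorem Im_le_U_two (hB : BinN 2 H V) {g : H} (hg : g ∈ TT H V) : Im V g ≤ U V g := by
  intro w hw
  rw [mem_U, hB.TT_smul_Im hg hw, hB.neg_two]

/-- an element of `K` acting trivially on `V/Z` acts trivially on `Im s`. -/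
theorem fix_Im_two (hB : BinN 2 H V) {s : H} (hs : s ∈ TT H V) {Z : AddSubgroup V}
    (hZs : Z ≤ U V s) {g : H} (hgZ : ∀ z ∈ Z, g • z = z) (hg : ∀ v : V, g • v - v ∈ Z) {u : V}
    (hu : u ∈ Im V s) : g • u = u := by
  by_contra hne
  set w := g • u - u with hw
  have hw0 : w ≠ 0 := fun h => hne (sub_eq_zero.mp h)
  have hwZ : w ∈ Z := hg u
  have hgu : g • u = u + w := by rw [hw]; abel
  obtain ⟨τ, hτ, hτv⟩ := hB.exists_inv w
  have hsw : s • w = w := mem_U.mp (hZs hwZ)
  have hsu : s • u = u := mem_U.mp (hB.Im_le_U_two hs hu)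
  -- for every `x` with `s x = x + u`, `τ x = x + w`
  have key : ∀ x : V, s • x = x + u → τ • x = x + w := by
    intro x hx
    rw [← hτv]
    set z0 := g⁻¹ • x - x with hz0
    have hz0Z : z0 ∈ Z := by
      have h1 := hg (g⁻¹ • x)
      rw [smul_inv_smul] at h1
      have : z0 = -(x - g⁻¹ • x) := by rw [hz0]; abel
      rw [this]; exact Z.neg_mem h1
    have e1 : g⁻¹ • x = x + z0 := by rw [hz0]; abel
    have e2 : s • (x + z0) = x + z0 + u := by
      rw [smul_add, hx, mem_U.mp (hZs hz0Z)]; abel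
    have e3 : g • (x + z0) = x := by rw [← e1, smul_inv_smul]
    have e4 : g • (x + z0 + u) = x + u + w := by rw [smul_add, e3, hgu]; abel
    have e5 : s • (x + u + w) = x + w := by
      rw [smul_add, smul_add, hx, hsu, hsw, add_assoc x u u, hB.add_self_two, add_zero]
    refine ⟨s * (g * s * g⁻¹), ?_⟩
    rw [mul_smul, mul_smul, mul_smul, e1, e2, e4, e5]
  obtain ⟨x, hx⟩ := mem_Im.mp hu
  have h1 : ∀ u' ∈ U V s, τ • u' = u' := by
    intro u' hu'
    have e1 : s • (x + u') = x + u' + u := by rw [smul_add, hx, mem_U.mp hu']; abel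
    have e2 := key _ e1
    rw [smul_add, key x hx] at e2
    have e3 : x + w + τ • u' = x + w + u' := by rw [e2]; abel
    exact add_left_cancel e3
  have h2 : τ • u = u := h1 u (mem_U.mpr hsu)
  have h3 : τ • u = u + w := (hτv u).mp ⟨g, hgu⟩
  rw [h2] at h3
  exact hw0 (by simpa using h3)

/-- `K` is faithful on `V/Z`. -/
theorem faithful_two (hB : BinN 2 H V) {s t : H} (hs : s ∈ TT H V) (ht : t ∈ TT H V)
    (hst : s * t ≠ t * s) {g : H} (hgK : g ∈ KK V s t) (hg : ∀ v : V, g • v - v ∈ ZZ V s t) :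
    g = 1 := by
  apply hB.faith
  intro v
  obtain ⟨y, hy, z, hz, rfl⟩ := hB.exists_decomp hs ht hst v
  obtain ⟨a, ha, b, hb, rfl⟩ := mem_YY.mp hy
  rw [smul_add, smul_add, hgK z hz, hB.fix_Im_two hs inf_le_left hgK hg ha,
    hB.fix_Im_two ht inf_le_right hgK hg hb]

/-- `U r = Im r + Z`. -/
theorem U_eq_two (hB : BinN 2 H V) {s t : H} (hs : s ∈ TT H V) (ht : t ∈ TT H V)
    (hst : s * t ≠ t * s) {r : H} (hr : r ∈ TT H V) (hrK : r ∈ KK V s t) :
    Im V r ⊔ ZZ V s t = U V r := by
  apply SetLike.coe_injective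
  apply Set.eq_of_subset_of_ncard_le _ _ (Set.toFinite _)
  · exact sup_le (hB.Im_le_U_two hr) (mem_KK_iff_le.mp hrK)
  · rw [← Nat.card_coe_set_eq, ← Nat.card_coe_set_eq]
    change Nat.card (U V r) ≤ Nat.card (Im V r ⊔ ZZ V s t : AddSubgroup V)
    rw [hB.card_U_K hs ht hst hr hrK, ← hB.card_Im_K hs ht hst hr hrK, ← Nat.card_prod]
    refine Nat.card_le_card_of_injective (fun x : Im V r × ZZ V s t =>
      (⟨(x.1 : V) + (x.2 : V), AddSubgroup.mem_sup.mpr ⟨_, x.1.2, _, x.2.2, rfl⟩⟩ :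
        (Im V r ⊔ ZZ V s t : AddSubgroup V))) ?_
    rintro ⟨a, z⟩ ⟨a', z'⟩ h
    have h' : (a : V) + (z : V) = (a' : V) + (z' : V) := congrArg Subtype.val h
    have h1 : (a : V) - (a' : V) = (z' : V) - (z : V) := by
      have : (a : V) - (a' : V) = ((a : V) + (z : V)) - (a' : V) - (z : V) := by abel
      rw [this, h']; abel
    have h2 : (a : V) - (a' : V) = 0 := by
      refine hB.Im_inf_ZZ hs ht hst hr hrK ((Im V r).sub_mem a.2 a'.2) ?_
      rw [h1]; exact (ZZ V s t).sub_mem z'.2 z.2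
    have e1 : a = a' := Subtype.ext (sub_eq_zero.mp h2)
    rw [h2] at h1
    have e3 : z = z' := (Subtype.ext (sub_eq_zero.mp h1.symm)).symm
    rw [e1, e3]

theorem U_eq_of_comm_two (hB : BinN 2 H V) {s t : H} (hs : s ∈ TT H V) (ht : t ∈ TT H V)
    (hst : s * t ≠ t * s) {r r' : H} (hr : r ∈ TT H V) (hrK : r ∈ KK V s t)
    (hr' : r' ∈ TT H V) (hrK' : r' ∈ KK V s t) (h : r * r' = r' * r) : U V r = U V r' := by
  by_cases hne : r = r'
  · rw [hne]
  have h1 : ∀ {a b : H}, a ∈ TT H V → a ∈ KK V s t → b ∈ TT H V → b ∈ KK V s t → a ≠ b →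
      a * b = b * a → U V b ≤ U V a := by
    intro a b ha haK hb hbK hne h
    rw [← hB.U_eq_two hs ht hst hb hbK]
    refine sup_le ?_ (mem_KK_iff_le.mp haK)
    intro w hw
    exact mem_U.mpr (hB.TT_fix_of_comm ha hb hne h hw)
  exact le_antisymm (h1 hr' hrK' hr hrK (Ne.symm hne) h.symm) (h1 hr hrK hr' hrK' hne h)

/-- every `w ≠ 0` in `Im g`, `g ∈ K`, is attached to an element of `TT`. -/
theorem B_two (hB : BinN 2 H V) {s t : H} (hs : s ∈ TT H V) (ht : t ∈ TT H V)
    (hst : s * t ≠ t * s) {g : H} (hg : g ∈ KK V s t) {w : V} (hw : w ∈ Im V g) (hw0 : w ≠ 0) :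
    ∃ τ ∈ TT H V, τ ∈ KK V s t ∧ w ∈ Im V τ := by
  obtain ⟨τ, hτ, hτv⟩ := hB.exists_inv w
  have hUg : U V g ≤ U V τ := U_le_of_trans hw fun v hv => (hτv v).mp hv
  have hτK : τ ∈ KK V s t := mem_KK_iff_le.mpr ((mem_KK_iff_le.mp hg).trans hUg)
  obtain ⟨x, hx⟩ := mem_Im.mp hw
  have hτx : τ • x = x + w := (hτv x).mp ⟨g, hx⟩
  have hτ1 : τ ≠ 1 := by
    rintro rfl
    rw [one_smul] at hτx
    exact hw0 (by simpa using hτx)
  suffices h : τ ∈ TT H V from ⟨τ, h, hτK, mem_Im.mpr ⟨x, hτx⟩⟩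
  obtain ⟨r, hr, hle⟩ := exists_TT_ge (V := V) τ hτ1
  have hrK : r ∈ KK V s t := mem_KK_iff_le.mpr ((mem_KK_iff_le.mp hτK).trans hle)
  have hτi : τ⁻¹ = τ := inv_eq_of_mul_eq_one_left hτ
  set r' := τ * r * τ⁻¹ with hr'
  have hr'T : r' ∈ TT H V := TT_conj hr τ
  have hle' : U V τ ≤ U V r' := by
    intro v hv
    rw [hr', mem_U_conj, inv_smul_eq_iff.mpr (mem_U.mp hv).symm]
    exact hle hv
  have hr'K : r' ∈ KK V s t := mem_KK_iff_le.mpr ((mem_KK_iff_le.mp hτK).trans hle')
  have hcomm : r * r' = r' * r := by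
    by_contra hno
    have h1 := hB.U_inf_of_noncomm hs ht hst hr hrK hr'T hr'K hno
    apply hτ1
    apply hB.faithful_two hs ht hst hτK
    intro v
    rw [← h1]
    have h2 : τ • v - v ∈ U V τ := by
      rw [mem_U, smul_sub, ← mul_smul, hτ, one_smul]
      have : v - τ • v = -(τ • v - v) := by abel
      rw [this, hB.neg_two]
    exact ⟨hle h2, hle' h2⟩
  have hUeq := hB.U_eq_of_comm_two hs ht hst hr hrK hr'T hr'K hcomm
  -- an element `r0` with the same fixed space commuting with `τ`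
  obtain ⟨r0, hr0, hr0U, hr0c⟩ : ∃ r0 ∈ TT H V, U V r0 = U V r ∧ τ * r0 = r0 * τ := by
    by_cases hrr : r = r'
    · refine ⟨r, hr, rfl, ?_⟩
      have : r * τ = τ * r := by
        nth_rewrite 1 [hrr]
        rw [hr']
        group
      exact this.symm
    · have hne1 : r * r' ≠ 1 := by
        intro h
        apply hrr
        have := inv_eq_of_mul_eq_one_left h
        rw [hB.TT_inv hr'T] at this
        exact this.symm
      have h1 : U V r ≤ U V (r * r') := by
        intro v hv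
        have h5 : r' • v = v := mem_U.mp (by rw [← hUeq]; exact hv)
        rw [mem_U, mul_smul, h5, mem_U.mp hv]
      obtain ⟨h2, h3⟩ := TT_of_U_le hr hne1 h1
      refine ⟨r * r', h2, h3, ?_⟩
      have e1 : τ * r = r' * τ := by rw [hr']; group
      have e2 : τ * r' = r * τ := by
        rw [hr', hτi]
        calc τ * (τ * r * τ) = (τ * τ) * (r * τ) := by simp only [mul_assoc]
          _ = r * τ := by rw [hτ, one_mul]
      calc τ * (r * r') = (τ * r) * r' := (mul_assoc _ _ _).symm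
        _ = (r' * τ) * r' := by rw [e1]
        _ = r' * (τ * r') := mul_assoc _ _ _
        _ = r' * (r * τ) := by rw [e2]
        _ = (r' * r) * τ := (mul_assoc _ _ _).symm
        _ = (r * r') * τ := by rw [hcomm]
  have hr0K : r0 ∈ KK V s t := by
    rw [mem_KK_iff_le, hr0U]; exact mem_KK_iff_le.mp hrK
  have h1 : U V r0 ≤ U V τ := by
    rw [← hB.U_eq_two hs ht hst hr0 hr0K]
    refine sup_le ?_ (mem_KK_iff_le.mp hτK)
    intro a ha
    have h2 : τ • a ∈ Im V r0 := by
      have := conj_mem_Im (k := τ) ha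
      rwa [hr0c, mul_inv_cancel_right] at this
    rw [mem_U]
    rcases hB.TT_norm hr0 ha h2 with h | h
    · exact h
    · rw [h, hB.neg_two]
  exact (TT_of_U_le hr0 hτ1 h1).1

theorem propB_two (hB : BinN 2 H V) {s t : H} (hs : s ∈ TT H V) (ht : t ∈ TT H V)
    (hst : s * t ≠ t * s) : PropB V s t := by
  intro g hg w hw hw0
  obtain ⟨τ, hτ, hτK, hwτ⟩ := hB.B_two hs ht hst hg hw hw0
  exact ⟨τ, hτK, hB.TT_sq hτ, Or.inl hτ, fun v hv => (hB.TT_iff hτ hw0 hwτ v).mp hv⟩

/-- each `K`-class outside `Z` meets `U r` in at most one point. -/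
theorem class_inf_U_two (hB : BinN 2 H V) {s t : H} (hs : s ∈ TT H V) (ht : t ∈ TT H V)
    (hst : s * t ≠ t * s) {r : H} (hr : r ∈ TT H V) (hrK : r ∈ KK V s t) {x : V}
    (hx : r • x = x) {k : H} (hk : k ∈ KK V s t) (hkx : r • k • x = k • x) : k • x = x := by
  by_contra hne
  set w := k • x - x with hw
  have hw0 : w ≠ 0 := fun h => hne (sub_eq_zero.mp h)
  obtain ⟨τ, hτ, hτK, hwτ⟩ := hB.B_two hs ht hst hk (sub_mem_Im k x) hw0
  have hτx : τ • x = x + w := (hB.TT_iff hτ hw0 hwτ x).mp ⟨k, by rw [hw]; abel⟩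
  by_cases hc : r * τ = τ * r
  · have h1 := hB.U_eq_of_comm_two hs ht hst hr hrK hτ hτK hc
    have h2 : x ∈ U V τ := h1 ▸ mem_U.mpr hx
    rw [mem_U.mp h2] at hτx
    exact hw0 (by simpa using hτx)
  · have h1 := hB.U_inf_of_noncomm hs ht hst hr hrK hτ hτK hc
    have h2 : w ∈ U V r := by rw [mem_U, hw, smul_sub, hx, hkx]
    have h3 : w ∈ ZZ V s t := by rw [← h1]; exact ⟨h2, hB.Im_le_U_two hτ hwτ⟩
    exact hw0 (hB.Im_inf_ZZ hs ht hst hτ hτK hwτ h3)

/-- distinct elements of `TT ∩ K` have distinct fixed spaces. -/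
theorem U_inj_two (hB : BinN 2 H V) {s t : H} (hs : s ∈ TT H V) (ht : t ∈ TT H V)
    (hst : s * t ≠ t * s) {r₁ r₂ : H} (h₁ : r₁ ∈ TT H V) (h₁K : r₁ ∈ KK V s t)
    (h₂ : r₂ ∈ TT H V) (h₂K : r₂ ∈ KK V s t) (hU : U V r₁ = U V r₂) : r₁ = r₂ := by
  classical
  -- an element `r₀` of `TT ∩ K` not commuting with `r₁`
  obtain ⟨r₀, h₀, h₀K, h₀n⟩ : ∃ r₀ ∈ TT H V, r₀ ∈ KK V s t ∧ r₁ * r₀ ≠ r₀ * r₁ := by
    by_contra hno
    push Not at hno
    exact hB.not_comm_both hs ht hst h₁ h₁K (hno s hs (left_mem_KK s t))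
      (hno t ht (right_mem_KK s t))
  obtain ⟨x, hx, hx0⟩ := hB.Im_ne_bot h₀.1
  have hxr : r₀ • x = x := mem_U.mp (hB.Im_le_U_two h₀ hx)
  have hxZ : x ∉ ZZ V s t := fun h => hx0 (hB.Im_inf_ZZ hs ht hst h₀ h₀K hx h)
  let R : Type _ := {r : H // r ∈ TT H V ∧ r ∈ KK V s t ∧ r • x ≠ x}
  -- the map `f`
  have hf : ∀ r : R, ∃ r' : R, r'.1 • r.1 • x = r.1 • x := by
    rintro ⟨r, hr, hrK, hrx⟩
    have hrxZ : r • x ∉ ZZ V s t := by
      intro h
      apply hxZ
      have := hrK _ h
      rw [← mul_smul, hB.TT_sq hr, one_smul] at this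
      rw [this]; exact h
    obtain ⟨r', hr', hrK', hrx'⟩ := hB.exists_fix_of_B hs ht hst (hB.propB_two hs ht hst) hrxZ
    refine ⟨⟨r', hr', hrK', fun h => ?_⟩, hrx'⟩
    -- `r'` fixes `x` and `r x`
    exact hrx (hB.class_inf_U_two hs ht hst hr' hrK' h hrK hrx')
  choose f hf using hf
  have hinj : Function.Injective (fun r : R => U V (f r).1) := by
    intro a b hab
    have hab' : U V (f a).1 = U V (f b).1 := hab
    have h1 : (f a).1 • b.1 • x = b.1 • x := by
      rw [← mem_U, hab', mem_U]; exact hf b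
    -- both `a x` and `b x` are fixed by `f a`
    have h2 : (b.1 * a.1⁻¹) • a.1 • x = a.1 • x := by
      refine hB.class_inf_U_two hs ht hst (f a).2.1 (f a).2.2.1 (hf a)
        ((KK V s t).mul_mem b.2.2.1 ((KK V s t).inv_mem a.2.2.1)) ?_
      rw [mul_smul, inv_smul_smul]
      exact h1
    rw [mul_smul, inv_smul_smul] at h2
    -- so `a x = b x`
    have h3 : a.1 • x - x ≠ 0 := fun h => a.2.2.2 (sub_eq_zero.mp h)
    have h4 := hB.TT_unique a.2.1 b.2.1 h3 (sub_mem_Im a.1 x)
      (by rw [← h2]; exact sub_mem_Im b.1 x)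
    exact Subtype.ext h4
  have hfinj : Function.Injective f := fun a b hab => hinj (by simp only [hab])
  have hfbij : Function.Bijective f := Finite.injective_iff_bijective.mp hfinj
  have hgx : ∀ r ∈ TT H V, r ∈ KK V s t → r₁ = r ∨ U V r = U V r₁ → r • x ≠ x := by
    intro r hr hrK hor hrx
    have hU1 : U V r = U V r₁ := by
      rcases hor with h | h
      · rw [h]
      · exact h
    have h1 : x ∈ U V r₁ := by rw [← hU1]; exact mem_U.mpr hrx
    have h2 := hB.U_inf_of_noncomm hs ht hst h₁ h₁K h₀ h₀K h₀n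
    exact hxZ (by rw [← h2]; exact ⟨h1, mem_U.mpr hxr⟩)
  obtain ⟨a, ha⟩ := hfbij.2 ⟨r₁, h₁, h₁K, hgx r₁ h₁ h₁K (Or.inl rfl)⟩
  obtain ⟨b, hb⟩ := hfbij.2 ⟨r₂, h₂, h₂K, hgx r₂ h₂ h₂K (Or.inr hU.symm)⟩
  have hab : a = b := by
    apply hinj
    simp only [ha, hb, hU]
  rw [hab, hb] at ha
  exact (congrArg Subtype.val ha).symm

theorem good_two (hB : BinN 2 H V) {s t : H} (hs : s ∈ TT H V) (ht : t ∈ TT H V)
    (hst : s * t ≠ t * s) : Good V s t := by
  have hPB := hB.propB_two hs ht hst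
  have hPU : PropU V s t := by
    intro r hr hrK r' hr' hrK' x hx hrx hrx'
    by_cases hc : r * r' = r' * r
    · exact hB.U_inj_two hs ht hst hr hrK hr' hrK'
        (hB.U_eq_of_comm_two hs ht hst hr hrK hr' hrK' hc)
    · exfalso
      apply hx
      rw [← hB.U_inf_of_noncomm hs ht hst hr hrK hr' hrK' hc]
      exact ⟨mem_U.mpr hrx, mem_U.mpr hrx'⟩
  refine ⟨hPU, ?_, fun r hr hrK x hx hrx k hk hkx =>
    hB.stab_of_B hs ht hst hPB hPU hr hrK hx hrx hk hkx⟩
  intro k hk x hx
  by_cases hkx : k • x = x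
  · rw [hkx]
    exact hB.exists_fix_of_B hs ht hst hPB hx
  · have hw0 : k • x - x ≠ 0 := fun h => hkx (sub_eq_zero.mp h)
    obtain ⟨τ, hτ, hτK, hwτ⟩ := hB.B_two hs ht hst hk (sub_mem_Im k x) hw0
    refine ⟨τ, hτ, hτK, ?_⟩
    have := (hB.TT_iff hτ hw0 hwτ x).mp ⟨k, by abel⟩
    rw [this]; abel

end BinN

end Cfsg.Agent.H900.BinLin
end

-- part: H900/BinLin/EndTwo
section
/-!
# The case `p = 2`: the end
-/

set_option autoImplicit false
set_option linter.unusedSectionVars false
set_option linter.unusedVariables false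

namespace Cfsg.Agent.H900.BinLin

theorem KK_comm {H V : Type*} [Group H] [AddCommGroup V] [DistribMulAction H V] (s t : H) :
    KK V s t = KK V t s := by
  ext g
  rw [mem_KK_iff_le, mem_KK_iff_le, ZZ, ZZ, inf_comm]

theorem YY_comm {H V : Type*} [Group H] [AddCommGroup V] [DistribMulAction H V] (s t : H) :
    YY V s t = YY V t s := by
  rw [YY, YY, sup_comm]

namespace BinN

variable {H V : Type*} [Group H] [AddCommGroup V] [DistribMulAction H V]
  [Finite V] [Finite H]

theorem fix_Im_of_comm_two (hB : BinN 2 H V) {r s : H} (hr : r ∈ TT H V) (hs : s ∈ TT H V)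
    (hc : r * s = s * r) {x : V} (hx : x ∈ Im V s) : r • x = x := by
  by_cases h : r = s
  · rw [h, hB.TT_smul_Im hs hx, hB.neg_two]
  · exact hB.TT_fix_of_comm hr hs h hc hx

theorem noncomm_of_ne_two (hB : BinN 2 H V) {r s : H} (hr : r ∈ TT H V) (hs : s ∈ TT H V)
    {x : V} (hx : x ∈ Im V s) (hne : r • x ≠ x) : r * s ≠ s * r :=
  fun hc => hne (hB.fix_Im_of_comm_two hr hs hc hx)

/-- vectors of `Im r ⊔ Im s` not fixed by `t` lie in some `Im r'`, `Im r' ≤ Im r ⊔ Im s`. -/
theorem exists_Im_le_two (hB : BinN 2 H V) {r s t : H} (hr : r ∈ TT H V) (hs : s ∈ TT H V)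
    (ht : t ∈ TT H V) (hrs : r ≠ s) (hc : r * s = s * r) (hrt : r * t ≠ t * r)
    (hst : s * t ≠ t * s) {x y : V} (hx : x ∈ Im V r) (hy : y ∈ Im V s)
    (hxy : t • (x + y) ≠ x + y) :
    ∃ r' ∈ TT H V, x + y ∈ Im V r' ∧ Im V r' ≤ Im V r ⊔ Im V s := by
  by_cases hy0 : y = 0
  · subst hy0
    exact ⟨r, hr, by rwa [add_zero], le_sup_left⟩
  by_cases hx0 : x = 0
  · subst hx0
    exact ⟨s, hs, by rwa [zero_add], le_sup_right⟩
  obtain ⟨c, hc', hc0⟩ := hB.Im_ne_bot ht.1
  have hrt' : r ≠ t := by rintro rfl; exact hrt rfl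
  -- `r1`
  have h1 : x + c ≠ 0 := by
    intro h
    have : x = -c := eq_neg_of_add_eq_zero_left h
    apply hx0
    exact hB.TT_disj hr ht hrt' hx (by rw [this]; exact (Im V t).neg_mem hc')
  obtain ⟨r1, hr1, hr1K, hr1I⟩ := hB.exists_mem_Im hr ht hrt (hB.good_two hr ht hrt)
    (mem_YY.mpr ⟨x, hx, c, hc', rfl⟩) h1
  have hr1Y : Im V r1 ≤ YY V r t := hB.Im_le_YY hr ht hrt (hB.good_two hr ht hrt) hr1K
  have hsx : s • x = x := hB.fix_Im_of_comm_two hs hr hc.symm hx
  have h2 : s • (x + c) ≠ x + c := by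
    rw [smul_add, hsx]
    intro h
    exact hc0 (hB.eq_zero_of_noncomm ht hst hc' (add_left_cancel h))
  have h3 : s * r1 ≠ r1 * s := hB.noncomm_of_ne_two hs hr1 hr1I h2
  have hne1 : r1 ≠ s := by rintro rfl; exact h3 rfl
  have h4 : x + c + y ≠ 0 := by
    intro h
    have : x + c = -y := eq_neg_of_add_eq_zero_left h
    exact h1 (hB.TT_disj hr1 hs hne1 hr1I (by rw [this]; exact (Im V s).neg_mem hy))
  obtain ⟨r2, hr2, hr2K, hr2I⟩ := hB.exists_mem_Im hr1 hs (Ne.symm h3)
    (hB.good_two hr1 hs (Ne.symm h3)) (mem_YY.mpr ⟨x + c, hr1I, y, hy, rfl⟩) h4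
  have hr2Y : Im V r2 ≤ YY V r1 s :=
    hB.Im_le_YY hr1 hs (Ne.symm h3) (hB.good_two hr1 hs (Ne.symm h3)) hr2K
  have htc : t • c = c := by rw [hB.TT_smul_Im ht hc', hB.neg_two]
  have h5 : t • (x + c + y) ≠ x + c + y := by
    intro h
    apply hxy
    have e1 : x + c + y = (x + y) + c := by abel
    rw [e1, smul_add, htc] at h
    exact add_right_cancel h
  have h6 : t * r2 ≠ r2 * t := hB.noncomm_of_ne_two ht hr2 hr2I h5
  have h7 : x + y ≠ 0 := by
    intro h
    rw [h, smul_zero] at hxy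
    exact hxy rfl
  have h8 : x + y = (x + c + y) + c := by
    have : (x + c + y) + c = (x + y) + (c + c) := by abel
    rw [this, hB.add_self_two, add_zero]
  obtain ⟨r3, hr3, hr3K, hr3I⟩ := hB.exists_mem_Im hr2 ht (Ne.symm h6)
    (hB.good_two hr2 ht (Ne.symm h6)) (mem_YY.mpr ⟨x + c + y, hr2I, c, hc', h8.symm⟩) h7
  have hr3Y : Im V r3 ≤ YY V r2 t :=
    hB.Im_le_YY hr2 ht (Ne.symm h6) (hB.good_two hr2 ht (Ne.symm h6)) hr3K
  refine ⟨r3, hr3, hr3I, ?_⟩
  intro b hb
  obtain ⟨b2, hb2, c2, hc2, rfl⟩ := mem_YY.mp (hr3Y hb)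
  obtain ⟨b1, hb1, y1, hy1, rfl⟩ := mem_YY.mp (hr2Y hb2)
  obtain ⟨x1, hx1, c1, hc1, rfl⟩ := mem_YY.mp (hr1Y hb1)
  have hry : ∀ w ∈ Im V s, r • w = w := fun w hw => hB.fix_Im_of_comm_two hr hs hc hw
  have hrx : ∀ w ∈ Im V r, r • w = w := fun w hw => hB.fix_Im_of_comm_two hr hr rfl hw
  have h9 : r • (x + y) = x + y := by rw [smul_add, hrx x hx, hry y hy]
  have h10 : r * r3 = r3 * r := hB.TT_comm_of_fix hr3 h7 hr3I h9
  have h11 := hB.fix_Im_of_comm_two hr hr3 h10 hb
  have h12 : c1 + c2 = 0 := by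
    apply hB.eq_zero_of_noncomm ht hrt ((Im V t).add_mem hc1 hc2)
    have e1 : x1 + c1 + y1 + c2 = (x1 + y1) + (c1 + c2) := by abel
    rw [e1, smul_add, smul_add r x1 y1, hrx x1 hx1, hry y1 hy1] at h11
    exact add_left_cancel h11
  have e1 : x1 + c1 + y1 + c2 = x1 + y1 := by
    have : x1 + c1 + y1 + c2 = (x1 + y1) + (c1 + c2) := by abel
    rw [this, h12, add_zero]
  rw [e1]
  exact AddSubgroup.mem_sup.mpr ⟨x1, hx1, y1, hy1, rfl⟩

/-- no element of `TT` is noncommuting with two distinct commuting ones. -/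
theorem no_triangle_two (hB : BinN 2 H V) {r s t : H} (hr : r ∈ TT H V) (hs : s ∈ TT H V)
    (ht : t ∈ TT H V) (hrs : r ≠ s) (hc : r * s = s * r) (hrt : r * t ≠ t * r)
    (hst : s * t ≠ t * s) : False := by
  classical
  have hq1 : 1 < Nat.card (Im V t) := hB.one_lt_card_Im ht.1
  have cr : Nat.card (Im V r) = Nat.card (Im V t) := hB.card_Im_of_noncomm hr ht hrt
  have cs : Nat.card (Im V s) = Nat.card (Im V t) := hB.card_Im_of_noncomm hs ht hst
  have hrA : ∀ a ∈ Im V r ⊔ Im V s, r • a = a := by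
    intro a ha
    obtain ⟨x, hx, y, hy, rfl⟩ := AddSubgroup.mem_sup.mp ha
    rw [smul_add, hB.fix_Im_of_comm_two hr hr rfl hx, hB.fix_Im_of_comm_two hr hs hc hy]
  have hsA : ∀ a ∈ Im V r ⊔ Im V s, s • a = a := by
    intro a ha
    obtain ⟨x, hx, y, hy, rfl⟩ := AddSubgroup.mem_sup.mp ha
    rw [smul_add, hB.fix_Im_of_comm_two hs hr hc.symm hx, hB.fix_Im_of_comm_two hs hs rfl hy]
  let R : Type _ := {r' : H // r' ∈ TT H V ∧ Im V r' ≤ Im V r ⊔ Im V s ∧ t * r' ≠ r' * t}
  let X : Type _ := {a : Im V r × Im V s // t • ((a.1 : V) + (a.2 : V)) ≠ (a.1 : V) + (a.2 : V)}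
  have h1 := card_of_unique (X := X) (R := R) (fun r' a => (a.1.1 : V) + (a.1.2 : V) ∈ Im V r'.1)
    (by
      rintro ⟨⟨⟨x, hx⟩, ⟨y, hy⟩⟩, hxy⟩
      obtain ⟨r', hr', hI, hle⟩ := hB.exists_Im_le_two hr hs ht hrs hc hrt hst hx hy hxy
      refine ⟨⟨r', hr', hle, hB.noncomm_of_ne_two ht hr' hI hxy⟩, hI, ?_⟩
      rintro ⟨r'', hr'', hle', hn⟩ hI'
      have h0 : x + y ≠ 0 := by
        intro h
        apply hxy
        simp only [h, smul_zero]
      exact Subtype.ext (hB.TT_unique hr'' hr' h0 hI' hI)) (Nat.card (Im V t) - 1) (by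
      rintro ⟨r', hr', hle, hn⟩
      have hex : ∀ b : {b : V // b ∈ (Im V r' : Set V) \ {0}},
          ∃ a : {a : X // (a.1.1 : V) + (a.1.2 : V) ∈ Im V r'}, (a.1.1.1 : V) + (a.1.1.2 : V) = b.1 := by
        rintro ⟨b, hb, hb0⟩
        obtain ⟨x, hx, y, hy, hxy⟩ := AddSubgroup.mem_sup.mp (hle hb)
        refine ⟨⟨⟨⟨⟨x, hx⟩, ⟨y, hy⟩⟩, ?_⟩, ?_⟩, hxy⟩
        · simp only [hxy]
          intro h
          exact hb0 (hB.eq_zero_of_noncomm hr' hn hb h)
        · simp only [hxy]; exact hb
      have e : {a : X // (a.1.1 : V) + (a.1.2 : V) ∈ Im V r'} ≃ {b : V // b ∈ (Im V r' : Set V) \ {0}} := by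
        refine Equiv.ofBijective (fun a => ⟨(a.1.1.1 : V) + (a.1.1.2 : V), a.2, fun h => ?_⟩) ⟨?_, ?_⟩
        · have h' : (a.1.1.1 : V) + (a.1.1.2 : V) = 0 := h
          apply a.1.2
          rw [h', smul_zero]
        · rintro ⟨⟨⟨a, b⟩, h1⟩, h2⟩ ⟨⟨⟨a', b'⟩, h1'⟩, h2'⟩ h
          have h' : (a : V) + (b : V) = (a' : V) + (b' : V) := congrArg Subtype.val h
          have h3 : (a : V) - (a' : V) = (b' : V) - (b : V) := by
            have : (a : V) - (a' : V) = ((a : V) + (b : V)) - (a' : V) - (b : V) := by abel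
            rw [this, h']; abel
          have h4 : (a : V) - (a' : V) = 0 :=
            hB.TT_disj hr hs hrs ((Im V r).sub_mem a.2 a'.2)
              (by rw [h3]; exact (Im V s).sub_mem b'.2 b.2)
          have e1 : a = a' := Subtype.ext (sub_eq_zero.mp h4)
          rw [h4] at h3
          have e2 : b = b' := (Subtype.ext (sub_eq_zero.mp h3.symm)).symm
          subst e1; subst e2; rfl
        · intro b
          obtain ⟨a, ha⟩ := hex b
          exact ⟨a, Subtype.ext ha⟩
      rw [Nat.card_congr e]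
      change Nat.card ↥((Im V r' : Set V) \ {0}) = _
      rw [Nat.card_coe_set_eq, Set.ncard_sdiff (by simp) (Set.toFinite _),
        ← Nat.card_coe_set_eq, Set.ncard_singleton]
      change Nat.card (Im V r') - 1 = _
      rw [hB.card_Im_of_noncomm ht hr' hn])
  -- the size of `X`
  have h2 : Nat.card (Im V t) * Nat.card (Im V t) ≤ Nat.card X + Nat.card (Im V t) := by
    have h3 : Nat.card (Im V r × Im V s) = Nat.card {a : Im V r × Im V s //
        t • ((a.1 : V) + (a.2 : V)) = (a.1 : V) + (a.2 : V)} + Nat.card X := by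
      rw [← Nat.card_sum]
      exact Nat.card_congr (Equiv.sumCompl _).symm
    rw [Nat.card_prod, cr, cs] at h3
    have h4 : Nat.card {a : Im V r × Im V s //
        t • ((a.1 : V) + (a.2 : V)) = (a.1 : V) + (a.2 : V)} ≤ Nat.card (Im V s) := by
      refine Nat.card_le_card_of_injective (fun a => a.1.2) ?_
      rintro ⟨⟨a, b⟩, h1⟩ ⟨⟨a', b'⟩, h1'⟩ h
      simp only at h
      subst h
      simp only at h1 h1'
      have h5 : t • ((a : V) - (a' : V)) = (a : V) - (a' : V) := by
        have : (a : V) - (a' : V) = ((a : V) + (b : V)) - ((a' : V) + (b : V)) := by abel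
        rw [this, smul_sub, h1, h1']
      have h6 : (a : V) - (a' : V) ∈ Im V r := (Im V r).sub_mem a.2 a'.2
      have h7 := hB.eq_zero_of_noncomm hr (Ne.symm hrt) h6 h5
      have e1 : a = a' := Subtype.ext (sub_eq_zero.mp h7)
      subst e1; rfl
    rw [cs] at h4
    omega
  -- the injection
  obtain ⟨v, hv, hv0⟩ := hB.Im_ne_bot ht.1
  have hfixA : ∀ r' : R, ∀ a ∈ Im V r ⊔ Im V s, r'.1 • a = a := by
    rintro ⟨r', hr', hle, hn⟩ a ha
    obtain ⟨w, hw, hw0⟩ := hB.Im_ne_bot hr'.1
    have e1 : r * r' = r' * r := hB.TT_comm_of_fix hr' hw0 hw (hrA w (hle hw))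
    have e2 : s * r' = r' * s := hB.TT_comm_of_fix hr' hw0 hw (hsA w (hle hw))
    obtain ⟨x, hx, y, hy, rfl⟩ := AddSubgroup.mem_sup.mp ha
    rw [smul_add, hB.fix_Im_of_comm_two hr' hr e1.symm hx,
      hB.fix_Im_of_comm_two hr' hs e2.symm hy]
  have h3 : Nat.card R ≤ Nat.card ↥((Im V t : Set V) \ {0}) := by
    refine Nat.card_le_card_of_injective (fun r' : R =>
      (⟨t • (r'.1 • v - v) - (r'.1 • v - v), sub_mem_Im t _, ?_⟩ : ↥((Im V t : Set V) \ {0}))) ?_
    · intro h
      have h' : t • (r'.1 • v - v) - (r'.1 • v - v) = 0 := h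
      have h4 := hB.eq_zero_of_noncomm r'.2.1 r'.2.2.2 (sub_mem_Im r'.1 v) (sub_eq_zero.mp h')
      exact hv0 (hB.eq_zero_of_noncomm ht (Ne.symm r'.2.2.2) hv (sub_eq_zero.mp h4))
    · intro a b hab
      have hab' : t • (a.1 • v - v) - (a.1 • v - v) = t • (b.1 • v - v) - (b.1 • v - v) :=
        congrArg Subtype.val hab
      by_contra hne
      have hne' : a.1 ≠ b.1 := fun h => hne (Subtype.ext h)
      set a' := a.1 • v - v with ha'
      set b' := b.1 • v - v with hb'
      have ha'A : a' ∈ Im V r ⊔ Im V s := a.2.2.1 (sub_mem_Im a.1 v)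
      have hb'A : b' ∈ Im V r ⊔ Im V s := b.2.2.1 (sub_mem_Im b.1 v)
      have hz1 : t • (a' - b') = a' - b' := by
        rw [smul_sub]
        have : t • a' - t • b' = (t • a' - a') - (t • b' - b') + (a' - b') := by abel
        rw [this, hab', sub_self, zero_add]
      have hz2 : r • (a' - b') = a' - b' := by rw [smul_sub, hrA a' ha'A, hrA b' hb'A]
      have hz0 : a' - b' ≠ 0 := by
        intro h
        have h4 : a' = 0 := hB.TT_disj a.2.1 b.2.1 hne' (sub_mem_Im a.1 v)
          (by rw [sub_eq_zero.mp h]; exact sub_mem_Im b.1 v)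
        exact hv0 (hB.eq_zero_of_noncomm ht (Ne.symm a.2.2.2) hv (sub_eq_zero.mp h4))
      refine hB.not_cj_add hr ht hrt (hB.good_two hr ht hrt) (y := v) (z := a' - b')
        (mem_YY.mpr ⟨0, (Im V r).zero_mem, v, hv, zero_add v⟩) ⟨mem_U.mpr hz2, mem_U.mpr hz1⟩ hz0 ?_
      refine ⟨a.1 * b.1, ?_⟩
      have e1 : b.1 • v = v + b' := by rw [hb']; abel
      have e2 : a.1 • v = v + a' := by rw [ha']; abel
      rw [mul_smul, e1, smul_add, hfixA a b' hb'A, e2]
      have : a' - b' = a' + b' := by rw [sub_eq_add_neg, hB.neg_two]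
      rw [this]; abel
  rw [Nat.card_coe_set_eq, Set.ncard_sdiff (by simp) (Set.toFinite _),
        ← Nat.card_coe_set_eq, Set.ncard_singleton] at h3
  change Nat.card R ≤ Nat.card (Im V t) - 1 at h3
  rw [h1] at h2
  obtain ⟨m, hm⟩ : ∃ m, Nat.card (Im V t) = m + 1 := ⟨Nat.card (Im V t) - 1, by omega⟩
  rw [hm] at h2 h3 hq1
  simp only [Nat.add_sub_cancel] at h2 h3
  have : Nat.card R * m ≤ m * m := Nat.mul_le_mul_right _ h3
  nlinarith

theorem comm_of_not_mem_KK_two (hB : BinN 2 H V) {s t r : H} (hs : s ∈ TT H V) (ht : t ∈ TT H V)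
    (hst : s * t ≠ t * s) (hr : r ∈ TT H V) (hrK : r ∉ KK V s t) : r * s = s * r := by
  by_contra hno
  have hG := hB.good_two hs ht hst
  obtain ⟨a, ha, ha0⟩ := hB.Im_ne_bot hr.1
  obtain ⟨y, hy, z, hz, hyz⟩ := hB.exists_decomp hs ht hst a
  have hsa : s • a ≠ a := fun h => ha0 (hB.eq_zero_of_noncomm hr (Ne.symm hno) ha h)
  have hy0 : y ≠ 0 := by
    rintro rfl
    apply hsa
    rw [hyz, zero_add]
    exact mem_U.mp hz.1
  have hyZ : y ∉ ZZ V s t := fun h => hy0 (hB.YY_inf_ZZ hs ht hst hy h)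
  obtain ⟨r1, hr1, hr1K, hr1y⟩ := hG.hC 1 (KK V s t).one_mem y hyZ
  rw [one_smul] at hr1y
  have h1 : r1 • a = a := by rw [hyz, smul_add, hr1y, hr1K z hz]
  have h2 : r1 * r = r * r1 := hB.TT_comm_of_fix hr ha0 ha h1
  have h3 : r1 ≠ r := by rintro rfl; exact hrK hr1K
  have h4 : s * r1 ≠ r1 * s := by
    intro hc
    -- then `s` fixes `y`
    obtain ⟨w, hw, hw0⟩ := hB.Im_ne_bot hr1.1
    have hwZ : w ∉ ZZ V s t := fun h => hw0 (hB.Im_inf_ZZ hs ht hst hr1 hr1K hw h)
    have e1 : s = r1 := hG.hU s hs (left_mem_KK s t) r1 hr1 hr1K w hwZ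
      (hB.fix_Im_of_comm_two hs hr1 hc hw) (hB.fix_Im_of_comm_two hr1 hr1 rfl hw)
    apply hsa
    rw [e1]; exact h1
  exact hB.no_triangle_two hr1 hr hs h3 h2 (Ne.symm h4) hno

/-- every conjugate of `s` lies in `K`. -/
theorem conj_mem_KK_two (hB : BinN 2 H V) {s t : H} (hs : s ∈ TT H V) (ht : t ∈ TT H V)
    (hst : s * t ≠ t * s) (h : H) : h * s * h⁻¹ ∈ KK V s t := by
  by_contra hno
  set s' := h * s * h⁻¹ with hs'
  have hs'T : s' ∈ TT H V := TT_conj hs h
  have c1 : s' * s = s * s' := hB.comm_of_not_mem_KK_two hs ht hst hs'T hno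
  have c2 : s' * t = t * s' := by
    refine hB.comm_of_not_mem_KK_two ht hs (Ne.symm hst) hs'T ?_
    rwa [KK_comm]
  have hne : s' ≠ s := by rintro h; rw [h] at hno; exact hno (left_mem_KK s t)
  obtain ⟨v, hv, hv0⟩ := hB.Im_ne_bot hs.1
  have hv' : h • v ∈ Im V s' := conj_mem_Im hv
  set v' := h • v with hv'def
  obtain ⟨τ, hτ, hτv⟩ := hB.exists_inv (v + v')
  have e1 : v + (v + v') = v' := by rw [← add_assoc, hB.add_self_two, zero_add]
  have t1 : τ • v = v' := by
    have := (hτv v).mp (by rw [e1]; exact ⟨h, rfl⟩)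
    rwa [e1] at this
  have t2 : τ • v' = v := by rw [← t1, ← mul_smul, hτ, one_smul]
  have hv'0 : v' ≠ 0 := by
    rw [hv'def]; exact (smul_ne_zero_iff_ne _).mpr hv0
  have hτs : τ * s * τ⁻¹ = s' := by
    refine hB.TT_unique (TT_conj hs τ) hs'T hv'0 ?_ hv'
    have := conj_mem_Im (k := τ) hv
    rwa [t1] at this
  obtain ⟨a, ha, hsa⟩ := hB.exists_sub_of_noncomm hs ht hst hv
  set a' := τ • a with ha'
  have hs'a' : s' • a' = a' + v' := by
    rw [← hτs, mul_smul, mul_smul, ha', inv_smul_smul, hsa, smul_add, t1]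
  set t' := τ * t * τ⁻¹ with ht'
  have ht'T : t' ∈ TT H V := TT_conj ht τ
  have ha'I : a' ∈ Im V t' := conj_mem_Im ha
  have hs't' : s' * t' ≠ t' * s' := by
    intro hc
    apply hst
    have e2 : s' * t' = τ * (s * t) * τ⁻¹ := by rw [← hτs, ht']; group
    have e3 : t' * s' = τ * (t * s) * τ⁻¹ := by rw [← hτs, ht']; group
    rw [e2, e3] at hc
    exact mul_left_cancel (mul_right_cancel hc)
  have c3 : s * t' = t' * s := by
    by_contra hn
    exact hB.no_triangle_two hs'T hs ht'T hne c1 hs't' hn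
  have f1 : s • a' = a' := hB.fix_Im_of_comm_two hs ht'T c3 ha'I
  have f2 : s • v' = v' := hB.fix_Im_of_comm_two hs hs'T c1.symm hv'
  have f3 : s' • a = a := hB.fix_Im_of_comm_two hs'T ht c2 ha
  have f4 : s' • v = v := hB.fix_Im_of_comm_two hs'T hs c1 hv
  have key : Cj H (a + a') (a + a' + (v + v')) := by
    refine ⟨s * s', ?_⟩
    rw [mul_smul, smul_add, f3, hs'a', smul_add, smul_add, hsa, f1, f2]
    abel
  have k1 := (hτv _).mp key
  have k2 : τ • (a + a') = a + a' := by
    rw [smul_add, ← ha', ha', ← mul_smul τ τ a, hτ, one_smul]; abel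
  rw [k2] at k1
  have k3 : v + v' = 0 := by simpa using k1
  have k4 : v = v' := by
    have := eq_neg_of_add_eq_zero_left k3
    rwa [hB.neg_two] at this
  exact hv0 (hB.TT_disj hs'T hs hne (by rw [k4]; exact hv') hv)

theorem YY_eq_top_of_conj {p : ℕ} (hB : BinN p H V) {s t : H} (hs : s ∈ TT H V) (ht : t ∈ TT H V)
    (hst : s * t ≠ t * s) (hG : Good V s t) (hc : ∀ h : H, h * s * h⁻¹ ∈ KK V s t) :
    YY V s t = ⊤ := by
  let M : AddSubgroup V := AddSubgroup.closure {x | ∃ h : H, x ∈ Im V (h * s * h⁻¹)}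
  have hM : M = ⊤ := by
    rcases hB.irr M (by
      intro h m hm
      induction hm using AddSubgroup.closure_induction with
      | mem x hx =>
        obtain ⟨k, hk⟩ := hx
        apply AddSubgroup.subset_closure
        refine ⟨h * k, ?_⟩
        have := conj_mem_Im (k := h) hk
        convert this using 2
        group
      | zero => rw [smul_zero]; exact M.zero_mem
      | add x y _ _ hx hy => rw [smul_add]; exact M.add_mem hx hy
      | neg x _ hx => rw [smul_neg]; exact M.neg_mem hx) with h | h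
    · exfalso
      obtain ⟨w, hw, hw0⟩ := hB.Im_ne_bot hs.1
      have : w ∈ M := AddSubgroup.subset_closure ⟨1, by simpa using hw⟩
      rw [h, AddSubgroup.mem_bot] at this
      exact hw0 this
    · exact h
  rw [eq_top_iff, ← hM, AddSubgroup.closure_le]
  rintro x ⟨h, hx⟩
  exact hB.Im_le_YY hs ht hst hG (hc h) hx

/-- **The case `p = 2`.** -/
theorem exists_pair_two (hB : BinN 2 H V) (hne : ∃ g : H, g ≠ 1) :
    ∃ s ∈ TT H V, ∃ t ∈ TT H V, s * t ≠ t * s ∧ YY V s t = ⊤ := by
  obtain ⟨g, hg⟩ := hne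
  obtain ⟨s, hs, _⟩ := exists_TT_ge (V := V) g hg
  have : ∃ t ∈ TT H V, s * t ≠ t * s := by
    by_contra hno
    push Not at hno
    -- `s` fixes everything
    let M : AddSubgroup V := AddSubgroup.closure {x | ∃ h : H, x ∈ Im V (h * s * h⁻¹)}
    have hM : M = ⊤ := by
      rcases hB.irr M (by
        intro h m hm
        induction hm using AddSubgroup.closure_induction with
        | mem x hx =>
          obtain ⟨k, hk⟩ := hx
          apply AddSubgroup.subset_closure
          refine ⟨h * k, ?_⟩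
          have := conj_mem_Im (k := h) hk
          convert this using 2
          group
        | zero => rw [smul_zero]; exact M.zero_mem
        | add x y _ _ hx hy => rw [smul_add]; exact M.add_mem hx hy
        | neg x _ hx => rw [smul_neg]; exact M.neg_mem hx) with h | h
      · exfalso
        obtain ⟨w, hw, hw0⟩ := hB.Im_ne_bot hs.1
        have : w ∈ M := AddSubgroup.subset_closure ⟨1, by simpa using hw⟩
        rw [h, AddSubgroup.mem_bot] at this
        exact hw0 this
      · exact h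
    have h1 : M ≤ U V s := by
      rw [AddSubgroup.closure_le]
      rintro x ⟨h, hx⟩
      exact mem_U.mpr (hB.fix_Im_of_comm_two hs (TT_conj hs h) (hno _ (TT_conj hs h)) hx)
    apply hs.1
    apply hB.faith
    intro v
    exact mem_U.mp (h1 (by rw [hM]; trivial))
  obtain ⟨t, ht, hst⟩ := this
  exact ⟨s, hs, t, ht, hst, hB.YY_eq_top_of_conj hs ht hst (hB.good_two hs ht hst)
    (hB.conj_mem_KK_two hs ht hst)⟩

end BinN

end Cfsg.Agent.H900.BinLin
end

-- part: H900/BinLin/EndOdd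
section
/-!
# Endgame for odd `p`
-/

set_option autoImplicit false
set_option linter.unusedSectionVars false
set_option linter.unusedVariables false

namespace Cfsg.Agent.H900.BinLin

namespace BinN

variable {p : ℕ} {H V : Type*} [Group H] [AddCommGroup V] [DistribMulAction H V]
  [Finite V] [Finite H]

theorem neg_ne_self (hB : BinN p H V) (hp : p ≠ 2) {v : V} (hv : v ≠ 0) : -v ≠ v := by
  intro h
  apply hv
  apply hB.two_nsmul_eq_zero hp
  nth_rewrite 1 [← h]
  abel

/-- no plane of order three: counting. -/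
theorem no_cube (hB : BinN p H V) (hp : p ≠ 2) (X : AddSubgroup V) (q : ℕ) (hq : 1 < q)
    (hXc : Nat.card X = q * (q * q))
    (hX : ∀ x ∈ X, x ≠ 0 → ∃ r ∈ TT H V, x ∈ Im V r ∧ Im V r ≤ X ∧ Nat.card (Im V r) = q) :
    False := by
  classical
  let R := {r : H // r ∈ TT H V ∧ Im V r ≤ X ∧ Nat.card (Im V r) = q}
  let X' := {x : V // x ∈ X ∧ x ≠ 0}
  -- card of `X'`
  have cX : Nat.card X' + 1 = q * (q * q) := by
    have h1 : Nat.card X' = ((X : Set V) \ {0}).ncard := by
      rw [← Nat.card_coe_set_eq]; rfl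
    rw [h1, Set.ncard_sdiff_singleton_add_one (X.zero_mem) (Set.toFinite _), ← Nat.card_coe_set_eq]
    exact hXc
  -- card of `Im r \ 0`
  have cI : ∀ r : R, Nat.card {x : X' // x.1 ∈ Im V r.1} = q - 1 := by
    rintro ⟨r, hr, hle, hc⟩
    have h1 : Nat.card {x : X' // x.1 ∈ Im V r} = ((Im V r : Set V) \ {0}).ncard := by
      rw [← Nat.card_coe_set_eq]
      refine Nat.card_congr ⟨fun x => ⟨x.1.1, x.2, x.1.2.2⟩, fun x => ⟨⟨x.1, hle x.2.1, x.2.2⟩, x.2.1⟩,
        fun x => rfl, fun x => rfl⟩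
    rw [h1, Set.ncard_sdiff (by simp) (Set.toFinite _), ← Nat.card_coe_set_eq,
      Set.ncard_singleton]
    change Nat.card (Im V r) - 1 = _
    rw [hc]
  have cR : Nat.card X' = Nat.card R * (q - 1) := by
    refine card_of_unique (fun (r : R) (x : X') => x.1 ∈ Im V r.1) ?_ _ cI
    rintro ⟨x, hx, hx0⟩
    obtain ⟨r, hr, hxr, hle, hc⟩ := hX x hx hx0
    refine ⟨⟨r, hr, hle, hc⟩, hxr, ?_⟩
    rintro ⟨r', hr', hle', hc'⟩ hx'
    exact Subtype.ext (hB.TT_unique hr' hr hx0 hx' hxr)
  -- the elements of `R` fixing `x`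
  have cF : ∀ x ∈ X, x ≠ 0 → Nat.card {r : R // r.1 • x = x} * (q - 1) + 1 = q * q := by
    intro x hx hx0
    obtain ⟨r0, hr0, hxr0, hle0, hc0⟩ := hX x hx hx0
    -- `|U r0 ⊓ X| = q²`
    let W : AddSubgroup V := U V r0 ⊓ X
    have cW : Nat.card W = q * q := by
      have hbij : Function.Bijective (fun z : Im V r0 × W => (⟨z.1.1 + z.2.1,
          X.add_mem (hle0 z.1.2) z.2.2.2⟩ : X)) := by
        constructor
        · rintro ⟨a, u⟩ ⟨a', u'⟩ h
          have h1 : (a : V) + u = a' + u' := congrArg Subtype.val h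
          have h2 : r0 • ((a : V) + u) = r0 • ((a' : V) + u') := by rw [h1]
          rw [smul_add, smul_add, hB.TT_smul_Im hr0 a.2, hB.TT_smul_Im hr0 a'.2,
            mem_U.mp u.2.1, mem_U.mp u'.2.1] at h2
          have h3 : ((a : V) - a') + ((a : V) - a') = 0 := by
            have h4 : ((a : V) - a') + ((a : V) - a') =
              ((a : V) + u - (a' + u')) - ((-a : V) + u - (-a' + u')) := by abel
            rw [h4, h1, h2, sub_self, sub_self, sub_self]
          have h5 : (a : V) = a' := sub_eq_zero.mp (hB.two_nsmul_eq_zero hp h3)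
          have h6 : (u : V) = u' := by rw [h5] at h1; exact add_left_cancel h1
          exact Prod.ext (Subtype.ext h5) (Subtype.ext h6)
        · rintro ⟨v, hv⟩
          have h1 : hf p (v - r0 • v) ∈ Im V r0 := by
            rw [hf]; refine (Im V r0).nsmul_mem ?_ _
            have : v - r0 • v = -(r0 • v - v) := by abel
            rw [this]; exact (Im V r0).neg_mem (sub_mem_Im r0 v)
          have h2 : v - hf p (v - r0 • v) ∈ U V r0 := by
            rw [mem_U, smul_sub, hB.TT_smul_Im hr0 h1]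
            have h3 := hB.hf_add hp (v - r0 • v)
            have h4 : r0 • v = v - (hf p (v - r0 • v) + hf p (v - r0 • v)) := by rw [h3]; abel
            nth_rewrite 1 [h4]; abel
          exact ⟨⟨⟨_, h1⟩, ⟨_, h2, X.sub_mem hv (hle0 h1)⟩⟩, Subtype.ext (by simp)⟩
      have h1 := Nat.card_congr (Equiv.ofBijective _ hbij)
      rw [Nat.card_prod, hc0, hXc] at h1
      exact Nat.eq_of_mul_eq_mul_left (by omega) h1
    have key : Nat.card {v : V // v ∈ W ∧ v ≠ 0} = Nat.card {r : R // r.1 • x = x} * (q - 1) := by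
      refine card_of_unique (fun (r : {r : R // r.1 • x = x}) (v : {v : V // v ∈ W ∧ v ≠ 0}) =>
        v.1 ∈ Im V r.1.1) ?_ _ ?_
      · rintro ⟨v, hv, hv0⟩
        obtain ⟨r, hr, hvr, hle, hc⟩ := hX v hv.2 hv0
        have hne : r0 ≠ r := by
          rintro rfl
          have h1 := hB.TT_smul_Im hr0 hvr
          rw [mem_U.mp hv.1] at h1
          exact hB.neg_ne_self hp hv0 h1.symm
        have hcm : r0 * r = r * r0 := (hB.TT_comm_iff_fix hr0 hr hne hv0 hvr).mpr (mem_U.mp hv.1)
        have hfx : r • x = x := hB.TT_fix_of_comm hr hr0 hne.symm hcm.symm hxr0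
        refine ⟨⟨⟨r, hr, hle, hc⟩, hfx⟩, hvr, ?_⟩
        rintro ⟨⟨r', hr', hle', hc'⟩, hfx'⟩ hvr'
        exact Subtype.ext (Subtype.ext (hB.TT_unique hr' hr hv0 hvr' hvr))
      · rintro ⟨⟨r, hr, hle, hc⟩, hfx⟩
        have hfx : r • x = x := hfx
        have hne : r0 ≠ r := by
          rintro rfl
          have h1 := hB.TT_smul_Im hr0 hxr0
          rw [hfx] at h1
          exact hB.neg_ne_self hp hx0 h1.symm
        have hcm : r * r0 = r0 * r := hB.TT_comm_of_fix hr0 hx0 hxr0 hfx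
        have h1 : Nat.card {v : {v : V // v ∈ W ∧ v ≠ 0} // v.1 ∈ Im V r} =
            ((Im V r : Set V) \ {0}).ncard := by
          rw [← Nat.card_coe_set_eq]
          refine Nat.card_congr ⟨fun v => ⟨v.1.1, v.2, v.1.2.2⟩, fun v => ⟨⟨v.1,
            ⟨mem_U.mpr (hB.TT_fix_of_comm hr0 hr hne hcm.symm v.2.1), hle v.2.1⟩, v.2.2⟩, v.2.1⟩,
            fun v => rfl, fun v => rfl⟩
        change Nat.card {v : {v : V // v ∈ W ∧ v ≠ 0} // v.1 ∈ Im V r} = q - 1
        rw [h1, Set.ncard_sdiff (by simp) (Set.toFinite _), ← Nat.card_coe_set_eq,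
          Set.ncard_singleton]
        change Nat.card (Im V r) - 1 = _
        rw [hc]
    have cW' : Nat.card {v : V // v ∈ W ∧ v ≠ 0} + 1 = q * q := by
      have h1 : Nat.card {v : V // v ∈ W ∧ v ≠ 0} = ((W : Set V) \ {0}).ncard := by
        rw [← Nat.card_coe_set_eq]; rfl
      rw [h1, Set.ncard_sdiff_singleton_add_one (W.zero_mem) (Set.toFinite _),
        ← Nat.card_coe_set_eq]
      exact cW
    rw [← key, cW']
  have hq2 : q * q = (q + 1) * (q - 1) + 1 := by
    obtain ⟨m, rfl⟩ : ∃ m, q = m + 1 := ⟨q - 1, by omega⟩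
    simp only [Nat.add_sub_cancel]; ring
  have cF' : ∀ x ∈ X, x ≠ 0 → Nat.card {r : R // r.1 • x = x} = q + 1 := by
    intro x hx hx0
    have h1 := cF x hx hx0
    rw [hq2] at h1
    exact Nat.eq_of_mul_eq_mul_right (by omega : 0 < q - 1) (Nat.add_right_cancel h1)
  have cR' : Nat.card R = q * q + q + 1 := by
    rw [cR] at cX
    have h1 : q * (q * q) = (q * q + q + 1) * (q - 1) + 1 := by
      obtain ⟨m, rfl⟩ : ∃ m, q = m + 1 := ⟨q - 1, by omega⟩
      simp only [Nat.add_sub_cancel]; ring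
    rw [h1] at cX
    exact Nat.eq_of_mul_eq_mul_right (by omega : 0 < q - 1) (Nat.add_right_cancel cX)
  -- the moved ones
  have cM : ∀ x ∈ X, x ≠ 0 → {r : R | r.1 • x ≠ x}.ncard = q * q := by
    intro x hx hx0
    have h1 := Set.ncard_add_ncard_compl {r : R | r.1 • x = x}
    have h2 : {r : R | r.1 • x = x}.ncard = q + 1 := by
      rw [← Nat.card_coe_set_eq]; exact cF' x hx hx0
    rw [h2, cR'] at h1
    have h3 : {r : R | r.1 • x = x}ᶜ = {r : R | r.1 • x ≠ x} := rfl
    rw [h3] at h1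
    omega
  -- the classes
  have cC : ∀ x ∈ X, x ≠ 0 → {y : V | y ∈ X ∧ Cj H x y}.ncard = q * q + 1 := by
    intro x hx hx0
    have h1 : {y : V | y ∈ X ∧ Cj H x y} =
        insert x ((fun r : R => r.1 • x) '' {r : R | r.1 • x ≠ x}) := by
      ext y
      simp only [Set.mem_ofPred_eq, Set.mem_insert_iff, Set.mem_image]
      constructor
      · rintro ⟨hy, hxy⟩
        by_cases hyx : y = x
        · exact Or.inl hyx
        · right
          have hw : y - x ≠ 0 := sub_ne_zero.mpr hyx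
          obtain ⟨r, hr, hwr, hle, hc⟩ := hX (y - x) (X.sub_mem hy hx) hw
          have h2 := (hB.TT_iff hr hw hwr x).mp (by rw [add_sub_cancel]; exact hxy)
          rw [add_sub_cancel] at h2
          exact ⟨⟨r, hr, hle, hc⟩, by rw [h2]; exact hyx, h2⟩
      · rintro (rfl | ⟨⟨r, hr, hle, hc⟩, hne, rfl⟩)
        · exact ⟨hx, Cj.refl _⟩
        · refine ⟨?_, ⟨r, rfl⟩⟩
          have : r • x = (r • x - x) + x := by abel
          change r • x ∈ X
          rw [this]
          exact X.add_mem (hle (sub_mem_Im r x)) hx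
    rw [h1, Set.ncard_insert_of_notMem, Set.InjOn.ncard_image, cM x hx hx0]
    · rintro ⟨r, hr, hle, hc⟩ hne ⟨r', hr', hle', hc'⟩ hne' heq
      have heq : r • x = r' • x := heq
      have hne : r • x ≠ x := hne
      refine Subtype.ext ?_
      refine hB.TT_unique hr hr' (sub_ne_zero.mpr hne) (sub_mem_Im r x) ?_
      rw [heq]; exact sub_mem_Im r' x
    · rintro ⟨r, hne, hx⟩
      exact hne hx
  -- divisibility
  let S : Setoid X' := ⟨fun x y => Cj H x.1 y.1, fun x => Cj.refl _, fun h => h.symm,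
    fun h h' => h.trans h'⟩
  have hdiv : Nat.card X' = Nat.card (Quotient S) * (q * q + 1) := by
    refine card_of_unique (fun (c : Quotient S) (x : X') => Quotient.mk S x = c) ?_ _ ?_
    · intro x
      exact ⟨Quotient.mk S x, rfl, fun c hc => hc.symm⟩
    · intro c
      induction c using Quotient.inductionOn with
      | h x =>
        rw [← cC x.1 x.2.1 x.2.2, ← Nat.card_coe_set_eq]
        refine Nat.card_congr ⟨fun y => ⟨y.1.1, y.1.2.1, ?_⟩, fun y => ⟨⟨y.1, y.2.1, ?_⟩, ?_⟩,
          fun y => rfl, fun y => rfl⟩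
        · exact (Quotient.exact y.2).symm
        · intro h0
          have := y.2.2
          rw [h0, Cj.zero_iff] at this
          exact x.2.2 this
        · exact Quotient.sound (s := S) (Cj.symm y.2.2)
  have h1 : q * (q * q) = Nat.card (Quotient S) * (q * q + 1) + 1 := by rw [← hdiv, cX]
  have h2 : (q * q + 1) ∣ (q + 1) := by
    have h3 : (q * q + 1) ∣ q * (q * q + 1) := Dvd.intro_left _ rfl
    have h4 : q * (q * q + 1) = Nat.card (Quotient S) * (q * q + 1) + (q + 1) := by
      have : q * (q * q + 1) = q * (q * q) + q := by ring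
      rw [this, h1]; ring
    rw [h4] at h3
    exact (Nat.dvd_add_right (Dvd.intro_left _ rfl)).mp h3
  have h3 := Nat.le_of_dvd (by omega) h2
  nlinarith


/-- the generic element of the candidate space. -/
theorem exists_Im_of_plane (hB : BinN p H V) (hp : p ≠ 2) {s t s1 r r' : H} (hs : s ∈ TT H V)
    (ht : t ∈ TT H V) (hst : s * t ≠ t * s) (hs1 : s1 ∈ TT H V) (hs1K : s1 ∈ KK V s t)
    (hr : r ∈ TT H V) (hs1r : s1 * r ≠ r * s1) (hr' : r' ∈ TT H V) (hr'A : Im V r' ≤ YY V s1 r)
    (hr'Z : Im V r' ≤ ZZ V s t) {y a a' : V} (hy : y ∈ YY V s t) (ha : a ∈ Im V s1)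
    (ha' : a' ∈ Im V r') (hnp : ¬ Perp H (y + a) a) (ha'0 : a' ≠ 0) :
    ∃ g ∈ TT H V, y + a' ∈ Im V g ∧ Im V g ≤ YY V s t ⊔ YY V s1 r ∧
      Nat.card (Im V g) = Nat.card (Im V s) := by
  have hG := hB.good_odd hp hs ht hst
  have hG1 := hB.good_odd hp hs1 hr hs1r
  have haY : a ∈ YY V s t := hB.Im_le_YY hs ht hst hG hs1K ha
  have h0 : y + a ≠ 0 := by
    intro h
    apply hnp
    rw [h]
    unfold Perp
    rw [zero_add, zero_sub]
    exact hB.cj_neg a
  have ha'Y : a' ∉ YY V s t := fun h => ha'0 (hB.YY_inf_ZZ hs ht hst h (hr'Z ha'))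
  obtain ⟨s3, hs3, hs3K, hs3y⟩ := hB.exists_mem_Im hs ht hst hG (add_mem hy haY) h0
  have h1 : a' - a ∈ YY V s1 r := sub_mem (hr'A ha') (AddSubgroup.mem_sup_left ha)
  have h2 : a' - a ≠ 0 := by
    intro h
    rw [sub_eq_zero] at h
    exact ha'Y (h ▸ haY)
  obtain ⟨r2, hr2, hr2K, hr2a⟩ := hB.exists_mem_Im hs1 hr hs1r hG1 h1 h2
  have hne : s3 ≠ r2 := by
    rintro rfl
    have h3 : a' - a ∈ YY V s t := hB.Im_le_YY hs ht hst hG hs3K hr2a
    have h4 := add_mem h3 haY
    rw [sub_add_cancel] at h4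
    exact ha'Y h4
  have hnc : s3 * r2 ≠ r2 * s3 := by
    intro hc
    have h3 := hB.TT_fix_of_comm hs3 hr2 hne hc hr2a
    rw [smul_sub, hs3K a' (hr'Z ha')] at h3
    have h4 : s3 • a = a := by
      have := sub_right_injective h3
      exact this
    exact hnp (hB.perp_of_fix_neg (hB.TT_smul_Im hs3 hs3y) h4)
  have hG2 := hB.good_odd hp hs3 hr2 hnc
  have h5 : y + a' ∈ YY V s3 r2 := by
    have : y + a' = (y + a) + (a' - a) := by abel
    rw [this]
    exact AddSubgroup.add_mem_sup hs3y hr2a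
  have h6 : y + a' ≠ 0 := by
    intro h
    apply ha'Y
    rw [← neg_eq_iff_add_eq_zero] at h
    rw [← h]
    exact neg_mem hy
  obtain ⟨g, hg, hgK, hgy⟩ := hB.exists_mem_Im hs3 hr2 hnc hG2 h5 h6
  refine ⟨g, hg, hgy, (hB.Im_le_YY hs3 hr2 hnc hG2 hgK).trans ?_, ?_⟩
  · refine sup_le ?_ ?_
    · exact (hB.Im_le_YY hs ht hst hG hs3K).trans le_sup_left
    · exact (hB.Im_le_YY hs1 hr hs1r hG1 hr2K).trans le_sup_right
  · rw [hB.card_Im_K hs3 hr2 hnc hg hgK, hB.card_Im_K hs ht hst hs3 hs3K]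

theorem comm_of_not_mem_KK_odd (hB : BinN p H V) (hp : p ≠ 2) {s t r : H} (hs : s ∈ TT H V)
    (ht : t ∈ TT H V) (hst : s * t ≠ t * s) (hr : r ∈ TT H V) (hrK : r ∉ KK V s t) :
    r * s = s * r := by
  by_contra hno
  have hG := hB.good_odd hp hs ht hst
  obtain ⟨r0, hr0, hr00⟩ := hB.Im_ne_bot hr.1
  obtain ⟨y, hy, z, hz, hyz⟩ := hB.exists_decomp hs ht hst r0
  have hsa : s • r0 ≠ r0 := fun h => hr00 (hB.eq_zero_of_noncomm hr (Ne.symm hno) hr0 h)
  have hy0 : y ≠ 0 := by
    rintro rfl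
    apply hsa
    rw [hyz, zero_add]
    exact mem_U.mp hz.1
  obtain ⟨s1, hs1, hs1K, hs1y⟩ := hB.exists_mem_Im hs ht hst hG hy hy0
  have hs1r' : s1 ≠ r := by rintro rfl; exact hrK hs1K
  have hz0 : z ≠ 0 := by
    rintro rfl
    rw [add_zero] at hyz
    rw [hyz] at hr0
    exact hs1r' (hB.TT_unique hs1 hr hy0 hs1y hr0)
  have hs1r : s1 * r ≠ r * s1 := by
    intro hc
    have h1 := hB.TT_fix_of_comm hs1 hr hs1r' hc hr0
    rw [hyz, smul_add, hB.TT_smul_Im hs1 hs1y, hs1K z hz] at h1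
    exact hB.neg_ne_self hp hy0 (add_right_cancel h1)
  have hG1 := hB.good_odd hp hs1 hr hs1r
  have hzA : z ∈ YY V s1 r := by
    have : z = (-y) + r0 := by rw [hyz]; abel
    rw [this]
    exact AddSubgroup.add_mem_sup (neg_mem hs1y) hr0
  obtain ⟨r', hr', hr'K, hr'z⟩ := hB.exists_mem_Im hs1 hr hs1r hG1 hzA hz0
  have hr'A : Im V r' ≤ YY V s1 r := hB.Im_le_YY hs1 hr hs1r hG1 hr'K
  have hr'Z : Im V r' ≤ ZZ V s t := by
    have aux : ∀ g : H, g ∈ TT H V → g ∈ KK V s t → Im V r' ≤ U V g := by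
      intro g hg hgK w hw
      have h1 : g * r' = r' * g := hB.TT_comm_of_fix hr' hz0 hr'z (hgK z hz)
      have h2 : g ≠ r' := by
        rintro rfl
        have h3 := hB.TT_smul_Im hg hr'z
        rw [hgK z hz] at h3
        exact hB.neg_ne_self hp hz0 h3.symm
      exact mem_U.mpr (hB.TT_fix_of_comm hg hr' h2 h1 hw)
    exact le_inf (aux s hs (left_mem_KK s t)) (aux t ht (right_mem_KK s t))
  have cr' : Nat.card (Im V r') = Nat.card (Im V s) := by
    rw [hB.card_Im_K hs1 hr hs1r hr' hr'K, hB.card_Im_K hs ht hst hs1 hs1K]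
  set q := Nat.card (Im V s) with hq
  have hq1 : 1 < q := hB.one_lt_card_Im hs.1
  let X : AddSubgroup V := YY V s t ⊔ Im V r'
  have hAX : YY V s1 r ≤ X := by
    -- count
    have h1 : Im V s1 ⊔ Im V r' ≤ YY V s1 r := sup_le le_sup_left hr'A
    have h2 : Im V s1 ⊔ Im V r' = YY V s1 r := by
      apply AddSubgroup.eq_of_le_of_card_ge h1
      have h3 : Disjoint (Im V s1) (Im V r') := by
        rw [AddSubgroup.disjoint_def]
        intro x hx hx'
        exact hB.Im_inf_ZZ hs ht hst hs1 hs1K hx (hr'Z hx')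
      have h4 : Nat.card (Im V s1) * Nat.card (Im V r') ≤ Nat.card ↥(Im V s1 ⊔ Im V r') := by
        rw [← Nat.card_prod]
        refine Nat.card_le_card_of_injective
          (fun x => (⟨x.1.1 + x.2.1, AddSubgroup.add_mem_sup x.1.2 x.2.2⟩ :
            ↥(Im V s1 ⊔ Im V r'))) ?_
        rintro ⟨a, b⟩ ⟨a', b'⟩ h
        have h5 : (a : V) + b = a' + b' := congrArg Subtype.val h
        have h6 : (a : V) - a' = b' - b := by
          rw [sub_eq_sub_iff_add_eq_add, h5]; abel
        have h7 : (a : V) - a' = 0 := by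
          rw [AddSubgroup.disjoint_def] at h3
          exact h3 (sub_mem a.2 a'.2) (h6 ▸ sub_mem b'.2 b.2)
        have h8 : (b' : V) - b = 0 := by rw [← h6, h7]
        exact Prod.ext (Subtype.ext (sub_eq_zero.mp h7)) (Subtype.ext (sub_eq_zero.mp h8).symm)
      rw [hB.card_YY hs1 hr hs1r]
      rw [cr', hB.card_Im_K hs ht hst hs1 hs1K] at h4
      rw [hB.card_Im_K hs ht hst hs1 hs1K]
      exact h4
    rw [← h2]
    exact sup_le ((hB.Im_le_YY hs ht hst hG hs1K).trans le_sup_left) le_sup_right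
  refine hB.no_cube hp X q hq1 ?_ ?_
  · have hbij : Function.Bijective (fun x : Im V r' × YY V s t =>
        (⟨x.2.1 + x.1.1, AddSubgroup.add_mem_sup x.2.2 x.1.2⟩ : X)) := by
      constructor
      · rintro ⟨a, b⟩ ⟨a', b'⟩ h
        have h5 : (b : V) + a = b' + a' := congrArg Subtype.val h
        have h6 : (b : V) - b' = a' - a := by
          rw [sub_eq_sub_iff_add_eq_add, h5]; abel
        have h7 : (b : V) - b' = 0 :=
          hB.YY_inf_ZZ hs ht hst (sub_mem b.2 b'.2) (h6 ▸ sub_mem (hr'Z a'.2) (hr'Z a.2))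
        have h8 : (a' : V) - a = 0 := by rw [← h6, h7]
        exact Prod.ext (Subtype.ext (sub_eq_zero.mp h8).symm) (Subtype.ext (sub_eq_zero.mp h7))
      · rintro ⟨v, hv⟩
        obtain ⟨b, hb, a, ha, rfl⟩ := AddSubgroup.mem_sup.mp hv
        exact ⟨⟨⟨a, ha⟩, ⟨b, hb⟩⟩, rfl⟩
    rw [← Nat.card_congr (Equiv.ofBijective _ hbij), Nat.card_prod, cr', hB.card_YY hs ht hst]
  · have hXX : YY V s t ⊔ YY V s1 r ≤ X := sup_le le_sup_left hAX
    intro x hx hx0
    obtain ⟨y', hy', a', ha', rfl⟩ := AddSubgroup.mem_sup.mp hx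
    by_cases ha'0 : a' = 0
    · subst ha'0
      rw [add_zero] at hx0 ⊢
      obtain ⟨g, hg, hgK, hgy⟩ := hB.exists_mem_Im hs ht hst hG hy' hx0
      exact ⟨g, hg, hgy, (hB.Im_le_YY hs ht hst hG hgK).trans le_sup_left,
        hB.card_Im_K hs ht hst hg hgK⟩
    by_cases hy'0 : y' = 0
    · subst hy'0
      rw [zero_add]
      exact ⟨r', hr', ha', le_sup_right, cr'⟩
    have : ∃ a ∈ Im V s1, ¬ Perp H (y' + a) a := by
      by_cases hfix : s1 • y' = y'
      · refine ⟨y, hs1y, fun hP => hy0 (hB.perp_self hp ?_)⟩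
        have h1 : Perp H y' y := hB.perp_symm (hB.perp_of_fix_neg (hB.TT_smul_Im hs1 hs1y) hfix)
        have h2 := hB.perp_add hp hP (hB.perp_neg hp h1)
        have h3 : y' + y + -y' = y := by abel
        rwa [h3] at h2
      · refine ⟨s1 • y' - y', sub_mem_Im s1 y', fun hP => hfix ?_⟩
        set a := s1 • y' - y' with ha
        have h0 : s1 • a = -a := hB.TT_smul_Im hs1 (sub_mem_Im s1 y')
        have e1 : y' + a = s1 • y' := by rw [ha]; abel
        have h1 : Perp H y' a := by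
          obtain ⟨k, hk⟩ := hP
          unfold Perp
          have e2 : s1 • (y' + a + a) = y' - a := by
            rw [e1, smul_add, ← mul_smul, hB.TT_sq hs1, one_smul, h0]; abel
          have e3 : s1 • (y' + a - a) = y' + a := by
            rw [e1, smul_sub, ← mul_smul, hB.TT_sq hs1, one_smul, h0, ← e1]; abel
          have e4 := (Cj.smul_smul s1 ⟨k, hk⟩).symm
          rwa [e2, e3] at e4
        have h2 := hB.perp_add hp hP (hB.perp_neg hp h1)
        have h3 : y' + a + -y' = a := by abel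
        rw [h3] at h2
        exact sub_eq_zero.mp (hB.perp_self hp h2)
    obtain ⟨a, ha, hnp⟩ := this
    obtain ⟨g, hg, h1, h2, h3⟩ := hB.exists_Im_of_plane hp hs ht hst hs1 hs1K hr hs1r hr' hr'A
      hr'Z hy' ha ha' hnp ha'0
    exact ⟨g, hg, h1, h2.trans hXX, h3⟩

/-- swapping commuting conjugates of an element with minimal image -/
theorem exists_swap_odd (hB : BinN p H V) (hp : p ≠ 2) {s : H} (hs : s ∈ TT H V)
    (hmin : ∀ k : H, k ≠ 1 → Nat.card (Im V s) ≤ Nat.card (Im V k)) {h : H}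
    (hne : h * s * h⁻¹ ≠ s) (hc : s * (h * s * h⁻¹) = (h * s * h⁻¹) * s) :
    ∃ τ ∈ TT H V, τ * s * τ⁻¹ = h * s * h⁻¹ := by
  set s' := h * s * h⁻¹ with hs'
  have hs'T : s' ∈ TT H V := TT_conj hs h
  obtain ⟨v, hv, hv0⟩ := hB.Im_ne_bot hs.1
  have hv' : h • v ∈ Im V s' := conj_mem_Im hv
  set v' := h • v with hv'def
  have hv'0 : v' ≠ 0 := by
    rw [hv'def]; exact (smul_ne_zero_iff_ne _).mpr hv0
  obtain ⟨τ, hτ, hτv, hτP, hτw⟩ := hB.exists_perp_inv hp (v' - v)
  have t1 : τ • v = v' := by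
    have := (hτv v).mp (by rw [add_sub_cancel]; exact ⟨h, rfl⟩)
    rwa [add_sub_cancel] at this
  have t2 : τ • v' = v := by rw [← t1, ← mul_smul, hτ, one_smul]
  have hτs : τ * s * τ⁻¹ = s' := by
    refine hB.TT_unique (TT_conj hs τ) hs'T hv'0 ?_ hv'
    have := conj_mem_Im (k := τ) hv
    rwa [t1] at this
  have hτ1 : τ ≠ 1 := by
    rintro rfl
    apply hne
    rw [← hτs]; group
  refine ⟨τ, ?_, hτs⟩
  -- the fixed space of `τ` is large
  set W : AddSubgroup V := U V s ⊓ U V s' with hW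
  have hWτ : W ≤ U V τ := by
    intro u hu
    have h1 : Perp H v u := hB.perp_of_fix_neg (hB.TT_smul_Im hs hv) (mem_U.mp hu.1)
    have h2 : Perp H v' u := hB.perp_of_fix_neg (hB.TT_smul_Im hs'T hv') (mem_U.mp hu.2)
    have h3 := hB.perp_add hp h2 (hB.perp_neg hp h1)
    rw [← sub_eq_add_neg] at h3
    exact mem_U.mpr ((hτP u).mp (hB.perp_symm h3))
  have hcard : Nat.card (Im V s) * Nat.card W ≤ Nat.card (U V τ) := by
    rw [← Nat.card_prod]
    refine Nat.card_le_card_of_injective (fun x : Im V s × W =>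
      (⟨x.1.1 + τ • x.1.1 + x.2.1, ?_⟩ : U V τ)) ?_
    · rw [mem_U, smul_add, smul_add, ← mul_smul, hτ, one_smul, mem_U.mp (hWτ x.2.2)]
      abel
    · rintro ⟨a, u⟩ ⟨a', u'⟩ heq
      have h1 : (a : V) + τ • (a : V) + u = a' + τ • (a' : V) + u' := congrArg Subtype.val heq
      have aux : ∀ (b : Im V s) (w : W), s • ((b : V) + τ • (b : V) + w) = -b + τ • (b : V) + w := by
        intro b w
        rw [smul_add, smul_add, hB.TT_smul_Im hs b.2, mem_U.mp w.2.1]
        have h3 : τ • (b : V) ∈ Im V s' := by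
          rw [← hτs]; exact conj_mem_Im b.2
        rw [hB.TT_fix_of_comm hs hs'T hne.symm hc h3]
      have h2 : s • ((a : V) + τ • (a : V) + u) = s • ((a' : V) + τ • (a' : V) + u') := by rw [h1]
      rw [aux, aux] at h2
      have h3 : ((a : V) - a') + ((a : V) - a') = 0 := by
        have h4 : ((a : V) - a') + ((a : V) - a') =
          ((a : V) + τ • (a : V) + u - (a' + τ • (a' : V) + u'))
            - ((-a : V) + τ • (a : V) + u - (-a' + τ • (a' : V) + u')) := by abel
        rw [h4, h1, h2, sub_self, sub_self, sub_self]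
      have h5 : (a : V) = a' := sub_eq_zero.mp (hB.two_nsmul_eq_zero hp h3)
      have h6 : (u : V) = u' := by rw [h5] at h1; exact add_left_cancel h1
      exact Prod.ext (Subtype.ext h5) (Subtype.ext h6)
  have hq : Nat.card (Im V s') = Nat.card (Im V s) := by
    have h1 := card_U_mul_card_Im (V := V) s
    have h2 := card_U_mul_card_Im (V := V) s'
    have h3 : Nat.card (U V s') = Nat.card (U V s) := by
      exact (Nat.card_congr ⟨fun x => ⟨h • x.1, conj_mem_U.mpr x.2⟩,
        fun x => ⟨h⁻¹ • x.1, mem_U_conj.mp x.2⟩, fun x => by simp, fun x => by simp⟩).symm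
    rw [h3, ← h1] at h2
    have h4 : 0 < Nat.card (U V s) := Nat.card_pos
    exact Nat.eq_of_mul_eq_mul_left h4 h2
  have hWV : Nat.card V ≤ Nat.card (Im V s) * Nat.card (Im V s) * Nat.card W := by
    let f : V →+ V × V := (dl (V := V) s).prod (dl (V := V) s')
    have h1 := f.ker.card_mul_index
    rw [AddSubgroup.index_ker] at h1
    have h2 : f.ker = W := by
      ext x
      rw [AddMonoidHom.mem_ker]
      change (s • x - x, s' • x - x) = 0 ↔ _
      rw [Prod.mk_eq_zero, sub_eq_zero, sub_eq_zero, hW, AddSubgroup.mem_inf, mem_U, mem_U]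
    have h3 : Nat.card f.range ≤ Nat.card (Im V s) * Nat.card (Im V s') := by
      rw [← Nat.card_prod]
      have m1 : ∀ x : f.range, x.1.1 ∈ Im V s := by
        rintro ⟨x, y, rfl⟩; exact sub_mem_Im s y
      have m2 : ∀ x : f.range, x.1.2 ∈ Im V s' := by
        rintro ⟨x, y, rfl⟩; exact sub_mem_Im s' y
      refine Nat.card_le_card_of_injective (fun x : f.range =>
        ((⟨x.1.1, m1 x⟩, ⟨x.1.2, m2 x⟩) : Im V s × Im V s')) ?_
      intro x y hxy
      rw [Prod.mk.injEq, Subtype.mk.injEq, Subtype.mk.injEq] at hxy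
      exact Subtype.ext (Prod.ext hxy.1 hxy.2)
    rw [h2] at h1
    rw [← h1, mul_comm]
    rw [hq] at h3
    exact Nat.mul_le_mul_right _ h3
  have hU : Nat.card (U V s) ≤ Nat.card (U V τ) := by
    have h1 := card_U_mul_card_Im (V := V) s
    have h2 : Nat.card (U V s) * Nat.card (Im V s) ≤ Nat.card (U V τ) * Nat.card (Im V s) := by
      rw [h1]
      refine hWV.trans ?_
      have := Nat.mul_le_mul_right (Nat.card (Im V s)) hcard
      calc Nat.card (Im V s) * Nat.card (Im V s) * Nat.card W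
          = Nat.card (Im V s) * Nat.card W * Nat.card (Im V s) := by ring
        _ ≤ _ := this
    exact Nat.le_of_mul_le_mul_right h2 Nat.card_pos
  refine ⟨hτ1, fun k hk hle => ?_⟩
  have h1 : Nat.card (U V k) ≤ Nat.card (U V s) := by
    have h1 := card_U_mul_card_Im (V := V) s
    have h2 := card_U_mul_card_Im (V := V) k
    have h3 := hmin k hk
    by_contra hlt
    push Not at hlt
    have h4 : 0 < Nat.card (Im V s) := Nat.card_pos
    have h5 : Nat.card (U V s) * Nat.card (Im V s) < Nat.card (U V k) * Nat.card (Im V k) :=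
      lt_of_lt_of_le (Nat.mul_lt_mul_of_pos_right hlt h4) (Nat.mul_le_mul_left _ h3)
    omega
  exact (AddSubgroup.eq_of_le_of_card_ge hle (h1.trans hU)).ge

/-- **The case `p` odd.** -/
theorem exists_pair_odd (hB : BinN p H V) (hp : p ≠ 2) (hne : ∃ g : H, g ≠ 1) :
    (Nat.card V = p ∧ Nat.card H = 2) ∨
    ∃ s ∈ TT H V, ∃ t ∈ TT H V, s * t ≠ t * s ∧ YY V s t = ⊤ := by
  obtain ⟨s, hs1, hmin⟩ := Set.exists_min_image {g : H | g ≠ 1} (fun g => Nat.card (Im V g))
    (Set.toFinite _) hne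
  have hs1 : s ≠ 1 := hs1
  have hmin : ∀ k : H, k ≠ 1 → Nat.card (Im V s) ≤ Nat.card (Im V k) := fun k hk => hmin k hk
  have hUmax : ∀ k : H, k ≠ 1 → Nat.card (U V k) ≤ Nat.card (U V s) := by
    intro k hk
    have h1 := card_U_mul_card_Im (V := V) s
    have h2 := card_U_mul_card_Im (V := V) k
    have h3 := hmin k hk
    by_contra hlt
    push Not at hlt
    have h4 : 0 < Nat.card (Im V s) := Nat.card_pos
    have h5 : Nat.card (U V s) * Nat.card (Im V s) < Nat.card (U V k) * Nat.card (Im V k) :=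
      lt_of_lt_of_le (Nat.mul_lt_mul_of_pos_right hlt h4) (Nat.mul_le_mul_left _ h3)
    omega
  have hs : s ∈ TT H V :=
    ⟨hs1, fun k hk hle => (AddSubgroup.eq_of_le_of_card_ge hle (hUmax k hk)).ge⟩
  by_cases hcent : ∀ h : H, h * s * h⁻¹ = s
  · left
    have hU : U V s = ⊥ := by
      rcases hB.irr (U V s) (by
        intro h m hm
        have := (conj_mem_U (k := h)).mpr hm
        rwa [hcent h] at this) with h | h
      · exact h
      · exfalso
        exact hs1 (hB.faith s fun v => mem_U.mp (h ▸ AddSubgroup.mem_top v))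
    have hall : ∀ k : H, k ≠ 1 → ∀ v : V, k • v = -v := by
      intro k hk
      have h1 : U V k = ⊥ := by
        have h2 := hUmax k hk
        rw [hU] at h2
        have h3 : Nat.card (⊥ : AddSubgroup V) = 1 := by simp
        rw [h3] at h2
        exact AddSubgroup.eq_bot_of_card_le _ h2
      have h2 : Im V k = ⊤ := by
        have h3 := card_U_mul_card_Im (V := V) k
        rw [h1] at h3
        have h4 : Nat.card (⊥ : AddSubgroup V) = 1 := by simp
        rw [h4, one_mul] at h3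
        exact AddSubgroup.eq_top_of_card_eq _ h3
      have h3 : k ∈ TT H V := ⟨hk, fun l hl hle => by
        have h5 := hUmax l hl
        rw [hU] at h5
        have h6 : Nat.card (⊥ : AddSubgroup V) = 1 := by simp
        rw [h6] at h5
        rw [AddSubgroup.eq_bot_of_card_le _ h5]; exact bot_le⟩
      intro v
      exact hB.TT_smul_Im h3 (h2 ▸ AddSubgroup.mem_top v)
    have hH : ∀ k : H, k = 1 ∨ k = s := by
      intro k
      by_cases hk : k = 1
      · exact Or.inl hk
      · right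
        have : s⁻¹ * k = 1 := by
          apply hB.faith
          intro v
          rw [mul_smul, hall k hk, ← hall s hs1, inv_smul_smul]
        rw [← mul_left_cancel_iff (a := s⁻¹), this]; group
    constructor
    · -- every subgroup is invariant
      have hinv : ∀ M : AddSubgroup V, M = ⊥ ∨ M = ⊤ := by
        intro M
        apply hB.irr
        intro h m hm
        rcases hH h with rfl | rfl
        · rwa [one_smul]
        · rw [hall _ hs1]; exact M.neg_mem hm
      have : ∃ v : V, v ≠ 0 := by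
        obtain ⟨w, _, hw⟩ := hB.Im_ne_bot hs1
        exact ⟨w, hw⟩
      obtain ⟨v, hv⟩ := this
      have h1 : AddSubgroup.zmultiples v = ⊤ := by
        rcases hinv (AddSubgroup.zmultiples v) with h | h
        · rw [AddSubgroup.zmultiples_eq_bot] at h; exact absurd h hv
        · exact h
      have h2 : addOrderOf v = p := by
        have := Fact.mk hB.prime
        exact addOrderOf_eq_prime (hB.exp v) hv
      rw [← h2, ← Nat.card_zmultiples, h1]
      exact (Nat.card_congr (Equiv.Set.univ V)).symm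
    · have : Nat.card H = ({1, s} : Set H).ncard := by
        have h1 : ({1, s} : Set H) = Set.univ := by
          ext k; simp only [Set.mem_insert_iff, Set.mem_singleton_iff, Set.mem_univ, iff_true]
          exact hH k
        rw [h1, Set.ncard_univ]
      rw [this, Set.ncard_pair hs1.symm]
  · right
    push Not at hcent
    obtain ⟨h, hh⟩ := hcent
    obtain ⟨t, ht, hst⟩ : ∃ t ∈ TT H V, s * t ≠ t * s := by
      by_cases hc : s * (h * s * h⁻¹) = (h * s * h⁻¹) * s
      · obtain ⟨τ, hτ, hτs⟩ := hB.exists_swap_odd hp hs hmin hh hc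
        refine ⟨τ, hτ, fun hcc => hh ?_⟩
        rw [← hτs, ← hcc]; group
      · exact ⟨_, TT_conj hs h, hc⟩
    refine ⟨s, hs, t, ht, hst, hB.YY_eq_top_of_conj hs ht hst (hB.good_odd hp hs ht hst) ?_⟩
    intro k
    by_contra hno
    have hc := hB.comm_of_not_mem_KK_odd hp hs ht hst (TT_conj hs k) hno
    have hne : k * s * k⁻¹ ≠ s := by
      intro h; rw [h] at hno; exact hno (left_mem_KK s t)
    obtain ⟨τ, hτ, hτs⟩ := hB.exists_swap_odd hp hs hmin hne hc.symm
    have hτK : τ ∈ KK V s t := by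
      by_contra hn
      have h1 := hB.comm_of_not_mem_KK_odd hp hs ht hst hτ hn
      apply hne
      rw [← hτs, h1]; group
    apply hno
    rw [← hτs]
    exact (KK V s t).mul_mem ((KK V s t).mul_mem hτK (left_mem_KK s t)) ((KK V s t).inv_mem hτK)

end BinN

end Cfsg.Agent.H900.BinLin
end

-- part: H900/BinLin/Fld
section
/-!
# Identification with a field
-/

set_option autoImplicit false
set_option linter.unusedSectionVars false
set_option linter.unusedVariables false

namespace Cfsg.Agent.H900.BinLin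

variable {H V : Type*} [Group H] [AddCommGroup V] [DistribMulAction H V] [Finite V]

theorem pow_arith {p c m : ℕ} (hp : 1 < p) (hc : 0 < c) (hm : 0 < m) (hm2 : m ≤ c + c)
    (hd : (p ^ c + 1) ∣ (p ^ m - 1)) : m = c + c := by
  have h0 : 1 < p ^ m := Nat.one_lt_pow (by omega) hp
  rcases le_or_gt m c with h | h
  · exfalso
    have h1 := Nat.le_of_dvd (by omega) hd
    have h2 : p ^ m ≤ p ^ c := Nat.pow_le_pow_right (by omega) h
    omega
  · obtain ⟨d, rfl⟩ : ∃ d, m = c + d := ⟨m - c, by omega⟩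
    have h1 : p ^ (c + d) - 1 + (p ^ d + 1) = (p ^ c + 1) * p ^ d := by
      rw [pow_add] at h0 ⊢
      have : p ^ c * p ^ d - 1 + (p ^ d + 1) = p ^ c * p ^ d + p ^ d := by omega
      rw [this]; ring
    have h2 : (p ^ c + 1) ∣ (p ^ d + 1) := by
      have h3 : (p ^ c + 1) ∣ p ^ (c + d) - 1 + (p ^ d + 1) := h1 ▸ Dvd.intro _ rfl
      exact (Nat.dvd_add_right hd).mp h3
    have h3 := Nat.le_of_dvd (by omega) h2
    have h4 : c ≤ d := by
      by_contra hlt
      push Not at hlt
      have := Nat.pow_lt_pow_right hp hlt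
      omega
    omega

/-- irreducibility under a large semiregular group -/
theorem irr_of_card {p c : ℕ} (hp : p.Prime) (hc : 0 < c) (P : Subgroup H)
    (hPc : Nat.card P = p ^ c + 1) (hV : Nat.card V = p ^ c * p ^ c)
    (hfree : ∀ k ∈ P, ∀ x : V, x ≠ 0 → k • x = x → k = 1) (M : AddSubgroup V)
    (hM : ∀ k ∈ P, ∀ m ∈ M, k • m ∈ M) : M = ⊥ ∨ M = ⊤ := by
  classical
  by_cases hbot : M = ⊥
  · exact Or.inl hbot
  right
  obtain ⟨m, hm2, hm⟩ : ∃ m ≤ c + c, Nat.card M = p ^ m := by
    rw [← Nat.dvd_prime_pow hp, pow_add, ← hV]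
    exact AddSubgroup.card_addSubgroup_dvd_card M
  have hm0 : 0 < m := by
    rcases Nat.eq_zero_or_pos m with h | h
    · exfalso; apply hbot
      rw [h, pow_zero] at hm
      exact AddSubgroup.eq_bot_of_card_le _ hm.le
    · exact h
  have hdiv : (p ^ c + 1) ∣ (p ^ m - 1) := by
    let X' := {x : V // x ∈ M ∧ x ≠ 0}
    have cX : Nat.card X' = p ^ m - 1 := by
      have h1 : Nat.card X' = ((M : Set V) \ {0}).ncard := by
        rw [← Nat.card_coe_set_eq]; rfl
      rw [h1, Set.ncard_sdiff (by simp) (Set.toFinite _), ← Nat.card_coe_set_eq,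
        Set.ncard_singleton]
      change Nat.card M - 1 = _
      rw [hm]
    let S : Setoid X' := ⟨fun x y => ∃ k ∈ P, k • x.1 = y.1, fun x => ⟨1, P.one_mem, one_smul _ _⟩,
      by
        rintro x y ⟨k, hk, h⟩
        exact ⟨k⁻¹, P.inv_mem hk, by rw [← h, inv_smul_smul]⟩, by
        rintro x y z ⟨k, hk, h⟩ ⟨l, hl, h'⟩
        exact ⟨l * k, P.mul_mem hl hk, by rw [mul_smul, h, h']⟩⟩
    have h1 : Nat.card X' = Nat.card (Quotient S) * (p ^ c + 1) := by
      refine card_of_unique (fun (r : Quotient S) (x : X') => Quotient.mk S x = r)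
        (fun x => ⟨Quotient.mk S x, rfl, fun r hr => hr.symm⟩) _ ?_
      intro r
      induction r using Quotient.inductionOn with
      | h x =>
        rw [← hPc]
        symm
        refine Nat.card_congr (Equiv.ofBijective (fun k : P =>
          (⟨⟨(k : H) • x.1, hM k k.2 _ x.2.1, (smul_ne_zero_iff_ne _).mpr x.2.2⟩,
            Quotient.sound (s := S) ⟨(k : H)⁻¹, P.inv_mem k.2, inv_smul_smul _ _⟩⟩ :
            {y : X' // Quotient.mk S y = Quotient.mk S x})) ⟨?_, ?_⟩)
        · intro k l hkl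
          have h1 : (k : H) • x.1 = (l : H) • x.1 := congrArg (fun z => z.1.1) hkl
          have h2 : ((l : H)⁻¹ * k) • x.1 = x.1 := by rw [mul_smul, h1, inv_smul_smul]
          have h3 := hfree _ (P.mul_mem (P.inv_mem l.2) k.2) x.1 x.2.2 h2
          apply Subtype.ext
          rw [← mul_left_cancel_iff (a := (l : H)⁻¹), h3, inv_mul_cancel]
        · rintro ⟨y, hy⟩
          obtain ⟨k, hk, hky⟩ := Quotient.exact hy.symm
          exact ⟨⟨k, hk⟩, Subtype.ext (Subtype.ext hky)⟩
    rw [← cX, h1]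
    exact Dvd.intro_left _ rfl
  have := pow_arith hp.one_lt hc hm0 hm2 hdiv
  apply AddSubgroup.eq_top_of_card_eq
  rw [hm, this, hV, pow_add]

/-- the linear conclusion -/
def Concl (H V : Type*) [Group H] [AddCommGroup V] [DistribMulAction H V] : Prop :=
  ∃ (F E : Type) (_ : Field F) (_ : Fintype F) (_ : Field E) (_ : Fintype E) (_ : Algebra F E)
    (f : V ≃+ E), Module.finrank F E = 2 ∧
    (∀ h : H, ∃ (a : E) (φ : E ≃ₐ[F] E), Algebra.norm F a = 1 ∧ ∀ v : V, f (h • v) = a * φ (f v)) ∧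
    (∀ (a : E) (φ : E ≃ₐ[F] E), Algebra.norm F a = 1 → ∃ h : H, ∀ v : V, f (h • v) = a * φ (f v))

/-- existence of the big field -/
theorem exists_field {p c : ℕ} (hp : p.Prime) (hc : 0 < c) (P : Subgroup H)
    (hPc : Nat.card P = p ^ c + 1) (hV : Nat.card V = p ^ c * p ^ c)
    (hfree : ∀ k ∈ P, ∀ x : V, x ≠ 0 → k • x = x → k = 1)
    (hcomm : ∀ a ∈ P, ∀ b ∈ P, a * b = b * a) (v0 : V) (hv0 : v0 ≠ 0) :
    ∃ (E : Type) (_ : Field E) (_ : Fintype E) (f : V ≃+ E) (a : H → E),
      Nat.card E = p ^ c * p ^ c ∧ f v0 = 1 ∧ (∀ k ∈ P, ∀ v, f (k • v) = a k * f v) ∧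
      (∀ M : AddSubgroup E, (∀ k ∈ P, a k ∈ M) → M = ⊤) := by
  classical
  have hirr := irr_of_card (V := V) hp hc P hPc hV hfree
  have : Fact p.Prime := ⟨hp⟩
  let S : Set (AddMonoid.End V) := (DistribMulAction.toAddMonoidEnd H V) '' (P : Set H)
  have hcomm' : ∀ x ∈ S, ∀ y ∈ S, x * y = y * x := by
    rintro _ ⟨a, ha, rfl⟩ _ ⟨b, hb, rfl⟩
    rw [← map_mul, ← map_mul, hcomm a ha b hb]
  have hC := Subring.isMulCommutative_closure hcomm'
  set R := Subring.closure S with hR
  have hRc : ∀ x ∈ R, ∀ y ∈ R, x * y = y * x := fun x hx y hy => setLike_mul_comm hx hy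
  have hPR : ∀ k ∈ P, DistribMulAction.toAddMonoidEnd H V k ∈ R := fun k hk =>
    Subring.subset_closure ⟨k, hk, rfl⟩
  have hker : ∀ x ∈ R, x ≠ 0 → ∀ v : V, x v = 0 → v = 0 := by
    intro x hx hx0 v hv
    let Kx : AddSubgroup V :=
      { carrier := {v | x v = 0}
        zero_mem' := map_zero x
        add_mem' := by
          intro a b ha hb
          change x (a + b) = 0
          have ha : x a = 0 := ha
          have hb : x b = 0 := hb
          rw [map_add, ha, hb, add_zero]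
        neg_mem' := by
          intro a ha
          change x (-a) = 0
          have ha : x a = 0 := ha
          rw [map_neg, ha, neg_zero] }
    rcases hirr Kx (by
      intro k hk m hm
      have h1 := congrArg (fun z : AddMonoid.End V => z m) (hRc x hx _ (hPR k hk))
      change x (k • m) = k • (x m) at h1
      change x (k • m) = 0
      rw [h1]
      have : x m = 0 := hm
      rw [this, smul_zero]) with h | h
    · have : v ∈ Kx := hv
      rw [h] at this
      exact this
    · exfalso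
      apply hx0
      ext w
      have : w ∈ Kx := by rw [h]; trivial
      exact this
  let _ : CommRing R := { (inferInstance : Ring R) with
    mul_comm := fun x y => Subtype.ext (hRc x x.2 y y.2) }
  have hfinE : Finite (AddMonoid.End V) :=
    Finite.of_injective (fun f : AddMonoid.End V => (f : V → V)) DFunLike.coe_injective
  have hfin : Finite R := inferInstance
  have hnt : Nontrivial R := by
    refine ⟨0, 1, fun h => hv0 ?_⟩
    have := congrArg (fun z : R => (z : AddMonoid.End V) v0) h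
    exact this.symm
  have hdom : IsDomain R := by
    have : NoZeroDivisors R := ⟨by
      intro x y hxy
      by_contra hno
      push Not at hno
      apply hno.2
      apply Subtype.ext
      ext v
      have h1 : (x : AddMonoid.End V) ((y : AddMonoid.End V) v) = 0 :=
        congrArg (fun z : R => (z : AddMonoid.End V) v) hxy
      exact hker x x.2 (fun h => hno.1 (Subtype.ext h)) _ h1⟩
    exact NoZeroDivisors.to_isDomain R
  -- evaluation
  let ev : R →+ V :=
    { toFun := fun r => (r : AddMonoid.End V) v0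
      map_zero' := rfl
      map_add' := fun x y => rfl }
  have hinj : Function.Injective ev := by
    rw [injective_iff_map_eq_zero]
    intro x hx
    by_contra h
    exact hv0 (hker x x.2 (fun h' => h (Subtype.ext h')) v0 hx)
  have hsurj : Function.Surjective ev := by
    rw [← AddMonoidHom.range_eq_top]
    rcases hirr ev.range (by
      rintro k hk _ ⟨x, rfl⟩
      exact ⟨⟨_, R.mul_mem (hPR k hk) x.2⟩, rfl⟩) with h | h
    · exfalso
      have : v0 ∈ ev.range := ⟨1, rfl⟩
      rw [h] at this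
      exact hv0 this
    · exact h
  let ve : R ≃+ V := AddEquiv.ofBijective ev ⟨hinj, hsurj⟩
  have hcR : Nat.card R = p ^ (c + c) := by
    rw [Nat.card_congr ve.toEquiv, hV, pow_add]
  let _ : Field R := (Finite.isField_of_domain R).toField
  let _ : Fintype R := Fintype.ofFinite R
  let _ : Fintype (GaloisField p (c + c)) := Fintype.ofFinite _
  have hcE : Nat.card (GaloisField p (c + c)) = p ^ (c + c) := GaloisField.card p _ (by omega)
  let θ : R ≃+* GaloisField p (c + c) := FiniteField.ringEquivOfCardEq (by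
    rw [← Nat.card_eq_fintype_card, ← Nat.card_eq_fintype_card, hcR, hcE])
  refine ⟨GaloisField p (c + c), inferInstance, inferInstance, ve.symm.trans θ.toAddEquiv,
    fun k => if hk : k ∈ P then θ ⟨_, hPR k hk⟩ else 0, ?_, ?_, ?_, ?_⟩
  · rw [hcE, pow_add]
  · change θ (ve.symm v0) = 1
    have : ve.symm v0 = 1 := by rw [AddEquiv.symm_apply_eq]; rfl
    rw [this, map_one]
  · intro k hk v
    change θ (ve.symm (k • v)) = (if hk : k ∈ P then θ ⟨_, hPR k hk⟩ else 0) * θ (ve.symm v)
    rw [dif_pos hk, ← map_mul]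
    congr 1
    rw [AddEquiv.symm_apply_eq]
    change k • v = k • (ve (ve.symm v))
    rw [AddEquiv.apply_symm_apply]
  · intro M hM
    -- `R` is the additive closure of `P`
    have h1 : ∀ x (hx : x ∈ R), θ ⟨x, hx⟩ ∈ M := by
      intro x hx
      have h2 : x ∈ AddSubgroup.closure S := by
        rw [hR, Subring.mem_closure_iff] at hx
        have h3 : ((Submonoid.closure S : Submonoid (AddMonoid.End V)) : Set (AddMonoid.End V)) = S := by
          let Sm : Submonoid (AddMonoid.End V) := P.toSubmonoid.map (DistribMulAction.toAddMonoidEnd H V)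
          have h4 : S = (Sm : Set (AddMonoid.End V)) := rfl
          rw [h4, Submonoid.closure_eq]
        rwa [h3] at hx
      have h3 : ∀ (x) (hx : x ∈ AddSubgroup.closure S), ∃ (hxR : x ∈ R), θ ⟨x, hxR⟩ ∈ M := by
        intro x hx
        induction hx using AddSubgroup.closure_induction with
        | mem x hx =>
          obtain ⟨k, hk, rfl⟩ := hx
          have hk : k ∈ P := hk
          refine ⟨hPR k hk, ?_⟩
          have := hM k hk
          dsimp only at this
          rwa [dif_pos hk] at this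
        | zero => exact ⟨R.zero_mem, by
            have : (⟨0, R.zero_mem⟩ : R) = 0 := rfl
            rw [this, map_zero]; exact M.zero_mem⟩
        | add x y _ _ hx hy =>
          obtain ⟨hx1, hx2⟩ := hx
          obtain ⟨hy1, hy2⟩ := hy
          refine ⟨R.add_mem hx1 hy1, ?_⟩
          have : (⟨x + y, R.add_mem hx1 hy1⟩ : R) = ⟨x, hx1⟩ + ⟨y, hy1⟩ := rfl
          rw [this, map_add]
          exact M.add_mem hx2 hy2
        | neg x _ hx =>
          obtain ⟨hx1, hx2⟩ := hx
          refine ⟨R.neg_mem hx1, ?_⟩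
          have : (⟨-x, R.neg_mem hx1⟩ : R) = -⟨x, hx1⟩ := rfl
          rw [this, map_neg]
          exact M.neg_mem hx2
      obtain ⟨_, h5⟩ := h3 x h2
      exact h5
    rw [eq_top_iff]
    intro y _
    have := h1 _ (θ.symm y).2
    rwa [Subtype.coe_eta, RingEquiv.apply_symm_apply] at this


theorem concl_of_data {p c : ℕ} (hp : p.Prime) (hc : 0 < c) (P : Subgroup H)
    (hPc : Nat.card P = p ^ c + 1) (hV : Nat.card V = p ^ c * p ^ c)
    (faith : ∀ h : H, (∀ v : V, h • v = v) → h = 1)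
    (hfree : ∀ k ∈ P, ∀ x : V, x ≠ 0 → k • x = x → k = 1)
    (hcomm : ∀ a ∈ P, ∀ b ∈ P, a * b = b * a) (s : H) (hs1 : s ≠ 1) (hs : s * s = 1)
    (hinv : ∀ k ∈ P, s * k = k⁻¹ * s) (hH : ∀ h : H, h ∈ P ∨ h * s ∈ P)
    (v0 : V) (hv0 : v0 ≠ 0) (hsv0 : s • v0 = v0) : Concl H V := by
  classical
  obtain ⟨E, _, _, f, a, hcE, hf0, hfa, hM⟩ := exists_field hp hc P hPc hV hfree hcomm v0 hv0
  -- the automorphism
  let σ' : E ≃+ E := (f.symm.trans (DistribMulAction.toAddEquiv V s)).trans f
  have hσ' : ∀ x : E, σ' x = f (s • f.symm x) := fun x => rfl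
  have hσf : ∀ v : V, σ' (f v) = f (s • v) := fun v => by rw [hσ', AddEquiv.symm_apply_apply]
  have hσ1 : σ' 1 = 1 := by rw [← hf0, hσf, hsv0]
  have hfk : ∀ k ∈ P, f (k • v0) = a k := fun k hk => by rw [hfa k hk, hf0, mul_one]
  have hσa : ∀ k ∈ P, ∀ y, σ' (a k * y) = a k⁻¹ * σ' y := by
    intro k hk y
    obtain ⟨v, rfl⟩ := f.surjective y
    rw [← hfa k hk, hσf, hσf, ← hfa _ (P.inv_mem hk), ← mul_smul, ← mul_smul, hinv k hk]
  have hσa1 : ∀ k ∈ P, σ' (a k) = a k⁻¹ := by
    intro k hk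
    have := hσa k hk 1
    rwa [mul_one, hσ1, mul_one] at this
  have hσmul : ∀ x y, σ' (x * y) = σ' x * σ' y := by
    intro x y
    let M : AddSubgroup E :=
      { carrier := {x | ∀ y, σ' (x * y) = σ' x * σ' y}
        zero_mem' := by intro y; rw [zero_mul, map_zero, zero_mul]
        add_mem' := by
          intro a b ha hb y
          have ha := ha y
          have hb := hb y
          rw [add_mul, map_add, ha, hb, map_add, add_mul]
        neg_mem' := by
          intro a ha y
          have ha := ha y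
          rw [neg_mul, map_neg, ha, map_neg, neg_mul] }
    have h1 : M = ⊤ := hM M (by
      intro k hk y
      rw [hσa k hk, hσa1 k hk])
    have h2 : x ∈ M := by rw [h1]; trivial
    exact h2 y
  let σ : RingAut E := { σ' with map_mul' := hσmul, map_add' := map_add σ' }
  have hσσ' : ∀ x, σ x = σ' x := fun x => rfl
  have hσσ : σ * σ = 1 := by
    apply RingEquiv.ext
    intro x
    obtain ⟨v, rfl⟩ := f.surjective x
    change σ' (σ' (f v)) = f v
    rw [hσf, hσf, ← mul_smul, hs, one_smul]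
  have hσne : σ ≠ 1 := by
    intro h
    apply hs1
    apply faith
    intro v
    apply f.injective
    rw [← hσf, ← hσσ', h]; rfl
  let G0 := Subgroup.zpowers σ
  have hG0 : ∀ g ∈ G0, g = 1 ∨ g = σ := by
    rintro g hg
    obtain ⟨n, rfl⟩ := Subgroup.mem_zpowers_iff.mp hg
    rcases Int.even_or_odd' n with ⟨m, rfl | rfl⟩
    · left
      rw [zpow_mul]
      have : σ ^ (2 : ℤ) = 1 := by rw [zpow_two]; exact hσσ
      rw [this, one_zpow]
    · right
      rw [zpow_add, zpow_mul]
      have : σ ^ (2 : ℤ) = 1 := by rw [zpow_two]; exact hσσ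
      rw [this, one_zpow, one_mul, zpow_one]
  have hcG0 : Nat.card G0 = 2 := by
    rw [Nat.card_zpowers]
    apply orderOf_eq_prime
    · rw [pow_two]; exact hσσ
    · exact hσne
  have : Finite G0 := Nat.finite_of_card_ne_zero (by rw [hcG0]; norm_num)
  let _ : Fintype G0 := Fintype.ofFinite _
  let F := FixedPoints.subfield G0 E
  let _ : Fintype F := Fintype.ofFinite _
  have hfr : Module.finrank F E = 2 := by
    rw [FixedPoints.finrank_eq_card, ← Nat.card_eq_fintype_card, hcG0]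
  have hcF : Nat.card F = p ^ c := by
    have h1 : Nat.card E = Nat.card F ^ 2 := by
      rw [← hfr]; exact Module.natCard_eq_pow_finrank (K := F) (V := E)
    rw [hcE, ← pow_two] at h1
    exact (Nat.pow_left_injective (n := 2) (by norm_num) h1).symm
  -- the norm
  have hq : 1 < p ^ c := Nat.one_lt_pow hc.ne' hp.one_lt
  have hnorm : ∀ x : E, Algebra.norm F x = 1 ↔ x ^ (p ^ c + 1) = 1 := by
    intro x
    have h1 := FiniteField.algebraMap_norm_eq_pow (K := F) (K' := E) (x := x)
    have h2 : (Nat.card E - 1) / (Nat.card F - 1) = p ^ c + 1 := by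
      rw [hcE, hcF]
      apply Nat.div_eq_of_eq_mul_left (by omega)
      obtain ⟨m, hm⟩ : ∃ m, p ^ c = m + 1 := ⟨p ^ c - 1, by omega⟩
      rw [hm]
      simp only [Nat.add_sub_cancel]
      have : (m + 1) * (m + 1) = (m + 1 + 1) * m + 1 := by ring
      omega
    rw [h2] at h1
    rw [← h1]
    constructor
    · intro h; rw [h, map_one]
    · intro h
      apply (algebraMap F E).injective
      rw [h, map_one]
  have hapow : ∀ k ∈ P, Algebra.norm F (a k) = 1 := by
    intro k hk
    rw [hnorm]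
    have h1 : ∀ n : ℕ, (a k) ^ n = a (k ^ n) := by
      intro n
      induction n with
      | zero =>
        have := hfk 1 P.one_mem
        rw [one_smul, hf0] at this
        rw [pow_zero, pow_zero, this]
      | succ n ih =>
        rw [pow_succ', ih, ← hfk _ (P.pow_mem hk n), ← hfa k hk, ← mul_smul, ← pow_succ',
          hfk _ (P.pow_mem hk (n + 1))]
    rw [h1]
    have h2 : k ^ (p ^ c + 1) = 1 := by
      have h3 := pow_card_eq_one' (x := (⟨k, hk⟩ : P))
      rw [hPc] at h3
      exact congrArg Subtype.val h3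
    rw [h2, ← hfk 1 P.one_mem, one_smul, hf0]
  have hasurj : ∀ x : E, Algebra.norm F x = 1 → ∃ k ∈ P, a k = x := by
    intro x hx
    -- counting
    let T : Finset E := (Polynomial.nthRoots (p ^ c + 1) (1 : E)).toFinset
    have hT : ∀ y, y ∈ T ↔ y ^ (p ^ c + 1) = 1 := by
      intro y
      rw [Multiset.mem_toFinset, Polynomial.mem_nthRoots (by omega)]
    have hTc : T.card ≤ p ^ c + 1 :=
      (Multiset.toFinset_card_le _).trans (Polynomial.card_nthRoots _ _)
    have hPfin : Finite P := Nat.finite_of_card_ne_zero (by rw [hPc]; omega)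
    let _ : Fintype P := Fintype.ofFinite _
    let A : Finset E := Finset.univ.image (fun k : P => a k)
    have hAc : A.card = p ^ c + 1 := by
      rw [Finset.card_image_of_injective, Finset.card_univ, ← Nat.card_eq_fintype_card, hPc]
      intro k l hkl
      have hkl : a k = a l := hkl
      rw [← hfk k k.2, ← hfk l l.2] at hkl
      have h1 := f.injective hkl
      have h2 : ((l : H)⁻¹ * k) • v0 = v0 := by rw [mul_smul, h1, inv_smul_smul]
      have h3 := hfree _ (P.mul_mem (P.inv_mem l.2) k.2) v0 hv0 h2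
      apply Subtype.ext
      rw [← mul_left_cancel_iff (a := (l : H)⁻¹), h3, inv_mul_cancel]
    have hAT : A ⊆ T := by
      intro y hy
      obtain ⟨k, _, rfl⟩ := Finset.mem_image.mp hy
      rw [hT]
      exact (hnorm _).mp (hapow k k.2)
    have hAT' : A = T := Finset.eq_of_subset_of_card_le hAT (by rw [hAc]; exact hTc)
    have h1 : x ∈ T := (hT x).mpr ((hnorm x).mp hx)
    rw [← hAT'] at h1
    obtain ⟨k, _, hk⟩ := Finset.mem_image.mp h1
    exact ⟨k, k.2, hk⟩
  -- the automorphisms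
  let σF : E ≃ₐ[F] E := AlgEquiv.ofRingEquiv (f := σ) (fun x => x.2 ⟨σ, Subgroup.mem_zpowers σ⟩)
  have hσF : ∀ x, σF x = σ' x := fun x => rfl
  have hσFne : σF ≠ 1 := by
    intro h
    apply hσne
    apply RingEquiv.ext
    intro x
    exact congrArg (fun z : E ≃ₐ[F] E => z x) h
  have haut : ∀ φ : E ≃ₐ[F] E, φ = 1 ∨ φ = σF := by
    intro φ
    have h1 : Nat.card (E ≃ₐ[F] E) = 2 := by
      rw [← hfr]; exact IsGalois.card_aut_eq_finrank F E
    by_contra hno
    push Not at hno
    have h2 : ({1, σF, φ} : Set (E ≃ₐ[F] E)).ncard = 3 :=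
      Set.ncard_eq_three.mpr ⟨1, σF, φ, hσFne.symm, hno.1.symm, hno.2.symm, rfl⟩
    have h3 := Set.ncard_le_card ({1, σF, φ} : Set (E ≃ₐ[F] E))
    omega
  refine ⟨F, E, inferInstance, inferInstance, inferInstance, inferInstance, inferInstance, f, hfr,
    ?_, ?_⟩
  · intro h
    rcases hH h with h | h
    · exact ⟨a _, 1, hapow _ h, fun v => hfa _ h v⟩
    · refine ⟨_, σF, hapow _ h, fun v => ?_⟩
      rw [hσF, hσf, ← hfa _ h, ← mul_smul, mul_assoc, hs, mul_one]
  · intro x φ hx
    obtain ⟨k, hk, rfl⟩ := hasurj x hx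
    rcases haut φ with rfl | rfl
    · exact ⟨k, fun v => hfa k hk v⟩
    · refine ⟨k * s, fun v => ?_⟩
      rw [hσF, hσf, ← hfa _ hk, mul_smul]

end Cfsg.Agent.H900.BinLin
end

-- part: H900/BinLin/Final
section
/-!
# Classification of the binary irreducible linear groups
-/

set_option autoImplicit false
set_option linter.unusedSectionVars false
set_option linter.unusedVariables false

namespace Cfsg.Agent.H900.BinLin

open BinN

variable {p : ℕ} {H V : Type*} [Group H] [AddCommGroup V] [DistribMulAction H V]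
  [Finite V] [Finite H]

theorem concl_of_pair (hB : BinN p H V) {s t : H} (hs : s ∈ TT H V) (ht : t ∈ TT H V)
    (hst : s * t ≠ t * s) (hY : YY V s t = ⊤) : Concl H V := by
  have hG : Good V s t := by
    by_cases hp : p = 2
    · subst hp; exact hB.good_two hs ht hst
    · exact hB.good_odd hp hs ht hst
  have hZ : ∀ z ∈ ZZ V s t, z = 0 := fun z hz =>
    hB.YY_inf_ZZ hs ht hst (hY ▸ AddSubgroup.mem_top z) hz
  have hZb : ZZ V s t = ⊥ := by
    rw [eq_bot_iff]; intro z hz; exact hZ z hz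
  have hK : ∀ h : H, h ∈ KK V s t := by
    intro h z hz
    rw [hZ z hz, smul_zero]
  obtain ⟨c, hc⟩ := hB.card_Im_eq_pow s
  have hq1 := hB.one_lt_card_Im hs.1
  have hc0 : 0 < c := by
    rcases Nat.eq_zero_or_pos c with h | h
    · rw [hc, h, pow_zero] at hq1; omega
    · exact h
  have cV : Nat.card V = p ^ c * p ^ c := by
    have h1 := hB.card_V hs ht hst
    rw [hZb, hc] at h1
    simpa using h1
  have cP := hB.card_KP hs ht hst hG
  rw [hc] at cP
  set P := hB.KP hs ht hst hG with hP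
  have memP : ∀ k, k ∈ P ↔ k ∉ TT H V := by
    intro k
    rw [hP, hB.mem_KP]
    exact ⟨fun h => h.2, fun h => ⟨hK k, h⟩⟩
  -- a fixed vector of `s`
  obtain ⟨v0, hv0, hv0Z⟩ := hB.exists_not_mem_ZZ hs ht hst hs (hK s)
  have hv00 : v0 ≠ 0 := fun h => hv0Z (h ▸ (ZZ V s t).zero_mem)
  have hinv : ∀ k ∈ P, s * k = k⁻¹ * s := by
    intro k hk
    have h1 := (hB.mul_KP hs ht hst hG hs (hK s) hk).1
    have h2 := hB.TT_sq h1
    have h3 := hB.TT_sq hs
    have h4 : s * k * s = k⁻¹ := by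
      rw [eq_inv_iff_mul_eq_one, ← h2]; group
    calc s * k = s * k * (s * s) := by rw [h3, mul_one]
      _ = k⁻¹ * s := by rw [← h4]; group
  refine concl_of_data hB.prime hc0 P cP cV hB.faith ?_ ?_ s hs.1 (hB.TT_sq hs) hinv ?_ v0 hv00
    (mem_U.mp hv0)
  · intro k hk x hx hkx
    exact hB.KP_semireg hs ht hst hG hk (fun h => hx (hZ x h)) hkx
  · intro a ha b hb
    have h1 := hinv (a * b) (P.mul_mem ha hb)
    have h2 : s * (a * b) = (a⁻¹ * b⁻¹) * s := by
      rw [← mul_assoc, hinv a ha, mul_assoc, hinv b hb]; group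
    rw [h2] at h1
    have h3 : a⁻¹ * b⁻¹ = (a * b)⁻¹ := mul_right_cancel h1
    have h4 := congrArg (·⁻¹) h3
    simp only [mul_inv_rev, inv_inv] at h4
    exact h4.symm
  · intro h
    by_cases hh : h ∈ P
    · exact Or.inl hh
    · right
      have h1 : h ∈ TT H V := by
        by_contra hno; exact hh ((memP h).mpr hno)
      rw [memP]
      intro h2
      -- `s * (s⁻¹ ...)`
      have h3 : (h * s) ∈ P ∨ (h * s) ∉ P := em _
      -- two elements of `TT` differ by an element of `P`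
      obtain ⟨x, hxU, hxZ⟩ := hB.exists_not_mem_ZZ hs ht hst h1 (hK h)
      obtain ⟨r, hr, hrK, hrx⟩ := hG.hC s (hK s) x hxZ
      -- `s x = r x` with `r ∈ TT`, so `r = s`
      -- `h s ∈ TT`: it fixes a vector `y`
      obtain ⟨y, hyU, hyZ⟩ := hB.exists_not_mem_ZZ hs ht hst h2 (hK _)
      have h4 : h • (s • y) = y := by rw [← mul_smul]; exact mem_U.mp hyU
      have h5 : h • y = s • y := by
        rw [← h4, ← mul_smul, hB.TT_sq h1, one_smul, h4]
      have h6 := hB.TT_inj hG h1 (hK h) hs (hK s) hyZ h5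
      apply h2.1
      rw [h6]; exact hB.TT_sq hs

theorem linear_thm [Nontrivial V] (hB : Bin p H V) :
    (Nat.card V = p ∧ Nat.card H ≤ 2) ∨ Concl H V := by
  by_cases hne : ∃ g : H, g ≠ 1
  · have hN : BinN p H V := { hB with neg := hB.neg_mem hne }
    by_cases hp : p = 2
    · subst hp
      obtain ⟨s, hs, t, ht, hst, hY⟩ := hN.exists_pair_two hne
      exact Or.inr (concl_of_pair hN hs ht hst hY)
    · rcases hN.exists_pair_odd hp hne with ⟨h1, h2⟩ | ⟨s, hs, t, ht, hst, hY⟩
      · exact Or.inl ⟨h1, h2.le⟩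
      · exact Or.inr (concl_of_pair hN hs ht hst hY)
  · push Not at hne
    left
    have hinv : ∀ M : AddSubgroup V, M = ⊥ ∨ M = ⊤ := by
      intro M
      apply hB.irr
      intro h m hm
      rwa [hne h, one_smul]
    obtain ⟨v, hv⟩ := exists_ne (0 : V)
    constructor
    · have h1 : AddSubgroup.zmultiples v = ⊤ := by
        rcases hinv (AddSubgroup.zmultiples v) with h | h
        · rw [AddSubgroup.zmultiples_eq_bot] at h; exact absurd h hv
        · exact h
      have h2 : addOrderOf v = p := by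
        have := Fact.mk hB.prime
        exact addOrderOf_eq_prime (hB.exp v) hv
      rw [← h2, ← Nat.card_zmultiples, h1]
      exact (Nat.card_congr (Equiv.Set.univ V)).symm
    · have : Subsingleton H := ⟨fun a b => by rw [hne a, hne b]⟩
      have : Nat.card H ≤ 1 := Finite.card_le_one_iff_subsingleton.mpr this
      omega

end Cfsg.Agent.H900.BinLin
end

-- part: H900/BinLin/Conv
section
/-!
# From binary primitive groups of affine type to binary irreducible linear groups
-/

set_option autoImplicit false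

namespace Cfsg.Agent.H900.BinLin

open MulAction

theorem affine_thm {G Ω : Type*} [Group G] [Finite G] [MulAction G Ω] [FaithfulSMul G Ω] [Fintype Ω]
    (hprim : MulAction.IsPreprimitive G Ω) (N : Subgroup G) (hNn : N.Normal) (hN : N ≠ ⊥)
    (hNc : ∀ a ∈ N, ∀ b ∈ N, a * b = b * a)
    (hbin : ∀ (n : ℕ) (I J : Fin n → Ω), 2 ≤ n →
      (∀ i j : Fin n, i ≠ j → ∃ g : G, g • I i = J i ∧ g • I j = J j) → ∃ g : G, ∀ i, g • I i = J i) :
    ((Fintype.card Ω).Prime ∧ ∀ ω : Ω, Nat.card ↥(MulAction.stabilizer G ω) ≤ 2) ∨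
    (∃ (F E : Type) (_ : Field F) (_ : Fintype F) (_ : Field E) (_ : Fintype E) (_ : Algebra F E) (e : Ω ≃ E),
        Module.finrank F E = 2 ∧
        ∀ σ : Equiv.Perm Ω, σ ∈ (MulAction.toPermHom G Ω).range ↔
          ∃ (a b : E) (φ : E ≃ₐ[F] E), Algebra.norm F a = 1 ∧ ∀ ω : Ω, e (σ ω) = a * φ (e ω) + b) := by
  classical
  have hfaith : ∀ g : G, (∀ ω : Ω, g • ω = ω) → g = 1 := by
    intro g hg
    apply FaithfulSMul.eq_of_smul_eq_smul (α := Ω)
    intro ω; rw [hg, one_smul]
  -- nontrivial normal subgroups are transitive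
  have htrans : ∀ K : Subgroup G, K.Normal → K ≠ ⊥ → ∀ x y : Ω, ∃ k ∈ K, k • x = y := by
    intro K hK hKb x y
    have h1 : fixedPoints K Ω ≠ .univ := by
      intro h
      apply hKb
      rw [eq_bot_iff]
      intro k hk
      rw [Subgroup.mem_bot]
      apply hfaith
      intro ω
      have : ω ∈ fixedPoints K Ω := by rw [h]; trivial
      exact this ⟨k, hk⟩
    have h2 : IsPretransitive K Ω := IsQuasiPreprimitive.isPretransitive_of_normal h1
    obtain ⟨k, hk⟩ := h2.exists_smul_eq x y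
    exact ⟨k, k.2, hk⟩
  have hNt := htrans N hNn hN
  have hNreg : ∀ n ∈ N, ∀ ω : Ω, n • ω = ω → n = 1 := by
    intro n hn ω hω
    apply hfaith
    intro x
    obtain ⟨m, hm, rfl⟩ := hNt ω x
    rw [← mul_smul, hNc n hn m hm, mul_smul, hω]
  -- base point
  obtain ⟨n0, hn0⟩ := Subgroup.ne_bot_iff_exists_ne_one.mp hN
  have hn01 : (n0 : G) ≠ 1 := fun h' => hn0 (Subtype.ext h')
  have hΩ : Nonempty Ω := by
    by_contra hno
    rw [not_nonempty_iff] at hno
    exact hn01 (hfaith _ fun ω => (hno.false ω).elim)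
  obtain ⟨ω0⟩ := hΩ
  let _ : CommGroup N := { (inferInstance : Group N) with
    mul_comm := fun x y => Subtype.ext (hNc x x.2 y y.2) }
  let V := Additive N
  let H := stabilizer G ω0
  let tv : V → G := fun v => ((Additive.toMul v : N) : G)
  have tv_mem : ∀ v, tv v ∈ N := fun v => (Additive.toMul v).2
  have tv_add : ∀ v w, tv (v + w) = tv v * tv w := fun v w => rfl
  have tv_zero : tv 0 = 1 := rfl
  have tv_neg : ∀ v, tv (-v) = (tv v)⁻¹ := fun v => rfl
  have tv_inj : Function.Injective tv := by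
    intro v w h
    exact Subtype.ext h
  have tv_surj : ∀ n ∈ N, ∃ v : V, tv v = n := fun n hn => ⟨Additive.ofMul ⟨n, hn⟩, rfl⟩
  let _ : DistribMulAction H V :=
    { smul := fun h v => Additive.ofMul (MulAut.conjNormal (h : G) (Additive.toMul v))
      one_smul := by
        intro v
        change Additive.ofMul (MulAut.conjNormal (1 : G) (Additive.toMul v)) = v
        rw [map_one]; rfl
      mul_smul := by
        intro a b v
        change Additive.ofMul (MulAut.conjNormal ((a : G) * b) (Additive.toMul v)) = _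
        rw [map_mul]; rfl
      smul_zero := by
        intro a
        change Additive.ofMul (MulAut.conjNormal (a : G) 1) = 0
        rw [map_one]; rfl
      smul_add := by
        intro a v w
        change Additive.ofMul (MulAut.conjNormal (a : G) (Additive.toMul v * Additive.toMul w)) = _
        rw [map_mul]; rfl }
  have tv_smul : ∀ (h : H) (v : V), tv (h • v) = h * tv v * (h : G)⁻¹ := fun h v => rfl
  have hH0 : ∀ h : H, (h : G) • ω0 = ω0 := fun h => h.2
  let pt : V → Ω := fun v => tv v • ω0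
  have hpt : ∀ v, pt v = tv v • ω0 := fun v => rfl
  have pt_bij : Function.Bijective pt := by
    constructor
    · intro v w h
      have h1 : tv v • ω0 = tv w • ω0 := h
      have h2 : (tv w)⁻¹ * tv v = 1 := by
        apply hNreg _ (N.mul_mem (N.inv_mem (tv_mem w)) (tv_mem v)) ω0
        rw [mul_smul, h1, inv_smul_smul]
      apply tv_inj
      rw [← mul_left_cancel_iff (a := (tv w)⁻¹), h2, inv_mul_cancel]
    · intro ω
      obtain ⟨n, hn, hω⟩ := hNt ω0 ω
      obtain ⟨v, rfl⟩ := tv_surj n hn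
      exact ⟨v, hω⟩
  have pt_smul : ∀ (h : H) (v : V), (h : G) • pt v = pt (h • v) := by
    intro h v
    rw [hpt, hpt, tv_smul, mul_smul, mul_smul]
    congr 2
    rw [eq_inv_smul_iff]; exact hH0 h
  have pt_add : ∀ (w v : V), tv w • pt v = pt (w + v) := by
    intro w v
    rw [hpt, hpt, tv_add, mul_smul]
  have pt_zero : pt 0 = ω0 := by rw [hpt, tv_zero, one_smul]
  -- decomposition of the elements of `G`
  have hdec : ∀ g : G, ∃ (w : V) (h : H), g = tv w * h := by
    intro g
    obtain ⟨n, hn, hω⟩ := hNt ω0 (g • ω0)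
    obtain ⟨v, rfl⟩ := tv_surj n hn
    refine ⟨v, ⟨(tv v)⁻¹ * g, ?_⟩, by simp⟩
    rw [mem_stabilizer_iff, mul_smul, ← hω, inv_smul_smul]
  have hact : ∀ (w : V) (h : H) (v : V), (tv w * (h : G)) • pt v = pt (w + h • v) := by
    intro w h v
    rw [mul_smul, pt_smul, pt_add]
  -- invariant subgroups
  have hirr : ∀ M : AddSubgroup V, (∀ (h : H), ∀ m ∈ M, h • m ∈ M) → M = ⊥ ∨ M = ⊤ := by
    intro M hM
    by_cases hb : M = ⊥
    · exact Or.inl hb
    right
    let K : Subgroup G :=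
      { carrier := tv '' (M : Set V)
        one_mem' := ⟨0, M.zero_mem, tv_zero⟩
        mul_mem' := by
          rintro _ _ ⟨a, ha, rfl⟩ ⟨b, hb, rfl⟩
          exact ⟨a + b, M.add_mem ha hb, tv_add a b⟩
        inv_mem' := by
          rintro _ ⟨a, ha, rfl⟩
          exact ⟨-a, M.neg_mem ha, tv_neg a⟩ }
    have hKn : K.Normal := by
      refine ⟨?_⟩
      rintro _ ⟨m, hm, rfl⟩ g
      obtain ⟨w, h, rfl⟩ := hdec g
      refine ⟨h • m, hM h m hm, ?_⟩
      have h1 : tv w * tv (h • m) = tv (h • m) * tv w := hNc _ (tv_mem _) _ (tv_mem _)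
      calc tv (h • m) = tv w * tv (h • m) * (tv w)⁻¹ := by rw [h1]; group
        _ = _ := by rw [tv_smul]; group
    have hKb : K ≠ ⊥ := by
      intro h
      apply hb
      rw [eq_bot_iff]
      intro m hm
      have h1 : tv m ∈ K := ⟨m, hm, rfl⟩
      rw [h, Subgroup.mem_bot] at h1
      exact tv_inj (h1.trans tv_zero.symm)
    rw [eq_top_iff]
    intro v _
    obtain ⟨k, ⟨m, hm, rfl⟩, hk⟩ := htrans K hKn hKb ω0 (pt v)
    have h1 : pt m = pt v := hk
    rw [← pt_bij.1 h1]
    exact hm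
  have hVnt : Nontrivial V := by
    refine ⟨⟨Additive.ofMul n0, 0, fun h => hn01 ?_⟩⟩
    have := congrArg tv h
    exact this
  -- exponent
  obtain ⟨p, hp, hexp⟩ : ∃ p : ℕ, p.Prime ∧ ∀ v : V, p • v = 0 := by
    have h1 : Nat.card V ≠ 1 := by
      have := Finite.one_lt_card (α := V)
      omega
    obtain ⟨p, hp, hpd⟩ := Nat.exists_prime_and_dvd h1
    refine ⟨p, hp, ?_⟩
    have hpf := Fact.mk hp
    let M : AddSubgroup V := (nsmulAddMonoidHom (α := V) p).ker
    have hM : M = ⊤ := by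
      rcases hirr M (by
        intro h m hm
        rw [AddMonoidHom.mem_ker, nsmulAddMonoidHom_apply] at hm ⊢
        rw [smul_comm, hm, smul_zero]) with h | h
      · exfalso
        obtain ⟨x, hx⟩ := exists_prime_addOrderOf_dvd_card' p hpd
        have h2 : x ∈ M := by
          rw [AddMonoidHom.mem_ker, nsmulAddMonoidHom_apply, ← hx, addOrderOf_nsmul_eq_zero]
        rw [h, AddSubgroup.mem_bot] at h2
        rw [h2, addOrderOf_zero] at hx
        exact hp.one_lt.ne hx
      · exact h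
    intro v
    have h2 : v ∈ M := by rw [hM]; trivial
    exact h2
  have hB : Bin p H V :=
    { prime := hp
      exp := hexp
      faith := by
        intro h hh
        apply Subtype.ext
        apply hfaith
        intro ω
        obtain ⟨v, rfl⟩ := pt_bij.2 ω
        rw [pt_smul, hh]
      irr := hirr
      bin := by
        intro n I J h1 h2
        rcases Nat.eq_zero_or_pos n with hn | hn
        · subst hn
          exact ⟨1, fun i => i.elim0⟩
        obtain ⟨g, hg⟩ := hbin (n + 1) (Fin.cons ω0 (fun i => pt (I i)))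
          (Fin.cons ω0 (fun i => pt (J i))) (by omega) (by
          have aux : ∀ i : Fin n, ∃ g : G, g • ω0 = ω0 ∧ g • pt (I i) = pt (J i) := by
            intro i
            obtain ⟨h, hh⟩ := h1 i
            exact ⟨h, hH0 h, by rw [pt_smul, hh]⟩
          intro i j hij
          induction i using Fin.cases with
          | zero =>
            induction j using Fin.cases with
            | zero => exact absurd rfl hij
            | succ j =>
              obtain ⟨g, hg1, hg2⟩ := aux j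
              exact ⟨g, by simpa using hg1, by simpa using hg2⟩
          | succ i =>
            induction j using Fin.cases with
            | zero =>
              obtain ⟨g, hg1, hg2⟩ := aux i
              exact ⟨g, by simpa using hg2, by simpa using hg1⟩
            | succ j =>
              obtain ⟨h, hh⟩ := h2 i j
              refine ⟨tv (J i - h • I i) * h, ?_, ?_⟩
              · simp only [Fin.cons_succ]
                rw [hact]; congr 1; abel
              · simp only [Fin.cons_succ]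
                rw [hact]; congr 1
                rw [smul_sub] at hh
                have h3 : J i - h • I i = J j - h • I j := by
                  rw [sub_eq_sub_iff_add_eq_add]
                  rw [sub_eq_sub_iff_add_eq_add] at hh
                  rw [add_comm (J j), hh]
                rw [h3]; abel)
        have hg0 : g • ω0 = ω0 := by simpa using hg 0
        refine ⟨⟨g, hg0⟩, fun i => ?_⟩
        apply pt_bij.1
        rw [← pt_smul]
        simpa using hg i.succ }
  have hfinV : Finite V := inferInstance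
  have hcard : Nat.card V = Fintype.card Ω := by
    rw [← Nat.card_eq_fintype_card]; exact Nat.card_congr (Equiv.ofBijective pt pt_bij)
  rcases linear_thm hB with ⟨h1, h2⟩ | hC
  · left
    refine ⟨by rw [← hcard, h1]; exact hp, fun ω => ?_⟩
    obtain ⟨k, hk, rfl⟩ := hNt ω0 ω
    have h3 : Nat.card ↥(stabilizer G (k • ω0)) = Nat.card H := by
      rw [Nat.card_congr (stabilizerEquivStabilizer (g := k) (a := ω0) (b := k • ω0) rfl).toEquiv]
    rw [h3]; exact h2
  · right
    obtain ⟨F, E, i1, i2, i3, i4, i5, f, hfr, hf1, hf2⟩ := hC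
    let e : Ω ≃ E := (Equiv.ofBijective pt pt_bij).symm.trans f.toEquiv
    have he : ∀ v, e (pt v) = f v := by
      intro v
      change f ((Equiv.ofBijective pt pt_bij).symm (pt v)) = f v
      congr 1
      exact (Equiv.ofBijective pt pt_bij).symm_apply_apply v
    refine ⟨F, E, i1, i2, i3, i4, i5, e, hfr, fun σ => ⟨?_, ?_⟩⟩
    · rintro ⟨g, rfl⟩
      obtain ⟨w, h, rfl⟩ := hdec g
      obtain ⟨a, φ, ha, hφ⟩ := hf1 h
      refine ⟨a, f w, φ, ha, fun ω => ?_⟩
      obtain ⟨v, rfl⟩ := pt_bij.2 ω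
      rw [toPermHom_apply, toPerm_apply, hact, he, he, map_add, hφ, add_comm]
    · rintro ⟨a, b, φ, ha, hφ⟩
      obtain ⟨h, hh⟩ := hf2 a φ ha
      obtain ⟨w, rfl⟩ := f.surjective b
      refine ⟨tv w * h, ?_⟩
      apply Equiv.ext
      intro ω
      apply e.injective
      rw [hφ]
      obtain ⟨v, rfl⟩ := pt_bij.2 ω
      rw [toPermHom_apply, toPerm_apply, hact, he, he, map_add, hh, add_comm]

end Cfsg.Agent.H900.BinLin
end

-- part: S5753
section
-- import your own Cfsg.Agent.* helpers here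

set_option autoImplicit false
open Cfsg

namespace Cfsg.Agent.S5753

/-- The binary primitive permutation groups of affine type (the known proof uses the classification of the finite simple groups). Let a finite group G act faithfully and primitively on a finite set Ω, with a non-trivial abelian normal subgroup, and suppose the action is binary: for every n ≥ 2 and all n-tuples I, J of points, if for every pair of positions some element of G carries the corresponding pair of entries of I to those of J, then a single element carries I to J. Then either Ω has a prime number of points and every point stabilizer has order at most 2, or Ω can be identified with a field E that is a quadratic extension of a subfield F in such a way that the permutations induced by G are exactly the maps x ↦ a·φ(x) + b with a ∈ E of norm 1 over F, φ an automorphism of E over F and b ∈ E (the affine group of the anisotropic plane orthogonal group). -/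
theorem result {G Ω : Type*} [Group G] [Finite G] [MulAction G Ω] [FaithfulSMul G Ω] [Fintype Ω]
    (hprim : MulAction.IsPreprimitive G Ω)
    (haff : ∃ N : Subgroup G, N.Normal ∧ N ≠ ⊥ ∧ IsMulCommutative ↥N)
    (hbin : ∀ (n : ℕ) (I J : Fin n → Ω), 2 ≤ n →
      (∀ i j : Fin n, i ≠ j → ∃ g : G, g • I i = J i ∧ g • I j = J j) → ∃ g : G, ∀ i, g • I i = J i) :
    ((Fintype.card Ω).Prime ∧ ∀ ω : Ω, Nat.card ↥(MulAction.stabilizer G ω) ≤ 2) ∨
    (∃ (F E : Type) (_ : Field F) (_ : Fintype F) (_ : Field E) (_ : Fintype E) (_ : Algebra F E) (e : Ω ≃ E),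
        Module.finrank F E = 2 ∧
        ∀ σ : Equiv.Perm Ω, σ ∈ (MulAction.toPermHom G Ω).range ↔
          ∃ (a b : E) (φ : E ≃ₐ[F] E), Algebra.norm F a = 1 ∧ ∀ ω : Ω, e (σ ω) = a * φ (e ω) + b) := by
  obtain ⟨N, hNn, hN, hNc⟩ := haff
  exact Cfsg.Agent.H900.BinLin.affine_thm hprim N hNn hN
    (fun a ha b hb => setLike_mul_comm ha hb) hbin

end Cfsg.Agent.S5753
end
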