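import Cfsg.Statements.S5754
set_option linter.all false

set_option autoImplicit false
open Cfsg

namespace Cfsg.Agent.S5754

open QuadraticMap

/-- The reflection of an anisotropic vector as an isometry. -/
theorem exists_refl {F V : Type*} [Field F] [AddCommGroup V] [Module F V]
    (Q : QuadraticForm F V) (w : V) (hw : Q w ≠ 0) :
    ∃ r : Q.IsometryEquiv Q, ∀ y, r y = y - ((Q w)⁻¹ * polar Q y w) • w := by
  have h2 : ((Q w)⁻¹ • (polarBilin Q w)) w = 2 := by
    simp only [LinearMap.smul_apply, polarBilin_apply_apply, polar_self, smul_eq_mul,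
      nsmul_eq_mul, Nat.cast_ofNat]
    field_simp
  have happ : ∀ y, Module.reflection h2 y = y - ((Q w)⁻¹ * polar Q y w) • w := by
    intro y
    rw [Module.reflection_apply]
    simp only [LinearMap.smul_apply, polarBilin_apply_apply, smul_eq_mul]
    rw [polar_comm Q w y]
  refine ⟨{ toLinearEquiv := Module.reflection h2, map_app' := ?_ }, ?_⟩
  · intro y
    change Q (Module.reflection h2 y) = Q y
    rw [happ, sub_eq_add_neg, ← neg_smul]
    have h := QuadraticMap.map_add Q y ((-((Q w)⁻¹ * polar Q y w)) • w)
    rw [h, QuadraticMap.map_smul, polar_smul_right]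
    simp only [smul_eq_mul]
    field_simp
    ring
  · intro y
    exact happ y

theorem witt {F V : Type*} [Field F] [AddCommGroup V] [Module F V]
    (Q : QuadraticForm F V) (hQ : Q.Anisotropic) {ι : Type*} [DecidableEq ι] (w w' : ι → V)
    (h1 : ∀ i, Q (w i) = Q (w' i)) (h2 : ∀ i j, polar Q (w i) (w j) = polar Q (w' i) (w' j))
    (s : Finset ι) :
    ∃ φ : Q.IsometryEquiv Q, ∀ i ∈ s, φ (w i) = w' i := by
  induction s using Finset.induction_on with
  | empty => exact ⟨QuadraticMap.IsometryEquiv.refl Q, by simp⟩
  | insert a s has ih =>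
    obtain ⟨φ, hφ⟩ := ih
    by_cases hv : φ (w a) = w' a
    · refine ⟨φ, fun i hi => ?_⟩
      rcases Finset.mem_insert.1 hi with rfl | hi
      · exact hv
      · exact hφ i hi
    · have hne : Q (φ (w a) - w' a) ≠ 0 := by
        intro h0
        exact hv (sub_eq_zero.1 (hQ _ h0))
      obtain ⟨r, hr⟩ := exists_refl Q (φ (w a) - w' a) hne
      have hpol : ∀ x y : V, polar Q (φ x) (φ y) = polar Q x y := by
        intro x y
        unfold polar
        rw [← map_add, φ.map_app, φ.map_app, φ.map_app]
      refine ⟨φ.trans r, fun i hi => ?_⟩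
      change r (φ (w i)) = w' i
      rcases Finset.mem_insert.1 hi with rfl | hi
      · rw [hr]
        have e1 : polar Q (φ (w i)) (φ (w i) - w' i) = Q (φ (w i) - w' i) := by
          rw [polar_sub_right, polar_self, sub_eq_add_neg (φ (w i)), QuadraticMap.map_add (⇑Q),
            QuadraticMap.map_neg, polar_neg_right, φ.map_app, h1]
          simp only [nsmul_eq_mul, Nat.cast_ofNat]
          ring
        rw [e1, inv_mul_cancel₀ hne, one_smul]
        abel
      · rw [hφ i hi, hr]
        have e1 : polar Q (w' i) (φ (w a) - w' a) = 0 := by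
          rw [polar_sub_right, ← hφ i hi, hpol, hφ i hi, h2 i a, sub_self]
        rw [e1]
        simp

/-- Let V be a finite-dimensional vector space over a finite field F carrying an anisotropic quadratic form Q (Q(v) = 0 only for v = 0). Then the group of all maps v ↦ φ(v) + c, with φ an isometry of Q and c ∈ V, acts on V as a binary permutation group: given n ≥ 2 and two n-tuples u, u' of vectors such that every pair of corresponding entries of u is carried to that of u' by such a map, one such map carries u to u'. -/
theorem result {F V : Type*} [Field F] [Finite F] [AddCommGroup V] [Module F V] [Module.Finite F V]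
    (Q : QuadraticForm F V) (hQ : Q.Anisotropic) (n : ℕ) (hn : 2 ≤ n) (u u' : Fin n → V)
    (h2 : ∀ i j : Fin n, i ≠ j → ∃ (φ : Q.IsometryEquiv Q) (c : V), φ (u i) + c = u' i ∧ φ (u j) + c = u' j) :
    ∃ (φ : Q.IsometryEquiv Q) (c : V), ∀ i, φ (u i) + c = u' i := by
  have hd : ∀ i j : Fin n, Q (u i - u j) = Q (u' i - u' j) := by
    intro i j
    by_cases hij : i = j
    · subst hij; simp
    · obtain ⟨φ, c, h1, h3⟩ := h2 i j hij
      rw [← h1, ← h3, add_sub_add_right_eq_sub, ← map_sub, φ.map_app]
  let z : Fin n := ⟨0, by omega⟩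
  have hpol : ∀ x y : V, polar Q x y = Q x + Q y - Q (x - y) := by
    intro x y
    rw [sub_eq_add_neg x y, QuadraticMap.map_add (⇑Q), QuadraticMap.map_neg, polar_neg_right]
    ring
  obtain ⟨φ, hφ⟩ := witt Q hQ (fun i => u i - u z) (fun i => u' i - u' z)
    (fun i => hd i z) (fun i j => by
      rw [hpol, hpol]
      simp only [sub_sub_sub_cancel_right]
      rw [hd i z, hd j z, hd i j]) Finset.univ
  refine ⟨φ, u' z - φ (u z), fun i => ?_⟩
  have := hφ i (Finset.mem_univ i)
  simp only [map_sub] at this
  rw [← add_sub_assoc, add_sub_right_comm, this]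
  abel

end Cfsg.Agent.S5754
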