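import Mathlib
import Cfsg.Agent.H935.ExtNorm
import Cfsg.Statements.S5886
import Cfsg.Agent.LieClassical.SLGen
set_option linter.all false

-- part: H935/ExtBasic
section
/-!
# Overgroups of the extension-field groups: unipotent elements `1 + A` in a subgroup of `V ≃ₗ[F] V` (helper935)
-/

set_option autoImplicit false

namespace Cfsg.Agent.H935

open Module

section Has

variable {F V : Type*} [Field F] [AddCommGroup V] [Module F V]

/-- `1 + A` belongs to `X`. -/
def Has (X : Subgroup (V ≃ₗ[F] V)) (A : V →ₗ[F] V) : Prop := ∃ g ∈ X, ∀ v, g v = v + A v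

/-- the rank one map `v ↦ φ(v) a` -/
def rk (φ : V →ₗ[F] F) (a : V) : V →ₗ[F] V := φ.smulRight a

@[simp] theorem rk_apply (φ : V →ₗ[F] F) (a v : V) : rk φ a v = φ v • a := rfl

variable {X : Subgroup (V ≃ₗ[F] V)} {A B : V →ₗ[F] V}

theorem Has.congr (h : Has X A) (hAB : ∀ v, A v = B v) : Has X B := by
  obtain ⟨g, hg, h⟩ := h
  exact ⟨g, hg, fun v => by rw [h, hAB]⟩

theorem inv_apply_of {g : V ≃ₗ[F] V} (hg : ∀ v, g v = v + A v) (hAA : ∀ v, A (A v) = 0) (v : V) :
    (g⁻¹ : V ≃ₗ[F] V) v = v - A v := by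
  change g.symm v = _
  rw [LinearEquiv.symm_apply_eq, hg, map_sub, hAA]
  simp

theorem Has.neg (hA : Has X A) (hAA : ∀ v, A (A v) = 0) : Has X (-A) := by
  obtain ⟨g, hg, h⟩ := hA
  exact ⟨g⁻¹, X.inv_mem hg, fun v => by rw [inv_apply_of h hAA]; simp [sub_eq_add_neg]⟩

theorem Has.add (hA : Has X A) (hB : Has X B) (hAB : ∀ v, A (B v) = 0) : Has X (A + B) := by
  obtain ⟨g, hg, h⟩ := hA
  obtain ⟨k, hk, h'⟩ := hB
  refine ⟨g * k, X.mul_mem hg hk, fun v => ?_⟩
  rw [LinearEquiv.mul_apply, h', h, map_add, hAB]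
  simp [add_comm, add_left_comm]

theorem Has.conj (hA : Has X A) {g : V ≃ₗ[F] V} (hg : g ∈ X) :
    Has X ((g : V →ₗ[F] V) ∘ₗ A ∘ₗ ((g⁻¹ : V ≃ₗ[F] V) : V →ₗ[F] V)) := by
  obtain ⟨k, hk, h⟩ := hA
  refine ⟨g * k * g⁻¹, X.mul_mem (X.mul_mem hg hk) (X.inv_mem hg), fun v => ?_⟩
  rw [LinearEquiv.mul_apply, LinearEquiv.mul_apply, h, map_add]
  have : g ((g⁻¹ : V ≃ₗ[F] V) v) = v := by
    change g (g.symm v) = v
    simp
  rw [this]
  rfl

/-- commutator of `1 + A` and `1 + B` when `ABA = 0` and `BAB = 0` -/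
theorem Has.comm' (hA : Has X A) (hB : Has X B) (hAA : ∀ v, A (A v) = 0) (hBB : ∀ v, B (B v) = 0)
    (hABA : ∀ v, A (B (A v)) = 0) (hBAB : ∀ v, B (A (B v)) = 0) : Has X (A ∘ₗ B - B ∘ₗ A) := by
  obtain ⟨g, hg, h⟩ := hA
  obtain ⟨k, hk, h'⟩ := hB
  refine ⟨g * k * g⁻¹ * k⁻¹, X.mul_mem (X.mul_mem (X.mul_mem hg hk) (X.inv_mem hg)) (X.inv_mem hk), fun v => ?_⟩
  rw [LinearEquiv.mul_apply, LinearEquiv.mul_apply, LinearEquiv.mul_apply, inv_apply_of h' hBB,
    inv_apply_of h hAA, h', h]
  simp only [map_sub, map_add, hAA, hBB, hABA, hBAB, LinearMap.sub_apply, LinearMap.comp_apply]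
  abel

/-- commutator of `1 + A` and `1 + B` when `BA = 0` -/
theorem Has.comm (hA : Has X A) (hB : Has X B) (hAA : ∀ v, A (A v) = 0) (hBB : ∀ v, B (B v) = 0)
    (hBA : ∀ v, B (A v) = 0) : Has X (A ∘ₗ B) := by
  refine (hA.comm' hB hAA hBB (fun v => by rw [hBA, map_zero]) (fun v => by rw [hBA])).congr ?_
  intro v
  simp [hBA]

/-- commutator of two transvections -/
theorem Has.rk_comm {φ χ : V →ₗ[F] F} {a b : V} (h1 : Has X (rk φ a)) (h2 : Has X (rk χ b)) (ha : φ a = 0)
    (hb : χ b = 0) (hφb : φ b = 0) : Has X (rk (χ a • φ) b) := by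
  refine (h2.comm h1 ?_ ?_ ?_).congr ?_
  · intro v; simp [hb]
  · intro v; simp [ha]
  · intro v; simp [hφb]
  · intro v; simp [smul_smul, mul_comm]

theorem Has.rk_add {φ χ : V →ₗ[F] F} {a : V} (h1 : Has X (rk φ a)) (h2 : Has X (rk χ a)) (ha : φ a = 0) :
    Has X (rk (φ + χ) a) := by
  refine (h1.add h2 ?_).congr ?_
  · intro v; simp [ha]
  · intro v; simp [add_smul]

theorem Has.rk_neg {φ : V →ₗ[F] F} {a : V} (h1 : Has X (rk φ a)) (ha : φ a = 0) : Has X (rk (-φ) a) := by
  refine (h1.neg ?_).congr ?_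
  · intro v; simp [ha]
  · intro v; simp

theorem Has.rk_sub {φ χ : V →ₗ[F] F} {a : V} (h1 : Has X (rk φ a)) (h2 : Has X (rk χ a)) (ha : φ a = 0)
    (ha' : χ a = 0) : Has X (rk (φ - χ) a) := by
  rw [sub_eq_add_neg]
  exact h1.rk_add (h2.rk_neg ha') ha

theorem Has.rk_conj {φ : V →ₗ[F] F} {a : V} (h1 : Has X (rk φ a)) {g : V ≃ₗ[F] V} (hg : g ∈ X) :
    Has X (rk (φ ∘ₗ ((g⁻¹ : V ≃ₗ[F] V) : V →ₗ[F] V)) (g a)) := by
  refine (h1.conj hg).congr ?_
  intro v
  simp

end Has

end Cfsg.Agent.H935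
end

-- part: H935/ExtTrans
section
/-!
# A subgroup containing the `E`-linear maps of `F`-determinant one and one `F`-transvection contains all
`F`-transvections (helper935)
-/

set_option autoImplicit false

namespace Cfsg.Agent.H935

open Module

section Ext

variable (F E V : Type*) [Field F] [Field E] [Algebra F E] [AddCommGroup V] [Module F V] [Module E V]
  [IsScalarTower F E V]

/-- `X` contains all `E`-linear maps of `F`-determinant one. -/
def ContainsN (X : Subgroup (V ≃ₗ[F] V)) : Prop :=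
  ∀ g : V ≃ₗ[E] V, Algebra.norm F (LinearMap.det (g : V →ₗ[E] V)) = 1 → g.restrictScalars F ∈ X

variable {F E V}

/-- the `E`-rank one map `v ↦ ψ(v) a` -/
def erk (ψ : V →ₗ[E] E) (a : V) : V →ₗ[F] V := (ψ.smulRight a).restrictScalars F

@[simp] theorem erk_apply (ψ : V →ₗ[E] E) (a v : V) : (erk ψ a : V →ₗ[F] V) v = ψ v • a := rfl

/-- the `F`-functional `Tr ∘ ψ` -/
noncomputable def tr (ψ : V →ₗ[E] E) : V →ₗ[F] F := (Algebra.trace F E) ∘ₗ ψ.restrictScalars F

@[simp] theorem tr_apply (ψ : V →ₗ[E] E) (v : V) : (tr ψ : V →ₗ[F] F) v = Algebra.trace F E (ψ v) := rfl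

variable {X : Subgroup (V ≃ₗ[F] V)}

theorem has_erk (hX : ContainsN F E V X) {ψ : V →ₗ[E] E} {a : V} (h : ψ a = 0) : Has X (erk ψ a) := by
  refine ⟨(LinearEquiv.transvection h).restrictScalars F, hX _ ?_, fun v => rfl⟩
  have : (LinearMap.det ((LinearEquiv.transvection h : V ≃ₗ[E] V) : V →ₗ[E] V)) = 1 := by
    rw [← LinearEquiv.coe_det, LinearEquiv.transvection.det_eq_one]; rfl
  rw [this, map_one]

/-- the `E`-linear dilatation `v ↦ v + ψ(v) (δ - 1) x`, `ψ x = 1` -/
theorem exists_dil [FiniteDimensional F E] [Module.Finite E V] (hX : ContainsN F E V X) {ψ : V →ₗ[E] E} {x : V} (hx : ψ x = 1) {δ : E}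
    (hδ : Algebra.norm F δ = 1) :
    ∃ n ∈ X, (∀ v, n v = v + ψ v • ((δ - 1) • x)) ∧ ∀ v, (n⁻¹ : V ≃ₗ[F] V) v = v + ψ v • ((δ⁻¹ - 1) • x) := by
  have hδ0 : δ ≠ 0 := by
    rintro rfl
    rw [Algebra.norm_zero] at hδ
    exact zero_ne_one hδ
  let n : V ≃ₗ[E] V :=
    { toFun := fun v => v + ψ v • ((δ - 1) • x)
      map_add' := by intro v w; simp only [map_add, add_smul]; abel
      map_smul' := by intro c v; simp [smul_smul, mul_assoc]
      invFun := fun v => v + ψ v • ((δ⁻¹ - 1) • x)
      left_inv := by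
        intro v
        simp only [map_add, map_smul, hx, smul_eq_mul, mul_one]
        rw [add_assoc, smul_smul, smul_smul, ← add_smul]
        have : ψ v * (δ - 1) + (ψ v + ψ v * (δ - 1)) * (δ⁻¹ - 1) = 0 := by
          field_simp
          ring
        rw [this, zero_smul, add_zero]
      right_inv := by
        intro v
        simp only [map_add, map_smul, hx, smul_eq_mul, mul_one]
        rw [add_assoc, smul_smul, smul_smul, ← add_smul]
        have : ψ v * (δ⁻¹ - 1) + (ψ v + ψ v * (δ⁻¹ - 1)) * (δ - 1) = 0 := by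
          field_simp
          ring
        rw [this, zero_smul, add_zero] }
  refine ⟨n.restrictScalars F, hX n ?_, fun v => rfl, fun v => rfl⟩
  have h1 : (n : V →ₗ[E] V) = LinearMap.transvection ψ ((δ - 1) • x) := by
    ext v; rfl
  rw [h1, LinearMap.transvection.det]
  simp [hx, hδ]

theorem exists_functional {u v : V} (h : v ∉ Submodule.span E {u}) : ∃ ψ : V →ₗ[E] E, ψ u = 0 ∧ ψ v = 1 := by
  obtain ⟨f, hf, hle⟩ := Submodule.exists_le_ker_of_notMem h
  refine ⟨(f v)⁻¹ • f, ?_, ?_⟩
  · have : f u = 0 := hle (Submodule.mem_span_singleton_self u)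
    simp [this]
  · simp [hf]

theorem exists_functional_one {v : V} (h : v ≠ 0) : ∃ ψ : V →ₗ[E] E, ψ v = 1 := by
  obtain ⟨ψ, _, h⟩ := exists_functional (E := E) (u := (0 : V)) (v := v) (by simpa using h)
  exact ⟨ψ, h⟩

theorem exists_vector {ψ χ : V →ₗ[E] E} (h : ψ ∉ Submodule.span E {χ}) : ∃ b : V, χ b = 0 ∧ ψ b = 1 := by
  by_contra hcon
  push Not at hcon
  have hker : ∀ b, χ b = 0 → ψ b = 0 := by
    intro b hb
    by_contra hne
    exact hcon ((ψ b)⁻¹ • b) (by simp [hb]) (by simp [hne])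
  apply h
  rw [Submodule.mem_span_singleton]
  by_cases hχ : ∃ w, χ w ≠ 0
  · obtain ⟨w, hw⟩ := hχ
    refine ⟨ψ w * (χ w)⁻¹, ?_⟩
    ext v
    have h1 := hker (v - (χ v * (χ w)⁻¹) • w) (by simp [hw])
    simp only [map_sub, map_smul, smul_eq_mul] at h1
    simp only [LinearMap.smul_apply, smul_eq_mul]
    linear_combination -h1
  · push Not at hχ
    refine ⟨0, ?_⟩
    ext v
    simp [hker v (hχ v)]

theorem exists_notMem_span (hm : 2 ≤ finrank E V) (u : V) : ∃ v : V, v ∉ Submodule.span E {u} := by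
  by_contra h
  push Not at h
  have h1 : Submodule.span E {u} = ⊤ := eq_top_iff.mpr fun x _ => h x
  have h2 : finrank E (Submodule.span E {u}) ≤ 1 := by
    refine (finrank_span_le_card ({u} : Set V)).trans ?_
    simp
  rw [h1, finrank_top] at h2
  omega

theorem exists_move (hX : ContainsN F E V X) (hm : 2 ≤ finrank E V) {a b : V} (ha : a ≠ 0) (hb : b ≠ 0) :
    ∃ g ∈ X, g a = b ∧ ∀ (e : E) (v : V), g (e • v) = e • g v := by
  -- the independent case
  have key : ∀ a b : V, a ≠ 0 → b ∉ Submodule.span E {a} →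
      ∃ g ∈ X, g a = b ∧ ∀ (e : E) (v : V), g (e • v) = e • g v := by
    intro a b ha hb
    obtain ⟨ψ₁, h1, h2⟩ := exists_functional hb
    have hab : a ∉ Submodule.span E {b} := by
      intro h
      rw [Submodule.mem_span_singleton] at h
      obtain ⟨c, rfl⟩ := h
      have hc : c ≠ 0 := by rintro rfl; simp at ha
      apply hb
      rw [Submodule.mem_span_singleton]
      exact ⟨c⁻¹, by rw [smul_smul, inv_mul_cancel₀ hc, one_smul]⟩
    obtain ⟨ψ₂, h3, h4⟩ := exists_functional hab
    have h5 : (ψ₁ + ψ₂) (b - a) = 0 := by simp [h1, h2, h3, h4]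
    refine ⟨(LinearEquiv.transvection h5).restrictScalars F, hX _ ?_, ?_, ?_⟩
    · have : (LinearMap.det ((LinearEquiv.transvection h5 : V ≃ₗ[E] V) : V →ₗ[E] V)) = 1 := by
        rw [← LinearEquiv.coe_det, LinearEquiv.transvection.det_eq_one]; rfl
      rw [this, map_one]
    · change a + (ψ₁ + ψ₂) a • (b - a) = b
      simp [h1, h4]
    · intro e v
      exact (LinearEquiv.transvection h5).map_smul e v
  obtain ⟨c, hc⟩ := exists_notMem_span (E := E) hm a
  have hc0 : c ≠ 0 := by rintro rfl; simp at hc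
  obtain ⟨g, hg, hg1, hg2⟩ := key a c ha hc
  by_cases hcb : b ∈ Submodule.span E {a}
  · have hbc : b ∉ Submodule.span E {c} := by
      intro h
      rw [Submodule.mem_span_singleton] at h hcb
      obtain ⟨s, hs⟩ := h
      obtain ⟨t, ht⟩ := hcb
      have hs0 : s ≠ 0 := by rintro rfl; simp at hs; exact hb hs.symm
      apply hc
      rw [Submodule.mem_span_singleton]
      refine ⟨s⁻¹ * t, ?_⟩
      rw [mul_smul, ht, ← hs, smul_smul, inv_mul_cancel₀ hs0, one_smul]
    obtain ⟨k, hk, hk1, hk2⟩ := key c b hc0 hbc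
    refine ⟨k * g, X.mul_mem hk hg, ?_, ?_⟩
    · rw [LinearEquiv.mul_apply, hg1, hk1]
    · intro e v
      rw [LinearEquiv.mul_apply, LinearEquiv.mul_apply, hg2, hk2]
  · exact key a b ha hcb

variable [Finite F] [FiniteDimensional F E]

/-- every `F`-functional is `Tr ∘ ψ` -/
theorem exists_trace_rep (φ : V →ₗ[F] F) : ∃ ψ : V →ₗ[E] E, φ = tr ψ := by
  have hE : Finite E := Module.finite_of_finite F
  have hnd := traceForm_nondegenerate F E
  let lam : V → (E →ₗ[F] F) := fun v => φ ∘ₗ ((LinearMap.toSpanSingleton E V v).restrictScalars F)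
  have hlam : ∀ v e, lam v e = φ (e • v) := fun v e => rfl
  let T := (Algebra.traceForm F E).toDual hnd
  have hT : ∀ a b, T a b = Algebra.trace F E (a * b) := by
    intro a b
    rw [LinearMap.BilinForm.toDual_def]
    rfl
  have hsymm : ∀ (l : E →ₗ[F] F) (b : E), Algebra.trace F E (T.symm l * b) = l b := by
    intro l b
    rw [← hT, LinearEquiv.apply_symm_apply]
  have hinj : ∀ a b : E, (∀ c, Algebra.trace F E (a * c) = Algebra.trace F E (b * c)) → a = b := by
    intro a b h
    apply T.injective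
    ext c
    rw [hT, hT, h]
  refine ⟨{ toFun := fun v => T.symm (lam v), map_add' := ?_, map_smul' := ?_ }, ?_⟩
  · intro v w
    apply hinj
    intro c
    rw [hsymm, add_mul, map_add, hsymm, hsymm, hlam, hlam, hlam, smul_add, map_add]
  · intro e v
    apply hinj
    intro c
    simp only [RingHom.id_apply, smul_eq_mul]
    rw [hsymm, show e * T.symm (lam v) * c = T.symm (lam v) * (c * e) by ring, hsymm, hlam, hlam, mul_smul]
  · ext v
    change φ v = Algebra.trace F E (T.symm (lam v))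
    have := hsymm (lam v) 1
    rw [mul_one] at this
    rw [this, hlam, one_smul]

omit [Finite F] [FiniteDimensional F E] in
/-- conjugating an `F`-transvection by an `E`-transvection fixing the centre -/
theorem Has.tr_sub (hX : ContainsN F E V X) {ψ χ : V →ₗ[E] E} {a b : V} (h : Has X (rk (tr ψ) a)) (hχa : χ a = 0)
    (hχb : χ b = 0) (hψb : ψ b = 1) : Has X (rk (tr (ψ - χ)) a) := by
  obtain ⟨g, hg, hg'⟩ := has_erk hX hχb
  have h1 := h.rk_conj hg
  have h2 : g a = a := by rw [hg', erk_apply, hχa]; simp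
  rw [h2] at h1
  refine h1.congr ?_
  intro v
  have h3 : (g⁻¹ : V ≃ₗ[F] V) v = v - (erk χ b : V →ₗ[F] V) v := by
    apply inv_apply_of hg'
    intro w
    simp [hχb]
  simp only [rk_apply, LinearMap.comp_apply, LinearEquiv.coe_coe, h3]
  simp [hψb]

variable [Module.Finite E V]

/-- property `Z(a)`: all `Tr ∘ χ ⊗ a` with `χ a = 0` -/
theorem z_of_has (hX : ContainsN F E V X) (hr : 2 ≤ finrank F E) {ψ : V →ₗ[E] E} {a : V}
    (hψ : ψ ≠ 0) (htr : Algebra.trace F E (ψ a) = 0) (h : Has X (rk (tr ψ) a)) :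
    ∀ χ : V →ₗ[E] E, χ a = 0 → Has X (rk (tr χ) a) := by
  intro χ hχ
  by_cases hψa : ψ a = 0
  · -- case II
    by_cases hspan : χ ∈ Submodule.span E {ψ}
    · rw [Submodule.mem_span_singleton] at hspan
      obtain ⟨κ, rfl⟩ := hspan
      obtain ⟨x, hx⟩ : ∃ x, ψ x = 1 := by
        by_contra hcon
        push Not at hcon
        apply hψ
        ext v
        by_contra hne
        simp only [LinearMap.zero_apply] at hne
        exact hcon ((ψ v)⁻¹ • v) (by simp [hne])
      let D : AddSubgroup E :=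
        { carrier := {κ | Has X (rk (tr (κ • ψ)) a)}
          zero_mem' := by
            refine ⟨1, X.one_mem, fun v => ?_⟩
            simp
          add_mem' := by
            intro s t hs ht
            refine (Has.rk_add hs ht ?_).congr ?_
            · simp [hψa]
            · intro v; simp [add_mul]
          neg_mem' := by
            intro s hs
            refine (Has.rk_neg hs ?_).congr ?_
            · simp [hψa]
            · intro v; simp }
      have hD : ∀ κ, κ ∈ D ↔ Has X (rk (tr (κ • ψ)) a) := fun κ => Iff.rfl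
      have h1 : (1 : E) ∈ D := by
        rw [hD, one_smul]; exact h
      have h2 : AddSubgroup.closure {δ : E | Algebra.norm F δ = 1} ≤ D := by
        rw [AddSubgroup.closure_le]
        intro δ hδ
        rw [SetLike.mem_coe, hD]
        have hδ' : Algebra.norm F δ⁻¹ = 1 := by
          have hδ1 : Algebra.norm F δ = 1 := hδ
          have : Algebra.norm F (δ * δ⁻¹) = 1 := by
            have h0 : δ ≠ 0 := by
              rintro rfl
              rw [Algebra.norm_zero] at hδ1
              exact zero_ne_one hδ1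
            rw [mul_inv_cancel₀ h0, map_one]
          rw [map_mul, hδ1, one_mul] at this
          exact this
        obtain ⟨n, hn, hn1, hn2⟩ := exists_dil hX hx hδ'
        have h3 := h.rk_conj hn
        have h4 : n a = a := by rw [hn1, hψa]; simp
        rw [h4] at h3
        refine h3.congr ?_
        intro v
        simp only [rk_apply, LinearMap.comp_apply, LinearEquiv.coe_coe, hn2, tr_apply, map_add, map_smul, hx,
          LinearMap.smul_apply, smul_eq_mul, inv_inv]
        rw [← map_add, show ψ v + ψ v * ((δ - 1) * 1) = δ * ψ v by ring]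
      rw [closure_norm_one F E hr] at h2
      exact h2 (AddSubgroup.mem_top κ)
    · -- `χ` and `ψ` independent
      have hψχ : ψ ∉ Submodule.span E {χ} := by
        intro hmem
        rw [Submodule.mem_span_singleton] at hmem
        obtain ⟨c, hc⟩ := hmem
        have hc0 : c ≠ 0 := by
          rintro rfl
          rw [zero_smul] at hc
          exact hψ hc.symm
        apply hspan
        rw [Submodule.mem_span_singleton]
        exact ⟨c⁻¹, by rw [← hc, smul_smul, inv_mul_cancel₀ hc0, one_smul]⟩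
      obtain ⟨b, hb1, hb2⟩ := exists_vector hψχ
      have h1 := h.tr_sub hX hχ hb1 hb2
      refine (h.rk_sub h1 ?_ ?_).congr ?_
      · simp [hψa]
      · simp [hψa, hχ]
      · intro v; simp
  · -- case I
    have h1 : Has X (rk (tr (ψ - χ)) a) := by
      refine h.tr_sub (b := (ψ a)⁻¹ • a) hX hχ ?_ ?_
      · simp [hχ]
      · simp [hψa]
    refine (h.rk_sub h1 ?_ ?_).congr ?_
    · simpa using htr
    · simp [hχ, htr]
    · intro v; simp

/-- one `F`-transvection gives all -/
theorem all_of_one (hX : ContainsN F E V X) (hr : 2 ≤ finrank F E) (hm : 2 ≤ finrank E V) {φ : V →ₗ[F] F} {a : V}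
    (ha : a ≠ 0) (hφ : φ ≠ 0) (hφa : φ a = 0) (h : Has X (rk φ a)) :
    ∀ (φ' : V →ₗ[F] F) (b : V), φ' b = 0 → Has X (rk φ' b) := by
  have hE : Finite E := Module.finite_of_finite F
  -- property Z for all vectors
  have hZ : ∀ b : V, b ≠ 0 → ∀ χ : V →ₗ[E] E, χ b = 0 → Has X (rk (tr χ) b) := by
    obtain ⟨ψ, rfl⟩ := exists_trace_rep (E := E) φ
    have hψ : ψ ≠ 0 := by
      rintro rfl
      apply hφ
      ext v
      simp
    have hz := z_of_has hX hr hψ hφa h
    intro b hb χ hχ
    obtain ⟨g, hg, hg1, hg2⟩ := exists_move hX hm ha hb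
    let χ' : V →ₗ[E] E :=
      { toFun := fun v => χ (g v)
        map_add' := by intro v w; simp
        map_smul' := by intro e v; simp [hg2] }
    have h1 := hz χ' (by change χ (g a) = 0; rw [hg1, hχ])
    have h2 := h1.rk_conj hg
    rw [hg1] at h2
    refine h2.congr ?_
    intro v
    simp only [rk_apply, LinearMap.comp_apply, LinearEquiv.coe_coe, tr_apply]
    have h3 : χ' ((g⁻¹ : V ≃ₗ[F] V) v) = χ v := by
      change χ (g (g.symm v)) = χ v
      simp
    rw [h3]
  intro φ' b hb
  by_cases hb0 : b = 0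
  · subst hb0
    exact ⟨1, X.one_mem, fun v => by simp⟩
  obtain ⟨ψ, rfl⟩ := exists_trace_rep (E := E) φ'
  by_cases hψb : ψ b = 0
  · exact hZ b hb0 ψ hψb
  -- a nonzero vector in the kernel of `ψ`
  obtain ⟨c, hc⟩ := exists_notMem_span (E := E) hm b
  let a' : V := c - (ψ c * (ψ b)⁻¹) • b
  have ha' : ψ a' = 0 := by simp [a', hψb]
  have ha'b : a' ∉ Submodule.span E {b} := by
    intro hmem
    apply hc
    have : c = a' + (ψ c * (ψ b)⁻¹) • b := by simp [a']
    rw [this]
    exact Submodule.add_mem _ hmem (Submodule.smul_mem _ _ (Submodule.mem_span_singleton_self b))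
  have ha'0 : a' ≠ 0 := by
    intro h0
    rw [h0] at ha'b
    exact ha'b (Submodule.zero_mem _)
  obtain ⟨χ₀, hχ1, hχ2⟩ := exists_functional ha'b
  obtain ⟨e, he⟩ := Algebra.trace_surjective F E 1
  have h1 : Has X (rk (tr ψ) a') := hZ a' ha'0 ψ ha'
  have h2 : Has X (rk (tr (e • χ₀)) b) := hZ b hb0 _ (by simp [hχ1])
  have h3 := h1.rk_comm h2 (by simp [ha']) (by simp [hχ1]) hb
  refine h3.congr ?_
  intro v
  simp [hχ2, he]

end Ext

end Cfsg.Agent.H935
end

-- part: H935/ExtPair
section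
/-!
# Two images of `E`-lines meeting in a hyperplane (helper935)
-/

set_option autoImplicit false

namespace Cfsg.Agent.H935

open Module

section Pair

variable {F E V : Type*} [Field F] [Field E] [Algebra F E] [AddCommGroup V] [Module F V] [Module E V]
  [IsScalarTower F E V]

variable (F E) in
/-- the `E`-line through `u`, as an `F`-subspace -/
def Ln (u : V) : Submodule F V := (Submodule.span E {u}).restrictScalars F

theorem mem_Ln {u v : V} : v ∈ Ln F E u ↔ ∃ e : E, e • u = v := by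
  rw [Ln, Submodule.restrictScalars_mem, Submodule.mem_span_singleton]

theorem smul_mem_Ln {u v : V} (e : E) (h : v ∈ Ln F E u) : e • v ∈ Ln F E u := by
  rw [mem_Ln] at *
  obtain ⟨s, rfl⟩ := h
  exact ⟨e * s, by rw [mul_smul]⟩

theorem self_mem_Ln (u : V) : u ∈ Ln F E u := mem_Ln.mpr ⟨1, one_smul _ _⟩

theorem finrank_Ln [FiniteDimensional F E] {u : V} (hu : u ≠ 0) : finrank F (Ln F E u) = finrank F E := by
  have e : E ≃ₗ[F] Ln F E u :=
    (LinearEquiv.toSpanNonzeroSingleton E V u hu).restrictScalars F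
  exact e.finrank_eq.symm

/-- `κ P ≤ P` only for `κ ∈ F` when `0 < P < E u` -/
theorem stab_eq_bot [FiniteDimensional F E] (hr : (finrank F E).Prime) {u : V} {P : Submodule F V}
    (hP : P ≤ Ln F E u) (hne : P ≠ ⊥) (hne' : P ≠ Ln F E u) {κ : E} (hκ : ∀ p ∈ P, κ • p ∈ P) :
    ∃ c : F, algebraMap F E c = κ := by
  let S : Subalgebra F E :=
    { carrier := {κ | ∀ p ∈ P, κ • p ∈ P}
      mul_mem' := by
        intro a b ha hb p hp
        rw [mul_smul]
        exact ha _ (hb p hp)
      one_mem' := by intro p hp; rwa [one_smul]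
      add_mem' := by
        intro a b ha hb p hp
        rw [add_smul]
        exact P.add_mem (ha p hp) (hb p hp)
      zero_mem' := by intro p _; rw [zero_smul]; exact P.zero_mem
      algebraMap_mem' := by
        intro c p hp
        rw [algebraMap_smul]
        exact P.smul_mem c hp }
  have hsimple := Subalgebra.isSimpleOrder_of_finrank_prime F E hr
  rcases hsimple.eq_bot_or_eq_top S with h | h
  · have h1 : κ ∈ S := hκ
    rw [h, Algebra.mem_bot] at h1
    exact h1
  · exfalso
    obtain ⟨p, hp, hp0⟩ := Submodule.exists_mem_ne_zero_of_ne_bot hne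
    apply hne'
    apply le_antisymm hP
    intro v hv
    obtain ⟨s, hs⟩ := mem_Ln.mp (hP hp)
    obtain ⟨t, ht⟩ := mem_Ln.mp hv
    have hs0 : s ≠ 0 := by rintro rfl; rw [zero_smul] at hs; exact hp0 hs.symm
    have h1 : t * s⁻¹ ∈ S := by rw [h]; trivial
    have h2 := h1 p hp
    rw [← hs, smul_smul, inv_mul_cancel_right₀ hs0, ht] at h2
    exact h2

variable [Finite F] [FiniteDimensional F E] [Module.Finite E V] {X : Subgroup (V ≃ₗ[F] V)}

/-- the data: two images of `E`-lines meeting in a hyperplane of both -/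
structure PairData (X : Subgroup (V ≃ₗ[F] V)) (u u' : V) (g : V ≃ₗ[F] V) : Prop where
  u_ne : u ≠ 0
  u'_ne : u' ≠ 0
  mem : g ∈ X
  inf_ne : Ln F E u ⊓ (Ln F E u').map (g : V →ₗ[F] V) ≠ ⊥
  ne : (Ln F E u').map (g : V →ₗ[F] V) ≠ Ln F E u
  left : ∀ x ∈ (Ln F E u').map (g : V →ₗ[F] V), x ∉ Ln F E u → ∀ x' ∈ (Ln F E u').map (g : V →ₗ[F] V),
    ∃ c : F, x' - c • x ∈ Ln F E u
  right : ∀ y ∈ Ln F E u, y ∉ (Ln F E u').map (g : V →ₗ[F] V) → ∀ y' ∈ Ln F E u,
    ∃ c : F, y' - c • y ∈ (Ln F E u').map (g : V →ₗ[F] V)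
  finrank_inf : finrank F ↥(Ln F E u ⊓ (Ln F E u').map (g : V →ₗ[F] V)) + 1 = finrank F E

omit [Finite F] [FiniteDimensional F E] [Module.Finite E V] in
/-- maximal choice -/
theorem exists_max_pair [FiniteDimensional F V]
    (h : ∃ (u u' : V) (g : V ≃ₗ[F] V), u ≠ 0 ∧ u' ≠ 0 ∧ g ∈ X ∧ (Ln F E u').map (g : V →ₗ[F] V) ≠ Ln F E u ∧
      1 ≤ finrank F ↥(Ln F E u ⊓ (Ln F E u').map (g : V →ₗ[F] V))) :
    ∃ (u u' : V) (g : V ≃ₗ[F] V), u ≠ 0 ∧ u' ≠ 0 ∧ g ∈ X ∧ (Ln F E u').map (g : V →ₗ[F] V) ≠ Ln F E u ∧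
      1 ≤ finrank F ↥(Ln F E u ⊓ (Ln F E u').map (g : V →ₗ[F] V)) ∧
      ∀ (w w' : V) (k : V ≃ₗ[F] V), w ≠ 0 → w' ≠ 0 → k ∈ X → (Ln F E w').map (k : V →ₗ[F] V) ≠ Ln F E w →
        finrank F ↥(Ln F E w ⊓ (Ln F E w').map (k : V →ₗ[F] V)) ≤
          finrank F ↥(Ln F E u ⊓ (Ln F E u').map (g : V →ₗ[F] V)) := by
  let S : Set ℕ := {d | ∃ (u u' : V) (g : V ≃ₗ[F] V), u ≠ 0 ∧ u' ≠ 0 ∧ g ∈ X ∧
    (Ln F E u').map (g : V →ₗ[F] V) ≠ Ln F E u ∧ finrank F ↥(Ln F E u ⊓ (Ln F E u').map (g : V →ₗ[F] V)) = d}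
  have hbdd : BddAbove S := by
    refine ⟨finrank F V, ?_⟩
    rintro d ⟨u, u', g, _, _, _, _, rfl⟩
    exact Submodule.finrank_le _
  obtain ⟨u₀, u₀', g₀, h1, h2, h3, h4, h5⟩ := h
  have hne : S.Nonempty := ⟨_, u₀, u₀', g₀, h1, h2, h3, h4, rfl⟩
  obtain ⟨u, u', g, k1, k2, k3, k4, k5⟩ := Nat.sSup_mem hne hbdd
  refine ⟨u, u', g, k1, k2, k3, k4, ?_, ?_⟩
  · rw [k5]
    exact h5.trans (le_csSup hbdd ⟨u₀, u₀', g₀, h1, h2, h3, h4, rfl⟩)
  · intro w w' k m1 m2 m3 m4
    rw [k5]
    exact le_csSup hbdd ⟨w, w', k, m1, m2, m3, m4, rfl⟩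

/-- the main step: the maximal pair meets in a hyperplane -/
theorem exists_pairData (hX : ContainsN F E V X) (hr : (finrank F E).Prime)
    (h : ∃ (u u' : V) (g : V ≃ₗ[F] V), u ≠ 0 ∧ u' ≠ 0 ∧ g ∈ X ∧ (Ln F E u').map (g : V →ₗ[F] V) ≠ Ln F E u ∧
      1 ≤ finrank F ↥(Ln F E u ⊓ (Ln F E u').map (g : V →ₗ[F] V))) :
    ∃ (u u' : V) (g : V ≃ₗ[F] V), PairData (E := E) X u u' g := by
  have hFV : FiniteDimensional F V := Module.Finite.trans E V
  obtain ⟨u, u', g, hu, hu', hg, hne, h1, hmax⟩ := exists_max_pair h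
  set L := Ln F E u with hL
  set L' := (Ln F E u').map (g : V →ₗ[F] V) with hL'
  set P := L ⊓ L' with hP
  have hPL : P ≤ L := inf_le_left
  have hPL' : P ≤ L' := inf_le_right
  have hψL : ∀ ψ : V →ₗ[E] E, ψ u = 0 → ∀ v ∈ L, ψ v = 0 := by
    intro ψ hψ v hv
    obtain ⟨e, rfl⟩ := mem_Ln.mp hv
    simp [hψ]
  have hPne : P ≠ ⊥ := by
    intro h0
    rw [h0] at h1
    simp at h1
  have hdimL : finrank F L = finrank F E := finrank_Ln hu
  have hdimL' : finrank F L' = finrank F E := by
    rw [hL', LinearEquiv.finrank_map_eq, finrank_Ln hu']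
  have hPneL : P ≠ L := by
    intro h0
    have h2 : L ≤ L' := by rw [← h0]; exact hPL'
    exact hne (Submodule.eq_of_le_of_finrank_eq h2 (by rw [hdimL, hdimL'])).symm
  -- (**)
  have key : ∀ ψ : V →ₗ[E] E, ψ u = 0 → ∀ x ∈ L', ψ x ≠ 0 → ∀ x' ∈ L', ∀ p ∈ P, (ψ x' * (ψ x)⁻¹) • p ∈ P := by
    intro ψ hψ x hx hψx x' hx' p hp
    have hψp : ψ ((ψ x)⁻¹ • p) = 0 := by
      rw [map_smul, hψL ψ hψ p (hPL hp), smul_zero]
    obtain ⟨t, ht, ht'⟩ := has_erk hX hψp
    have htP : ∀ v ∈ P, t v = v := by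
      intro v hv
      rw [ht', erk_apply, hψL ψ hψ v (hPL hv), zero_smul, add_zero]
    have htx : t x = x + p := by
      rw [ht', erk_apply, smul_smul, mul_inv_cancel₀ hψx, one_smul]
    have hmap : L'.map (t : V →ₗ[F] V) = L' := by
      by_contra hcon
      have h2 : (Ln F E u').map ((g⁻¹ * t * g : V ≃ₗ[F] V) : V →ₗ[F] V) ≠ Ln F E u' := by
        intro h3
        apply hcon
        have h4 : L'.map (t : V →ₗ[F] V) =
            ((Ln F E u').map ((g⁻¹ * t * g : V ≃ₗ[F] V) : V →ₗ[F] V)).map (g : V →ₗ[F] V) := by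
          rw [hL', ← Submodule.map_comp, ← Submodule.map_comp]
          congr 1
          ext v
          change t (g v) = g (g.symm (t (g v)))
          simp
        rw [h4, h3]
      have h3 := hmax u' u' (g⁻¹ * t * g) hu' hu' (X.mul_mem (X.mul_mem (X.inv_mem hg) ht) hg) h2
      -- the larger subspace
      let Q : Submodule F V := P ⊔ Submodule.span F {x + p}
      have hPQ : P < Q := by
        refine lt_of_le_of_ne le_sup_left ?_
        intro h4
        have h5 : x + p ∈ P := by
          rw [h4]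
          exact Submodule.mem_sup_right (Submodule.mem_span_singleton_self _)
        have h6 := hψL ψ hψ _ (hPL h5)
        rw [map_add, hψL ψ hψ p (hPL hp), add_zero] at h6
        exact hψx h6
      have hQ1 : Q ≤ L' := by
        refine sup_le hPL' ?_
        rw [Submodule.span_singleton_le_iff_mem]
        exact L'.add_mem hx (hPL' hp)
      have hQ2 : Q ≤ L'.map (t : V →ₗ[F] V) := by
        refine sup_le ?_ ?_
        · intro v hv
          exact ⟨v, hPL' hv, htP v hv⟩
        · rw [Submodule.span_singleton_le_iff_mem]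
          exact ⟨x, hx, htx⟩
      have hQ3 : Q.map ((g⁻¹ : V ≃ₗ[F] V) : V →ₗ[F] V) ≤
          Ln F E u' ⊓ (Ln F E u').map ((g⁻¹ * t * g : V ≃ₗ[F] V) : V →ₗ[F] V) := by
        rintro _ ⟨v, hv, rfl⟩
        refine ⟨?_, ?_⟩
        · obtain ⟨w, hw, hw'⟩ := hQ1 hv
          have : ((g⁻¹ : V ≃ₗ[F] V) : V →ₗ[F] V) v = w := by
            rw [← hw']
            change g.symm (g w) = w
            simp
          rw [this]
          exact hw
        · obtain ⟨_, ⟨w, hw, rfl⟩, hw'⟩ := hQ2 hv
          refine ⟨w, hw, ?_⟩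
          rw [← hw']
          rfl
      have h4 := Submodule.finrank_lt_finrank_of_lt hPQ
      have h5 := Submodule.finrank_mono hQ3
      rw [LinearEquiv.finrank_map_eq] at h5
      omega
    have htx' : t x' ∈ L' := by
      rw [← hmap]
      exact ⟨x', hx', rfl⟩
    rw [ht', erk_apply, smul_smul] at htx'
    refine ⟨smul_mem_Ln _ (hPL hp), ?_⟩
    have := L'.sub_mem htx' hx'
    rwa [add_sub_cancel_left] at this
  have key2 : ∀ ψ : V →ₗ[E] E, ψ u = 0 → ∀ x ∈ L', ψ x ≠ 0 → ∀ x' ∈ L', ∃ c : F, ψ x' = algebraMap F E c * ψ x := by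
    intro ψ hψ x hx hψx x' hx'
    obtain ⟨c, hc⟩ := stab_eq_bot hr hPL hPne hPneL (κ := ψ x' * (ψ x)⁻¹) (key ψ hψ x hx hψx x' hx')
    exact ⟨c, by rw [hc, inv_mul_cancel_right₀ hψx]⟩
  -- an element outside `F`
  obtain ⟨κ, hκ⟩ : ∃ κ : E, ∀ c : F, algebraMap F E c ≠ κ := by
    by_contra hcon
    push Not at hcon
    have h2 : Function.Surjective (algebraMap F E) := hcon
    have h3 : (⊥ : Subalgebra F E) = ⊤ := by
      rw [eq_top_iff]
      intro x _
      rw [Algebra.mem_bot]
      exact h2 x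
    have h4 := Subalgebra.bot_eq_top_iff_finrank_eq_one.mp h3
    rw [h4] at hr
    exact Nat.not_prime_one hr
  have left : ∀ x ∈ L', x ∉ L → ∀ x' ∈ L', ∃ c : F, x' - c • x ∈ L := by
    intro x hx hxL x' hx'
    have hxL' : x ∉ Submodule.span E {u} := hxL
    obtain ⟨ψ, hψ1, hψ2⟩ := exists_functional hxL'
    obtain ⟨c, hc⟩ := key2 ψ hψ1 x hx (by rw [hψ2]; exact one_ne_zero) x' hx'
    rw [hψ2, mul_one] at hc
    refine ⟨c, ?_⟩
    by_contra hcon
    set z := x' - c • x with hz
    have hzL' : z ∈ L' := L'.sub_mem hx' (L'.smul_mem c hx)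
    have hψz : ψ z = 0 := by
      rw [hz, map_sub, hc]
      have : c • x = (algebraMap F E c) • x := by rw [algebraMap_smul]
      rw [this, map_smul, hψ2, smul_eq_mul, mul_one, sub_self]
    obtain ⟨ψ', h1', h2'⟩ := exists_functional (E := E) (u := u) (v := z) hcon
    obtain ⟨c', hc'⟩ := key2 ψ' h1' z hzL' (by rw [h2']; exact one_ne_zero) x hx
    rw [h2', mul_one] at hc'
    have hκ0 : κ ≠ 0 := fun h0 => hκ 0 (by rw [map_zero, h0])
    obtain ⟨c'', hc''⟩ := key2 (ψ + κ • ψ') (by simp [hψ1, h1']) z hzL' (by simp [hψz, h2', hκ0]) x hx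
    simp only [LinearMap.add_apply, LinearMap.smul_apply, smul_eq_mul, hψ2, hψz, h2', hc', mul_one, zero_add] at hc''
    -- `1 + κ c' = c'' κ`
    have h3 : κ * algebraMap F E (c'' - c') = 1 := by
      rw [map_sub]
      linear_combination -hc''
    have h4 : c'' - c' ≠ 0 := by
      intro h0
      rw [h0, map_zero, mul_zero] at h3
      exact zero_ne_one h3
    apply hκ (c'' - c')⁻¹
    rw [map_inv₀]
    exact (eq_inv_of_mul_eq_one_left h3).symm
  -- dimension of `P`
  obtain ⟨x, hx, hxL⟩ : ∃ x ∈ L', x ∉ L := by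
    by_contra hcon
    push Not at hcon
    exact hne (Submodule.eq_of_le_of_finrank_eq hcon (by rw [hdimL, hdimL']))
  have hdimP : finrank F E ≤ finrank F P + 1 := by
    have h2 : L' ≤ P ⊔ Submodule.span F {x} := by
      intro x' hx'
      obtain ⟨c, hc⟩ := left x hx hxL x' hx'
      have : x' = (x' - c • x) + c • x := by abel
      rw [this]
      refine Submodule.add_mem_sup ⟨hc, ?_⟩ ?_
      · exact L'.sub_mem hx' (L'.smul_mem c hx)
      · exact Submodule.smul_mem _ _ (Submodule.mem_span_singleton_self x)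
    have h3 := Submodule.finrank_mono h2
    have h4 := Submodule.finrank_add_le_finrank_add_finrank P (Submodule.span F {x})
    have h5 : finrank F (Submodule.span F {x}) ≤ 1 := by
      refine (finrank_span_le_card ({x} : Set V)).trans ?_
      simp
    rw [hdimL'] at h3
    omega
  have hdimP2 : finrank F P < finrank F E := by
    rw [← hdimL]
    exact Submodule.finrank_lt_finrank_of_lt (lt_of_le_of_ne hPL hPneL)
  refine ⟨u, u', g, hu, hu', hg, hPne, hne, left, ?_, by change finrank F P + 1 = _; omega⟩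
  intro y hy hyL' y' hy'
  have h2 : P < P ⊔ Submodule.span F {y} := by
    refine lt_of_le_of_ne le_sup_left ?_
    intro h4
    apply hyL'
    apply hPL'
    rw [h4]
    exact Submodule.mem_sup_right (Submodule.mem_span_singleton_self _)
  have h3 : P ⊔ Submodule.span F {y} ≤ L := by
    refine sup_le hPL ?_
    rw [Submodule.span_singleton_le_iff_mem]
    exact hy
  have h4 : P ⊔ Submodule.span F {y} = L := by
    refine Submodule.eq_of_le_of_finrank_le h3 ?_
    have := Submodule.finrank_lt_finrank_of_lt h2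
    rw [hdimL]
    omega
  have hy'' : y' ∈ L := hy'
  rw [← h4] at hy''
  obtain ⟨p, hp, s, hs, rfl⟩ := Submodule.mem_sup.mp hy''
  obtain ⟨c, rfl⟩ := Submodule.mem_span_singleton.mp hs
  exact ⟨c, by rw [add_sub_cancel_right]; exact hPL' hp⟩

end Pair

end Cfsg.Agent.H935
end

-- part: H935/ExtFind
section
/-!
# Finding an `F`-transvection (helper935)
-/

set_option autoImplicit false

namespace Cfsg.Agent.H935

open Module

section Find

variable {F E V : Type*} [Field F] [Field E] [Algebra F E] [AddCommGroup V] [Module F V] [Module E V]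
  [IsScalarTower F E V]

variable {X : Subgroup (V ≃ₗ[F] V)}

/-- a map with all values on the line `F p` -/
theorem exists_rk_of {T : V →ₗ[F] V} {p : V} (hp : p ≠ 0) (h : ∀ v, ∃ c : F, T v = c • p) :
    ∃ φ : V →ₗ[F] F, ∀ v, T v = φ v • p := by
  obtain ⟨f, hf⟩ := exists_functional_one (E := F) hp
  refine ⟨f ∘ₗ T, fun v => ?_⟩
  obtain ⟨c, hc⟩ := h v
  rw [LinearMap.comp_apply, hc, map_smul, hf, smul_eq_mul, mul_one]

/-- the conclusion: some `F`-transvection lies in `X` -/
def HasTransvection (X : Subgroup (V ≃ₗ[F] V)) : Prop :=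
  ∃ (φ : V →ₗ[F] F) (a : V), a ≠ 0 ∧ φ ≠ 0 ∧ φ a = 0 ∧ Has X (rk φ a)

theorem hasTransvection_of {T : V →ₗ[F] V} {p : V} (hp : p ≠ 0) (h : ∀ v, ∃ c : F, T v = c • p) (hT : Has X T)
    (hTp : T p = 0) {v : V} (hv : T v ≠ 0) : HasTransvection X := by
  obtain ⟨φ, hφ⟩ := exists_rk_of hp h
  refine ⟨φ, p, hp, ?_, ?_, hT.congr hφ⟩
  · rintro rfl
    apply hv
    rw [hφ]
    simp
  · have := hφ p
    rw [hTp] at this
    exact (smul_eq_zero.mp this.symm).resolve_right hp

/-- the conjugated rank one maps: for `y ∉ L'` and `z ∈ L'` maps `B z` with `B z y = z` -/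
theorem exists_B (hX : ContainsN F E V X) {u' : V} {g : V ≃ₗ[F] V} (hg : g ∈ X) {y : V}
    (hy : y ∉ (Ln F E u').map (g : V →ₗ[F] V)) :
    ∃ ψ₁ : V →ₗ[E] E, ψ₁ u' = 0 ∧ ψ₁ (g.symm y) = 1 ∧ ∀ z ∈ (Ln F E u').map (g : V →ₗ[F] V),
      ∃ B : V →ₗ[F] V, Has X B ∧ (∀ v, B v = g (ψ₁ (g.symm v) • g.symm z)) ∧
        (∀ v, B v ∈ (Ln F E u').map (g : V →ₗ[F] V)) ∧ (∀ v ∈ (Ln F E u').map (g : V →ₗ[F] V), B v = 0) ∧
        B y = z ∧ (z ≠ 0 → ∀ w ∈ (Ln F E u').map (g : V →ₗ[F] V), ∃ v, B v = w) := by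
  have hy' : g.symm y ∉ Submodule.span E {u'} := by
    intro h
    apply hy
    exact ⟨g.symm y, h, by simp⟩
  obtain ⟨ψ₁, h1, h2⟩ := exists_functional hy'
  refine ⟨ψ₁, h1, h2, ?_⟩
  rintro _ ⟨z₀, hz₀, rfl⟩
  obtain ⟨s, rfl⟩ := mem_Ln.mp hz₀
  have h3 : ψ₁ (s • u') = 0 := by rw [map_smul, h1, smul_zero]
  have hB := (has_erk hX h3).conj hg
  refine ⟨_, hB, ?_, ?_, ?_, ?_, ?_⟩
  · intro v
    change g (ψ₁ (g.symm v) • s • u') = g (ψ₁ (g.symm v) • g.symm (g (s • u')))
    simp
  · intro v
    exact ⟨ψ₁ (g.symm v) • s • u', smul_mem_Ln _ hz₀, rfl⟩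
  · rintro _ ⟨w, hw, rfl⟩
    obtain ⟨t, rfl⟩ := mem_Ln.mp hw
    change g (ψ₁ (g.symm (g (t • u'))) • s • u') = 0
    simp [h1]
  · change g (ψ₁ (g.symm y) • s • u') = g (s • u')
    rw [h2, one_smul]
  · rintro hz _ ⟨w, hw, rfl⟩
    obtain ⟨t, rfl⟩ := mem_Ln.mp hw
    have hs : s ≠ 0 := by
      rintro rfl
      apply hz
      simp
    refine ⟨g ((t * s⁻¹) • g.symm y), ?_⟩
    change g (ψ₁ (g.symm (g ((t * s⁻¹) • g.symm y))) • s • u') = g (t • u')
    rw [LinearEquiv.symm_apply_apply, ψ₁.map_smul, h2, smul_smul]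
    congr 2
    simp only [smul_eq_mul, mul_one]
    rw [inv_mul_cancel_right₀ hs]

variable [Finite F] [FiniteDimensional F E] [Module.Finite E V]

/-- Case `m ≥ 3`. -/
theorem find_of_three (hX : ContainsN F E V X) (hm : 3 ≤ finrank E V) {u u' : V} {g : V ≃ₗ[F] V}
    (D : PairData (E := E) X u u' g) : HasTransvection X := by
  have hFV : FiniteDimensional F V := Module.Finite.trans E V
  set L := Ln F E u with hL
  set L' := (Ln F E u').map (g : V →ₗ[F] V) with hL'
  obtain ⟨p, ⟨hpL, hpL'⟩, hp0⟩ := Submodule.exists_mem_ne_zero_of_ne_bot D.inf_ne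
  have hdimL : finrank F L = finrank F E := finrank_Ln D.u_ne
  have hdimL' : finrank F L' = finrank F E := by
    rw [hL', LinearEquiv.finrank_map_eq, finrank_Ln D.u'_ne]
  obtain ⟨x, hx, hxL⟩ : ∃ x ∈ L', x ∉ L := by
    by_contra hcon
    push Not at hcon
    exact D.ne (Submodule.eq_of_le_of_finrank_eq hcon (by rw [hdimL, hdimL']))
  obtain ⟨y, hy, hyL'⟩ : ∃ y ∈ L, y ∉ L' := by
    by_contra hcon
    push Not at hcon
    exact D.ne (Submodule.eq_of_le_of_finrank_eq hcon (by rw [hdimL, hdimL'])).symm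
  obtain ⟨ψ₁, _, _, hB⟩ := exists_B hX D.mem hyL'
  obtain ⟨B, hB0, _, hB1, hB2, hB3, _⟩ := hB p hpL'
  -- the functional `ψ` vanishing on `u` and `x`
  obtain ⟨z, hz⟩ : ∃ z : V, z ∉ Submodule.span E {u, x} := by
    by_contra hcon
    push Not at hcon
    have h1 : Submodule.span E {u, x} = ⊤ := eq_top_iff.mpr fun v _ => hcon v
    have h2 : finrank E (Submodule.span E ({u, x} : Set V)) ≤ 2 := by
      classical
      have h3 := finrank_span_le_card (R := E) ({u, x} : Set V)
      refine h3.trans ?_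
      simp only [Set.toFinset_insert, Set.toFinset_singleton]
      exact Finset.card_le_two
    rw [h1, finrank_top] at h2
    omega
  obtain ⟨f, hf, hle⟩ := Submodule.exists_le_ker_of_notMem hz
  let ψ : V →ₗ[E] E := (f z)⁻¹ • f
  have hψu : ψ u = 0 := by
    have : f u = 0 := hle (Submodule.subset_span (by simp))
    simp [ψ, this]
  have hψx : ψ x = 0 := by
    have : f x = 0 := hle (Submodule.subset_span (by simp))
    simp [ψ, this]
  have hψz : ψ z = 1 := by simp [ψ, hf]
  have hψL : ∀ v ∈ L, ψ v = 0 := by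
    intro v hv
    obtain ⟨e, rfl⟩ := mem_Ln.mp hv
    simp [hψu]
  have hψL' : ∀ v ∈ L', ψ v = 0 := by
    intro v hv
    obtain ⟨c, hc⟩ := D.left x hx hxL v hv
    have h1 := hψL _ hc
    have h2 : c • x = (algebraMap F E c) • x := by rw [algebraMap_smul]
    rw [map_sub, h2, map_smul, hψx, smul_zero, sub_zero] at h1
    exact h1
  have hA := has_erk hX (hψL y hy)
  have hT : Has X (B ∘ₗ (erk ψ y : V →ₗ[F] V)) := by
    refine hB0.comm hA ?_ ?_ ?_
    · intro v; exact hB2 _ (hB1 v)
    · intro v; simp [hψL y hy]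
    · intro v; simp [hψL' _ (hB1 v)]
  refine hasTransvection_of hp0 ?_ hT ?_ (v := z) ?_
  · intro v
    obtain ⟨c, hc⟩ := D.right y hy hyL' (ψ v • y) (smul_mem_Ln _ hy)
    refine ⟨c, ?_⟩
    have h1 := hB2 _ hc
    rw [map_sub, B.map_smul c y, hB3, sub_eq_zero] at h1
    exact h1
  · simp [hψL p hpL]
  · simp [hψz, hB3, hp0]

/-- Case `m = 2`, `r ≥ 3`. -/
theorem find_of_two (hX : ContainsN F E V X) (hm : finrank E V = 2) (hr : 3 ≤ finrank F E) {u u' : V}
    {g : V ≃ₗ[F] V} (D : PairData (E := E) X u u' g) : HasTransvection X := by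
  have hFV : FiniteDimensional F V := Module.Finite.trans E V
  set L := Ln F E u with hL
  set L' := (Ln F E u').map (g : V →ₗ[F] V) with hL'
  obtain ⟨p, ⟨hpL, hpL'⟩, hp0⟩ := Submodule.exists_mem_ne_zero_of_ne_bot D.inf_ne
  have hdimL : finrank F L = finrank F E := finrank_Ln D.u_ne
  have hdimL' : finrank F L' = finrank F E := by
    rw [hL', LinearEquiv.finrank_map_eq, finrank_Ln D.u'_ne]
  obtain ⟨x, hx, hxL⟩ : ∃ x ∈ L', x ∉ L := by
    by_contra hcon
    push Not at hcon
    exact D.ne (Submodule.eq_of_le_of_finrank_eq hcon (by rw [hdimL, hdimL']))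
  obtain ⟨y, hy, hyL'⟩ : ∃ y ∈ L, y ∉ L' := by
    by_contra hcon
    push Not at hcon
    exact D.ne (Submodule.eq_of_le_of_finrank_eq hcon (by rw [hdimL, hdimL'])).symm
  -- `p' ∈ P` independent of `p`
  obtain ⟨p', ⟨hp'L, hp'L'⟩, hp'⟩ : ∃ p' ∈ L ⊓ L', p' ∉ Submodule.span F {p} := by
    by_contra hcon
    push Not at hcon
    have h1 : L ⊓ L' ≤ Submodule.span F {p} := hcon
    have h2 := Submodule.finrank_mono h1
    have h3 : finrank F (Submodule.span F {p}) ≤ 1 := by
      refine (finrank_span_le_card ({p} : Set V)).trans ?_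
      simp
    have h4 := D.finrank_inf
    change finrank F ↥(L ⊓ L') + 1 = _ at h4
    omega
  have hp'0 : p' ≠ 0 := by
    rintro rfl
    exact hp' (Submodule.zero_mem _)
  obtain ⟨ψ₁, _, _, hB⟩ := exists_B hX D.mem hyL'
  obtain ⟨B, hB0, _, hB1, hB2, hB3, hB4⟩ := hB p' hp'L'
  obtain ⟨ψ, hψu, hψx⟩ := exists_functional (E := E) (u := u) (v := x) hxL
  have hψL : ∀ v ∈ L, ψ v = 0 := by
    intro v hv
    obtain ⟨e, rfl⟩ := mem_Ln.mp hv
    simp [hψu]
  -- the kernel of `ψ` is `L`
  have hker : ∀ v, ψ v = 0 → v ∈ L := by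
    intro v hv
    have h1 : finrank E (LinearMap.range ψ) + finrank E (LinearMap.ker ψ) = 2 := by
      rw [LinearMap.finrank_range_add_finrank_ker, hm]
    have h2 : LinearMap.range ψ = ⊤ := by
      rw [LinearMap.range_eq_top]
      intro e
      exact ⟨e • x, by simp [hψx]⟩
    rw [h2, finrank_top, finrank_self] at h1
    have h3 : Submodule.span E {u} ≤ LinearMap.ker ψ := by
      rw [Submodule.span_singleton_le_iff_mem]
      exact hψu
    have h4 : finrank E (Submodule.span E {u}) = 1 := finrank_span_singleton D.u_ne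
    have h5 : Submodule.span E {u} = LinearMap.ker ψ :=
      Submodule.eq_of_le_of_finrank_eq h3 (by omega)
    have h6 : v ∈ Submodule.span E {u} := by rw [h5]; exact hv
    exact h6
  let A : V →ₗ[F] V := erk ψ p
  have hA0 : Has X A := has_erk hX (hψL p hpL)
  have hA : ∀ v, A v = ψ v • p := fun v => rfl
  have hAL : ∀ v ∈ L, A v = 0 := by intro v hv; rw [hA, hψL v hv, zero_smul]
  have hAv : ∀ v, A v ∈ L := fun v => smul_mem_Ln _ hpL
  have hAL' : ∀ v ∈ L', ∃ c : F, A v = c • p := by
    intro v hv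
    obtain ⟨c, hc⟩ := D.left x hx hxL v hv
    refine ⟨c, ?_⟩
    have h1 := hAL _ hc
    rw [map_sub, map_smul, sub_eq_zero] at h1
    rw [h1, hA, hψx, one_smul]
  have hBL : ∀ v ∈ L, ∃ c : F, B v = c • p' := by
    intro v hv
    obtain ⟨c, hc⟩ := D.right y hy hyL' v hv
    refine ⟨c, ?_⟩
    have h1 := hB2 _ hc
    rw [map_sub, map_smul, hB3, sub_eq_zero] at h1
    exact h1
  have hAp' : A p' = 0 := hAL p' hp'L
  have hBp : B p = 0 := hB2 p hpL'
  let C : V →ₗ[F] V := A ∘ₗ B - B ∘ₗ A
  have hC : ∀ v, C v = A (B v) - B (A v) := fun v => rfl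
  have hC0 : Has X C := by
    refine hA0.comm' hB0 ?_ ?_ ?_ ?_
    · intro v; exact hAL _ (hAv v)
    · intro v; exact hB2 _ (hB1 v)
    · intro v
      obtain ⟨c, hc⟩ := hBL _ (hAv v)
      rw [hc, map_smul, hAp', smul_zero]
    · intro v
      obtain ⟨c, hc⟩ := hAL' _ (hB1 v)
      rw [hc, map_smul, hBp, smul_zero]
  have hCL : ∀ v ∈ L, C v = 0 := by
    intro v hv
    rw [hC, hAL v hv, map_zero, sub_zero]
    obtain ⟨c, hc⟩ := hBL _ hv
    rw [hc, map_smul, hAp', smul_zero]
  have hCv : ∀ v, C v ∈ L ⊓ L' := by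
    intro v
    rw [hC]
    refine Submodule.sub_mem _ ?_ ?_
    · obtain ⟨c, hc⟩ := hAL' _ (hB1 v)
      rw [hc]
      exact Submodule.smul_mem _ _ ⟨hpL, hpL'⟩
    · obtain ⟨c, hc⟩ := hBL _ (hAv v)
      rw [hc]
      exact Submodule.smul_mem _ _ ⟨hp'L, hp'L'⟩
  -- `C ≠ 0`
  obtain ⟨v₀, hv₀⟩ : ∃ v, C v ≠ 0 := by
    obtain ⟨v, hv⟩ := hB4 hp'0 x hx
    refine ⟨v, ?_⟩
    intro h
    rw [hC, hv, hA, hψx, one_smul, sub_eq_zero] at h
    obtain ⟨c, hc⟩ := hBL _ (hAv v)
    rw [hc] at h
    have hc0 : c ≠ 0 := by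
      rintro rfl
      rw [zero_smul] at h
      exact hp0 h
    apply hp'
    rw [Submodule.mem_span_singleton]
    exact ⟨c⁻¹, by rw [h, smul_smul, inv_mul_cancel₀ hc0, one_smul]⟩
  -- a `δ` of norm one with `C (δ x) ≠ 0`
  let W : Submodule F E :=
    { carrier := {κ | C (κ • x) = 0}
      add_mem' := by
        intro a b ha hb
        simp only [Set.mem_ofPred_eq] at ha hb ⊢
        rw [add_smul, map_add, ha, hb, add_zero]
      zero_mem' := by
        change C ((0 : E) • x) = 0
        rw [zero_smul, map_zero]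
      smul_mem' := by
        intro c a ha
        simp only [Set.mem_ofPred_eq] at ha ⊢
        rw [smul_assoc, map_smul, ha, smul_zero] }
  have hW : W ≠ ⊤ := by
    intro h
    apply hv₀
    have h1 : v₀ - ψ v₀ • x ∈ L := by
      apply hker
      simp [hψx]
    have h2 := hCL _ h1
    have h3 : ψ v₀ ∈ W := by rw [h]; trivial
    have h4 : C (ψ v₀ • x) = 0 := h3
    rw [map_sub, h4, sub_zero] at h2
    exact h2
  obtain ⟨δ, hδ, hδW⟩ := exists_norm_one_notMem (by omega) W hW
  have hδC : C (δ • x) ≠ 0 := hδW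
  obtain ⟨n, hn, hn1, hn2⟩ := exists_dil hX hψx hδ
  have hnx : n x = δ • x := by
    rw [hn1, hψx, one_smul, sub_smul, one_smul]; abel
  have hnL : ∀ v ∈ L, n v = v := by
    intro v hv
    rw [hn1, hψL v hv, zero_smul, add_zero]
  have hnL' : ∀ v ∈ L, (n⁻¹ : V ≃ₗ[F] V) v = v := by
    intro v hv
    rw [hn2, hψL v hv, zero_smul, add_zero]
  obtain ⟨B₂, hB20, _, hB21, hB22, hB23, hB24⟩ := hB p hpL'
  have hBn := hB20.conj hn
  set Bn : V →ₗ[F] V := (n : V →ₗ[F] V) ∘ₗ B₂ ∘ₗ ((n⁻¹ : V ≃ₗ[F] V) : V →ₗ[F] V) with hBndef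
  have hBnv : ∀ v, Bn v = n (B₂ ((n⁻¹ : V ≃ₗ[F] V) v)) := fun v => rfl
  have hnn : ∀ v, (n⁻¹ : V ≃ₗ[F] V) (n v) = v := by
    intro v
    change n.symm (n v) = v
    simp
  have hBnP : ∀ v ∈ L ⊓ L', Bn v = 0 := by
    intro v hv
    rw [hBnv, hnL' v hv.1, hB22 v hv.2, map_zero]
  have hT : Has X (C ∘ₗ Bn) := by
    refine hC0.comm hBn ?_ ?_ ?_
    · intro v; exact hCL _ (hCv v).1
    · intro v
      rw [hBnv, hBnv, hnn, hB22 _ (hB21 _), map_zero]
    · intro v; exact hBnP _ (hCv v)
  have hTv : ∀ v, ∃ c : F, (C ∘ₗ Bn) v = c • C (δ • x) := by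
    intro v
    rw [LinearMap.comp_apply, hBnv]
    obtain ⟨c, hc⟩ := D.left x hx hxL _ (hB21 ((n⁻¹ : V ≃ₗ[F] V) v))
    refine ⟨c, ?_⟩
    set w := B₂ ((n⁻¹ : V ≃ₗ[F] V) v) with hw
    have h1 : w = (w - c • x) + c • x := by abel
    rw [h1, map_add, hnL _ hc, map_smul, hnx, map_add, hCL _ hc, zero_add, map_smul]
  obtain ⟨v', hv'⟩ := hB24 hp0 x hx
  refine hasTransvection_of hδC hTv hT ?_ (v := n v') ?_
  · rw [LinearMap.comp_apply, hBnP _ (hCv _), map_zero]
  · rw [LinearMap.comp_apply, hBnv, hnn, hv', hnx]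
    exact hδC

end Find

end Cfsg.Agent.H935
end

-- part: H935/ExtTwo
section
/-!
# Finding an `F`-transvection: quadratic extension, plane (helper935)
-/

set_option autoImplicit false

namespace Cfsg.Agent.H935

open Module

section Two

variable {F E V : Type*} [Field F] [Field E] [Algebra F E] [AddCommGroup V] [Module F V] [Module E V]
  [IsScalarTower F E V] {X : Subgroup (V ≃ₗ[F] V)}

/-- over the field with two elements every `E`-linear automorphism lies in `X` -/
theorem mem_of_two [FiniteDimensional F E] (hX : ContainsN F E V X) (hF : ∀ s : F, s = 0 ∨ s = 1) (g : V ≃ₗ[E] V) :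
    g.restrictScalars F ∈ X := by
  apply hX
  rcases hF (Algebra.norm F (LinearMap.det (g : V →ₗ[E] V))) with h | h
  · exfalso
    rw [Algebra.norm_eq_zero_iff] at h
    have := (LinearEquiv.det g).ne_zero
    rw [LinearEquiv.coe_det] at this
    exact this h
  · exact h

/-- the endgame over the field with two elements -/
theorem find_of_card_two [FiniteDimensional F E] (hX : ContainsN F E V X) (hF : ∀ s : F, s = 0 ∨ s = 1)
    {p x : V} {ω : E} (hω : ω * ω = ω + 1) {ψ χ : V →ₗ[E] E} (hψp : ψ p = 0) (hψx : ψ x = 1) (hχp : χ p = 1)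
    (hχx : χ x = 0) (hdec : ∀ v, v = χ v • p + ψ v • x)
    (hE : ∀ κ : E, ∃ c c' : F, κ = algebraMap F E c * ω + algebraMap F E c')
    {B B' : V →ₗ[F] V} (hB : Has X B) (hB' : Has X B') {α : F} (b1 : B p = 0) (b2 : B x = 0) (b3 : B (ω • p) = p)
    (b4 : B (ω • x) = x + α • p) (c1 : B' p = 0) (c2 : B' x = 0) (c3 : B' (ω • p) = x)
    (c4 : α = 0 → B' (ω • x) = x + p) : HasTransvection X := by
  have h20 : (1 : F) + 1 = 0 := by
    rcases hF (1 + 1) with h | h
    · exact h
    · exfalso
      have : (1 : F) = 0 := by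
        have h' : (1 : F) + 1 = 1 + 0 := by rw [h, add_zero]
        exact add_left_cancel h'
      exact one_ne_zero this
  have h2 : ∀ v : V, v + v = 0 := by
    intro v
    have : v + v = ((1 : F) + 1) • v := by rw [add_smul, one_smul]
    rw [this, h20, zero_smul]
  have h2' : ∀ v w : V, v + (v + w) = w := by
    intro v w
    rw [← add_assoc, h2, zero_add]
  have hωω : ∀ v : V, ω • ω • v = ω • v + v := by
    intro v
    rw [smul_smul, hω, add_smul, one_smul]
  -- decomposition over `F`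
  have hdecF : ∀ v : V, ∃ c1 c2 c3 c4 : F, v = c1 • p + c2 • (ω • p) + c3 • x + c4 • (ω • x) := by
    intro v
    obtain ⟨c, c', h⟩ := hE (χ v)
    obtain ⟨d, d', h'⟩ := hE (ψ v)
    refine ⟨c', c, d', d, ?_⟩
    conv_lhs => rw [hdec v, h, h']
    rw [add_smul, add_smul, mul_smul, mul_smul, algebraMap_smul, algebraMap_smul, algebraMap_smul, algebraMap_smul]
    abel
  have hp0 : p ≠ 0 := by
    rintro rfl
    rw [map_zero] at hχp
    exact zero_ne_one hχp
  have hω0 : ω ≠ 0 := by
    rintro rfl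
    rw [mul_zero, zero_add] at hω
    exact zero_ne_one hω
  rcases hF α with hα | hα
  · -- `α = 0`
    have c4' := c4 hα
    obtain ⟨t, ht, ht'⟩ := hB'
    let N : V ≃ₗ[E] V := LinearEquiv.ofLinearMap
      (ψ.smulRight (ω • p) + χ.smulRight (ω • x)) (ψ.smulRight (ω⁻¹ • p) + χ.smulRight (ω⁻¹ • x))
      (by
        ext v
        simp only [LinearMap.comp_apply, LinearMap.add_apply, LinearMap.smulRight_apply, map_add, map_smul, hψp, hψx,
          hχp, hχx, smul_eq_mul, mul_zero, mul_one, add_zero, zero_add, LinearMap.id_apply]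
        conv_rhs => rw [hdec v]
        have hωω0 : ω * ω ≠ 0 := mul_ne_zero hω0 hω0
        match_scalars <;> field_simp <;> ring
        )
      (by
        ext v
        simp only [LinearMap.comp_apply, LinearMap.add_apply, LinearMap.smulRight_apply, map_add, map_smul, hψp, hψx,
          hχp, hχx, smul_eq_mul, mul_zero, mul_one, add_zero, zero_add, LinearMap.id_apply]
        conv_rhs => rw [hdec v]
        have hωω0 : ω * ω ≠ 0 := mul_ne_zero hω0 hω0
        match_scalars <;> field_simp <;> ring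
        )
    let N' : V ≃ₗ[E] V := LinearEquiv.ofLinearMap
      (χ.smulRight (ω • p) + ψ.smulRight ((ω * ω) • x)) (χ.smulRight (ω⁻¹ • p) + ψ.smulRight ((ω * ω)⁻¹ • x))
      (by
        ext v
        simp only [LinearMap.comp_apply, LinearMap.add_apply, LinearMap.smulRight_apply, map_add, map_smul, hψp, hψx,
          hχp, hχx, smul_eq_mul, mul_zero, mul_one, add_zero, zero_add, LinearMap.id_apply]
        conv_rhs => rw [hdec v]
        have hωω0 : ω * ω ≠ 0 := mul_ne_zero hω0 hω0
        match_scalars <;> field_simp <;> ring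
        )
      (by
        ext v
        simp only [LinearMap.comp_apply, LinearMap.add_apply, LinearMap.smulRight_apply, map_add, map_smul, hψp, hψx,
          hχp, hχx, smul_eq_mul, mul_zero, mul_one, add_zero, zero_add, LinearMap.id_apply]
        conv_rhs => rw [hdec v]
        have hωω0 : ω * ω ≠ 0 := mul_ne_zero hω0 hω0
        match_scalars <;> field_simp <;> ring
        )
    set n : V ≃ₗ[F] V := N.restrictScalars F with hn
    set n' : V ≃ₗ[F] V := N'.restrictScalars F with hn'
    have hnX : n ∈ X := mem_of_two hX hF N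
    have hnX' : n' ∈ X := mem_of_two hX hF N'
    have hn1 : ∀ v, n v = ψ v • (ω • p) + χ v • (ω • x) := fun v => rfl
    have hn2 : ∀ v, n' v = χ v • (ω • p) + ψ v • ((ω * ω) • x) := fun v => rfl
    have n1 : n p = ω • x := by rw [hn1, hψp, hχp]; simp
    have n2 : n (ω • p) = ω • x + x := by rw [hn1]; simp [hψp, hχp, hωω]
    have n3 : n x = ω • p := by rw [hn1, hψx, hχx]; simp
    have n4 : n (ω • x) = ω • p + p := by rw [hn1]; simp [hψx, hχx, hωω]
    have m1 : n' p = ω • p := by rw [hn2, hψp, hχp]; simp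
    have m2 : n' (ω • p) = ω • p + p := by rw [hn2]; simp [hψp, hχp, hωω]
    have m3 : n' x = ω • x + x := by rw [hn2, hψx, hχx]; simp [mul_smul, hωω]
    have m4 : n' (ω • x) = x := by
      rw [hn2]
      simp only [map_smul, hψx, hχx, smul_eq_mul, mul_zero, zero_smul, mul_one, zero_add]
      rw [hω, add_smul, one_smul, smul_add, hωω]
      simp [add_left_comm, add_comm, h2, h2']
    have t1 : t p = p := by rw [ht', c1, add_zero]
    have t2 : t (ω • p) = ω • p + x := by rw [ht', c3]
    have t3 : t x = x := by rw [ht', c2, add_zero]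
    have t4 : t (ω • x) = ω • x + (x + p) := by rw [ht', c4']
    set M : V ≃ₗ[F] V := t * n * t * n' with hM
    have hMX : M ∈ X := X.mul_mem (X.mul_mem (X.mul_mem ht hnX) ht) hnX'
    have hMv : ∀ v, M v = t (n (t (n' v))) := fun v => rfl
    have M1 : M p = p + (ω • p + (x + ω • x)) := by
      simp only [hMv, m1, m2, m3, m4, n1, n2, n3, n4, t1, t2, t3, t4, map_add]
      simp [add_left_comm, add_comm, add_assoc, h2, h2']
    have M2 : M (ω • p) = ω • p := by
      simp only [hMv, m1, m2, m3, m4, n1, n2, n3, n4, t1, t2, t3, t4, map_add]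
      simp [add_left_comm, add_comm, add_assoc, h2, h2']
    have M3 : M x = x + (ω • p + (x + ω • x)) := by
      simp only [hMv, m1, m2, m3, m4, n1, n2, n3, n4, t1, t2, t3, t4, map_add]
      simp [add_left_comm, add_comm, add_assoc, h2, h2']
    have M4 : M (ω • x) = ω • x + (ω • p + (x + ω • x)) := by
      simp only [hMv, m1, m2, m3, m4, n1, n2, n3, n4, t1, t2, t3, t4, map_add]
      simp [add_left_comm, add_comm, add_assoc, h2, h2']
    set a : V := ω • p + (x + ω • x) with ha
    have ha0 : a ≠ 0 := by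
      intro h0
      have h3 : χ a = 0 := by rw [h0, map_zero]
      rw [ha] at h3
      simp [hχp, hχx] at h3
      exact hω0 h3
    let T : V →ₗ[F] V := (M : V →ₗ[F] V) - LinearMap.id
    have hTv : ∀ v, T v = M v - v := fun v => rfl
    have hT : Has X T := ⟨M, hMX, fun v => by rw [hTv]; abel⟩
    have T1 : T p = a := by rw [hTv, M1]; abel
    have T2 : T (ω • p) = 0 := by rw [hTv, M2, sub_self]
    have T3 : T x = a := by rw [hTv, M3]; abel
    have T4 : T (ω • x) = a := by rw [hTv, M4]; abel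
    refine hasTransvection_of ha0 ?_ hT ?_ (v := p) (by rw [T1]; exact ha0)
    · intro v
      obtain ⟨c1, c2, c3, c4, h⟩ := hdecF v
      refine ⟨c1 + c3 + c4, ?_⟩
      rw [h, map_add, map_add, map_add, T.map_smul, T.map_smul, T.map_smul, T.map_smul, T1, T2, T3, T4, smul_zero,
        add_smul, add_smul, add_zero]
    · rw [ha, map_add, map_add, T2, T3, T4, zero_add]
      exact h2 a
  · -- `α = 1`
    subst hα
    rw [one_smul] at b4
    obtain ⟨t, ht, ht'⟩ := hB
    let N : V ≃ₗ[E] V := LinearEquiv.ofLinearMap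
      (χ.smulRight p + ψ.smulRight (ω • x)) (χ.smulRight p + ψ.smulRight (ω⁻¹ • x))
      (by
        ext v
        simp only [LinearMap.comp_apply, LinearMap.add_apply, LinearMap.smulRight_apply, map_add, map_smul, hψp, hψx,
          hχp, hχx, smul_eq_mul, mul_zero, mul_one, add_zero, zero_add, LinearMap.id_apply]
        conv_rhs => rw [hdec v]
        have hωω0 : ω * ω ≠ 0 := mul_ne_zero hω0 hω0
        match_scalars <;> field_simp <;> ring
        )
      (by
        ext v
        simp only [LinearMap.comp_apply, LinearMap.add_apply, LinearMap.smulRight_apply, map_add, map_smul, hψp, hψx,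
          hχp, hχx, smul_eq_mul, mul_zero, mul_one, add_zero, zero_add, LinearMap.id_apply]
        conv_rhs => rw [hdec v]
        have hωω0 : ω * ω ≠ 0 := mul_ne_zero hω0 hω0
        match_scalars <;> field_simp <;> ring
        )
    set n : V ≃ₗ[F] V := N.restrictScalars F with hn
    have hnX : n ∈ X := mem_of_two hX hF N
    have hn1 : ∀ v, n v = χ v • p + ψ v • (ω • x) := fun v => rfl
    have n1 : n p = p := by rw [hn1, hψp, hχp]; simp
    have n2 : n (ω • p) = ω • p := by rw [hn1]; simp [hψp, hχp]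
    have n3 : n x = ω • x := by rw [hn1, hψx, hχx]; simp
    have n4 : n (ω • x) = ω • x + x := by rw [hn1]; simp [hψx, hχx, hωω]
    have t1 : t p = p := by rw [ht', b1, add_zero]
    have t2 : t (ω • p) = ω • p + p := by rw [ht', b3]
    have t3 : t x = x := by rw [ht', b2, add_zero]
    have t4 : t (ω • x) = ω • x + (x + p) := by rw [ht', b4]
    set M : V ≃ₗ[F] V := t * n * t * n with hM
    have hMX : M ∈ X := X.mul_mem (X.mul_mem (X.mul_mem ht hnX) ht) hnX
    have hMv : ∀ v, M v = t (n (t (n v))) := fun v => rfl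
    have M1 : M p = p := by rw [hMv, n1, t1, n1, t1]
    have M2 : M (ω • p) = ω • p := by
      simp only [hMv, n1, n2, n3, n4, t1, t2, t3, t4, map_add]
      simp [add_left_comm, add_comm, add_assoc, h2, h2']
    have M3 : M x = x + p := by
      simp only [hMv, n1, n2, n3, n4, t1, t2, t3, t4, map_add]
      simp [add_left_comm, add_comm, add_assoc, h2, h2']
    have M4 : M (ω • x) = ω • x := by
      simp only [hMv, n1, n2, n3, n4, t1, t2, t3, t4, map_add]
      simp [add_left_comm, add_comm, add_assoc, h2, h2']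
    let T : V →ₗ[F] V := (M : V →ₗ[F] V) - LinearMap.id
    have hTv : ∀ v, T v = M v - v := fun v => rfl
    have hT : Has X T := ⟨M, hMX, fun v => by rw [hTv]; abel⟩
    have T1 : T p = 0 := by rw [hTv, M1, sub_self]
    have T2 : T (ω • p) = 0 := by rw [hTv, M2, sub_self]
    have T3 : T x = p := by rw [hTv, M3]; abel
    have T4 : T (ω • x) = 0 := by rw [hTv, M4, sub_self]
    refine hasTransvection_of hp0 ?_ hT T1 (v := x) (by rw [T3]; exact hp0)
    intro v
    obtain ⟨c1, c2, c3, c4, h⟩ := hdecF v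
    refine ⟨c3, ?_⟩
    rw [h, map_add, map_add, map_add, T.map_smul, T.map_smul, T.map_smul, T.map_smul, T1, T2, T3, T4, smul_zero,
      smul_zero, smul_zero, zero_add, add_zero, zero_add]

end Two

end Cfsg.Agent.H935
end

-- part: H935/ExtQuad
section
/-!
# Finding an `F`-transvection: the plane over a quadratic extension (helper935)
-/

set_option autoImplicit false

namespace Cfsg.Agent.H935

open Module

section Quad

variable {F E V : Type*} [Field F] [Field E] [Algebra F E] [AddCommGroup V] [Module F V] [Module E V]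
  [IsScalarTower F E V] {X : Subgroup (V ≃ₗ[F] V)}

/-- Case `m = 2`, `r = 2`. -/
theorem find_of_quad [Finite F] [FiniteDimensional F E] [Module.Finite E V] (hX : ContainsN F E V X)
    (hm : finrank E V = 2) (hr : finrank F E = 2) {u u' : V} {g : V ≃ₗ[F] V}
    (D : PairData (E := E) X u u' g) : HasTransvection X := by
  have hFV : FiniteDimensional F V := Module.Finite.trans E V
  by_contra hno
  set L := Ln F E u with hL
  set L' := (Ln F E u').map (g : V →ₗ[F] V) with hL'
  obtain ⟨p, ⟨hpL, hpL'⟩, hp0⟩ := Submodule.exists_mem_ne_zero_of_ne_bot D.inf_ne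
  have hdimL : finrank F L = finrank F E := finrank_Ln D.u_ne
  have hdimL' : finrank F L' = finrank F E := by
    rw [hL', LinearEquiv.finrank_map_eq, finrank_Ln D.u'_ne]
  obtain ⟨x, hx, hxL⟩ : ∃ x ∈ L', x ∉ L := by
    by_contra hcon
    push Not at hcon
    exact D.ne (Submodule.eq_of_le_of_finrank_eq hcon (by rw [hdimL, hdimL']))
  obtain ⟨y, hy, hyL'⟩ : ∃ y ∈ L, y ∉ L' := by
    by_contra hcon
    push Not at hcon
    exact D.ne (Submodule.eq_of_le_of_finrank_eq hcon (by rw [hdimL, hdimL'])).symm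
  -- `P = F p`
  have hP : ∀ v ∈ L ⊓ L', ∃ c : F, v = c • p := by
    have h1 : Submodule.span F {p} ≤ L ⊓ L' := by
      rw [Submodule.span_singleton_le_iff_mem]
      exact ⟨hpL, hpL'⟩
    have h2 : finrank F (Submodule.span F {p}) = 1 := finrank_span_singleton hp0
    have h3 := D.finrank_inf
    change finrank F ↥(L ⊓ L') + 1 = _ at h3
    have h4 : Submodule.span F {p} = L ⊓ L' := Submodule.eq_of_le_of_finrank_eq h1 (by omega)
    intro v hv
    rw [← h4, Submodule.mem_span_singleton] at hv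
    obtain ⟨c, hc⟩ := hv
    exact ⟨c, hc.symm⟩
  have hLp : ∀ v ∈ L, ∃ κ : E, v = κ • p := by
    intro v hv
    obtain ⟨s, hs⟩ := mem_Ln.mp hpL
    obtain ⟨t, ht⟩ := mem_Ln.mp hv
    have hs0 : s ≠ 0 := by
      rintro rfl
      rw [zero_smul] at hs
      exact hp0 hs.symm
    exact ⟨t * s⁻¹, by rw [← hs, smul_smul, inv_mul_cancel_right₀ hs0, ht]⟩
  have hpinj : ∀ a b : E, a • p = b • p → a = b := by
    intro a b h
    by_contra hne
    have : (a - b) • p = 0 := by rw [sub_smul, h, sub_self]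
    rcases smul_eq_zero.mp this with h1 | h1
    · exact hne (sub_eq_zero.mp h1)
    · exact hp0 h1
  obtain ⟨ω, hω⟩ := hLp y hy
  have hE : ∀ κ : E, ∃ c c' : F, κ = algebraMap F E c * ω + algebraMap F E c' := by
    intro κ
    obtain ⟨c, hc⟩ := D.right y hy hyL' (κ • p) (smul_mem_Ln _ hpL)
    obtain ⟨c', hc'⟩ := hP _ ⟨L.sub_mem (smul_mem_Ln _ hpL) (L.smul_mem c hy), hc⟩
    refine ⟨c, c', hpinj _ _ ?_⟩
    rw [add_smul, mul_smul, algebraMap_smul, algebraMap_smul, ← hω, ← hc']
    abel
  have hωF : ∀ c : F, algebraMap F E c ≠ ω := by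
    intro c hc
    apply hyL'
    rw [hω, ← hc, algebraMap_smul]
    exact L'.smul_mem _ hpL'
  obtain ⟨ψ, hψu, hψx⟩ := exists_functional (E := E) (u := u) (v := x) hxL
  have hψL : ∀ v ∈ L, ψ v = 0 := by
    intro v hv
    obtain ⟨e, rfl⟩ := mem_Ln.mp hv
    simp [hψu]
  have hker : ∀ v, ψ v = 0 → v ∈ L := by
    intro v hv
    have h1 : finrank E (LinearMap.range ψ) + finrank E (LinearMap.ker ψ) = 2 := by
      rw [LinearMap.finrank_range_add_finrank_ker, hm]
    have h2 : LinearMap.range ψ = ⊤ := by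
      rw [LinearMap.range_eq_top]
      intro e
      exact ⟨e • x, by simp [hψx]⟩
    rw [h2, finrank_top, finrank_self] at h1
    have h3 : Submodule.span E {u} ≤ LinearMap.ker ψ := by
      rw [Submodule.span_singleton_le_iff_mem]
      exact hψu
    have h4 : finrank E (Submodule.span E {u}) = 1 := finrank_span_singleton D.u_ne
    have h5 : Submodule.span E {u} = LinearMap.ker ψ :=
      Submodule.eq_of_le_of_finrank_eq h3 (by omega)
    have h6 : v ∈ Submodule.span E {u} := by rw [h5]; exact hv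
    exact h6
  have hψp : ψ p = 0 := hψL p hpL
  obtain ⟨ψ₁, hψ₁, hψ₁y, hB⟩ := exists_B hX D.mem hyL'
  obtain ⟨B, hB0, hBf, hB1, hB2, hB3, hB4⟩ := hB p hpL'
  let A : V →ₗ[F] V := erk ψ p
  have hA0 : Has X A := has_erk hX hψp
  have hA : ∀ v, A v = ψ v • p := fun v => rfl
  have hAL : ∀ v ∈ L, A v = 0 := by intro v hv; rw [hA, hψL v hv, zero_smul]
  have hAv : ∀ v, A v ∈ L := fun v => smul_mem_Ln _ hpL
  have hAL' : ∀ v ∈ L', ∃ c : F, A v = c • p := by
    intro v hv
    obtain ⟨c, hc⟩ := D.left x hx hxL v hv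
    refine ⟨c, ?_⟩
    have h1 := hAL _ hc
    rw [map_sub, map_smul, sub_eq_zero] at h1
    rw [h1, hA, hψx, one_smul]
  have hBL : ∀ v ∈ L, ∃ c : F, B v = c • p := by
    intro v hv
    obtain ⟨c, hc⟩ := D.right y hy hyL' v hv
    refine ⟨c, ?_⟩
    have h1 := hB2 _ hc
    rw [map_sub, map_smul, hB3, sub_eq_zero] at h1
    exact h1
  have hBp : B p = 0 := hB2 p hpL'
  have hBx : B x = 0 := hB2 x hx
  have hBω : B (ω • p) = p := by rw [← hω, hB3]
  -- `C = AB - BA` vanishes
  let C : V →ₗ[F] V := A ∘ₗ B - B ∘ₗ A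
  have hC : ∀ v, C v = A (B v) - B (A v) := fun v => rfl
  have hC0 : Has X C := by
    refine hA0.comm' hB0 ?_ ?_ ?_ ?_
    · intro v; exact hAL _ (hAv v)
    · intro v; exact hB2 _ (hB1 v)
    · intro v
      obtain ⟨c, hc⟩ := hBL _ (hAv v)
      rw [hc, map_smul, hAL p hpL, smul_zero]
    · intro v
      obtain ⟨c, hc⟩ := hAL' _ (hB1 v)
      rw [hc, map_smul, hBp, smul_zero]
  have hCzero : ∀ v, C v = 0 := by
    intro v
    by_contra hv
    apply hno
    refine hasTransvection_of hp0 ?_ hC0 ?_ hv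
    · intro w
      obtain ⟨c, hc⟩ := hAL' _ (hB1 w)
      obtain ⟨c', hc'⟩ := hBL _ (hAv w)
      exact ⟨c - c', by rw [hC, hc, hc', sub_smul]⟩
    · rw [hC, hBp, map_zero, hAL p hpL, map_zero, sub_zero]
  -- `B (ω x) = x + α p`
  obtain ⟨α, hα⟩ : ∃ α : F, B (ω • x) = x + α • p := by
    obtain ⟨β, hβ⟩ := D.left x hx hxL _ (hB1 (ω • x))
    obtain ⟨α, hα⟩ := hP _ ⟨hβ, L'.sub_mem (hB1 _) (L'.smul_mem β hx)⟩
    have h1 : B (ω • x) = β • x + α • p := by rw [← hα]; abel
    have h2 := hCzero (ω • x)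
    rw [hC, h1, hA (ω • x), ψ.map_smul, hψx, smul_eq_mul, mul_one, hBω, map_add, map_smul, map_smul, hAL p hpL,
      smul_zero, add_zero, hA, hψx, one_smul, sub_eq_zero] at h2
    have h3 : β = 1 := by
      have h4 : (algebraMap F E β) • p = (1 : E) • p := by rw [algebraMap_smul, h2, one_smul]
      have h5 := hpinj _ _ h4
      rw [← map_one (algebraMap F E)] at h5
      exact (algebraMap F E).injective h5
    rw [h3, one_smul] at h1
    exact ⟨α, h1⟩
  -- `ω² = t ω + n₀`
  obtain ⟨t, n₀, htn⟩ := hE (ω * ω)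
  -- `δ = a + b ω` of norm one, `b ≠ 0`
  obtain ⟨δ, hδ, hδF⟩ : ∃ δ : E, Algebra.norm F δ = 1 ∧ δ ∉ Submodule.span F {(1 : E)} := by
    refine exists_norm_one_notMem (by omega) _ ?_
    intro h
    have h1 : finrank F (Submodule.span F {(1 : E)}) = 1 := finrank_span_singleton one_ne_zero
    rw [h, finrank_top] at h1
    omega
  obtain ⟨b, a, hab⟩ := hE δ
  have hb : b ≠ 0 := by
    rintro rfl
    apply hδF
    rw [Submodule.mem_span_singleton]
    refine ⟨a, ?_⟩
    rw [hab, map_zero, zero_mul, zero_add, Algebra.smul_def, mul_one]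
  have hδ0 : δ ≠ 0 := by
    rintro rfl
    rw [Algebra.norm_zero] at hδ
    exact zero_ne_one hδ
  obtain ⟨n, hn, hn1, hn2⟩ := exists_dil hX hψx hδ
  have hψn : ∀ v, ψ (n v) = δ * ψ v := by
    intro v
    rw [hn1, map_add, map_smul, map_smul, hψx]
    simp only [smul_eq_mul]
    ring
  have hnL : ∀ v ∈ L, n v = v := by
    intro v hv
    rw [hn1, hψL v hv, zero_smul, add_zero]
  have hnL' : ∀ v ∈ L, (n⁻¹ : V ≃ₗ[F] V) v = v := by
    intro v hv
    rw [hn2, hψL v hv, zero_smul, add_zero]
  have hninv : ∀ e : E, (n⁻¹ : V ≃ₗ[F] V) ((δ * e) • x) = e • x := by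
    intro e
    rw [hn2, map_smul, hψx, smul_smul, ← add_smul]
    congr 1
    simp only [smul_eq_mul]
    field_simp
    ring
  -- the main computation, for every `s ≠ 0`
  have main : ∀ s : F, s ≠ 0 → algebraMap F E t = 2 * ω + algebraMap F E s := by
    intro s hs
    -- `1 + s B ∈ X`
    have hsB : Has X (s • B) := by
      obtain ⟨Bs, hBs, hBsf, _⟩ := hB (s • p) (L'.smul_mem s hpL')
      refine hBs.congr ?_
      intro v
      rw [hBsf, LinearMap.smul_apply, hBf, g.symm.map_smul s p, smul_comm, g.map_smul]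
    obtain ⟨q, hq, hq'⟩ := hsB
    have hq1 : ∀ v, q v = v + s • B v := fun v => by rw [hq']; rfl
    have hqinv : ∀ v, (q⁻¹ : V ≃ₗ[F] V) v = v - s • B v := by
      intro v
      have := inv_apply_of hq' (fun w => by
        simp only [LinearMap.smul_apply, map_smul, hB2 _ (hB1 w), smul_zero]) v
      rw [this]; rfl
    -- `k = q (n q n⁻¹)⁻¹`
    set k : V ≃ₗ[F] V := q * (n * q * n⁻¹)⁻¹ with hk
    have hkX : k ∈ X := X.mul_mem hq (X.inv_mem (X.mul_mem (X.mul_mem hn hq) (X.inv_mem hn)))
    have hkinv : k⁻¹ = n * q * n⁻¹ * q⁻¹ := by rw [hk]; group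
    have hkinv' : ∀ v, (k⁻¹ : V ≃ₗ[F] V) v = n (q ((n⁻¹ : V ≃ₗ[F] V) ((q⁻¹ : V ≃ₗ[F] V) v))) := by
      intro v
      rw [hkinv]
      rfl
    have hkL : ∀ v ∈ L, (k⁻¹ : V ≃ₗ[F] V) v = v := by
      intro v hv
      obtain ⟨c, hc⟩ := hBL v hv
      have h1 : v - s • c • p ∈ L := L.sub_mem hv (L.smul_mem s (L.smul_mem c hpL))
      rw [hkinv', hqinv, hc, hnL' _ h1, hq1, map_sub, map_smul, map_smul, hBp, smul_zero, smul_zero, sub_zero, hc,
        sub_add_cancel, hnL v hv]
    have hkL2 : ∀ v ∈ L, k v = v := by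
      intro v hv
      have h1 := hkL v hv
      have h2 : k ((k⁻¹ : V ≃ₗ[F] V) v) = v := by
        change k (k.symm v) = v
        simp
      rw [h1] at h2
      exact h2
    -- the element `1 + T`
    set M := ψ ((k⁻¹ : V ≃ₗ[F] V) x) with hM
    have hc1 := (has_erk hX (show ψ p = 0 from hψp)).conj hkX
    have hMp : ψ ((-M) • p) = 0 := by rw [map_smul, hψp, smul_zero]
    have hc2 := has_erk hX hMp
    have hT := hc1.add hc2 (by
      intro v
      have h1 : ψ v • ((-M) • p) ∈ L := smul_mem_Ln _ (smul_mem_Ln _ hpL)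
      simp only [LinearMap.comp_apply, erk_apply, LinearEquiv.coe_coe]
      rw [hkL _ h1, hψL _ h1, zero_smul, map_zero])
    set T : V →ₗ[F] V := (k : V →ₗ[F] V) ∘ₗ (erk ψ p) ∘ₗ ((k⁻¹ : V ≃ₗ[F] V) : V →ₗ[F] V) + erk ψ ((-M) • p) with hTdef
    have hTv : ∀ v, T v = (ψ ((k⁻¹ : V ≃ₗ[F] V) v) - M * ψ v) • p := by
      intro v
      have h1 : ψ ((k⁻¹ : V ≃ₗ[F] V) v) • p ∈ L := smul_mem_Ln _ hpL
      simp only [hTdef, LinearMap.add_apply, LinearMap.comp_apply, erk_apply, LinearEquiv.coe_coe]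
      rw [hkL2 _ h1, sub_smul, smul_smul, sub_eq_add_neg, ← neg_smul]
      congr 2
      ring
    have hTL : ∀ v ∈ L, T v = 0 := by
      intro v hv
      rw [hTv, hkL v hv, hψL v hv, mul_zero, sub_zero, zero_smul]
    have hTx : T x = 0 := by rw [hTv, hψx, mul_one, hM, sub_self, zero_smul]
    have hTvL : ∀ v, T v ∈ L := by
      intro v
      rw [hTv]
      exact smul_mem_Ln _ hpL
    have hTω : T (ω • x) = 0 := by
      by_contra hne
      apply hno
      refine hasTransvection_of hne ?_ hT (hTL _ (hTvL _)) (v := ω • x) hne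
      intro v
      obtain ⟨c, c', hcc⟩ := hE (ψ v)
      refine ⟨c, ?_⟩
      have h1 : v - ψ v • x ∈ L := by
        apply hker
        simp [hψx]
      have h2 := hTL _ h1
      rw [map_sub, hcc, add_smul, mul_smul, algebraMap_smul, algebraMap_smul, map_add, T.map_smul, T.map_smul, hTx,
        smul_zero, add_zero, sub_eq_zero] at h2
      exact h2
    have hTzero : ∀ v, ψ ((k⁻¹ : V ≃ₗ[F] V) v) = M * ψ v := by
      intro v
      have h0 : T v = 0 := by
        obtain ⟨c, c', hcc⟩ := hE (ψ v)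
        have h1 : v - ψ v • x ∈ L := by
          apply hker
          simp [hψx]
        have h2 := hTL _ h1
        rw [map_sub, hcc, add_smul, mul_smul, algebraMap_smul, algebraMap_smul, map_add, T.map_smul, T.map_smul, hTx,
          smul_zero, add_zero, sub_eq_zero, hTω, smul_zero] at h2
        exact h2
      rw [hTv] at h0
      have h1 := (smul_eq_zero.mp h0).resolve_right hp0
      exact sub_eq_zero.mp h1
    -- `δ U(e) = M U(δ e)`
    have hU : ∀ e : E, δ * ψ (q (e • x)) = M * ψ (q ((δ * e) • x)) := by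
      intro e
      have h1 := hTzero (q ((δ * e) • x))
      rw [hkinv'] at h1
      have h2 : (q⁻¹ : V ≃ₗ[F] V) (q ((δ * e) • x)) = (δ * e) • x := by
        change q.symm (q _) = _
        simp
      rw [h2, hninv, hψn] at h1
      exact h1
    have hψq : ∀ e : E, ∀ c c' : F, e = algebraMap F E c * ω + algebraMap F E c' →
        ψ (q (e • x)) = algebraMap F E c * (ω + algebraMap F E s) + algebraMap F E c' := by
      intro e c c' he
      have h1 : B (e • x) = c • (x + α • p) := by
        rw [he, add_smul, mul_smul, algebraMap_smul, algebraMap_smul, map_add, B.map_smul, B.map_smul, hα, hBx,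
          smul_zero, add_zero]
      rw [hq1, h1, map_add, ψ.map_smul, hψx, ← algebraMap_smul E s, ← algebraMap_smul E c, ← algebraMap_smul E α,
        map_smul, map_smul, map_add, map_smul, hψx, hψp, smul_zero, add_zero, he]
      simp only [smul_eq_mul]
      ring
    have e1 := hU 1
    have e2 := hU ω
    rw [mul_one] at e1
    rw [hψq 1 0 1 (by simp), hψq δ b a hab] at e1
    rw [hψq ω 1 0 (by simp), hψq (δ * ω) (b * t + a) (b * n₀) (by
      rw [hab, add_mul, mul_assoc, htn, map_add, map_mul, map_mul]; ring)] at e2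
    simp only [map_zero, map_one, zero_mul, one_mul, zero_add, add_zero, map_add, map_mul] at e1 e2
    -- e1 : δ = M (b (ω + s) + a), e2 : δ (ω + s) = M ((b t + a)(ω + s) + b n₀)
    have hMne : M ≠ 0 := by
      intro h0
      rw [h0, zero_mul, mul_one] at e1
      exact hδ0 e1
    have hbE : algebraMap F E b ≠ 0 := by
      rw [Ne, map_eq_zero]
      exact hb
    have hsE : algebraMap F E s ≠ 0 := by
      rw [Ne, map_eq_zero]
      exact hs
    have e3 : M * (algebraMap F E b * ((ω + algebraMap F E s) * (ω + algebraMap F E s) -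
        algebraMap F E t * (ω + algebraMap F E s) - algebraMap F E n₀)) = 0 := by
      linear_combination e2 - (ω + algebraMap F E s) * e1
    have e4 := (mul_eq_zero.mp ((mul_eq_zero.mp e3).resolve_left hMne)).resolve_left hbE
    have e5 : algebraMap F E s * (2 * ω + algebraMap F E s - algebraMap F E t) = 0 := by
      linear_combination e4 - htn
    have e6 := (mul_eq_zero.mp e5).resolve_left hsE
    linear_combination -e6
  -- hence `F` has two elements
  have hF : ∀ s : F, s = 0 ∨ s = 1 := by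
    intro s
    by_cases hs : s = 0
    · exact Or.inl hs
    · right
      have h1 := main s hs
      have h2 := main 1 one_ne_zero
      have h3 : algebraMap F E s = algebraMap F E 1 := by linear_combination h2 - h1
      exact (algebraMap F E).injective h3
  have h20 : (1 : F) + 1 = 0 := by
    rcases hF (1 + 1) with h | h
    · exact h
    · exfalso
      have h' : (1 : F) + 1 = 1 + 0 := by rw [h, add_zero]
      exact one_ne_zero (add_left_cancel h')
  have h2E : (2 : E) = 0 := by
    have : (2 : E) = algebraMap F E (1 + 1) := by rw [map_add, map_one]; norm_num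
    rw [this, h20, map_zero]
  have ht : algebraMap F E t = 1 := by
    rw [main 1 one_ne_zero, h2E, map_one]
    ring
  have hω2 : ω * ω = ω + 1 := by
    rcases hF n₀ with h | h
    · exfalso
      rw [h, map_zero, ht, one_mul, add_zero] at htn
      have h1 : ω * (ω - 1) = 0 := by linear_combination htn
      rcases mul_eq_zero.mp h1 with h2 | h2
      · exact hωF 0 (by rw [map_zero, h2])
      · exact hωF 1 (by rw [map_one]; exact (sub_eq_zero.mp h2).symm)
    · rw [htn, h, map_one, ht, one_mul]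
  -- the functional `χ`
  have hpx : p ∉ Submodule.span E {x} := by
    intro h
    rw [Submodule.mem_span_singleton] at h
    obtain ⟨e, he⟩ := h
    have h1 : ψ (e • x) = 0 := by rw [he, hψp]
    rw [map_smul, hψx, smul_eq_mul, mul_one] at h1
    rw [h1, zero_smul] at he
    exact hp0 he.symm
  obtain ⟨χ, hχx, hχp⟩ := exists_functional hpx
  have hdec : ∀ v, v = χ v • p + ψ v • x := by
    intro v
    have h1 : v - ψ v • x ∈ L := by
      apply hker
      simp [hψx]
    obtain ⟨κ, hκ⟩ := hLp _ h1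
    have h2 : χ (v - ψ v • x) = χ (κ • p) := by rw [hκ]
    rw [map_sub, map_smul, map_smul, hχx, hχp, smul_zero, sub_zero, smul_eq_mul, mul_one] at h2
    rw [h2, ← hκ]
    abel
  obtain ⟨B', hB'0, hB'f, hB'1, hB'2, hB'3, _⟩ := hB x hx
  apply hno
  refine find_of_card_two hX hF hω2 hψp hψx hχp hχx hdec hE hB0 hB'0 hBp hBx hBω hα (hB'2 p hpL') (hB'2 x hx)
    (by rw [← hω, hB'3]) ?_
  intro hα0
  rw [hα0, zero_smul, add_zero] at hα
  -- `g⁻¹ x = λ g⁻¹ p`
  obtain ⟨p₀, hp₀, hgp⟩ := hpL'
  obtain ⟨x₀, hx₀, hgx⟩ := hx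
  obtain ⟨s, hs⟩ := mem_Ln.mp hp₀
  obtain ⟨s', hs'⟩ := mem_Ln.mp hx₀
  have hp₀0 : p₀ ≠ 0 := by
    rintro rfl
    rw [map_zero] at hgp
    exact hp0 hgp.symm
  have hs0 : s ≠ 0 := by
    rintro rfl
    rw [zero_smul] at hs
    exact hp₀0 hs.symm
  set lam := s' * s⁻¹ with hlam
  have hxl : x₀ = lam • p₀ := by rw [← hs, smul_smul, hlam, inv_mul_cancel_right₀ hs0, hs']
  have hgp' : g.symm p = p₀ := by rw [← hgp]; simp
  have hgx' : g.symm x = x₀ := by rw [← hgx]; simp
  have hlam2 : lam * lam = lam + 1 := by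
    obtain ⟨c, c', hcc⟩ := hE lam
    have hc : c = 1 := by
      rcases hF c with h | h
      · exfalso
        apply hxL
        have h1 : x = c' • p := by
          rw [← hgx, ← hgp, ← map_smul]
          congr 1
          rw [hxl, hcc, h, map_zero, zero_mul, zero_add, algebraMap_smul]
        rw [h1]
        exact L.smul_mem _ hpL
      · exact h
    have hc' : algebraMap F E c' * algebraMap F E c' = algebraMap F E c' := by
      rcases hF c' with h | h
      · rw [h, map_zero, mul_zero]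
      · rw [h, map_one, mul_one]
    rw [hcc, hc, map_one]
    linear_combination hω2 + hc' + (ω * algebraMap F E c') * h2E
  -- `μ = ψ₁ (g⁻¹ (ω x)) = λ`
  have hmu : ψ₁ (g.symm (ω • x)) = lam := by
    have h1 := hBf (ω • x)
    rw [hα, hgp'] at h1
    have h2 : x₀ = ψ₁ (g.symm (ω • x)) • p₀ := by
      have h3 := congrArg g.symm h1
      rw [LinearEquiv.symm_apply_apply, hgx'] at h3
      exact h3
    rw [hxl] at h2
    by_contra hne
    have h3 : (lam - ψ₁ (g.symm (ω • x))) • p₀ = 0 := by rw [sub_smul, ← h2, sub_self]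
    rcases smul_eq_zero.mp h3 with h4 | h4
    · exact hne (sub_eq_zero.mp h4).symm
    · exact hp₀0 h4
  rw [hB'f, hmu, hgx', hxl, smul_smul, hlam2, add_smul, one_smul, map_add, ← hxl]
  have h5 : g x₀ = x := hgx
  have h6 : g p₀ = p := hgp
  rw [h5, h6]

end Quad

end Cfsg.Agent.H935
end

-- part: H935/ExtMain
section
/-!
# Overgroups of the extension-field groups of prime degree (helper935)
-/

set_option autoImplicit false

namespace Cfsg.Agent.H935

open Module

section Main

variable {F E V : Type*} [Field F] [Field E] [Algebra F E] [AddCommGroup V] [Module F V] [Module E V]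
  [IsScalarTower F E V] {X : Subgroup (V ≃ₗ[F] V)}

/-- an `F`-automorphism mapping all `E`-lines to `E`-lines is `E`-semilinear -/
theorem semilinear_of_lines (hm : 2 ≤ finrank E V) (g : V ≃ₗ[F] V)
    (h : ∀ u : V, u ≠ 0 → (Ln F E u).map (g : V →ₗ[F] V) = Ln F E (g u)) (e : E) :
    ∃ e' : E, ∀ v, g (e • v) = e' • g v := by
  have hex : ∀ u : V, u ≠ 0 → ∃ s : E, g (e • u) = s • g u := by
    intro u hu
    have h1 : g (e • u) ∈ Ln F E (g u) := by
      rw [← h u hu]
      exact ⟨e • u, smul_mem_Ln _ (self_mem_Ln u), rfl⟩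
    obtain ⟨s, hs⟩ := mem_Ln.mp h1
    exact ⟨s, hs.symm⟩
  -- independent vectors have the same factor
  have key : ∀ a b : V, a ≠ 0 → b ∉ Submodule.span E {a} → ∀ s t : E, g (e • a) = s • g a → g (e • b) = t • g b →
      s = t := by
    intro a b ha hb s t hs ht
    have hind : ∀ c d : E, c • g a + d • g b = 0 → c = 0 ∧ d = 0 := by
      intro c d hcd
      have hd : d = 0 := by
        by_contra hd
        apply hb
        have h1 : g b ∈ Ln F E (g a) := by
          rw [mem_Ln]
          refine ⟨-(d⁻¹ * c), ?_⟩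
          have h2 : d • g b = -(c • g a) := by
            rw [eq_neg_iff_add_eq_zero, add_comm]; exact hcd
          have h3 : g b = d⁻¹ • (d • g b) := by rw [smul_smul, inv_mul_cancel₀ hd, one_smul]
          rw [h3, h2, smul_neg, smul_smul, neg_smul]
        rw [← h a ha] at h1
        obtain ⟨w, hw, hw'⟩ := h1
        have h4 : w = b := g.injective hw'
        rw [← h4]
        exact hw
      rw [hd, zero_smul, add_zero] at hcd
      refine ⟨?_, hd⟩
      rcases smul_eq_zero.mp hcd with h1 | h1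
      · exact h1
      · exfalso
        apply ha
        apply g.injective
        rw [h1, map_zero]
    have hab : a + b ≠ 0 := by
      intro h0
      apply hb
      rw [Submodule.mem_span_singleton]
      refine ⟨-1, ?_⟩
      rw [neg_smul, one_smul, neg_eq_iff_add_eq_zero]
      exact h0
    obtain ⟨w, hw⟩ := hex (a + b) hab
    rw [smul_add, map_add, map_add, smul_add, hs, ht] at hw
    have h1 : (s - w) • g a + (t - w) • g b = 0 := by
      rw [sub_smul, sub_smul]
      have : s • g a + t • g b - (w • g a + w • g b) = 0 := by rw [hw, sub_self]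
      rw [← this]
      abel
    obtain ⟨h2, h3⟩ := hind _ _ h1
    rw [sub_eq_zero.mp h2, sub_eq_zero.mp h3]
  -- choose a base vector
  have hnt : Nontrivial V := by
    by_contra hcon
    rw [not_nontrivial_iff_subsingleton] at hcon
    have : finrank E V = 0 := finrank_zero_of_subsingleton
    omega
  obtain ⟨a, ha⟩ := exists_ne (0 : V)
  obtain ⟨b, hb⟩ := exists_notMem_span (E := E) hm a
  have hb0 : b ≠ 0 := by
    rintro rfl
    exact hb (Submodule.zero_mem _)
  obtain ⟨s, hs⟩ := hex a ha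
  obtain ⟨t, ht⟩ := hex b hb0
  have hst := key a b ha hb s t hs ht
  refine ⟨s, fun v => ?_⟩
  by_cases hv0 : v = 0
  · rw [hv0, smul_zero, map_zero, smul_zero]
  obtain ⟨r, hr⟩ := hex v hv0
  rw [hr]
  congr 1
  by_cases hva : v ∈ Submodule.span E {a}
  · -- then `v ∉ E b`
    have hvb : v ∉ Submodule.span E {b} := by
      intro hvb
      rw [Submodule.mem_span_singleton] at hva hvb
      obtain ⟨c, hc⟩ := hva
      obtain ⟨d, hd⟩ := hvb
      have hd0 : d ≠ 0 := by
        rintro rfl
        rw [zero_smul] at hd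
        exact hv0 hd.symm
      apply hb
      rw [Submodule.mem_span_singleton]
      exact ⟨d⁻¹ * c, by rw [mul_smul, hc, ← hd, smul_smul, inv_mul_cancel₀ hd0, one_smul]⟩
    rw [hst]
    exact (key b v hb0 hvb t r ht hr).symm
  · exact (key a v ha hva s r hs hr).symm

variable [Finite F] [FiniteDimensional F E] [Module.Finite E V]

/-- A subgroup of `GL_F(V)` containing the `E`-linear maps of `F`-determinant one, `[E : F]` prime,
`dim_E V ≥ 2`, which does not consist of `E`-semilinear maps, contains all `F`-transvections. -/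
theorem all_transvections (hX : ContainsN F E V X) (hr : (finrank F E).Prime) (hm : 2 ≤ finrank E V)
    (hg : ∃ g ∈ X, ∃ e : E, ∀ e' : E, ∃ v, g (e • v) ≠ e' • g v) :
    ∀ (φ : V →ₗ[F] F) (b : V), φ b = 0 → Has X (rk φ b) := by
  have hFV : FiniteDimensional F V := Module.Finite.trans E V
  obtain ⟨g, hgX, e, he⟩ := hg
  -- a line not mapped to a line
  obtain ⟨u', hu', hne⟩ : ∃ u' : V, u' ≠ 0 ∧ (Ln F E u').map (g : V →ₗ[F] V) ≠ Ln F E (g u') := by
    by_contra hcon
    push Not at hcon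
    obtain ⟨e', he'⟩ := semilinear_of_lines hm g hcon e
    obtain ⟨v, hv⟩ := he e'
    exact hv (he' v)
  have hgu : g u' ≠ 0 := by
    intro h0
    apply hu'
    apply g.injective
    rw [h0, map_zero]
  obtain ⟨u, u', g, D⟩ := exists_pairData (E := E) hX hr ⟨g u', u', g, hgu, hu', hgX, hne, by
    have h1 : Submodule.span F {g u'} ≤ Ln F E (g u') ⊓ (Ln F E u').map (g : V →ₗ[F] V) := by
      rw [Submodule.span_singleton_le_iff_mem]
      exact ⟨self_mem_Ln _, ⟨u', self_mem_Ln _, rfl⟩⟩
    have h2 := Submodule.finrank_mono h1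
    rwa [finrank_span_singleton hgu] at h2⟩
  have hT : HasTransvection X := by
    rcases Nat.lt_or_ge 2 (finrank E V) with h3 | h3
    · exact find_of_three hX h3 D
    · have h4 : finrank E V = 2 := le_antisymm h3 hm
      rcases Nat.lt_or_ge 2 (finrank F E) with h5 | h5
      · exact find_of_two hX h4 h5 D
      · exact find_of_quad hX h4 (le_antisymm h5 hr.two_le) D
  obtain ⟨φ, a, ha, hφ, hφa, h⟩ := hT
  exact all_of_one hX hr.two_le hm ha hφ hφa h

omit [Finite F] [Module.Finite E V] in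
/-- some `F`-transvection is not `E`-semilinear -/
theorem exists_rk_not_semilinear (hr : 2 ≤ finrank F E) (hm : 2 ≤ finrank E V) :
    ∃ (φ : V →ₗ[F] F) (a : V), φ a = 0 ∧ ∀ g : V ≃ₗ[F] V, (∀ v, g v = v + rk φ a v) →
      ∃ e : E, ∀ e' : E, ∃ v, g (e • v) ≠ e' • g v := by
  have hnt : Nontrivial V := by
    by_contra hcon
    rw [not_nontrivial_iff_subsingleton] at hcon
    have : finrank E V = 0 := finrank_zero_of_subsingleton
    omega
  obtain ⟨a, ha⟩ := exists_ne (0 : V)
  obtain ⟨b, hb⟩ := exists_notMem_span (E := E) hm a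
  -- `e ∉ F`
  obtain ⟨e, he⟩ : ∃ e : E, e ∉ Submodule.span F {(1 : E)} := by
    by_contra hcon
    push Not at hcon
    have h1 : Submodule.span F {(1 : E)} = ⊤ := eq_top_iff.mpr fun v _ => hcon v
    have h2 : finrank F (Submodule.span F {(1 : E)}) = 1 := finrank_span_singleton one_ne_zero
    rw [h1, finrank_top] at h2
    omega
  have hea : e • a ∉ Submodule.span F {a} := by
    intro h
    apply he
    rw [Submodule.mem_span_singleton] at h ⊢
    obtain ⟨c, hc⟩ := h
    refine ⟨c, ?_⟩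
    rw [Algebra.smul_def, mul_one]
    have h1 : (algebraMap F E c - e) • a = 0 := by rw [sub_smul, algebraMap_smul, hc, sub_self]
    exact sub_eq_zero.mp ((smul_eq_zero.mp h1).resolve_right ha)
  obtain ⟨φ, hφa, hφea⟩ := exists_functional (E := F) hea
  refine ⟨φ, a, hφa, fun g hg => ⟨e, fun e' => ?_⟩⟩
  by_contra hcon
  push Not at hcon
  have h1 := hcon a
  rw [hg, hg, rk_apply, rk_apply, hφea, hφa, zero_smul, add_zero, one_smul] at h1
  have h2 := hcon b
  rw [hg, hg, rk_apply, rk_apply] at h2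
  -- `e • b + φ(e b) a = e' • b + e' φ(b) a`
  have h3 : e' = e + 1 := by
    have h4 : (e' - (e + 1)) • a = 0 := by
      rw [sub_smul, add_smul, one_smul, ← h1, sub_self]
    exact sub_eq_zero.mp ((smul_eq_zero.mp h4).resolve_right ha)
  rw [h3] at h2
  apply hb
  rw [Submodule.mem_span_singleton]
  refine ⟨algebraMap F E (φ (e • b)) - (e + 1) * algebraMap F E (φ b), ?_⟩
  rw [sub_smul, mul_smul, algebraMap_smul, algebraMap_smul]
  rw [smul_add, add_smul, one_smul] at h2
  have h5 : φ (e • b) • a = (e • b + φ (e • b) • a) - e • b := by abel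
  rw [h5, h2]
  abel

end Main

end Cfsg.Agent.H935
end

-- part: S5886
section
set_option autoImplicit false
open Cfsg

namespace Cfsg.Agent.S5886

open Module Matrix Cfsg.Agent.H935 Cfsg.Geo

/-- the field structure on a field subalgebra -/
theorem exists_field.{u} {F : Type u} [Field F] {n r : ℕ} (K : Subalgebra F (Matrix (Fin n) (Fin n) F))
    (hn : 0 < n) (hK : IsFieldSubalgebra r K) :
    ∃ (E : Type u) (_ : Field E) (_ : Algebra F E) (i : E →ₐ[F] Matrix (Fin n) (Fin n) F),
      Function.Injective i ∧ i.range = K ∧ finrank F E = r := by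
  classical
  have : Nonempty (Fin n) := ⟨⟨0, hn⟩⟩
  letI : Field K :=
    { (inferInstance : Ring K) with
      mul_comm := fun a b => Subtype.ext (hK.comm a a.2 b b.2)
      exists_pair_ne := ⟨0, 1, fun h => zero_ne_one (congrArg Subtype.val h)⟩
      inv := fun a => if h : a = 0 then 0 else
        ⟨(hK.inv a a.2 (fun h' => h (Subtype.ext h'))).choose,
          (hK.inv a a.2 (fun h' => h (Subtype.ext h'))).choose_spec.1⟩
      mul_inv_cancel := by
        intro a ha
        apply Subtype.ext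
        change (a : Matrix (Fin n) (Fin n) F) * ((if h : a = 0 then (0 : K) else
          ⟨(hK.inv a a.2 (fun h' => h (Subtype.ext h'))).choose,
            (hK.inv a a.2 (fun h' => h (Subtype.ext h'))).choose_spec.1⟩ : K) : Matrix (Fin n) (Fin n) F) = 1
        rw [dif_neg ha]
        exact (hK.inv a a.2 (fun h' => ha (Subtype.ext h'))).choose_spec.2
      inv_zero := by
        change (if h : (0 : K) = 0 then (0 : K) else _) = 0
        rw [dif_pos rfl]
      nnqsmul := _
      qsmul := _ }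
  exact ⟨K, this, K.algebra, K.val, Subtype.val_injective, by ext x; simp, hK.finrank_eq⟩

/-- the statement with the extension field as an abstract field acting on column vectors -/
theorem aux {F : Type*} [Field F] [Fintype F] (n r : ℕ) (hr : r.Prime) (hrn : r ∣ n) (hlt : r < n)
    (K : Subalgebra F (Matrix (Fin n) (Fin n) F)) {E : Type*} [Field E] [Algebra F E] [FiniteDimensional F E]
    (i : E →ₐ[F] Matrix (Fin n) (Fin n) F) (hiK : i.range = K) (hdim : finrank F E = r) [Module E (Fin n → F)]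
    (hsmul : ∀ (e : E) (v : Fin n → F), e • v = (i e) *ᵥ v) [IsScalarTower F E (Fin n → F)]
    [Module.Finite E (Fin n → F)] :
    IsCoatom (Cfsg.Geo.subalgebraNormalizer K) ∧
      Cfsg.Geo.IsMaximalIn (Cfsg.Geo.specialLinear (Fin n) F)
        (Cfsg.Geo.subalgebraNormalizer K ⊓ Cfsg.Geo.specialLinear (Fin n) F) := by
  classical
  have hVn : finrank F (Fin n → F) = n := by simp
  have hm : 2 ≤ finrank E (Fin n → F) := by
    have h1 : finrank F E * finrank E (Fin n → F) = finrank F (Fin n → F) := finrank_mul_finrank F E (Fin n → F)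
    rw [hdim, hVn] at h1
    have hpos := hr.pos
    by_contra hcon
    have : finrank E (Fin n → F) ≤ 1 := by omega
    have : r * finrank E (Fin n → F) ≤ r * 1 := Nat.mul_le_mul_left _ this
    omega
  have hrE : (finrank F E).Prime := by rw [hdim]; exact hr
  -- the group isomorphism
  let Φ : GL (Fin n) F ≃* ((Fin n → F) ≃ₗ[F] (Fin n → F)) :=
    (Matrix.GeneralLinearGroup.toLin (n := Fin n) (R := F)).trans
      (LinearMap.GeneralLinearGroup.generalLinearEquiv F (Fin n → F))
  have hΦ : ∀ (A : GL (Fin n) F) (v : (Fin n → F)), Φ A v = (A : Matrix (Fin n) (Fin n) F) *ᵥ v := fun A v => rfl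
  have hdet : ∀ A : GL (Fin n) F, LinearMap.det ((Φ A : (Fin n → F) ≃ₗ[F] (Fin n → F)) : (Fin n → F) →ₗ[F] (Fin n → F)) = (A : Matrix (Fin n) (Fin n) F).det := by
    intro A
    have : ((Φ A : (Fin n → F) ≃ₗ[F] (Fin n → F)) : (Fin n → F) →ₗ[F] (Fin n → F)) = Matrix.toLin' (A : Matrix (Fin n) (Fin n) F) := by
      ext v; rfl
    rw [this, LinearMap.det_toLin']
  have hSL : ∀ A : GL (Fin n) F, A ∈ specialLinear (Fin n) F ↔ (A : Matrix (Fin n) (Fin n) F).det = 1 := by
    intro A
    rw [specialLinear, MonoidHom.mem_ker, Units.ext_iff]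
    rfl
  have hmemK : ∀ e : E, i e ∈ K := by
    intro e
    rw [← hiK]
    exact ⟨e, rfl⟩
  -- membership in the normaliser
  have hnorm : ∀ A : GL (Fin n) F, (∀ e : E, ∃ e' : E, ∀ v : (Fin n → F), Φ A (e • v) = e' • Φ A v) →
      A ∈ subalgebraNormalizer K := by
    intro A hA
    have h1 : ∀ k ∈ K, (A : Matrix (Fin n) (Fin n) F) * k * ((A⁻¹ : GL (Fin n) F) : Matrix (Fin n) (Fin n) F) ∈ K := by
      intro k hk
      rw [← hiK] at hk
      obtain ⟨e, rfl⟩ := hk
      obtain ⟨e', he'⟩ := hA e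
      have h2 : (A : Matrix (Fin n) (Fin n) F) * i e = i e' * (A : Matrix (Fin n) (Fin n) F) := by
        refine Matrix.ext_of_mulVec_single fun j => ?_
        rw [← Matrix.mulVec_mulVec, ← Matrix.mulVec_mulVec]
        have h8 := he' (Pi.single j 1)
        rw [hΦ, hΦ, hsmul, hsmul] at h8
        exact h8
      have h3 : (A : Matrix (Fin n) (Fin n) F) * (i e) * ((A⁻¹ : GL (Fin n) F) : Matrix (Fin n) (Fin n) F) = i e' := by
        rw [h2, mul_assoc, ← Units.val_mul, mul_inv_cancel, Units.val_one, mul_one]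
      change (A : Matrix (Fin n) (Fin n) F) * (i e) * ((A⁻¹ : GL (Fin n) F) : Matrix (Fin n) (Fin n) F) ∈ K
      rw [h3]
      exact hmemK e'
    intro k
    refine ⟨h1 k, fun hk => ?_⟩
    -- the conjugation map is injective on the finite set `K`, hence surjective
    let c : K → K := fun k => ⟨_, h1 k k.2⟩
    have hc : Function.Injective c := by
      intro a b hab
      apply Subtype.ext
      have h4 := congrArg Subtype.val hab
      simp only [c] at h4
      have h5 : ∀ x : Matrix (Fin n) (Fin n) F, ((A⁻¹ : GL (Fin n) F) : Matrix (Fin n) (Fin n) F) *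
          ((A : Matrix (Fin n) (Fin n) F) * x * ((A⁻¹ : GL (Fin n) F) : Matrix (Fin n) (Fin n) F)) *
          (A : Matrix (Fin n) (Fin n) F) = x := by
        intro x
        simp only [← mul_assoc, ← Units.val_mul, inv_mul_cancel, Units.val_one, one_mul]
        rw [mul_assoc, ← Units.val_mul, inv_mul_cancel, Units.val_one, mul_one]
      rw [← h5 a, ← h5 b, h4]
    have hsurj : Function.Surjective c := Finite.surjective_of_injective hc
    obtain ⟨k', hk'⟩ := hsurj ⟨_, hk⟩
    have h6 := congrArg Subtype.val hk'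
    simp only [c] at h6
    have h7 : (k' : Matrix (Fin n) (Fin n) F) = k := by
      have h5 : ∀ x : Matrix (Fin n) (Fin n) F, ((A⁻¹ : GL (Fin n) F) : Matrix (Fin n) (Fin n) F) *
          ((A : Matrix (Fin n) (Fin n) F) * x * ((A⁻¹ : GL (Fin n) F) : Matrix (Fin n) (Fin n) F)) *
          (A : Matrix (Fin n) (Fin n) F) = x := by
        intro x
        simp only [← mul_assoc, ← Units.val_mul, inv_mul_cancel, Units.val_one, one_mul]
        rw [mul_assoc, ← Units.val_mul, inv_mul_cancel, Units.val_one, mul_one]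
      rw [← h5 k', ← h5 k, h6]
    rw [← h7]
    exact k'.2
  have hnorm' : ∀ A : GL (Fin n) F, A ∈ subalgebraNormalizer K →
      ∀ e : E, ∃ e' : E, ∀ v : (Fin n → F), Φ A (e • v) = e' • Φ A v := by
    intro A hA e
    have h1 := (hA (i e)).mp (hmemK e)
    rw [← hiK] at h1
    obtain ⟨e', he'⟩ := h1
    refine ⟨e', fun v => ?_⟩
    rw [hΦ, hΦ, hsmul, hsmul]
    have he'' : i e' = (A : Matrix (Fin n) (Fin n) F) * i e * ((A⁻¹ : GL (Fin n) F) : Matrix (Fin n) (Fin n) F) := he'
    rw [he'', Matrix.mulVec_mulVec, Matrix.mulVec_mulVec, mul_assoc (_ * _), ← Units.val_mul, inv_mul_cancel,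
      Units.val_one, mul_one]
  -- the core: overgroups in `SL`
  have core : ∀ M : Subgroup (GL (Fin n) F), subalgebraNormalizer K ⊓ specialLinear (Fin n) F ≤ M →
      (∃ A ∈ M, A ∉ subalgebraNormalizer K) → specialLinear (Fin n) F ≤ M := by
    intro M hM hA
    obtain ⟨A, hAM, hAK⟩ := hA
    let X : Subgroup ((Fin n → F) ≃ₗ[F] (Fin n → F)) := M.map Φ.toMonoidHom
    have hX : ContainsN F E (Fin n → F) X := by
      intro g hg
      refine ⟨Φ.symm (g.restrictScalars F), hM ⟨?_, ?_⟩, by simp⟩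
      · apply hnorm
        intro e
        refine ⟨e, fun v => ?_⟩
        rw [MulEquiv.apply_symm_apply]
        exact g.map_smul e v
      · change Φ.symm (g.restrictScalars F) ∈ specialLinear (Fin n) F
        rw [hSL, ← hdet, MulEquiv.apply_symm_apply]
        have h1 : ((g.restrictScalars F : (Fin n → F) ≃ₗ[F] (Fin n → F)) : (Fin n → F) →ₗ[F] (Fin n → F)) = (g : (Fin n → F) →ₗ[E] (Fin n → F)).restrictScalars F := rfl
        rw [h1, LinearMap.det_restrictScalars, hg]
    have hgX : ∃ g ∈ X, ∃ e : E, ∀ e' : E, ∃ v, g (e • v) ≠ e' • g v := by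
      refine ⟨Φ A, ⟨A, hAM, rfl⟩, ?_⟩
      by_contra hcon
      push Not at hcon
      exact hAK (hnorm A hcon)
    have hall := all_transvections (E := E) hX hrE hm hgX
    intro B hB
    rw [hSL] at hB
    have key : ∀ C : SpecialLinearGroup (Fin n) F, (C : GL (Fin n) F) ∈ M := by
      have : Nontrivial (Fin n) := Fin.nontrivial_iff_two_le.mpr (by have := hr.two_le; omega)
      intro C
      refine Cfsg.Agent.LieClassical.SLGen.transvection_induction
        (fun C : SpecialLinearGroup (Fin n) F => (C : GL (Fin n) F) ∈ M) ?_ ?_ C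
      · intro a b hab c
        obtain ⟨g, hg, hg'⟩ := hall (c • LinearMap.proj b) (Pi.single a 1) (by simp [hab.symm])
        obtain ⟨D, hD, hD'⟩ := hg
        have : ((SpecialLinearGroup.transvection hab c : SpecialLinearGroup (Fin n) F) : GL (Fin n) F) = D := by
          apply Φ.injective
          apply LinearEquiv.ext
          intro v
          have h2 : Φ D = g := hD'
          rw [h2, hg', hΦ]
          have h3 := Cfsg.Agent.LieClassical.SLGen.transvection_smul hab c v
          rw [Matrix.SpecialLinearGroup.smul_def] at h3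
          exact h3
        change ((SpecialLinearGroup.transvection hab c : SpecialLinearGroup (Fin n) F) : GL (Fin n) F) ∈ M
        rw [this]
        exact hD
      · intro A B hA hB
        change ((A * B : SpecialLinearGroup (Fin n) F) : GL (Fin n) F) ∈ M
        rw [map_mul]
        exact M.mul_mem hA hB
    let B' : SpecialLinearGroup (Fin n) F := ⟨(B : Matrix (Fin n) (Fin n) F), hB⟩
    have h1 := key B'
    have h2 : (B' : GL (Fin n) F) = B := by
      apply Units.ext
      rfl
    rwa [h2] at h1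
  -- `N ∩ SL ≠ SL`
  have hproper : ¬ specialLinear (Fin n) F ≤ subalgebraNormalizer K := by
    intro hle
    obtain ⟨φ, a, hφa, hns⟩ := exists_rk_not_semilinear (F := F) (E := E) (V := (Fin n → F)) hrE.two_le hm
    let g : (Fin n → F) ≃ₗ[F] (Fin n → F) := LinearEquiv.transvection hφa
    obtain ⟨e, he⟩ := hns g (fun v => rfl)
    have h1 : Φ.symm g ∈ specialLinear (Fin n) F := by
      rw [hSL, ← hdet, MulEquiv.apply_symm_apply, ← LinearEquiv.coe_det, LinearEquiv.transvection.det_eq_one]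
      rfl
    obtain ⟨e', he'⟩ := hnorm' _ (hle h1) e
    obtain ⟨v, hv⟩ := he e'
    apply hv
    have := he' v
    rwa [MulEquiv.apply_symm_apply] at this
  have hmaxSL : IsMaximalIn (specialLinear (Fin n) F) (subalgebraNormalizer K ⊓ specialLinear (Fin n) F) := by
    refine ⟨lt_of_le_of_ne inf_le_right ?_, ?_⟩
    · intro h
      exact hproper (inf_eq_right.mp h)
    · intro M h1 h2
      by_cases h3 : ∃ A ∈ M, A ∉ subalgebraNormalizer K
      · right
        exact le_antisymm h2 (core M h1 h3)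
      · left
        push Not at h3
        exact le_antisymm (le_inf h3 h2) h1
  refine ⟨⟨?_, ?_⟩, hmaxSL⟩
  · intro h
    exact hproper (by rw [h]; exact le_top)
  · intro M hM
    -- the determinant is surjective on the normaliser
    have hdetsurj : ∀ c : F, c ≠ 0 → ∃ B ∈ subalgebraNormalizer K, (B : Matrix (Fin n) (Fin n) F).det = c := by
      intro c hc
      have : Finite E := Module.finite_of_finite F
      obtain ⟨δ, hδ⟩ := FiniteField.norm_surjective F E c
      have hδ0 : δ ≠ 0 := by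
        rintro rfl
        rw [Algebra.norm_zero] at hδ
        exact hc hδ.symm
      have hnt : Nontrivial (Fin n → F) := by
        by_contra hcon
        rw [not_nontrivial_iff_subsingleton] at hcon
        have : finrank E (Fin n → F) = 0 := finrank_zero_of_subsingleton
        omega
      obtain ⟨x, hx⟩ := exists_ne (0 : (Fin n → F))
      obtain ⟨ψ, hψ⟩ := exists_functional_one (E := E) hx
      have hu : IsUnit (1 + ψ ((δ - 1) • x)) := by
        rw [map_smul, hψ, smul_eq_mul, mul_one, add_sub_cancel]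
        exact isUnit_iff_ne_zero.mpr hδ0
      let g : (Fin n → F) ≃ₗ[E] (Fin n → F) := LinearEquiv.dilatransvection hu
      refine ⟨Φ.symm (g.restrictScalars F), ?_, ?_⟩
      · apply hnorm
        intro e
        refine ⟨e, fun v => ?_⟩
        rw [MulEquiv.apply_symm_apply]
        exact g.map_smul e v
      · rw [← hdet, MulEquiv.apply_symm_apply]
        have h1 : ((g.restrictScalars F : (Fin n → F) ≃ₗ[F] (Fin n → F)) : (Fin n → F) →ₗ[F] (Fin n → F)) = (g : (Fin n → F) →ₗ[E] (Fin n → F)).restrictScalars F := rfl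
        have h2 : (g : (Fin n → F) →ₗ[E] (Fin n → F)) = LinearMap.transvection ψ ((δ - 1) • x) := by
          ext v; rfl
        rw [h1, LinearMap.det_restrictScalars, h2, LinearMap.transvection.det, map_smul, hψ, smul_eq_mul, mul_one,
          add_sub_cancel, hδ]
    obtain ⟨A, hAM, hAK⟩ := Set.exists_of_ssubset hM
    have hSLM := core M (inf_le_left.trans hM.le) ⟨A, hAM, hAK⟩
    rw [eq_top_iff]
    intro C _
    have hCdet : (C : Matrix (Fin n) (Fin n) F).det ≠ 0 := by
      have := C.isUnit.map (Matrix.detMonoidHom)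
      exact (isUnit_iff_ne_zero.mp this)
    obtain ⟨B, hB, hBC⟩ := hdetsurj _ hCdet
    have h1 : C * B⁻¹ ∈ specialLinear (Fin n) F := by
      rw [specialLinear, MonoidHom.mem_ker, map_mul, map_inv, mul_inv_eq_one]
      apply Units.ext
      exact hBC.symm
    have h2 : C = (C * B⁻¹) * B := by group
    rw [h2]
    exact M.mul_mem (hSLM h1) (hM.le hB)

/-- Let F be a finite field, n a positive integer and r a prime that divides n with r < n. Let K be a subalgebra of the algebra of n × n matrices over F which is a field of degree r over F (commutative, every non-zero element invertible, of dimension r over F; it contains the scalars). Then the normaliser N of K in GL_n(F) — the invertible F-linear maps that are semilinear over the field K, a group of type ΓL_{n/r}(F_{q^r}) for |F| = q — is a maximal subgroup of GL_n(F), and N ∩ SL_n(F) is a maximal subgroup of SL_n(F). No lower bound on n is assumed. -/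
theorem result {F : Type*} [Field F]
    [Fintype F] (n r : ℕ) (hr : r.Prime) (hrn : r ∣ n) (hlt : r < n) (K : Subalgebra F (Matrix (Fin n) (Fin n) F))
    (hK : Cfsg.Geo.IsFieldSubalgebra r K) :
    IsCoatom (Cfsg.Geo.subalgebraNormalizer K) ∧
      Cfsg.Geo.IsMaximalIn (Cfsg.Geo.specialLinear (Fin n) F)
        (Cfsg.Geo.subalgebraNormalizer K ⊓ Cfsg.Geo.specialLinear (Fin n) F) := by
  obtain ⟨E, instE, instA, i, _, hiK, hdim⟩ := exists_field K (by omega) hK
  have hfd : FiniteDimensional F E := by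
    apply FiniteDimensional.of_finrank_pos
    rw [hdim]
    exact hr.pos
  letI : Module E (Fin n → F) :=
    Module.compHom (Fin n → F) ((Matrix.toLinAlgEquiv' : Matrix (Fin n) (Fin n) F ≃ₐ[F] _).toAlgHom.comp i).toRingHom
  have hsmul : ∀ (e : E) (v : Fin n → F), e • v = (i e) *ᵥ v := fun e v => rfl
  have htower : IsScalarTower F E (Fin n → F) := by
    refine ⟨fun c e v => ?_⟩
    rw [hsmul, hsmul, map_smul, Matrix.smul_mulVec]
  have hfin : Module.Finite E (Fin n → F) := Module.Finite.of_restrictScalars_finite F E (Fin n → F)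
  exact aux n r hr hrn hlt K i hiK hdim hsmul

end Cfsg.Agent.S5886
end
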