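import Cfsg.Agent.H912.Core4
import Cfsg.Statements.S5887
set_option linter.all false

-- part: H936/FieldNorm
section
/-!
Transvections over an intermediate field do not normalise a larger field subalgebra.
-/

set_option autoImplicit false
set_option linter.style.haveILetI false

namespace Cfsg.Agent.H936
open Cfsg Cfsg.Geo Matrix
open Cfsg.Agent.H912

variable {ι : Type} [Fintype ι] [DecidableEq ι] {F : Type*} [Field F]

/-- A square-zero matrix `x` gives a unit `1 + x`. -/
def unip (x : Matrix ι ι F) (hx : x * x = 0) : GL ι F where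
  val := 1 + x
  inv := 1 - x
  val_inv := by
    rw [add_mul, one_mul, mul_sub, mul_one, hx]; abel
  inv_val := by
    rw [sub_mul, one_mul, mul_add, mul_one, hx]; abel

theorem unip_val (x : Matrix ι ι F) (hx : x * x = 0) : ((unip x hx : GL ι F) : Matrix ι ι F) = 1 + x := rfl

theorem unip_inv_val (x : Matrix ι ι F) (hx : x * x = 0) :
    (((unip x hx)⁻¹ : GL ι F) : Matrix ι ι F) = 1 - x := rfl

theorem unip_mem_specialLinear [Finite F] (x : Matrix ι ι F) (hx : x * x = 0) :
    unip x hx ∈ specialLinear ι F := by
  obtain ⟨p, hp⟩ := CharP.exists F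
  have hprime : p.Prime := by
    rcases CharP.char_is_prime_or_zero F p with h | h
    · exact h
    · subst h
      exact absurd (CharP.charP_to_charZero F) (fun h => by
        have := Infinite.of_injective (Nat.cast : ℕ → F) Nat.cast_injective
        exact not_finite F)
  haveI : Fact p.Prime := ⟨hprime⟩
  have hpow : ∀ m : ℕ, (1 + x) ^ m = 1 + (m : Matrix ι ι F) * x := by
    intro m
    induction m with
    | zero => simp
    | succ m ih =>
      rw [pow_succ, ih, mul_add, mul_one, add_mul, one_mul, mul_assoc, hx, mul_zero, add_zero,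
        Nat.cast_succ, add_mul, one_mul]
      abel
  have h1 : (1 + x) ^ p = 1 := by
    rw [hpow p]
    have : (p : Matrix ι ι F) = 0 := by
      have h0 : (p : F) = 0 := CharP.cast_eq_zero F p
      rw [← map_natCast (algebraMap F (Matrix ι ι F)) p, h0, map_zero]
    rw [this, zero_mul, add_zero]
  have h2 : (1 + x).det ^ p = 1 := by
    rw [← det_pow, h1, det_one]
  have h3 : (1 + x).det = 1 := by
    have h4 : ((1 + x).det - 1) ^ p = 0 := by
        rw [sub_pow_char, h2, one_pow, sub_self]
    exact sub_eq_zero.mp (pow_eq_zero_iff (hprime.ne_zero) |>.mp h4)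
  rw [specialLinear, MonoidHom.mem_ker]
  exact Units.ext h3

/-- In a field subalgebra of degree `s < card ι` there is a transvection. -/
theorem exists_transvection [Nonempty ι] {s : ℕ} {L : Subalgebra F (Matrix ι ι F)}
    (hL : IsFieldSubalgebra s L) (hs : s < Fintype.card ι) :
    ∃ x : Matrix ι ι F, x ≠ 0 ∧ x * x = 0 ∧ (∀ k ∈ L, x * k = k * x) ∧ x.rank ≤ s := by
  classical
  letI : Field L := (isField_of_fieldSub hL).toField
  have h1 := Module.finrank_mul_finrank F L (ι → F)
  rw [hL.finrank_eq, Module.finrank_fintype_fun_eq_card] at h1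
  have hfin : Module.Finite L (ι → F) := inferInstance
  set d := Module.finrank L (ι → F) with hd
  have hd2 : 2 ≤ d := by
    by_contra hlt
    have : d ≤ 1 := by omega
    nlinarith
  let b : Module.Basis (Fin d) L (ι → F) := Module.finBasis L (ι → F)
  let i0 : Fin d := ⟨0, by omega⟩
  let i1 : Fin d := ⟨1, by omega⟩
  have hne : i0 ≠ i1 := by
    intro h
    have := congrArg Fin.val h
    simp [i0, i1] at this
  let T : (ι → F) →ₗ[L] (ι → F) := (LinearMap.toSpanSingleton L (ι → F) (b i0)).comp (b.coord i1)
  have hT : ∀ v, T v = b.coord i1 v • b i0 := fun v => rfl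
  let T' : (ι → F) →ₗ[F] (ι → F) := T.restrictScalars F
  have hT' : ∀ v, T' v = b.coord i1 v • b i0 := fun v => rfl
  refine ⟨LinearMap.toMatrix' T', ?_, ?_, ?_, ?_⟩
  · intro h
    have h2 : T' = 0 := by
      have := congrArg Matrix.toLin' h
      rwa [Matrix.toLin'_toMatrix', map_zero] at this
    have h3 : T' (b i1) = 0 := by rw [h2]; rfl
    rw [hT', Module.Basis.coord_apply, Module.Basis.repr_self, Finsupp.single_eq_same, one_smul] at h3
    exact b.ne_zero i0 h3
  · rw [← LinearMap.toMatrix'_mul]
    have : T' * T' = 0 := by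
      apply LinearMap.ext
      intro v
      change T' (T' v) = 0
      rw [hT' v, hT', map_smul, Module.Basis.coord_apply, Module.Basis.coord_apply,
        Module.Basis.repr_self, Finsupp.single_eq_of_ne hne.symm, smul_zero, zero_smul]
    rw [this, map_zero]
  · intro k hk
    apply Matrix.toLin'.injective
    rw [Matrix.toLin'_mul, Matrix.toLin'_mul, Matrix.toLin'_toMatrix']
    apply LinearMap.ext
    intro v
    change T' (Matrix.toLin' k v) = Matrix.toLin' k (T' v)
    have hk1 : ∀ w : ι → F, Matrix.toLin' k w = (⟨k, hk⟩ : L) • w := fun w => rfl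
    rw [hk1, hk1]
    exact T.map_smul _ v
  · let g : L →ₗ[F] (ι → F) :=
      { toFun := fun a => a • b i0
        map_add' := fun a a' => add_smul a a' _
        map_smul' := fun c a => smul_assoc c a _ }
    have h2 : LinearMap.range (Matrix.mulVecLin (LinearMap.toMatrix' T')) ≤ LinearMap.range g := by
      rintro _ ⟨v, rfl⟩
      refine ⟨b.coord i1 v, ?_⟩
      have h3 : Matrix.mulVecLin (LinearMap.toMatrix' T') = T' := Matrix.toLin'_toMatrix' T'
      rw [h3, hT']
      rfl
    have h4 := LinearMap.finrank_range_le g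
    rw [hL.finrank_eq] at h4
    exact (Submodule.finrank_mono h2).trans h4

/-- A nonzero matrix commuting with a field subalgebra of degree `r` has rank at least `r`. -/
theorem rank_ge_of_commute [Nonempty ι] {r : ℕ} {K : Subalgebra F (Matrix ι ι F)}
    (hK : IsFieldSubalgebra r K) {x : Matrix ι ι F} (hx0 : x ≠ 0) (hx : ∀ k ∈ K, x * k = k * x) :
    r ≤ x.rank := by
  classical
  let _ : Field K := (isField_of_fieldSub hK).toField
  obtain ⟨v, hv⟩ : ∃ v, x *ᵥ v ≠ 0 := by
    by_contra hcon
    push Not at hcon
    apply hx0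
    apply Matrix.toLin'.injective
    apply LinearMap.ext
    intro v
    rw [map_zero]
    exact hcon v
  let g : K →ₗ[F] (ι → F) :=
      { toFun := fun a => a • (x *ᵥ v)
        map_add' := fun a a' => add_smul a a' _
        map_smul' := fun c a => smul_assoc c a _ }
  have hg : Function.Injective g := by
    rw [← LinearMap.ker_eq_bot, LinearMap.ker_eq_bot']
    intro a ha
    by_contra hne
    exact hv ((smul_eq_zero.mp ha).resolve_left hne)
  have h1 := LinearMap.finrank_range_of_inj hg
  rw [hK.finrank_eq] at h1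
  rw [← h1]
  apply Submodule.finrank_mono
  rintro _ ⟨a, rfl⟩
  refine ⟨(a : Matrix ι ι F) *ᵥ v, ?_⟩
  change x *ᵥ ((a : Matrix ι ι F) *ᵥ v) = (a : Matrix ι ι F) *ᵥ (x *ᵥ v)
  rw [mulVec_mulVec, mulVec_mulVec, hx a a.2]

omit [DecidableEq ι] in
theorem rank_sub_le' (A B : Matrix ι ι F) : (A - B).rank ≤ A.rank + B.rank := by
  have h1 : LinearMap.range (Matrix.mulVecLin (A - B)) ≤
      LinearMap.range (Matrix.mulVecLin A) ⊔ LinearMap.range (Matrix.mulVecLin B) := by
    rintro _ ⟨v, rfl⟩
    have : Matrix.mulVecLin (A - B) v = Matrix.mulVecLin A v - Matrix.mulVecLin B v := by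
      change (A - B) *ᵥ v = A *ᵥ v - B *ᵥ v
      rw [Matrix.sub_mulVec]
    rw [this]
    exact Submodule.sub_mem _ (Submodule.mem_sup_left ⟨v, rfl⟩) (Submodule.mem_sup_right ⟨v, rfl⟩)
  exact (Submodule.finrank_mono h1).trans (Submodule.finrank_add_le_finrank_add_finrank _ _)

theorem unip_not_mem [Nonempty ι] {r : ℕ} {K : Subalgebra F (Matrix ι ι F)}
    (hK : IsFieldSubalgebra r K) {x : Matrix ι ι F} (hx0 : x ≠ 0) (hxx : x * x = 0)
    (h1 : x.rank < r) (h2 : 2 * x.rank < Fintype.card ι) : unip x hxx ∉ subalgebraNormalizer K := by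
  intro hmem
  have hcomm : ∀ k ∈ K, x * k = k * x := by
    intro k hk
    have h3 := (hmem k).mp hk
    rw [unip_val, unip_inv_val] at h3
    have h4 : (1 + x) * k * (1 - x) - k ∈ K := K.sub_mem h3 hk
    have h5 : (1 + x) * k * (1 - x) - k = x * (k - k * x) - k * x := by
      noncomm_ring
    by_cases h6 : (1 + x) * k * (1 - x) - k = 0
    · have h7 : (1 + x) * k * (1 - x) = k := sub_eq_zero.mp h6
      have h8 : (1 + x) * k * (1 - x) * (1 + x) = k * (1 + x) := by rw [h7]
      have h9 : (1 - x) * (1 + x) = 1 := by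
        rw [sub_mul, one_mul, mul_add, mul_one, hxx]; abel
      rw [mul_assoc, h9, mul_one, add_mul, one_mul, mul_add, mul_one] at h8
      exact add_left_cancel h8
    · exfalso
      obtain ⟨y, -, hy⟩ := hK.inv _ h4 h6
      have h10 : (x * (k - k * x) - k * x).rank = Fintype.card ι := by
        rw [← h5]
        apply Matrix.rank_of_isUnit
        exact (Matrix.isUnit_iff_isUnit_det _).mpr (Matrix.isUnit_det_of_right_inverse hy)
      have h11 : (x * (k - k * x) - k * x).rank ≤ (x * (k - k * x)).rank + (k * x).rank := by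
        exact rank_sub_le' _ _
      have h12 := Matrix.rank_mul_le_left x (k - k * x)
      have h13 := Matrix.rank_mul_le_right k x
      omega
  have := rank_ge_of_commute hK hx0 hcomm
  omega

/-- The scalars as a field subalgebra of degree one. -/
theorem bot_isFieldSubalgebra [Nonempty ι] : IsFieldSubalgebra 1 (⊥ : Subalgebra F (Matrix ι ι F)) where
  comm := by
    intro x hx y _
    obtain ⟨a, rfl⟩ := Algebra.mem_bot.mp hx
    exact Algebra.commutes a y
  inv := by
    intro x hx hx0
    obtain ⟨a, rfl⟩ := Algebra.mem_bot.mp hx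
    have ha : a ≠ 0 := by
      rintro rfl
      exact hx0 (map_zero _)
    refine ⟨algebraMap F _ a⁻¹, Subalgebra.algebraMap_mem _ _, ?_⟩
    rw [← map_mul, mul_inv_cancel₀ ha, map_one]
  finrank_eq := Subalgebra.finrank_bot

end Cfsg.Agent.H936
end

-- part: S5887
section
set_option autoImplicit false
open Cfsg

namespace Cfsg.Agent.S5887
open Cfsg.Geo Cfsg.Agent.H936 Cfsg.Agent.H912 Matrix

/-- Let F be a finite field, n a positive integer and r a composite number (r > 1, not prime) that divides n with r < n. Let K be a subalgebra of the algebra of n × n matrices over F which is a field of degree r over F (commutative, every non-zero element invertible, of dimension r over F). Then the normaliser N of K in GL_n(F) (a group of type ΓL_{n/r}(F_{q^r})) is not a maximal subgroup of GL_n(F), and N ∩ SL_n(F) is not a maximal subgroup of SL_n(F): both lie properly inside the normaliser of an intermediate subfield of prime degree over F. -/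
theorem result {F : Type*} [Field F]
    [Fintype F] (n r : ℕ) (hr1 : 1 < r) (hrp : ¬ r.Prime) (hrn : r ∣ n) (hlt : r < n)
    (K : Subalgebra F (Matrix (Fin n) (Fin n) F)) (hK : Cfsg.Geo.IsFieldSubalgebra r K) :
    ¬ IsCoatom (Cfsg.Geo.subalgebraNormalizer K) ∧
      ¬ Cfsg.Geo.IsMaximalIn (Cfsg.Geo.specialLinear (Fin n) F)
        (Cfsg.Geo.subalgebraNormalizer K ⊓ Cfsg.Geo.specialLinear (Fin n) F) := by
  have : Nonempty (Fin n) := ⟨⟨0, by omega⟩⟩
  have hcard : Fintype.card (Fin n) = n := Fintype.card_fin n
  -- the intermediate field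
  set s := r.minFac with hs
  have hsp : s.Prime := Nat.minFac_prime (by omega)
  have hsr : s ∣ r := Nat.minFac_dvd r
  have hsne : s ≠ r := fun h => hrp (h ▸ hsp)
  have hslt : s < r := lt_of_le_of_ne (Nat.le_of_dvd (by omega) hsr) hsne
  obtain ⟨L, hLK, hL, hnorm⟩ := exists_subfield_of_dvd hK hsr
  have hNA : NormAlg (subalgebraNormalizer K) K := fun h hh a ha => (hh a).mp ha
  have hle : subalgebraNormalizer K ≤ subalgebraNormalizer L := (hnorm _ hNA).le_normalizer
  -- an element of `N(L) ∩ SL` outside `N(K)`
  have h2s : 2 * s ≤ r := by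
    obtain ⟨c, hc⟩ := hsr
    have hc2 : 2 ≤ c := by
      rcases c with _ | _ | c
      · omega
      · omega
      · omega
    rw [hc, mul_comm 2 s]
    exact Nat.mul_le_mul_left s hc2
  obtain ⟨x, hx0, hxx, hxc, hxr⟩ := exists_transvection hL (by rw [hcard]; omega)
  have h1 : unip x hxx ∈ subalgebraNormalizer L := by
    intro k
    have hkey : ∀ k, k ∈ L → (unip x hxx : Matrix (Fin n) (Fin n) F) * k *
        (((unip x hxx)⁻¹ : GL (Fin n) F) : Matrix (Fin n) (Fin n) F) = k := by
      intro k hk
      have : (unip x hxx : Matrix (Fin n) (Fin n) F) * k = k * (unip x hxx : Matrix (Fin n) (Fin n) F) := by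
        rw [unip_val, add_mul, one_mul, mul_add, mul_one, hxc k hk]
      rw [this, mul_assoc, ← Units.val_mul, mul_inv_cancel, Units.val_one, mul_one]
    have hkey2 : ∀ k, k ∈ L → (((unip x hxx)⁻¹ : GL (Fin n) F) : Matrix (Fin n) (Fin n) F) * k *
        (unip x hxx : Matrix (Fin n) (Fin n) F) = k := by
      intro k hk
      have : k * (unip x hxx : Matrix (Fin n) (Fin n) F) = (unip x hxx : Matrix (Fin n) (Fin n) F) * k := by
        rw [unip_val, add_mul, one_mul, mul_add, mul_one, hxc k hk]
      rw [mul_assoc, this, ← mul_assoc, ← Units.val_mul, inv_mul_cancel, Units.val_one, one_mul]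
    constructor
    · intro hk
      rw [hkey k hk]
      exact hk
    · intro hk
      have h3 := hkey2 _ hk
      rw [← mul_assoc, ← mul_assoc, ← Units.val_mul, inv_mul_cancel, Units.val_one, one_mul, mul_assoc,
        ← Units.val_mul, inv_mul_cancel, Units.val_one, mul_one] at h3
      rw [h3]
      exact hk
  have h2 : unip x hxx ∈ specialLinear (Fin n) F := unip_mem_specialLinear x hxx
  have h3 : unip x hxx ∉ subalgebraNormalizer K :=
    unip_not_mem hK hx0 hxx (by omega) (by rw [hcard]; omega)
  -- an element of `SL` outside `N(L)`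
  obtain ⟨y, hy0, hyy, -, hyr⟩ := exists_transvection (ι := Fin n) (F := F) bot_isFieldSubalgebra
    (by rw [hcard]; omega)
  have hs2 := hsp.two_le
  have h4 : unip y hyy ∉ subalgebraNormalizer L :=
    unip_not_mem hL hy0 hyy (by omega) (by rw [hcard]; omega)
  have h5 : unip y hyy ∈ specialLinear (Fin n) F := unip_mem_specialLinear y hyy
  constructor
  · intro hco
    have hlt' : subalgebraNormalizer K < subalgebraNormalizer L :=
      lt_of_le_of_ne hle (fun h => h3 (h ▸ h1))
    exact h4 (by rw [hco.2 _ hlt']; trivial)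
  · rintro ⟨-, hmax⟩
    rcases hmax (subalgebraNormalizer L ⊓ specialLinear (Fin n) F) (inf_le_inf_right _ hle) inf_le_right with h | h
    · have h6 : unip x hxx ∈ subalgebraNormalizer L ⊓ specialLinear (Fin n) F := ⟨h1, h2⟩
      rw [h] at h6
      exact h3 h6.1
    · have h6 : unip y hyy ∈ specialLinear (Fin n) F := h5
      rw [← h] at h6
      exact h4 h6.1

end Cfsg.Agent.S5887
end
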