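import Cfsg.Statements.S5894
set_option linter.all false
-- import your own Cfsg.Agent.* helpers here

set_option autoImplicit false
open Cfsg

namespace Cfsg.Agent.S5894

open MulAction
open scoped Pointwise

/-- Restriction of permutations fixing `a` to the complement of `a`. -/
def restr {α : Type*} (a : α) : stabilizer (Equiv.Perm α) a →* Equiv.Perm {x : α // x ≠ a} where
  toFun g := (g : Equiv.Perm α).subtypePerm (fun x => by
    have hg : (g : Equiv.Perm α) a = a := g.2
    constructor
    · intro h h1
      apply h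
      rw [h1, hg]
    · intro h h1
      apply h
      apply (g : Equiv.Perm α).injective
      rw [h1, hg])
  map_one' := by
    ext x
    rfl
  map_mul' g h := by
    ext x
    rfl

theorem restr_apply {α : Type*} (a : α) (g : stabilizer (Equiv.Perm α) a)
    (x : {x : α // x ≠ a}) : ((restr a g x : {x : α // x ≠ a}) : α) = (g : Equiv.Perm α) x := rfl

theorem restr_surjective {α : Type*} [DecidableEq α] (a : α) :
    Function.Surjective (restr a) := by
  intro σ
  refine ⟨⟨Equiv.Perm.ofSubtype σ, ?_⟩, ?_⟩
  · show Equiv.Perm.ofSubtype σ a = a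
    exact Equiv.Perm.ofSubtype_apply_of_not_mem σ (by simp)
  · ext x
    rw [restr_apply]
    show Equiv.Perm.ofSubtype σ (x : α) = _
    exact Equiv.Perm.ofSubtype_apply_coe σ x

/-- For every m ≥ 2 the symmetric group on 2m letters has a maximal subgroup M of index 2m together with a maximal subgroup H of M that is not second maximal: some maximal subgroup K of the symmetric group contains H without H being maximal in K. (One may take M the stabiliser of a letter, H ≅ S_m × S_{m−1} inside it, and K ≅ S_m ≀ S₂ the stabiliser of a partition into two m-sets, with H < S_m × S_m < K.) So the prime-index hypothesis in the second-maximality criterion cannot be relaxed to any even index ≥ 4. -/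
theorem result (m : ℕ) (hm : 2 ≤ m) :
    ∃ M H K : Subgroup (Equiv.Perm (Fin (2 * m))), IsCoatom M ∧ M.index = 2 * m ∧ H ≤ M ∧ IsCoatom (H.subgroupOf M) ∧
      IsCoatom K ∧ H ≤ K ∧ ¬ IsCoatom (H.subgroupOf K) := by
  classical
  -- the points and the set
  obtain ⟨a, ha⟩ : ∃ a : Fin (2 * m), a.val = 2 * m - 1 := ⟨⟨2 * m - 1, by omega⟩, rfl⟩
  obtain ⟨b, hb⟩ : ∃ b : Fin (2 * m), b.val = m := ⟨⟨m, by omega⟩, rfl⟩
  obtain ⟨c, hc⟩ : ∃ c : Fin (2 * m), c.val = 0 := ⟨⟨0, by omega⟩, rfl⟩
  obtain ⟨d, hd⟩ : ∃ d : Fin (2 * m), d.val = 1 := ⟨⟨1, by omega⟩, rfl⟩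
  set A : Set (Fin (2 * m)) := {x | x.val < m} with hA
  have hmemA : ∀ x, x ∈ A ↔ x.val < m := fun x => Iff.rfl
  have haA : a ∉ A := by rw [hmemA]; omega
  have hbA : b ∉ A := by rw [hmemA]; omega
  have hcA : c ∈ A := by rw [hmemA]; omega
  have hdA : d ∈ A := by rw [hmemA]; omega
  have hcardA : A.ncard = m := by
    have h1 : A = Set.range (Fin.castLE (show m ≤ 2 * m by omega)) := by
      ext x
      rw [hmemA]
      constructor
      · intro h
        exact ⟨⟨x.val, h⟩, Fin.ext rfl⟩
      · rintro ⟨y, rfl⟩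
        exact y.2
    rw [h1, Set.ncard_eq_toFinset_card', Set.toFinset_range,
      Finset.card_image_of_injective _ (Fin.castLE_injective _), Finset.card_univ,
      Fintype.card_fin]
  have : Nontrivial (Fin (2 * m)) := ⟨⟨c, d, fun h => by rw [h] at hc; omega⟩⟩
  -- the subgroups
  set M := stabilizer (Equiv.Perm (Fin (2 * m))) a with hM
  set K₀ := stabilizer (Equiv.Perm (Fin (2 * m))) A with hK₀
  set K₁ := stabilizer (Equiv.Perm (Fin (2 * m))) ({A, Aᶜ} : Set (Set (Fin (2 * m)))) with hK₁
  have hK01 : K₀ ≤ K₁ := by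
    intro g hg
    have h1 : g • A = A := hg
    rw [hK₁, mem_stabilizer_iff, Set.smul_set_insert, Set.smul_set_singleton, Set.smul_set_compl,
      h1]
  -- `K₁` is proper
  have hK1top : K₁ ≠ ⊤ := by
    intro h
    have h1 : Equiv.swap b c ∈ K₁ := by rw [h]; exact Subgroup.mem_top _
    rw [hK₁, mem_stabilizer_iff] at h1
    have h2 : (Equiv.swap b c) • A ∈ ({A, Aᶜ} : Set (Set (Fin (2 * m)))) := by
      rw [← h1]
      exact Set.smul_mem_smul_set (Set.mem_insert _ _)
    have hb' : b ∈ (Equiv.swap b c) • A := ⟨c, hcA, Equiv.swap_apply_right b c⟩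
    have hd' : d ∈ (Equiv.swap b c) • A := ⟨d, hdA, Equiv.swap_apply_of_ne_of_ne
      (fun h => by rw [h] at hd; omega) (fun h => by rw [h] at hd; omega)⟩
    rcases h2 with h3 | h3
    · rw [h3] at hb'
      exact hbA hb'
    · rw [Set.mem_singleton_iff] at h3
      rw [h3] at hd'
      exact hd' hdA
  obtain ⟨K, hK, hK1⟩ := (eq_top_or_exists_le_coatom K₁).resolve_left hK1top
  refine ⟨M, M ⊓ K₀, K, ?_, ?_, inf_le_left, ?_, hK, inf_le_right.trans (hK01.trans hK1), ?_⟩
  · exact IsPreprimitive.isCoatom_stabilizer_of_isPreprimitive _ a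
  · rw [hM, index_stabilizer, orbit_eq_univ, Set.ncard_univ, Nat.card_eq_fintype_card,
      Fintype.card_fin]
  · -- maximality in the stabiliser
    set A' : Set {x : Fin (2 * m) // x ≠ a} := Subtype.val ⁻¹' A with hA'
    have h1 : (M ⊓ K₀).subgroupOf M =
        (stabilizer (Equiv.Perm {x : Fin (2 * m) // x ≠ a}) A').comap (restr a) := by
      ext g
      rw [Subgroup.mem_subgroupOf, Subgroup.mem_inf, Subgroup.mem_comap, hK₀, mem_stabilizer_set,
        mem_stabilizer_set]
      constructor
      · rintro ⟨-, h2⟩ x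
        exact h2 x
      · intro h2
        refine ⟨g.2, ?_⟩
        intro x
        by_cases hx : x = a
        · rw [hx]
          have h3 : (g : Equiv.Perm (Fin (2 * m))) • a = a := g.2
          rw [h3]
        · exact h2 ⟨x, hx⟩
    rw [h1]
    apply Subgroup.isCoatom_comap_of_surjective (restr_surjective a)
    apply Equiv.Perm.isCoatom_stabilizer
    · exact ⟨⟨c, fun h => haA (h ▸ hcA)⟩, hcA⟩
    · exact ⟨⟨b, fun h => by rw [h, ha] at hb; omega⟩, hbA⟩
    · have h2 : Nat.card {x : Fin (2 * m) // x ≠ a} = 2 * m - 1 := by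
        rw [Nat.card_eq_fintype_card, Fintype.card_subtype_compl, Fintype.card_fin,
          Fintype.card_subtype_eq]
      rw [h2]
      omega
  · -- `M ⊓ K₀ < K₀ < K`
    intro hco
    have h1 : (M ⊓ K₀).subgroupOf K < K₀.subgroupOf K := by
      rw [lt_iff_le_and_ne]
      refine ⟨fun g hg => ?_, fun h => ?_⟩
      · rw [Subgroup.mem_subgroupOf] at hg ⊢
        exact hg.2
      · have h2 : Equiv.swap a b ∈ K₀ := by
          rw [hK₀, mem_stabilizer_set]
          intro x
          by_cases hxa : x = a
          · rw [hxa]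
            simp only [Equiv.Perm.smul_def, Equiv.swap_apply_left]
            exact ⟨fun h => absurd h hbA, fun h => absurd h haA⟩
          · by_cases hxb : x = b
            · rw [hxb]
              simp only [Equiv.Perm.smul_def, Equiv.swap_apply_right]
              exact ⟨fun h => absurd h haA, fun h => absurd h hbA⟩
            · rw [Equiv.Perm.smul_def, Equiv.swap_apply_of_ne_of_ne hxa hxb]
        have h3 : (⟨Equiv.swap a b, (hK01.trans hK1) h2⟩ : K) ∈ (M ⊓ K₀).subgroupOf K := by
          rw [h, Subgroup.mem_subgroupOf]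
          exact h2
        rw [Subgroup.mem_subgroupOf] at h3
        have h4 : Equiv.swap a b a = a := h3.1
        rw [Equiv.swap_apply_left] at h4
        rw [h4, ha] at hb
        omega
    have h2 := hco.2 _ h1
    rw [Subgroup.subgroupOf_eq_top] at h2
    have h3 : Fin.revPerm ∈ K₁ := by
      have h4 : (Fin.revPerm : Equiv.Perm (Fin (2 * m))) • A = Aᶜ := by
        ext x
        rw [Set.mem_smul_set_iff_inv_smul_mem, Set.mem_compl_iff, hmemA, hmemA]
        have h5 : ((Fin.revPerm : Equiv.Perm (Fin (2 * m)))⁻¹ • x).val = 2 * m - (x.val + 1) := by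
          show ((Fin.revPerm : Equiv.Perm (Fin (2 * m))).symm x).val = _
          rw [Fin.revPerm_symm, Fin.revPerm_apply, Fin.val_rev]
        rw [h5]
        omega
      rw [hK₁, mem_stabilizer_iff, Set.smul_set_insert, Set.smul_set_singleton,
        Set.smul_set_compl, h4, compl_compl, Set.pair_comm]
    have h4 := h2 (hK1 h3)
    rw [hK₀, mem_stabilizer_set] at h4
    have h5 := (h4 c).mpr hcA
    rw [hmemA] at h5
    simp only [Equiv.Perm.smul_def, Fin.revPerm_apply, Fin.val_rev] at h5
    omega

end Cfsg.Agent.S5894
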