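import Cfsg.Statements.S5896
import Cfsg.Agent.S0810
import Mathlib.GroupTheory.RegularWreathProduct
set_option linter.all false

set_option autoImplicit false
open Cfsg

namespace Cfsg.Agent.S5896

open RegularWreathProduct
open scoped commutatorElement

variable {D Q : Type} [Group D] [Group Q]

/-- The value at `1` of the first component, on the kernel of the projection. -/
def ev (D Q : Type) [Group D] [Group Q] : (rightHom : D ≀ᵣ Q →* Q).ker →* D where
  toFun w := (w : D ≀ᵣ Q).left 1
  map_one' := rfl
  map_mul' a b := by
    have ha : (a : D ≀ᵣ Q).right = 1 := MonoidHom.mem_ker.mp a.2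
    simp [ha]

/-- A group that maps to the wreath product and whose image contains the commutators of the
base group with the complement has derived length at least that of `D`. -/
theorem derivedSeries_ne_bot {C : Type} [Group C] (j : C →* D ≀ᵣ Q)
    (h : ∀ (f : D ≀ᵣ Q) (q : Q), f.right = 1 → ⁅f, (inl q : D ≀ᵣ Q)⁆ ∈ j.range)
    {q : Q} (hq : q ≠ 1) {n : ℕ} (hD : derivedSeries D n ≠ ⊥) : derivedSeries C n ≠ ⊥ := by
  classical
  intro hC
  apply hD
  let P : Subgroup C := (rightHom.comp j).ker
  let j' : P →* (rightHom : D ≀ᵣ Q →* Q).ker :=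
    (j.comp P.subtype).codRestrict _ (fun x => by
      have := x.2
      exact this)
  let ψ : P →* D := (ev D Q).comp j'
  have hsurj : Function.Surjective ψ := by
    intro d
    obtain ⟨c, hc⟩ := h ⟨Pi.mulSingle 1 d, 1⟩ q rfl
    have hcP : c ∈ P := by
      rw [MonoidHom.mem_ker, MonoidHom.comp_apply, hc]
      simp [commutatorElement_def]
    refine ⟨⟨c, hcP⟩, ?_⟩
    change (j c).left 1 = d
    rw [hc]
    have hq' : q⁻¹ ≠ 1 := by simpa using hq
    simp [commutatorElement_def, hq]
  have h1 : derivedSeries P n = ⊥ := by
    have h2 := map_derivedSeries_le_derivedSeries P.subtype n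
    rw [hC, le_bot_iff, Subgroup.map_eq_bot_iff_of_injective _ P.subtype_injective] at h2
    exact h2
  rw [← map_derivedSeries_eq hsurj, h1, Subgroup.map_bot]

omit [Group Q] in
theorem isSolvable_pi [Group.IsSolvable D] : Group.IsSolvable (Q → D) := by
  obtain ⟨n, hn⟩ := Group.IsSolvable.solvable (G := D)
  refine ⟨n, ?_⟩
  rw [eq_bot_iff]
  intro f hf
  rw [Subgroup.mem_bot]
  funext q
  have h1 := map_derivedSeries_le_derivedSeries (Pi.evalMonoidHom (fun _ : Q => D) q) n
  have h2 := h1 (Subgroup.mem_map_of_mem _ hf)
  rw [hn, Subgroup.mem_bot] at h2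
  exact h2

/-- The base group. -/
def base (D Q : Type) [Group D] [Group Q] : (Q → D) →* D ≀ᵣ Q where
  toFun f := ⟨f, 1⟩
  map_one' := rfl
  map_mul' a b := by ext <;> simp

theorem ker_le_range_base : (rightHom : D ≀ᵣ Q →* Q).ker ≤ (base D Q).range := by
  intro w hw
  refine ⟨w.left, ?_⟩
  have : w.right = 1 := hw
  ext
  · rfl
  · rw [this]; rfl

theorem isSolvable_wreath [Group.IsSolvable D] [Group.IsSolvable Q] :
    Group.IsSolvable (D ≀ᵣ Q) :=
  haveI := isSolvable_pi (D := D) (Q := Q)
  Group.isSolvable_of_ker_le_range (base D Q) rightHom ker_le_range_base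

/-- Finite solvable groups have unbounded derived length. -/
theorem exists_solvable (d : ℕ) : ∃ (D : Type) (_ : Group D) (_ : Finite D),
    Group.IsSolvable D ∧ derivedSeries D d ≠ ⊥ := by
  induction d with
  | zero =>
    refine ⟨Multiplicative (ZMod 2), inferInstance, inferInstance, inferInstance, ?_⟩
    rw [derivedSeries_zero]
    exact top_ne_bot
  | succ d ih =>
    obtain ⟨D, _, _, hs, hd⟩ := ih
    refine ⟨D ≀ᵣ Multiplicative (ZMod 2), inferInstance, inferInstance, isSolvable_wreath, ?_⟩
    have h1 : derivedSeries (commutator (D ≀ᵣ Multiplicative (ZMod 2))) d ≠ ⊥ := by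
      refine derivedSeries_ne_bot (commutator (D ≀ᵣ Multiplicative (ZMod 2))).subtype ?_
        (q := Multiplicative.ofAdd 1) (by decide) hd
      intro f q _
      rw [Subgroup.range_subtype]
      exact Subgroup.commutator_mem_commutator (Subgroup.mem_top _) (Subgroup.mem_top _)
    intro h2
    apply h1
    have h3 : ∀ n, (derivedSeries (commutator (D ≀ᵣ Multiplicative (ZMod 2))) n).map
        (commutator (D ≀ᵣ Multiplicative (ZMod 2))).subtype
          ≤ derivedSeries (D ≀ᵣ Multiplicative (ZMod 2)) (n + 1) := by
      intro n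
      induction n with
      | zero =>
        rw [derivedSeries_zero, ← MonoidHom.range_eq_map, Subgroup.range_subtype, derivedSeries_succ,
          derivedSeries_zero]
        exact le_rfl
      | succ n ihn =>
        rw [derivedSeries_succ, derivedSeries_succ _ (n + 1), Subgroup.map_commutator]
        exact Subgroup.commutator_mono ihn ihn
    have h4 := h3 d
    rw [h2, le_bot_iff, Subgroup.map_eq_bot_iff_of_injective _ (Subgroup.subtype_injective _)] at h4
    exact h4

/-- The perfect group: the normal closure of the complement in a wreath product. -/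
theorem main (A : Type) [Group A] [Finite A] (hA : commutator A = ⊤) {q : A} (hq : q ≠ 1)
    (M : Subgroup A) (hM : IsCoatom M) (hMs : Group.IsSolvable M) (d : ℕ) :
    ∃ (G : Type) (_ : Group G) (_ : Finite G) (H : Subgroup G), commutator G = ⊤ ∧ IsCoatom H ∧
      Group.IsSolvable H ∧ derivedSeries H d ≠ ⊥ := by
  obtain ⟨D, _, _, hs, hd⟩ := exists_solvable d
  let K : Subgroup (D ≀ᵣ A) := Subgroup.normalClosure ((inl : A →* D ≀ᵣ A).range : Set (D ≀ᵣ A))
  have hinl : ∀ a : A, (inl a : D ≀ᵣ A) ∈ K := fun a => Subgroup.subset_normalClosure ⟨a, rfl⟩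
  -- `K` is perfect
  have hK : ⁅K, K⁆ = K := by
    apply le_antisymm (Subgroup.commutator_le_left _ _)
    apply Subgroup.normalClosure_le_normal
    rintro _ ⟨a, rfl⟩
    have ha : a ∈ commutator A := by rw [hA]; exact Subgroup.mem_top a
    have h1 : (inl a : D ≀ᵣ A) ∈ (commutator A).map (inl : A →* D ≀ᵣ A) :=
      Subgroup.mem_map_of_mem _ ha
    rw [commutator_def, Subgroup.map_commutator] at h1
    refine Subgroup.commutator_mono ?_ ?_ h1 <;>
    · rintro _ ⟨b, _, rfl⟩
      exact hinl b
  let π : K →* A := rightHom.comp K.subtype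
  have hπ : Function.Surjective π := fun a => ⟨⟨inl a, hinl a⟩, rfl⟩
  let H : Subgroup K := M.comap π
  have hHs : Group.IsSolvable H := by
    have := isSolvable_pi (D := D) (Q := A)
    -- the kernel part
    let P : Subgroup H := (π.comp H.subtype).ker
    have hP : Group.IsSolvable P := by
      let b : P →* (rightHom : D ≀ᵣ A →* A).ker :=
        ((K.subtype.comp H.subtype).comp P.subtype).codRestrict _ (fun x => x.2)
      have hb : Function.Injective b := by
        intro x y hxy
        have : (b x).1 = (b y).1 := by rw [hxy]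
        exact Subtype.ext (Subtype.ext (Subtype.ext this))
      have : Group.IsSolvable (rightHom : D ≀ᵣ A →* A).ker := by
        have h1 : Group.IsSolvable (base D A).range := by
          exact Group.isSolvable_of_surjective (MonoidHom.rangeRestrict_surjective (base D A))
        exact Group.isSolvable_of_isSolvable_injective
          (f := Subgroup.inclusion ker_le_range_base) (Subgroup.inclusion_injective _)
      exact Group.isSolvable_of_isSolvable_injective hb
    let g : H →* M := (π.comp H.subtype).codRestrict M (fun x => x.2)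
    refine Group.isSolvable_of_ker_le_range P.subtype g ?_
    intro x hx
    rw [Subgroup.range_subtype]
    have : g x = 1 := hx
    exact congrArg Subtype.val this
  refine ⟨K, inferInstance, inferInstance, H, ?_, ?_, hHs, ?_⟩
  · apply Subgroup.map_injective K.subtype_injective
    rw [commutator_def, Subgroup.map_commutator, ← MonoidHom.range_eq_map, Subgroup.range_subtype]
    exact hK
  · exact Subgroup.isCoatom_comap_of_surjective hπ hM
  · refine derivedSeries_ne_bot (K.subtype.comp H.subtype) ?_ hq hd
    intro f a hf
    have hmem : ⁅f, (inl a : D ≀ᵣ A)⁆ ∈ K := by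
      rw [commutatorElement_def]
      exact K.mul_mem ((inferInstance : K.Normal).conj_mem _ (hinl a) f) (K.inv_mem (hinl a))
    have hH : (⟨_, hmem⟩ : K) ∈ H := by
      change (⁅f, (inl a : D ≀ᵣ A)⁆).right ∈ M
      have : (⁅f, (inl a : D ≀ᵣ A)⁆).right = 1 := by simp [commutatorElement_def, hf]
      rw [this]; exact M.one_mem
    exact ⟨⟨_, hH⟩, rfl⟩

/-- Finite perfect groups have solvable maximal subgroups of unbounded derived length: for every d there is a finite perfect group G (equal to its commutator subgroup) with a solvable maximal subgroup H whose derived length exceeds d, i.e. the d-th term of the derived series of H is non-trivial. (Take the derived subgroup of a wreath product S ≀ A₅ with S solvable of large derived length, and H the preimage of a maximal subgroup of A₅.) -/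
theorem result (d : ℕ) :
    ∃ (G : Type) (_ : Group G) (_ : Finite G) (H : Subgroup G), commutator G = ⊤ ∧ IsCoatom H ∧ Group.IsSolvable H ∧
      derivedSeries H d ≠ ⊥ := by
  have : Fact (Nat.Prime 5) := ⟨by norm_num⟩
  have hm : IsMinimalSimple (Matrix.ProjectiveSpecialLinearGroup (Fin 2) (ZMod 5)) :=
    (S0810.result (F := ZMod 5) (q := 5) (by simp [ZMod.card])).mpr (Or.inr (Or.inr (Or.inr rfl)))
  obtain ⟨hs, hc, hsol⟩ := hm
  have : Nontrivial (Matrix.ProjectiveSpecialLinearGroup (Fin 2) (ZMod 5)) := hs.toNontrivial
  obtain ⟨q, hq⟩ := exists_ne (1 : Matrix.ProjectiveSpecialLinearGroup (Fin 2) (ZMod 5))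
  obtain ⟨M, hM⟩ | h := (eq_top_or_exists_le_coatom
    (⊥ : Subgroup (Matrix.ProjectiveSpecialLinearGroup (Fin 2) (ZMod 5)))).symm
  · refine main _ ?_ hq M hM.1 (hsol M hM.1.1) d
    have := (inferInstance : (commutator
      (Matrix.ProjectiveSpecialLinearGroup (Fin 2) (ZMod 5))).Normal).eq_bot_or_eq_top
    refine this.resolve_left fun h => hc ?_
    rw [commutator_eq_bot_iff] at h
    exact h
  · exact absurd h bot_ne_top

end Cfsg.Agent.S5896
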