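import Cfsg.Statements.S5902
set_option linter.all false

set_option autoImplicit false
open Cfsg

namespace Cfsg.Agent.S5902

open Subgroup

/-- A complemented subgroup lattice of `X` gives a complemented interval `[⊥, X]`. -/
theorem interval_of_complemented {G : Type*} [Group G] (X : Subgroup G)
    (hK : ComplementedLattice (Subgroup X)) (Y : Subgroup G) (hY : Y ≤ X) :
    ∃ C : Subgroup G, C ≤ X ∧ Y ⊔ C = X ∧ Y ⊓ C = ⊥ := by
  obtain ⟨C', hC'⟩ := hK.exists_isCompl (Y.subgroupOf X)
  have hYm : (Y.subgroupOf X).map X.subtype = Y := by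
    rw [Subgroup.subgroupOf_map_subtype, inf_eq_left.mpr hY]
  refine ⟨C'.map X.subtype, Subgroup.map_subtype_le C', ?_, ?_⟩
  · have h := congrArg (Subgroup.map X.subtype) hC'.sup_eq_top
    rw [Subgroup.map_sup, hYm] at h
    rw [h, ← MonoidHom.range_eq_map, Subgroup.range_subtype]
  · have h := congrArg (Subgroup.map X.subtype) hC'.inf_eq_bot
    rw [Subgroup.map_inf_eq _ _ _ X.subtype_injective, hYm, Subgroup.map_bot] at h
    exact h

/-- Complements of subgroups not inside the unique maximal overgroup of `X`. -/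
theorem compl_of_not_le {G : Type*} [Group G] [Finite G] (X M : Subgroup G)
    (hK : ComplementedLattice (Subgroup X))
    (huniq : ∀ M' : Subgroup G, IsCoatom M' → X ≤ M' → M' = M) (H : Subgroup G) (hH : ¬ H ≤ M) :
    ∃ C : Subgroup G, H ⊔ C = ⊤ ∧ H ⊓ C = ⊥ := by
  obtain ⟨C, hCX, h1, h2⟩ := interval_of_complemented X hK (H ⊓ X) inf_le_right
  refine ⟨C, ?_, ?_⟩
  · have hXle : X ≤ H ⊔ C := by
      conv_lhs => rw [← h1]
      exact sup_le (inf_le_left.trans le_sup_left) le_sup_right
    by_contra hne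
    rcases eq_top_or_exists_le_coatom (H ⊔ C) with h | ⟨M', hM', hle⟩
    · exact hne h
    · have := huniq M' hM' (hXle.trans hle)
      subst this
      exact hH (le_sup_left.trans hle)
  · rw [eq_bot_iff, ← h2]
    exact le_inf (le_inf inf_le_left (inf_le_right.trans hCX)) inf_le_right

theorem compl_conj {G : Type*} [Group G] (g : G) (H : Subgroup G)
    (h : ∃ C : Subgroup G, H.map (MulAut.conj g).toMonoidHom ⊔ C = ⊤ ∧
      H.map (MulAut.conj g).toMonoidHom ⊓ C = ⊥) :
    ∃ C : Subgroup G, H ⊔ C = ⊤ ∧ H ⊓ C = ⊥ := by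
  obtain ⟨C, h1, h2⟩ := h
  have hid : ∀ K : Subgroup G, (K.map (MulAut.conj g).toMonoidHom).map (MulAut.conj g⁻¹).toMonoidHom = K := by
    intro K
    rw [Subgroup.map_map]
    convert Subgroup.map_id K
    ext x
    simp [mul_assoc]
  have hinj : Function.Injective (MulAut.conj g⁻¹).toMonoidHom := (MulAut.conj g⁻¹).injective
  have hsurj : Function.Surjective (MulAut.conj g⁻¹).toMonoidHom := (MulAut.conj g⁻¹).surjective
  refine ⟨C.map (MulAut.conj g⁻¹).toMonoidHom, ?_, ?_⟩
  · have := congrArg (Subgroup.map (MulAut.conj g⁻¹).toMonoidHom) h1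
    rwa [Subgroup.map_sup, hid, Subgroup.map_top_of_surjective _ hsurj] at this
  · have := congrArg (Subgroup.map (MulAut.conj g⁻¹).toMonoidHom) h2
    rwa [Subgroup.map_inf_eq _ _ _ hinj, hid, Subgroup.map_bot] at this

theorem part_one {G : Type*} [Group G] [Finite G] (X M : Subgroup G)
    (hK : ComplementedLattice (Subgroup X))
    (huniq : ∀ M' : Subgroup G, IsCoatom M' → X ≤ M' → M' = M) (H : Subgroup G)
    (hH : ¬ H ≤ M.normalCore) : ∃ C : Subgroup G, H ⊔ C = ⊤ ∧ H ⊓ C = ⊥ := by
  have : ∃ g : G, ¬ H.map (MulAut.conj g).toMonoidHom ≤ M := by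
    by_contra hcon
    push Not at hcon
    apply hH
    intro x hx g
    exact hcon g (Subgroup.mem_map_of_mem _ hx)
  obtain ⟨g, hg⟩ := this
  exact compl_conj g H (compl_of_not_le X M hK huniq _ hg)


/-- Let G be a finite group, X a subgroup whose own subgroup lattice is complemented, and suppose X lies in exactly one maximal subgroup M of G. Then every subgroup H of G not contained in the normal core of M has a complement in the subgroup lattice of G (some C with H ⊔ C = G and H ⊓ C = 1); in particular the subgroup lattice of G modulo the normal core of M is complemented. -/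
theorem result {G : Type*} [Group G] [Finite G] (X M : Subgroup G)
    (hK : ComplementedLattice (Subgroup X))
    (hM : IsCoatom M) (hXM : X ≤ M) (huniq : ∀ M' : Subgroup G, IsCoatom M' → X ≤ M' → M' = M) :
    (∀ H : Subgroup G, ¬ H ≤ M.normalCore → ∃ C : Subgroup G, H ⊔ C = ⊤ ∧ H ⊓ C = ⊥) ∧
    ComplementedLattice (Subgroup (G ⧸ M.normalCore)) := by
  refine ⟨fun H hH => part_one X M hK huniq H hH, ⟨fun A => ?_⟩⟩
  set N := M.normalCore with hN
  have hsurj : Function.Surjective (QuotientGroup.mk' N) := QuotientGroup.mk'_surjective N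
  set H := A.comap (QuotientGroup.mk' N) with hHdef
  have hNH : N ≤ H := by
    intro x hx
    rw [hHdef, Subgroup.mem_comap]
    have : QuotientGroup.mk' N x = 1 := (QuotientGroup.eq_one_iff x).mpr hx
    rw [this]
    exact A.one_mem
  have hmapH : H.map (QuotientGroup.mk' N) = A := Subgroup.map_comap_eq_self_of_surjective hsurj A
  by_cases hHN : H ≤ N
  · refine ⟨⊤, ?_⟩
    have : A = ⊥ := by
      rw [← hmapH, eq_bot_iff]
      rintro _ ⟨x, hx, rfl⟩
      exact (QuotientGroup.eq_one_iff x).mpr (hHN hx)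
    rw [this]
    exact isCompl_bot_top
  · obtain ⟨C, h1, h2⟩ := part_one X M hK huniq H hHN
    refine ⟨C.map (QuotientGroup.mk' N), isCompl_iff.mpr ⟨?_, ?_⟩⟩
    · rw [disjoint_iff, eq_bot_iff]
      rintro _ ⟨hxA, c, hc, rfl⟩
      have hcH : c ∈ H := hxA
      have : c ∈ H ⊓ C := ⟨hcH, hc⟩
      rw [h2, Subgroup.mem_bot] at this
      rw [this]
      exact (⊥ : Subgroup (G ⧸ N)).one_mem
    · rw [codisjoint_iff]
      have := congrArg (Subgroup.map (QuotientGroup.mk' N)) h1
      rwa [Subgroup.map_sup, hmapH, Subgroup.map_top_of_surjective _ hsurj] at this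

end Cfsg.Agent.S5902
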