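import Cfsg.Statements.S5903
set_option linter.all false

set_option autoImplicit false
open Cfsg

namespace Cfsg.Agent.S5903

open Subgroup

/-- A complemented lattice of a quotient `Q` of `X` gives a complemented interval `[N, X]`. -/
theorem interval_of_surj {G Q : Type*} [Group G] [Group Q] (X N : Subgroup G) (hNX : N ≤ X)
    (π : X →* Q) (hsurj : Function.Surjective π) (hker : π.ker = N.subgroupOf X)
    (hK : ComplementedLattice (Subgroup Q))
    (Y : Subgroup G) (hNY : N ≤ Y) (hY : Y ≤ X) :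
    ∃ C : Subgroup G, N ≤ C ∧ C ≤ X ∧ Y ⊔ C = X ∧ Y ⊓ C = N := by
  obtain ⟨C', hC'⟩ := hK.exists_isCompl ((Y.subgroupOf X).map π)
  have hYm : (Y.subgroupOf X).map X.subtype = Y := by
    rw [Subgroup.subgroupOf_map_subtype, inf_eq_left.mpr hY]
  have hNm : (N.subgroupOf X).map X.subtype = N := by
    rw [Subgroup.subgroupOf_map_subtype, inf_eq_left.mpr hNX]
  have hNsub : N.subgroupOf X ≤ Y.subgroupOf X := Subgroup.comap_mono hNY
  have hYc : ((Y.subgroupOf X).map π).comap π = Y.subgroupOf X := by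
    rw [Subgroup.comap_map_eq, hker, sup_eq_left.mpr hNsub]
  have hNC : N.subgroupOf X ≤ C'.comap π := hker ▸ MonoidHom.ker_le_comap π C'
  refine ⟨(C'.comap π).map X.subtype, ?_, Subgroup.map_subtype_le _, ?_, ?_⟩
  · conv_lhs => rw [← hNm]
    exact Subgroup.map_mono hNC
  · have h := congrArg (Subgroup.comap π) hC'.sup_eq_top
    have h2 : (Y.subgroupOf X) ⊔ C'.comap π = ⊤ := by
      rw [← Subgroup.comap_sup_eq _ _ _ hsurj, hYc, Subgroup.comap_top] at h
      exact h
    have h3 := congrArg (Subgroup.map X.subtype) h2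
    rw [Subgroup.map_sup, hYm] at h3
    rw [h3, ← MonoidHom.range_eq_map, Subgroup.range_subtype]
  · have h := congrArg (Subgroup.comap π) hC'.inf_eq_bot
    rw [Subgroup.comap_inf, hYc] at h
    have h3 := congrArg (Subgroup.map X.subtype) h
    rw [Subgroup.map_inf_eq _ _ _ X.subtype_injective, hYm] at h3
    rw [h3]
    have h4 : Subgroup.comap π ⊥ = N.subgroupOf X := hker
    rw [h4, hNm]


/-- Let G be a finite simple group, X a subgroup lying in exactly one maximal subgroup M of G, and N a subgroup of prime order with N ≤ X that is central in M. If the subgroup lattice of X/N is complemented, then the subgroup lattice of G is complemented. -/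
theorem result {G : Type*} [Group G] [Finite G] [IsSimpleGroup G] (X M N : Subgroup G)
    (hM : IsCoatom M) (hXM : X ≤ M) (huniq : ∀ M' : Subgroup G, IsCoatom M' → X ≤ M' → M' = M)
    (hNX : N ≤ X) (hN : (Nat.card N).Prime) (hcen : ∀ n ∈ N, ∀ m ∈ M, m * n = n * m)
    [(N.subgroupOf X).Normal] (hK : ComplementedLattice (Subgroup (X ⧸ N.subgroupOf X))) :
    ComplementedLattice (Subgroup G) := by
  have hsub : ∀ (H : Subgroup G), ¬ H ≤ M → H ⊓ N = ⊥ → ∃ C : Subgroup G, H ⊔ C = ⊤ ∧ H ⊓ C = ⊥ := by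
    intro H hH hHN
    obtain ⟨C, hTC, hCX, h1, h2⟩ := interval_of_surj X N hNX (QuotientGroup.mk' (N.subgroupOf X))
      (QuotientGroup.mk'_surjective _) (QuotientGroup.ker_mk' _) hK (N ⊔ (H ⊓ X)) le_sup_left
      (sup_le hNX inf_le_right)
    refine ⟨C, ?_, ?_⟩
    · have hXle : X ≤ H ⊔ C := by
        conv_lhs => rw [← h1]
        exact sup_le (sup_le (hTC.trans le_sup_right) (inf_le_left.trans le_sup_left)) le_sup_right
      by_contra hne
      rcases eq_top_or_exists_le_coatom (H ⊔ C) with h | ⟨M', hM', hle⟩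
      · exact hne h
      · have := huniq M' hM' (hXle.trans hle)
        subst this
        exact hH (le_sup_left.trans hle)
    · rw [eq_bot_iff]
      have h3 : H ⊓ C ≤ N := by
        have : H ⊓ C ≤ (N ⊔ (H ⊓ X)) ⊓ C :=
          le_inf ((le_inf inf_le_left (inf_le_right.trans hCX)).trans le_sup_right) inf_le_right
        rwa [h2] at this
      exact (le_inf inf_le_left h3).trans hHN.le
  have hconj : ∀ (g : G) (H : Subgroup G), (∃ C : Subgroup G, H.map (MulAut.conj g).toMonoidHom ⊔ C = ⊤ ∧
      H.map (MulAut.conj g).toMonoidHom ⊓ C = ⊥) → ∃ C : Subgroup G, H ⊔ C = ⊤ ∧ H ⊓ C = ⊥ := by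
    rintro g H ⟨C, h1, h2⟩
    have hid : ∀ K : Subgroup G, (K.map (MulAut.conj g).toMonoidHom).map (MulAut.conj g⁻¹).toMonoidHom = K := by
      intro K
      rw [Subgroup.map_map]
      convert Subgroup.map_id K
      ext x
      simp [mul_assoc]
    have hinj : Function.Injective (MulAut.conj g⁻¹).toMonoidHom := (MulAut.conj g⁻¹).injective
    have hsurj : Function.Surjective (MulAut.conj g⁻¹).toMonoidHom := (MulAut.conj g⁻¹).surjective
    refine ⟨C.map (MulAut.conj g⁻¹).toMonoidHom, ?_, ?_⟩
    · have := congrArg (Subgroup.map (MulAut.conj g⁻¹).toMonoidHom) h1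
      rwa [Subgroup.map_sup, hid, Subgroup.map_top_of_surjective _ hsurj] at this
    · have := congrArg (Subgroup.map (MulAut.conj g⁻¹).toMonoidHom) h2
      rwa [Subgroup.map_inf_eq _ _ _ hinj, hid, Subgroup.map_bot] at this
  have hNne : N ≠ ⊥ := by
    rintro rfl
    rw [Subgroup.card_bot] at hN
    exact Nat.not_prime_one hN
  refine ⟨fun H => ?_⟩
  by_cases hbot : H = ⊥
  · exact ⟨⊤, hbot ▸ isCompl_bot_top⟩
  by_cases htop : H = ⊤
  · exact ⟨⊥, htop ▸ isCompl_top_bot⟩
  by_cases hex : ∃ g : G, ¬ H.map (MulAut.conj g).toMonoidHom ≤ M ∧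
      H.map (MulAut.conj g).toMonoidHom ⊓ N = ⊥
  · obtain ⟨g, hg1, hg2⟩ := hex
    obtain ⟨C, h1, h2⟩ := hconj g H (hsub _ hg1 hg2)
    exact ⟨C, isCompl_iff.mpr ⟨disjoint_iff.mpr h2, codisjoint_iff.mpr h1⟩⟩
  · exfalso
    push Not at hex
    -- every conjugate of `N` normalises `H`
    have hkey : ∀ g n : G, n ∈ N → ∀ h ∈ H, (g⁻¹ * n * g) * h * (g⁻¹ * n * g)⁻¹ ∈ H := by
      intro g n hn h hh
      by_cases hle : H.map (MulAut.conj g).toMonoidHom ≤ M
      · have h1 : g * h * g⁻¹ ∈ M := hle (Subgroup.mem_map_of_mem _ hh)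
        have h2 := hcen n hn _ h1
        have h3 : (g⁻¹ * n * g) * h * (g⁻¹ * n * g)⁻¹ = h := by
          have : (g⁻¹ * n * g) * h * (g⁻¹ * n * g)⁻¹ = g⁻¹ * (n * (g * h * g⁻¹)) * n⁻¹ * g := by group
          rw [this, ← h2]
          group
        rw [h3]; exact hh
      · have h1 := hex g hle
        have h2 : N ≤ H.map (MulAut.conj g).toMonoidHom := by
          have : Fact (Nat.card N).Prime := ⟨hN⟩
          have h3 : (H.map (MulAut.conj g).toMonoidHom).subgroupOf N = ⊥ ∨
              (H.map (MulAut.conj g).toMonoidHom).subgroupOf N = ⊤ :=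
            Subgroup.eq_bot_or_eq_top_of_prime_card _
          rcases h3 with h3 | h3
          · exfalso
            apply h1
            rw [Subgroup.subgroupOf_eq_bot] at h3
            exact disjoint_iff.mp h3
          · exact Subgroup.subgroupOf_eq_top.mp h3
        obtain ⟨k, hk, hkn⟩ := h2 hn
        have h3 : g⁻¹ * n * g ∈ H := by
          rw [← hkn]
          change g⁻¹ * (g * k * g⁻¹) * g ∈ H
          have : g⁻¹ * (g * k * g⁻¹) * g = k := by group
          rw [this]; exact hk
        exact H.mul_mem (H.mul_mem h3 hh) (H.inv_mem h3)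
    have hnc : Subgroup.normalClosure (N : Set G) ≤ Subgroup.normalizer (H : Set G) := by
      rw [Subgroup.normalClosure, Subgroup.closure_le]
      intro y hy
      rw [Group.mem_conjugatesOfSet_iff] at hy
      obtain ⟨n, hn, hc⟩ := hy
      obtain ⟨c, hc⟩ := isConj_iff.mp hc
      have hy' : y = (c⁻¹)⁻¹ * n * c⁻¹ := by rw [← hc]; group
      have hmem : ∀ n' ∈ N, ∀ h ∈ H, ((c⁻¹)⁻¹ * n' * c⁻¹) * h * ((c⁻¹)⁻¹ * n' * c⁻¹)⁻¹ ∈ H :=
        fun n' hn' h hh => hkey c⁻¹ n' hn' h hh
      rw [SetLike.mem_coe, Subgroup.mem_normalizer_iff]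
      intro h
      constructor
      · intro hh
        rw [hy']
        exact hmem n hn h hh
      · intro hh
        have h4 := hmem n⁻¹ (N.inv_mem hn) _ hh
        rw [hy'] at h4
        convert h4 using 1
        group
    have htop' : Subgroup.normalClosure (N : Set G) = ⊤ := by
      rcases (Subgroup.normalClosure_normal (s := (N : Set G))).eq_bot_or_eq_top with h | h
      · exfalso
        apply hNne
        rw [eq_bot_iff, ← h]
        exact Subgroup.subset_normalClosure
      · exact h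
    rw [htop'] at hnc
    have hHn : H.Normal := Subgroup.normalizer_eq_top_iff.mp (top_le_iff.mp hnc)
    rcases hHn.eq_bot_or_eq_top with h | h
    · exact hbot h
    · exact htop h

end Cfsg.Agent.S5903
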