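import Cfsg.Statements.S5904
set_option linter.all false

set_option autoImplicit false
open scoped Pointwise
open Cfsg

namespace Cfsg.Agent.S5904

/-- Let Ω be a finite set with more than two elements and O ⊆ Ω a subset with exactly as many elements as its complement. Then the setwise stabilizer of O in the symmetric group on Ω is not a maximal subgroup (it is properly contained in the stabilizer of the partition {O, Ω ∖ O}, which is proper). -/
theorem result {Ω : Type*} [Fintype Ω] [DecidableEq Ω] (hΩ : 2 < Fintype.card Ω)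
    (O : Set Ω) (hO : Nat.card O = Nat.card ↥Oᶜ) :
    ¬ IsCoatom (MulAction.stabilizer (Equiv.Perm Ω) O) := by
  classical
  intro hco
  have hcard : Nat.card O + Nat.card ↥Oᶜ = Fintype.card Ω := by
    have := Set.ncard_add_ncard_compl O
    rw [Nat.card_eq_fintype_card] at this
    rw [Nat.card_coe_set_eq, Nat.card_coe_set_eq]
    exact this
  have h2 : 1 < Nat.card O := by omega
  have h3 : 1 < Nat.card ↥Oᶜ := by omega
  -- the swap
  have hne : Nonempty (↥O ≃ ↥Oᶜ) := by
    have : Fintype.card O = Fintype.card ↥Oᶜ := by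
      rw [← Nat.card_eq_fintype_card, ← Nat.card_eq_fintype_card]; exact hO
    exact ⟨Fintype.equivOfCardEq this⟩
  obtain ⟨e⟩ := hne
  let s : Ω → Ω := fun x => if h : x ∈ O then (e ⟨x, h⟩ : Ω) else (e.symm ⟨x, h⟩ : Ω)
  have hs : Function.Involutive s := by
    intro x
    by_cases h : x ∈ O
    · have h1 : s x = (e ⟨x, h⟩ : Ω) := by simp [s, h]
      have h2' : s x ∉ O := by rw [h1]; exact (e ⟨x, h⟩).2
      have h4 : s (s x) = (e.symm ⟨s x, h2'⟩ : Ω) := by simp only [s, dif_neg h2']
      rw [h4]
      have h5 : (⟨s x, h2'⟩ : ↥Oᶜ) = e ⟨x, h⟩ := Subtype.ext h1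
      rw [h5, Equiv.symm_apply_apply]
    · have h1 : s x = (e.symm ⟨x, h⟩ : Ω) := by simp [s, h]
      have h2' : s x ∈ O := by rw [h1]; exact (e.symm ⟨x, h⟩).2
      have h4 : s (s x) = (e ⟨s x, h2'⟩ : Ω) := by simp only [s, dif_pos h2']
      rw [h4]
      have h5 : (⟨s x, h2'⟩ : ↥O) = e.symm ⟨x, h⟩ := Subtype.ext h1
      rw [h5, Equiv.apply_symm_apply]
  let g : Equiv.Perm Ω := hs.toPerm s
  have hg : ∀ x, x ∈ O ↔ g x ∉ O := by
    intro x
    constructor
    · intro h
      have : g x = (e ⟨x, h⟩ : Ω) := by simp [g, s, h]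
      rw [this]; exact (e ⟨x, h⟩).2
    · intro h
      by_contra hx
      apply h
      have : g x = (e.symm ⟨x, hx⟩ : Ω) := by simp [g, s, hx]
      rw [this]; exact (e.symm ⟨x, hx⟩).2
  -- the stabiliser of the partition
  let K : Subgroup (Equiv.Perm Ω) :=
    { carrier := {g | (∀ x, x ∈ O ↔ g x ∈ O) ∨ (∀ x, x ∈ O ↔ g x ∉ O)}
      one_mem' := Or.inl fun x => by simp
      mul_mem' := by
        rintro a b (ha | ha) (hb | hb)
        · exact Or.inl fun x => by rw [Equiv.Perm.mul_apply, hb x, ha (b x)]
        · exact Or.inr fun x => by rw [Equiv.Perm.mul_apply, hb x, ha (b x)]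
        · exact Or.inr fun x => by rw [Equiv.Perm.mul_apply, hb x, ha (b x)]
        · exact Or.inl fun x => by rw [Equiv.Perm.mul_apply, hb x, ha (b x), not_not]
      inv_mem' := by
        rintro a (ha | ha)
        · exact Or.inl fun x => by rw [ha (a⁻¹ x)]; simp
        · exact Or.inr fun x => by
            have h := ha (a⁻¹ x)
            have h' : a (a⁻¹ x) = x := by simp
            rw [h'] at h
            tauto }
  have hstab : ∀ a : Equiv.Perm Ω, a ∈ MulAction.stabilizer (Equiv.Perm Ω) O ↔ ∀ x, x ∈ O ↔ a x ∈ O := by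
    intro a
    rw [MulAction.mem_stabilizer_iff]
    constructor
    · intro h x
      constructor
      · intro hx
        have : a • x ∈ a • O := Set.smul_mem_smul_set hx
        rw [h] at this; exact this
      · intro hx
        have h' : a • x ∈ a • O := by rw [h]; exact hx
        exact (Set.smul_mem_smul_set_iff).mp h'
    · intro h
      ext x
      rw [Set.mem_smul_set_iff_inv_smul_mem, h (a⁻¹ • x)]
      simp
  have hle : MulAction.stabilizer (Equiv.Perm Ω) O ≤ K := by
    intro a ha
    exact Or.inl ((hstab a).mp ha)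
  have hlt : MulAction.stabilizer (Equiv.Perm Ω) O < K := by
    refine lt_of_le_of_ne hle ?_
    intro heq
    have hgK : g ∈ K := Or.inr hg
    rw [← heq] at hgK
    have h5 := (hstab g).mp hgK
    obtain ⟨⟨x, hx⟩⟩ : Nonempty O := by
      have : 0 < Nat.card O := by omega
      exact (Nat.card_pos_iff.mp this).1
    exact ((hg x).mp hx) ((h5 x).mp hx)
  have htop : K = ⊤ := hco.2 K hlt
  -- a transposition
  obtain ⟨x, z, hxz⟩ : ∃ x z : O, x ≠ z := by
    rw [Nat.card_eq_fintype_card] at h2
    exact Fintype.exists_pair_of_one_lt_card h2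
  obtain ⟨⟨y, hy⟩⟩ : Nonempty ↥Oᶜ := by
    have : 0 < Nat.card ↥Oᶜ := by omega
    exact (Nat.card_pos_iff.mp this).1
  have hmem : Equiv.swap (x : Ω) y ∈ K := by rw [htop]; trivial
  rcases hmem with h | h
  · have := (h x).mp x.2
    rw [Equiv.swap_apply_left] at this
    exact hy this
  · have := (h z).mp z.2
    apply this
    rw [Equiv.swap_apply_of_ne_of_ne]
    · exact z.2
    · intro h6; exact hxz (Subtype.ext h6.symm)
    · intro h6; exact hy (h6 ▸ z.2)

end Cfsg.Agent.S5904
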