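import Cfsg.Prelude.Def_Classical
import Cfsg.Agent.Lib.FieldFour
import Cfsg.Statements.S5908
import Cfsg.Agent.LieClassical.FieldTransfer
set_option linter.all false

-- part: H939/UThreeTwo
section
/-!
`PSU₃(2)` does not have a complemented subgroup lattice: explicit computation over the field with four elements.
-/

set_option autoImplicit false

namespace Cfsg.Agent.H939.UThreeTwo

open scoped Matrix
open Cfsg.Agent.Lib.FieldFour Cfsg.Agent.Lib.FieldFour.F4

/-- vectors as triples -/
abbrev V : Type := F4 × F4 × F4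

/-- kernel friendly addition -/
def ad (u v : V) : V := (add u.1 v.1, add u.2.1 v.2.1, add u.2.2 v.2.2)
/-- scalar multiple -/
def sm (s : F4) (v : V) : V := (mul s v.1, mul s v.2.1, mul s v.2.2)
/-- Hermitian form -/
def ip (u v : V) : F4 :=
  add (add (mul u.1 (mul v.1 v.1)) (mul u.2.1 (mul v.2.1 v.2.1))) (mul u.2.2 (mul v.2.2 v.2.2))
/-- the matrix with columns `a b c` applied to `v` -/
def app (a b c v : V) : V := ad (ad (sm v.1 a) (sm v.2.1 b)) (sm v.2.2 c)
/-- the class of a vector -/
def cls (v : V) : F4 := mul (mul v.1 v.2.1) v.2.2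
/-- determinant (characteristic two) -/
def det (a b c : V) : F4 :=
  add (add (mul a.1 (add (mul b.2.1 c.2.2) (mul b.2.2 c.2.1)))
    (mul b.1 (add (mul a.2.1 c.2.2) (mul a.2.2 c.2.1)))) (mul c.1 (add (mul a.2.1 b.2.2) (mul a.2.2 b.2.1)))
/-- boolean equality -/
def eqb : F4 → F4 → Bool
  | o, o => true
  | i, i => true
  | w, w => true
  | v, v => true
  | _, _ => false
/-- boolean equality of vectors -/
def eqv (u v : V) : Bool := eqb u.1 v.1 && eqb u.2.1 v.2.1 && eqb u.2.2 v.2.2
/-- all elements -/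
def els : List F4 := [o, i, w, v]
/-- all vectors -/
def vecs : List V := els.flatMap fun x => els.flatMap fun y => els.map fun z => (x, y, z)
/-- the unit vectors (odd weight) -/
def units : List V := vecs.filter fun u => eqb (ip u u) i

theorem eqb_iff (x y : F4) : eqb x y = true ↔ x = y := by
  cases x <;> cases y <;> simp [eqb]

theorem eqv_iff (u v : V) : eqv u v = true ↔ u = v := by
  obtain ⟨a, b, c⟩ := u
  obtain ⟨d, e, f⟩ := v
  simp [eqv, eqb_iff, and_assoc]

theorem mem_els (x : F4) : x ∈ els := by cases x <;> simp [els]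

theorem mem_vecs (u : V) : u ∈ vecs := by
  obtain ⟨a, b, c⟩ := u
  simp [vecs, List.mem_flatMap, mem_els]

theorem mem_units (u : V) : u ∈ units ↔ ip u u = i := by
  simp [units, mem_vecs, eqb_iff]

/-- `D = diag(1, w, v)` -/
def D (u : V) : V := (u.1, mul w u.2.1, mul v u.2.2)
/-- cyclic permutation -/
def P (u : V) : V := (u.2.2, u.1, u.2.1)

/-- the square commutes with `D` and `P` -/
def sc (a b c : V) : Bool :=
  [(i, o, o), (o, i, o), (o, o, i)].all fun e =>
    eqv (D (app a b c (app a b c e))) (app a b c (app a b c (D e))) &&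
    eqv (P (app a b c (app a b c e))) (app a b c (app a b c (P e)))

/-- the whole check -/
def chk : Bool :=
  units.all fun a => (units.filter fun b => eqb (ip a b) o).all fun b =>
    (units.filter fun c => eqb (ip a c) o && eqb (ip b c) o && eqb (det a b c) i).all fun c =>
      (units.all fun u => eqb (cls (app a b c (app a b c u))) (cls u)) &&
      (!(sc a b c) || units.all fun u => eqb (cls (app a b c u)) (cls u))

set_option maxRecDepth 100000 in
theorem chk_true : chk = true := by decide +kernel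


theorem units_spec {a b c : V} (ha : ip a a = i) (hb : ip b b = i) (hc : ip c c = i)
    (hab : ip a b = o) (hac : ip a c = o) (hbc : ip b c = o) (hd : det a b c = i) :
    (∀ u, ip u u = i → cls (app a b c (app a b c u)) = cls u) ∧
      (sc a b c = true → ∀ u, ip u u = i → cls (app a b c u) = cls u) := by
  have h := chk_true
  rw [chk, List.all_eq_true] at h
  have h1 := h a ((mem_units a).mpr ha)
  rw [List.all_eq_true] at h1
  have h2 := h1 b (by
    rw [List.mem_filter, mem_units, eqb_iff]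
    exact ⟨hb, hab⟩)
  rw [List.all_eq_true] at h2
  have h3 := h2 c (by
    rw [List.mem_filter, mem_units, Bool.and_eq_true, Bool.and_eq_true, eqb_iff, eqb_iff, eqb_iff]
    exact ⟨hc, ⟨hac, hbc⟩, hd⟩)
  rw [Bool.and_eq_true, List.all_eq_true, Bool.or_eq_true, List.all_eq_true] at h3
  refine ⟨fun u hu => (eqb_iff _ _).mp (h3.1 u ((mem_units u).mpr hu)), fun hsc u hu => ?_⟩
  rcases h3.2 with h4 | h4
  · rw [hsc] at h4
    exact absurd h4 (by decide)
  · exact (eqb_iff _ _).mp (h4 u ((mem_units u).mpr hu))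

/-- from functions to triples -/
def tp (f : Fin 3 → F4) : V := (f 0, f 1, f 2)
/-- from triples to functions -/
def fn (u : V) : Fin 3 → F4 := ![u.1, u.2.1, u.2.2]

theorem tp_fn (u : V) : tp (fn u) = u := rfl
theorem fn_tp (f : Fin 3 → F4) : fn (tp f) = f := by
  funext k; fin_cases k <;> rfl

theorem hermForm_eq (f g : Fin 3 → F4) : Cfsg.hermForm 3 F4 2 f g = ip (tp f) (tp g) := by
  rw [Cfsg.hermForm, Fin.sum_univ_three]
  simp only [sq]
  rfl

abbrev SU3 := Cfsg.SU 3 F4 2

/-- the columns -/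
def col (g : SU3) (k : Fin 3) : V := tp fun j => (g : Matrix.SpecialLinearGroup (Fin 3) F4) j k

/-- the action on triples -/
def act (g : SU3) (u : V) : V := tp (Cfsg.slToMat 3 F4 (g : Matrix.SpecialLinearGroup (Fin 3) F4) *ᵥ fn u)

theorem act_one (u : V) : act 1 u = u := by
  simp [act, tp_fn]

theorem act_mul (g h : SU3) (u : V) : act (g * h) u = act g (act h u) := by
  simp only [act, fn_tp]
  rw [Matrix.mulVec_mulVec, ← map_mul]
  rfl

theorem ip_act (g : SU3) (u v : V) : ip (act g u) (act g v) = ip u v := by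
  have h := g.2 (fn u) (fn v)
  rw [hermForm_eq, hermForm_eq, tp_fn, tp_fn] at h
  exact h

theorem act_eq_app (g : SU3) (u : V) : act g u = app (col g 0) (col g 1) (col g 2) u := by
  obtain ⟨x, y, z⟩ := u
  have key : ∀ k : Fin 3, (Cfsg.slToMat 3 F4 (g : Matrix.SpecialLinearGroup (Fin 3) F4) *ᵥ fn (x, y, z)) k =
      x * (g : Matrix.SpecialLinearGroup (Fin 3) F4) k 0 + y * (g : Matrix.SpecialLinearGroup (Fin 3) F4) k 1 +
        z * (g : Matrix.SpecialLinearGroup (Fin 3) F4) k 2 := by
    intro k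
    rw [Matrix.mulVec, dotProduct, Fin.sum_univ_three]
    simp only [fn, Matrix.cons_val_zero, Matrix.cons_val_one, Matrix.cons_val]
    rw [mul_comm x, mul_comm y, mul_comm z]
    rfl
  unfold act tp
  rw [key, key, key]
  rfl

theorem lin0 : ∀ x y z : F4, add (add (mul i x) (mul o y)) (mul o z) = x := by decide
theorem lin1 : ∀ x y z : F4, add (add (mul o x) (mul i y)) (mul o z) = y := by decide
theorem lin2 : ∀ x y z : F4, add (add (mul o x) (mul o y)) (mul i z) = z := by decide

theorem act_e0 (g : SU3) : act g (i, o, o) = col g 0 := by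
  rw [act_eq_app]
  simp only [app, ad, sm, lin0]

theorem act_e1 (g : SU3) : act g (o, i, o) = col g 1 := by
  rw [act_eq_app]
  simp only [app, ad, sm, lin1]

theorem act_e2 (g : SU3) : act g (o, o, i) = col g 2 := by
  rw [act_eq_app]
  simp only [app, ad, sm, lin2]

theorem det_col (g : SU3) : det (col g 0) (col g 1) (col g 2) = i := by
  have h := (g : Matrix.SpecialLinearGroup (Fin 3) F4).2
  rw [Matrix.det_fin_three] at h
  have key : ∀ a b c d e f g h j : F4, a * e * j - a * f * h - b * d * j + b * f * g + c * d * h - c * e * g =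
      add (add (mul a (add (mul e j) (mul h f))) (mul b (add (mul d j) (mul g f)))) (mul c (add (mul d h) (mul g e))) := by
    intro a b c d e f g h j
    have h2 : ∀ x : F4, -x = x := by decide
    change _ = (a * (e * j + h * f)) + (b * (d * j + g * f)) + c * (d * h + g * e)
    simp only [sub_eq_add_neg, h2]
    ring
  rw [key] at h
  exact h

theorem spec (g : SU3) :
    (∀ u, ip u u = i → cls (act g (act g u)) = cls u) ∧
      ((∀ u, D (act g (act g u)) = act g (act g (D u))) → (∀ u, P (act g (act g u)) = act g (act g (P u))) →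
        ∀ u, ip u u = i → cls (act g u) = cls u) := by
  have h := units_spec (a := col g 0) (b := col g 1) (c := col g 2)
    (by rw [← act_e0, ip_act]; rfl) (by rw [← act_e1, ip_act]; rfl) (by rw [← act_e2, ip_act]; rfl)
    (by rw [← act_e0, ← act_e1, ip_act]; rfl) (by rw [← act_e0, ← act_e2, ip_act]; rfl)
    (by rw [← act_e1, ← act_e2, ip_act]; rfl) (det_col g)
  simp only [act_eq_app]
  refine ⟨h.1, fun h1 h2 => h.2 ?_⟩
  rw [sc, List.all_eq_true]
  intro e he
  rw [Bool.and_eq_true, eqv_iff, eqv_iff]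
  exact ⟨h1 e, h2 e⟩

/-- the subgroup preserving all classes -/
def HH : Subgroup SU3 where
  carrier := {g | ∀ u, ip u u = i → cls (act g u) = cls u}
  one_mem' := fun u _ => by rw [act_one]
  mul_mem' := by
    intro a b ha hb u hu
    rw [act_mul, ha _ (by rw [ip_act]; exact hu), hb u hu]
  inv_mem' := by
    intro a ha u hu
    have h := ha (act a⁻¹ u) (by rw [ip_act]; exact hu)
    rw [← act_mul, mul_inv_cancel, act_one] at h
    exact h.symm

theorem sq_mem (g : SU3) : g * g ∈ HH := by
  intro u hu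
  rw [act_mul]
  exact (spec g).1 u hu

/-- construct an element from three columns -/
def mk (M : Matrix (Fin 3) (Fin 3) F4) (hd : M.det = 1)
    (h : ∀ j k : Fin 3, ip (tp fun l => M l j) (tp fun l => M l k) = if j = k then i else o) : SU3 :=
  ⟨⟨M, hd⟩, by
    intro u v
    rw [hermForm_eq, hermForm_eq]
    have hM : ∀ x : Fin 3 → F4, tp ((Cfsg.slToMat 3 F4 ⟨M, hd⟩) *ᵥ x) =
        app (tp fun l => M l 0) (tp fun l => M l 1) (tp fun l => M l 2) (tp x) := by
      intro x
      have key : ∀ k : Fin 3, (Cfsg.slToMat 3 F4 (⟨M, hd⟩ : Matrix.SpecialLinearGroup (Fin 3) F4) *ᵥ x) k =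
          x 0 * M k 0 + x 1 * M k 1 + x 2 * M k 2 := by
        intro k
        rw [Matrix.mulVec, dotProduct, Fin.sum_univ_three, mul_comm (x 0), mul_comm (x 1), mul_comm (x 2)]
        rfl
      unfold tp
      rw [key, key, key]
      rfl
    rw [hM, hM]
    have h00 := h 0 0; have h01 := h 0 1; have h02 := h 0 2
    have h10 := h 1 0; have h11 := h 1 1; have h12 := h 1 2
    have h20 := h 2 0; have h21 := h 2 1; have h22 := h 2 2
    revert h00 h01 h02 h10 h11 h12 h20 h21 h22
    generalize (tp fun l => M l 0) = a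
    generalize (tp fun l => M l 1) = b
    generalize (tp fun l => M l 2) = c
    generalize tp u = x
    generalize tp v = y
    intro h00 h01 h02 h10 h11 h12 h20 h21 h22
    have e1 : ∀ p q r : V, ip (ad p q) r = ip p r + ip q r := by
      rintro ⟨p1, p2, p3⟩ ⟨q1, q2, q3⟩ ⟨r1, r2, r3⟩
      change (p1 + q1) * (r1 * r1) + (p2 + q2) * (r2 * r2) + (p3 + q3) * (r3 * r3) =
        (p1 * (r1 * r1) + p2 * (r2 * r2) + p3 * (r3 * r3)) + (q1 * (r1 * r1) + q2 * (r2 * r2) + q3 * (r3 * r3))
      ring
    have e2 : ∀ (s : F4) (p r : V), ip (sm s p) r = s * ip p r := by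
      rintro s ⟨p1, p2, p3⟩ ⟨r1, r2, r3⟩
      change (s * p1) * (r1 * r1) + (s * p2) * (r2 * r2) + (s * p3) * (r3 * r3) =
        s * (p1 * (r1 * r1) + p2 * (r2 * r2) + p3 * (r3 * r3))
      ring
    have hsq : ∀ x y : F4, (x + y) * (x + y) = x * x + y * y := by decide
    have e3 : ∀ p q r : V, ip p (ad q r) = ip p q + ip p r := by
      rintro ⟨p1, p2, p3⟩ ⟨q1, q2, q3⟩ ⟨r1, r2, r3⟩
      change p1 * ((q1 + r1) * (q1 + r1)) + p2 * ((q2 + r2) * (q2 + r2)) + p3 * ((q3 + r3) * (q3 + r3)) =
        (p1 * (q1 * q1) + p2 * (q2 * q2) + p3 * (q3 * q3)) + (p1 * (r1 * r1) + p2 * (r2 * r2) + p3 * (r3 * r3))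
      rw [hsq, hsq, hsq]
      ring
    have e4 : ∀ (s : F4) (p r : V), ip p (sm s r) = (s * s) * ip p r := by
      rintro s ⟨p1, p2, p3⟩ ⟨r1, r2, r3⟩
      change p1 * ((s * r1) * (s * r1)) + p2 * ((s * r2) * (s * r2)) + p3 * ((s * r3) * (s * r3)) =
        (s * s) * (p1 * (r1 * r1) + p2 * (r2 * r2) + p3 * (r3 * r3))
      ring
    simp only [app, e1, e2, e3, e4, h00, h01, h02, h10, h11, h12, h20, h21, h22]
    obtain ⟨x1, x2, x3⟩ := x
    obtain ⟨y1, y2, y3⟩ := y
    simp only [if_true, Fin.isValue, Fin.reduceEq, if_false]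
    change _ = x1 * (y1 * y1) + x2 * (y2 * y2) + x3 * (y3 * y3)
    change x1 * (y1 * y1 * 1 + y2 * y2 * 0 + y3 * y3 * 0) + x2 * (y1 * y1 * 0 + y2 * y2 * 1 + y3 * y3 * 0) +
      x3 * (y1 * y1 * 0 + y2 * y2 * 0 + y3 * y3 * 1) = _
    ring⟩

theorem act_mk (M : Matrix (Fin 3) (Fin 3) F4) (hd : M.det = 1)
    (h : ∀ j k : Fin 3, ip (tp fun l => M l j) (tp fun l => M l k) = if j = k then i else o) (u : V) :
    act (mk M hd h) u = app (tp fun l => M l 0) (tp fun l => M l 1) (tp fun l => M l 2) u :=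
  act_eq_app _ u

/-- `diag(1, w, v)` as an element -/
def gD : SU3 := mk !![i, o, o; o, w, o; o, o, v] (by decide) (by decide)
/-- the cyclic permutation as an element -/
def gP : SU3 := mk !![o, o, i; i, o, o; o, i, o] (by decide) (by decide)
/-- an element outside `HH` -/
def gX : SU3 := mk !![i, i, i; i, w, v; i, v, w] (by decide) (by decide)

theorem act_gD (u : V) : act gD u = D u := by
  rw [gD, act_mk]
  obtain ⟨x, y, z⟩ := u
  revert x y z
  decide

theorem act_gP (u : V) : act gP u = P u := by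
  rw [gP, act_mk]
  obtain ⟨x, y, z⟩ := u
  revert x y z
  decide

theorem gX_not_mem : gX ∉ HH := by
  intro h
  have h1 := h (i, o, o) (by decide)
  rw [gX, act_mk] at h1
  revert h1
  decide

theorem mem_of_sq_mem_center (g : SU3) (h : g * g ∈ Subgroup.center SU3) : g ∈ HH := by
  rw [Subgroup.mem_center_iff] at h
  refine (spec g).2 (fun u => ?_) (fun u => ?_)
  · rw [← act_gD, ← act_gD, ← act_mul, ← act_mul, ← act_mul, ← act_mul, mul_assoc gD, h gD, mul_assoc]
  · rw [← act_gP, ← act_gP, ← act_mul, ← act_mul, ← act_mul, ← act_mul, mul_assoc gP, h gP, mul_assoc]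

theorem center_le : Subgroup.center SU3 ≤ HH := fun g hg =>
  mem_of_sq_mem_center g ((Subgroup.center SU3).mul_mem hg hg)

theorem not_complemented : ¬ ComplementedLattice (Subgroup (Cfsg.PSU 3 F4 2)) := by
  intro hc
  let π : SU3 →* Cfsg.PSU 3 F4 2 := QuotientGroup.mk' (Subgroup.center SU3)
  have hsurj : Function.Surjective π := QuotientGroup.mk'_surjective _
  have hker : π.ker = Subgroup.center SU3 := QuotientGroup.ker_mk' _
  obtain ⟨C, hC⟩ := hc.exists_isCompl (HH.map π)
  have hcomap : (HH.map π).comap π = HH := by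
    rw [Subgroup.comap_map_eq, hker, sup_eq_left.mpr center_le]
  have hCbot : C ≠ ⊥ := by
    rintro rfl
    have h1 : HH.map π = ⊤ := by
      have := hC.sup_eq_top
      rwa [sup_bot_eq] at this
    rw [h1, Subgroup.comap_top] at hcomap
    apply gX_not_mem
    rw [← hcomap]
    trivial
  obtain ⟨⟨c, hcC⟩, hc1⟩ := Subgroup.ne_bot_iff_exists_ne_one.mp hCbot
  have hc1' : c ≠ 1 := fun h => hc1 (Subtype.ext h)
  obtain ⟨g, rfl⟩ := hsurj c
  have hinf := hC.inf_eq_bot
  have h1 : π (g * g) ∈ HH.map π ⊓ C :=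
    ⟨Subgroup.mem_map_of_mem _ (sq_mem g), by rw [map_mul]; exact C.mul_mem hcC hcC⟩
  rw [hinf, Subgroup.mem_bot, ← MonoidHom.mem_ker, hker] at h1
  have h2 : π g ∈ HH.map π ⊓ C := ⟨Subgroup.mem_map_of_mem _ (mem_of_sq_mem_center g h1), hcC⟩
  rw [hinf, Subgroup.mem_bot] at h2
  exact hc1' h2

end Cfsg.Agent.H939.UThreeTwo
end

-- part: S5908
section
set_option autoImplicit false
open Cfsg

namespace Cfsg.Agent.S5908

/-- The subgroup lattice of PSU₃(2) (the solvable group of order 72, realised over the field with 4 elements) is not complemented: some subgroup H has no subgroup X with H ⊔ X = ⊤ and H ⊓ X = ⊥. -/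
theorem result {F : Type*} [Field F] [Fintype F] (hF : Fintype.card F = 4) :
    ¬ ComplementedLattice (Subgroup (Cfsg.PSU 3 F 2)) := by
  intro hc
  apply Cfsg.Agent.H939.UThreeTwo.not_complemented
  have e : Cfsg.PSU 3 F 2 ≃* Cfsg.PSU 3 Cfsg.Agent.Lib.FieldFour.F4 2 :=
    Cfsg.Agent.LieClassical.FieldTransfer.psuCongr 3 2 (Cfsg.Agent.Lib.FieldFour.equivOfCard hF)
  exact (MulEquiv.mapSubgroup e).complementedLattice_iff.mp hc

end Cfsg.Agent.S5908
end
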