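import Mathlib
import Cfsg.Agent.StandardComponent.AltAut
import Cfsg.Statements.S5911
set_option linter.all false

-- part: H941/SymIndex
section
/-!
# Subgroups of index `n` in `S_n`
-/

set_option autoImplicit false

namespace Cfsg.Agent.H941.SymIndex

open Equiv MulAction
open scoped Pointwise

section
variable {Ω : Type*} [Fintype Ω]

/-- A subgroup of `Perm Ω` of index `card Ω` with a fixed point is a point stabilizer. -/
theorem eq_stabilizer (H : Subgroup (Perm Ω)) (hH : H.index = Fintype.card Ω) (y : Ω)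
    (hy : ∀ h ∈ H, h y = y) : H = stabilizer (Perm Ω) y := by
  have hle : H ≤ stabilizer (Perm Ω) y := fun h hh => by
    rw [mem_stabilizer_iff]; exact hy h hh
  have h1 : (stabilizer (Perm Ω) y).index = Fintype.card Ω := by
    rw [index_stabilizer_of_transitive, Nat.card_eq_fintype_card]
  have h2 := Subgroup.relIndex_mul_index hle
  rw [h1, hH] at h2
  have hpos : 0 < Fintype.card Ω := Fintype.card_pos_iff.2 ⟨y⟩
  have h3 : H.relIndex (stabilizer (Perm Ω) y) = 1 := by
    exact Nat.eq_of_mul_eq_mul_right hpos (by rw [h2, one_mul])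
  exact le_antisymm hle (Subgroup.relIndex_eq_one.1 h3)

end

variable {Ω : Type*} [Fintype Ω] [DecidableEq Ω]

theorem choose_dvd (H : Subgroup (Perm Ω)) (s : Finset Ω) (hs : ∀ h ∈ H, h • s = s) :
    (Fintype.card Ω).choose s.card ∣ H.index := by
  have hle : H ≤ stabilizer (Perm Ω) s := fun h hh => by
    rw [mem_stabilizer_iff]; exact hs h hh
  let t : Set.powersetCard Ω s.card := ⟨s, rfl⟩
  have h1 : (stabilizer (Perm Ω) t).index = Nat.card (Set.powersetCard Ω s.card) := by
    have : IsPretransitive (Perm Ω) (Set.powersetCard Ω s.card) := Set.powersetCard.isPretransitive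
    exact index_stabilizer_of_transitive _ _
  have h2 : stabilizer (Perm Ω) t = stabilizer (Perm Ω) s := by
    ext g
    rw [mem_stabilizer_iff, mem_stabilizer_iff, ← Subtype.coe_inj, Set.powersetCard.coe_smul]
  have h3 := Subgroup.index_dvd_of_le hle
  rw [← h2, h1, Set.powersetCard.card, Nat.card_eq_fintype_card] at h3
  exact h3

/-- small degrees -/
theorem small (h5 : Fintype.card Ω ≤ 5) (H : Subgroup (Perm Ω)) (hH : H.index = Fintype.card Ω) :
    ∃ x : Ω, H = stabilizer (Perm Ω) x := by
  classical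
  have h0 : Fintype.card Ω ≠ 0 := by
    rw [← hH]; exact Subgroup.index_ne_zero_of_finite
  have hne : Nonempty Ω := Fintype.card_pos_iff.1 (Nat.pos_of_ne_zero h0)
  obtain ⟨x⟩ := hne
  suffices ∃ y, ∀ h ∈ H, h y = y by
    obtain ⟨y, hy⟩ := this
    exact ⟨y, eq_stabilizer H hH y hy⟩
  -- the orbit
  let s : Finset Ω := Finset.univ.filter fun z => ∃ h ∈ H, h x = z
  have hs : ∀ h ∈ H, h • s = s := by
    intro h hh
    ext z
    rw [Finset.mem_smul_finset]
    constructor
    · rintro ⟨w, hw, rfl⟩
      obtain ⟨k, hk, hkw⟩ := (Finset.mem_filter.1 hw).2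
      refine Finset.mem_filter.2 ⟨Finset.mem_univ _, h * k, H.mul_mem hh hk, ?_⟩
      rw [Perm.mul_apply, hkw]; rfl
    · intro hz
      obtain ⟨k, hk, hkz⟩ := (Finset.mem_filter.1 hz).2
      refine ⟨h⁻¹ z, Finset.mem_filter.2 ⟨Finset.mem_univ _, h⁻¹ * k, H.mul_mem (H.inv_mem hh) hk, ?_⟩, ?_⟩
      · rw [Perm.mul_apply, hkz]
      · simp
  have hxs : x ∈ s := Finset.mem_filter.2 ⟨Finset.mem_univ _, 1, H.one_mem, rfl⟩
  have hd := choose_dvd H s hs
  rw [hH] at hd
  have hle : s.card ≤ Fintype.card Ω := Finset.card_le_univ s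
  have hpos : 0 < s.card := Finset.card_pos.2 ⟨x, hxs⟩
  -- order of `H`
  have hcard : Fintype.card Ω * Nat.card H = (Fintype.card Ω).factorial := by
    rw [← hH, Subgroup.index_mul_card, Nat.card_perm, Nat.card_eq_fintype_card, hH]
  have hcase : s.card = 1 ∨ s.card + 1 = Fintype.card Ω ∨ s.card = Fintype.card Ω := by
    generalize s.card = k at hd hle hpos
    generalize Fintype.card Ω = n at *
    interval_cases n <;> interval_cases k <;> revert hd <;> decide
  rcases hcase with h | h | h
  · obtain ⟨y, hy⟩ := Finset.card_eq_one.1 h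
    refine ⟨y, fun g hg => ?_⟩
    have h1 := hs g hg
    rw [hy, Finset.smul_finset_singleton] at h1
    exact Finset.singleton_inj.1 h1
  · have hc : sᶜ.card = 1 := by rw [Finset.card_compl]; omega
    obtain ⟨y, hy⟩ := Finset.card_eq_one.1 hc
    refine ⟨y, fun g hg => ?_⟩
    by_contra hne
    have hyc : y ∉ s := by
      rw [← Finset.mem_compl, hy]; exact Finset.mem_singleton_self y
    have hgy : g y ∈ s := by
      by_contra hgy
      rw [← Finset.mem_compl, hy, Finset.mem_singleton] at hgy
      exact hne hgy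
    rw [← hs g hg, Finset.mem_smul_finset] at hgy
    obtain ⟨w, hw, hwy⟩ := hgy
    have : w = y := g.injective hwy
    exact hyc (this ▸ hw)
  · -- transitive
    have huniv : s = Finset.univ := Finset.eq_univ_of_card s h
    have htr : IsPretransitive H Ω := by
      refine (isPretransitive_iff_base x).2 fun z => ?_
      have hz : z ∈ s := by rw [huniv]; exact Finset.mem_univ z
      obtain ⟨k, hk, hkz⟩ := (Finset.mem_filter.1 hz).2
      exact ⟨⟨k, hk⟩, hkz⟩
    have hdvd : Fintype.card Ω ∣ Nat.card H := by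
      rw [← Nat.card_eq_fintype_card, ← index_stabilizer_of_transitive H x]
      exact Subgroup.index_dvd_card _
    have h1 : Fintype.card Ω = 1 := by
      obtain ⟨c, hc⟩ := hdvd
      rw [hc] at hcard
      generalize Fintype.card Ω = n at *
      interval_cases n
      · exact absurd rfl h0
      · rfl
      all_goals (simp [Nat.factorial] at hcard; try omega)
    obtain ⟨y, hy⟩ := Fintype.card_eq_one_iff.1 h1
    exact ⟨y, fun g _ => (hy (g y))⟩

end Cfsg.Agent.H941.SymIndex
end

-- part: H941/SymIndexB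
section
/-!
# Subgroups of index `n` in `S_n`, `n ≥ 7`
-/

set_option autoImplicit false

namespace Cfsg.Agent.H941.SymIndex

open Equiv MulAction

theorem large {n : ℕ} (hn : 7 ≤ n) (H : Subgroup (Perm (Fin n))) (hH : H.index = n) :
    ∃ x : Fin n, H = stabilizer (Perm (Fin n)) x := by
  classical
  have : Nontrivial (Fin n) := Fin.nontrivial_iff_two_le.mpr (by omega)
  have hsimple : IsSimpleGroup (alternatingGroup (Fin n)) := by
    apply alternatingGroup.isSimpleGroup
    rw [Nat.card_eq_fintype_card, Fintype.card_fin]; omega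
  suffices ∃ y, ∀ h ∈ H, h y = y by
    obtain ⟨y, hy⟩ := this
    exact ⟨y, eq_stabilizer H (by rw [hH, Fintype.card_fin]) y hy⟩
  let K : Subgroup (alternatingGroup (Fin n)) := H.subgroupOf (alternatingGroup (Fin n))
  have hKle : K.index ≤ n := by
    refine le_trans ?_ hH.le
    rw [← Subgroup.relIndex_top_right H]
    exact Subgroup.relIndex_le_of_le_right le_top
      (by rw [Subgroup.relIndex_top_right]; exact Subgroup.index_ne_zero_of_finite)
  have hK : K ≠ ⊤ := by
    intro h
    have hle' : alternatingGroup (Fin n) ≤ H := Subgroup.subgroupOf_eq_top.1 h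
    have hi := Subgroup.relIndex_mul_index hle'
    rw [alternatingGroup.index_eq_two] at hi
    have hd : H.index ∣ 2 := ⟨_, by rw [mul_comm]; exact hi.symm⟩
    have := Nat.le_of_dvd (by norm_num) hd
    omega
  let φ : alternatingGroup (Fin n) →* Perm (alternatingGroup (Fin n) ⧸ K) := MulAction.toPermHom _ _
  have hφ : φ.ker = ⊥ := by
    rcases IsSimpleGroup.eq_bot_or_eq_top_of_normal φ.ker inferInstance with h | h
    · exact h
    · exfalso
      apply hK
      rw [eq_top_iff]
      have h2 : φ.ker = K.normalCore := (Subgroup.normalCore_eq_ker K).symm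
      rw [← h, h2]
      exact K.normalCore_le
  have hinj : Function.Injective φ := (MonoidHom.ker_eq_bot_iff _).mp hφ
  have hcard2 : 2 * Nat.card (alternatingGroup (Fin n)) = n.factorial := by
    rw [two_mul_nat_card_alternatingGroup, Nat.card_perm, Nat.card_eq_fintype_card, Fintype.card_fin]
  have hidx : K.index = n := by
    apply le_antisymm hKle
    by_contra hlt
    push Not at hlt
    have h1 := Nat.card_le_card_of_injective _ hinj
    rw [Nat.card_perm, ← Subgroup.index_eq_card] at h1
    have h2 : K.index.factorial ≤ (n - 1).factorial := Nat.factorial_le (by omega)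
    have h3 : n * (n - 1).factorial = n.factorial := Nat.mul_factorial_pred (by omega)
    have h4 := Nat.factorial_pos (n - 1)
    nlinarith
  have hcq : Nat.card (alternatingGroup (Fin n) ⧸ K) = n := by rw [← Subgroup.index_eq_card, hidx]
  let e : (alternatingGroup (Fin n) ⧸ K) ≃ Fin n := (Finite.equivFinOfCardEq hcq)
  let ψ : alternatingGroup (Fin n) →* Perm (Fin n) :=
    (e.permCongrHom : Perm (alternatingGroup (Fin n) ⧸ K) ≃* Perm (Fin n)).toMonoidHom.comp φ
  have hψinj : Function.Injective ψ := by
    intro a b hab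
    exact hinj (e.permCongrHom.injective hab)
  have hψr : ψ.range = alternatingGroup (Fin n) := by
    apply Equiv.Perm.eq_alternatingGroup_of_index_eq_two
    have h1 : Nat.card ψ.range = Nat.card (alternatingGroup (Fin n)) :=
      (Nat.card_congr (MonoidHom.ofInjective hψinj).toEquiv).symm
    have h2 := Subgroup.index_mul_card ψ.range
    rw [h1, Nat.card_perm, Nat.card_fin, ← hcard2] at h2
    exact Nat.eq_of_mul_eq_mul_right Nat.card_pos h2
  let α : MulAut (alternatingGroup (Fin n)) :=
    (MonoidHom.ofInjective hψinj).trans (MulEquiv.subgroupCongr hψr)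
  have hα : ∀ x, ((α x : alternatingGroup (Fin n)) : Perm (Fin n)) = ψ x := fun x => rfl
  obtain ⟨f, hf⟩ := Cfsg.Agent.StandardComponent.AltAut.exists_autHom n hn
  set π := f α with hπ
  let y0 : Fin n := e ((1 : alternatingGroup (Fin n)) : alternatingGroup (Fin n) ⧸ K)
  obtain ⟨y, hy⟩ := π.surjective y0
  have hpi : π⁻¹ y0 = y := by rw [Perm.inv_eq_iff_eq]; exact hy.symm
  have hmem : ∀ x : alternatingGroup (Fin n), x ∈ K ↔ (x : Perm (Fin n)) y = y := by
    intro x
    have h1 : x ∈ K ↔ ψ x y0 = y0 := by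
      have h2 : ψ x y0 = e ((x : alternatingGroup (Fin n)) : alternatingGroup (Fin n) ⧸ K) := by
        change e (φ x (e.symm (e _))) = _
        rw [e.symm_apply_apply]
        change e ((x * 1 : alternatingGroup (Fin n)) : alternatingGroup (Fin n) ⧸ K) = _
        rw [mul_one]
      rw [h2, e.apply_eq_iff_eq]
      rw [eq_comm, QuotientGroup.eq, inv_one, one_mul]
    rw [h1, ← hα, hf, Perm.mul_apply, Perm.mul_apply, hpi]
    constructor
    · intro h
      exact π.injective (h.trans hy.symm)
    · intro h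
      rw [h]
      exact hy
  refine ⟨y, ?_⟩
  intro h hh
  by_contra hne
  set z := h⁻¹ y with hz
  have hzy : z ≠ y := by
    intro hzy
    apply hne
    rw [hz, Perm.inv_eq_iff_eq] at hzy
    exact hzy.symm
  obtain ⟨a, ha⟩ : ∃ a, a ∉ ({y, z} : Finset (Fin n)) := by
    by_contra hcon
    push Not at hcon
    have h1 : (Finset.univ : Finset (Fin n)) ⊆ {y, z} := fun a _ => hcon a
    have h2 := Finset.card_le_card h1
    rw [Finset.card_univ, Fintype.card_fin] at h2
    have h3 := Finset.card_le_two (a := y) (b := z)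
    omega
  obtain ⟨b, hb⟩ : ∃ b, b ∉ ({y, z, a} : Finset (Fin n)) := by
    by_contra hcon
    push Not at hcon
    have h1 : (Finset.univ : Finset (Fin n)) ⊆ {y, z, a} := fun a _ => hcon a
    have h2 := Finset.card_le_card h1
    rw [Finset.card_univ, Fintype.card_fin] at h2
    have h3 := Finset.card_le_three (a := y) (b := z) (c := a)
    omega
  simp only [Finset.mem_insert, Finset.mem_singleton, not_or] at ha hb
  have hxA : swap z a * swap z b ∈ alternatingGroup (Fin n) := by
    rw [Perm.mem_alternatingGroup, Perm.sign_mul, Perm.sign_swap (Ne.symm ha.2),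
      Perm.sign_swap (Ne.symm hb.2.1)]
    rfl
  have hxK : (⟨swap z a * swap z b, hxA⟩ : alternatingGroup (Fin n)) ∈ K := by
    rw [hmem]
    change (swap z a * swap z b) y = y
    rw [Perm.mul_apply, swap_apply_of_ne_of_ne (Ne.symm hzy) (Ne.symm hb.1),
      swap_apply_of_ne_of_ne (Ne.symm hzy) (Ne.symm ha.1)]
  have hxH : swap z a * swap z b ∈ H := hxK
  have h1 : h * (swap z a * swap z b) * h⁻¹ ∈ H := H.mul_mem (H.mul_mem hh hxH) (H.inv_mem hh)
  have h2 : h * (swap z a * swap z b) * h⁻¹ ∈ alternatingGroup (Fin n) :=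
    (inferInstance : (alternatingGroup (Fin n)).Normal).conj_mem _ hxA _
  have h3 : (⟨_, h2⟩ : alternatingGroup (Fin n)) ∈ K := h1
  rw [hmem] at h3
  change (h * (swap z a * swap z b) * h⁻¹) y = y at h3
  rw [Perm.mul_apply, ← hz, Perm.mul_apply, Perm.mul_apply, swap_apply_left,
    swap_apply_of_ne_of_ne hb.2.1 hb.2.2] at h3
  have h4 : b = z := by
    rw [hz, ← h3]; simp
  exact hb.2.1 h4

end Cfsg.Agent.H941.SymIndex
end

-- part: S5911
section
set_option autoImplicit false
open Cfsg

namespace Cfsg.Agent.S5911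

/-- Let Ω be a finite set whose size n is not 6. Then every subgroup of the symmetric group on Ω of index n is the stabilizer of a point. -/
theorem result {Ω : Type*} [Fintype Ω] [DecidableEq Ω] (h6 : Fintype.card Ω ≠ 6)
    (H : Subgroup (Equiv.Perm Ω)) (hH : H.index = Fintype.card Ω) :
    ∃ x : Ω, H = MulAction.stabilizer (Equiv.Perm Ω) x := by
  by_cases h5 : Fintype.card Ω ≤ 5
  · exact H941.SymIndex.small h5 H hH
  have h7 : 7 ≤ Fintype.card Ω := by omega
  let e : Ω ≃ Fin (Fintype.card Ω) := Fintype.equivFin Ω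
  let E : Equiv.Perm Ω ≃* Equiv.Perm (Fin (Fintype.card Ω)) := e.permCongrHom
  obtain ⟨x, hx⟩ := H941.SymIndex.large h7 (H.map E.toMonoidHom) 
    ((Subgroup.index_map_equiv H E).trans hH)
  refine ⟨e.symm x, H941.SymIndex.eq_stabilizer H hH _ fun h hh => ?_⟩
  have h1 : E h ∈ H.map E.toMonoidHom := ⟨h, hh, rfl⟩
  rw [hx, MulAction.mem_stabilizer_iff] at h1
  have h2 : e (h (e.symm x)) = x := h1
  exact (e.symm_apply_eq.2 h2.symm).symm

end Cfsg.Agent.S5911
end
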