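import Cfsg.Statements.S5912
import Cfsg.Agent.H949.SSix
set_option linter.all false
-- import your own Cfsg.Agent.* helpers here

set_option autoImplicit false
open Cfsg

namespace Cfsg.Agent.S5912

open Cfsg.Agent.H949.SSix Equiv MulAction
open Cfsg.Agent.OddHalf.D5.SixAut (θ θ_θ)

theorem map_conj_comap {A B : Type*} [Group A] [Group B] (E : A ≃* B) (g : A) (K : Subgroup B) :
    (K.comap E.toMonoidHom).map (MulAut.conj g).toMonoidHom =
      (K.map (MulAut.conj (E g)).toMonoidHom).comap E.toMonoidHom := by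
  ext x
  constructor
  · rintro ⟨y, hy, rfl⟩
    refine ⟨E y, hy, ?_⟩
    simp
  · rintro ⟨y, hy, h⟩
    refine ⟨E.symm y, ?_, ?_⟩
    · show E (E.symm y) ∈ K
      rwa [E.apply_symm_apply]
    · apply E.injective
      have h' : E g * y * (E g)⁻¹ = E x := by simpa using h
      rw [← h']
      simp

theorem conj_stab (g : Perm (Fin 6)) (p : Fin 6) :
    (stabilizer (Perm (Fin 6)) p).map (MulAut.conj g).toMonoidHom =
      stabilizer (Perm (Fin 6)) (g p) :=
  (MulAction.stabilizer_smul_eq_stabilizer_map_conj g p).symm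

theorem conj_comap (g : Perm (Fin 6)) (p : Fin 6) :
    ((stabilizer (Perm (Fin 6)) p).comap θ).map (MulAut.conj g).toMonoidHom =
      (stabilizer (Perm (Fin 6)) (θ g p)).comap θ := by
  have h := map_conj_comap thE g (stabilizer (Perm (Fin 6)) p)
  rw [conj_stab] at h
  exact h

/-- The symmetric group on a 6-element set Ω has exactly two conjugacy classes of subgroups of index 6: there are two non-conjugate subgroups of index 6 (a point stabilizer and a transitive subgroup isomorphic to S₅), and every subgroup of index 6 is conjugate to one of them. -/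
theorem result {Ω : Type*} [Fintype Ω] [DecidableEq Ω] (h6 : Fintype.card Ω = 6) :
    ∃ H₁ H₂ : Subgroup (Equiv.Perm Ω), H₁.index = 6 ∧ H₂.index = 6 ∧
      (¬ ∃ g : Equiv.Perm Ω, Subgroup.map (MulAut.conj g).toMonoidHom H₁ = H₂) ∧
      ∀ H : Subgroup (Equiv.Perm Ω), H.index = 6 →
        ∃ g : Equiv.Perm Ω, Subgroup.map (MulAut.conj g).toMonoidHom H₁ = H ∨ Subgroup.map (MulAut.conj g).toMonoidHom H₂ = H := by
  let e : Ω ≃ Fin 6 := Fintype.equivFinOfCardEq h6
  let E : Perm Ω ≃* Perm (Fin 6) := e.permCongrHom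
  have hcomp : ∀ K : Subgroup (Perm (Fin 6)), (K.comap E.toMonoidHom).index = K.index := fun K =>
    Subgroup.index_comap_of_surjective _ E.surjective
  have hinj : ∀ K L : Subgroup (Perm (Fin 6)), K.comap E.toMonoidHom = L.comap E.toMonoidHom →
      K = L := fun K L h => Subgroup.comap_injective E.surjective h
  have hidx : ∀ p : Fin 6, ((stabilizer (Perm (Fin 6)) p).comap θ).index = 6 := fun p => by
    rw [Subgroup.index_comap_of_surjective _ thE.surjective, index_stab]
  refine ⟨(stabilizer (Perm (Fin 6)) (0 : Fin 6)).comap E.toMonoidHom,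
    ((stabilizer (Perm (Fin 6)) (0 : Fin 6)).comap θ).comap E.toMonoidHom, ?_, ?_, ?_, ?_⟩
  · rw [hcomp, index_stab]
  · rw [hcomp, hidx]
  · rintro ⟨g, hg⟩
    rw [map_conj_comap, conj_stab] at hg
    exact stab_ne_comap _ _ (hinj _ _ hg)
  · intro H hH
    obtain ⟨K, hK⟩ : ∃ K : Subgroup (Perm (Fin 6)), H = K.comap E.toMonoidHom := by
      refine ⟨H.comap E.symm.toMonoidHom, ?_⟩
      ext x
      simp
    rw [hK, hcomp] at hH
    rcases classify hH with ⟨p, hp⟩ | ⟨p, hp⟩
    · refine ⟨E.symm (swap 0 p), Or.inl ?_⟩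
      rw [map_conj_comap, conj_stab, E.apply_symm_apply, swap_apply_left, hK, hp]
    · refine ⟨E.symm (θ (swap 0 p)), Or.inr ?_⟩
      rw [map_conj_comap, conj_comap, E.apply_symm_apply, θ_θ, swap_apply_left, hK, hp]

end Cfsg.Agent.S5912
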