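import Cfsg.Statements.S5946
set_option linter.all false
-- import your own Cfsg.Agent.* helpers here

set_option autoImplicit false
open Cfsg

namespace Cfsg.Agent.S5946

/-- Let F ⊆ K be finite fields with [K : F] = n ≥ 2 and regard K as an n-dimensional F-vector space. The Singer group M ≤ GL_F(K) of multiplications by the non-zero elements of K is self-centralizing: every F-linear automorphism of K commuting with all of M lies in M. -/
theorem result {F K : Type*} [Field F] [Fintype F] [Field K] [Fintype K] [Algebra F K] (n : ℕ) (hn : 2 ≤ n) (hdim : Module.finrank F K = n) :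
    Subgroup.centralizer (((Units.map ((Algebra.lmul F K : K →ₐ[F] Module.End F K) : K →* Module.End F K)).range : Subgroup (Module.End F K)ˣ) : Set (Module.End F K)ˣ) = (Units.map ((Algebra.lmul F K : K →ₐ[F] Module.End F K) : K →* Module.End F K)).range := by
  ext g
  rw [Subgroup.mem_centralizer_iff]
  constructor
  · intro h
    have key : ∀ x : K, (g : Module.End F K) x = (g : Module.End F K) 1 * x := by
      intro x
      by_cases hx : x = 0
      · simp [hx]
      · have h1 := h (Units.map ((Algebra.lmul F K : K →ₐ[F] Module.End F K) : K →* Module.End F K)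
          (Units.mk0 x hx)) ⟨_, rfl⟩
        have h2 := congrArg (fun u : (Module.End F K)ˣ => (u : Module.End F K) 1) h1
        simp at h2
        rw [← h2, mul_comm]
    have hne : (g : Module.End F K) 1 ≠ 0 := by
      intro h0
      have hz : ∀ x : K, (g : Module.End F K) x = 0 := fun x => by rw [key x, h0, zero_mul]
      have : ((g * g⁻¹ : (Module.End F K)ˣ) : Module.End F K) 1 = 0 := by
        rw [Units.val_mul]
        exact hz _
      rw [mul_inv_cancel] at this
      simp at this
    refine ⟨Units.mk0 _ hne, ?_⟩
    apply Units.ext
    apply LinearMap.ext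
    intro x
    rw [key x]
    simp
  · rintro ⟨a, rfl⟩ _ ⟨b, rfl⟩
    rw [← map_mul, ← map_mul, mul_comm]

end Cfsg.Agent.S5946
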