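import Cfsg.Statements.S5947
import Cfsg.Agent.Lib.Zsigmondy
import Cfsg.Agent.S5946
set_option linter.all false

set_option autoImplicit false
open Cfsg

namespace Cfsg.Agent.S5947

open Polynomial

/-- A prime power `q` with `q + 1` a power of two is a prime. -/
theorem prime_of_succ_eq_two_pow {p m a : ℕ} (hp : p.Prime) (hm : 0 < m) (h : p ^ m + 1 = 2 ^ a) :
    (p ^ m).Prime := by
  have hp2 : p ≠ 2 := by
    rintro rfl
    have h1 : a ≠ 0 := by
      rintro rfl
      simp at h
    have h2 : 2 ∣ 2 ^ a := dvd_pow_self 2 h1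
    have h3 : 2 ∣ 2 ^ m := dvd_pow_self 2 hm.ne'
    rw [← h] at h2
    have := (Nat.dvd_add_right h3).1 h2
    omega
  have hodd : Odd p := hp.odd_of_ne_two hp2
  rcases Nat.even_or_odd m with hev | hod
  · exfalso
    obtain ⟨k, rfl⟩ := hev
    have h4 : p ^ (k + k) % 4 = 1 := by
      rw [← two_mul, pow_mul, Nat.pow_mod]
      have : p ^ 2 % 4 = 1 := by
        obtain ⟨c, rfl⟩ := hodd
        ring_nf
        omega
      rw [this, one_pow]
      norm_num
    have hp3 : 3 ≤ p := by
      have := hp.two_le
      omega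
    have hge : 3 ≤ p ^ (k + k) := le_trans hp3 (Nat.le_self_pow hm.ne' p)
    have ha : 2 ≤ a := by
      by_contra hcon
      have : a = 0 ∨ a = 1 := by omega
      rcases this with rfl | rfl <;> omega
    have : 4 ∣ 2 ^ a := by
      obtain ⟨c, rfl⟩ := Nat.exists_eq_add_of_le ha
      exact ⟨2 ^ c, by ring⟩
    omega
  · have hdvd : p + 1 ∣ p ^ m + 1 := by
      have := Odd.nat_add_dvd_pow_add_pow p 1 hod
      simpa using this
    rw [h] at hdvd
    obtain ⟨b, hb, hb2⟩ := (Nat.dvd_prime_pow Nat.prime_two).1 hdvd
    -- `p ^ m + 1 = (p+1) * odd`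
    have hb0 : 1 ≤ p := hp.one_lt.le
    obtain ⟨c, hc⟩ : (p : ℤ) + 1 ∣ (p : ℤ) ^ m + 1 := by
      have := hod.add_dvd_pow_add_pow (p : ℤ) 1
      simpa using this
    -- c is odd
    have hc2 : Odd c := by
      have hgs : (p : ℤ) ^ m + 1 = ((p : ℤ) + 1) * ∑ i ∈ Finset.range m, (-1) ^ i * (p : ℤ) ^ (m - 1 - i) := by
        have h5 := (Commute.all (p : ℤ) (-1)).mul_geom_sum₂ m
        have h6 : ((-1 : ℤ)) ^ m = -1 := hod.neg_one_pow
        rw [h6] at h5
        rw [sub_neg_eq_add, sub_neg_eq_add] at h5
        rw [← h5]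
        congr 1
        rw [← Finset.sum_range_reflect]
        refine Finset.sum_congr rfl fun i hi => ?_
        rw [Finset.mem_range] at hi
        have : m - 1 - (m - 1 - i) = i := by omega
        rw [this]
        ring
      have hne : ((p : ℤ) + 1) ≠ 0 := by positivity
      have hce : c = ∑ i ∈ Finset.range m, (-1) ^ i * (p : ℤ) ^ (m - 1 - i) :=
        mul_left_cancel₀ hne (hc.symm.trans hgs)
      rw [hce, Int.odd_iff, Finset.sum_int_mod]
      have : ∀ i ∈ Finset.range m, ((-1) ^ i * (p : ℤ) ^ (m - 1 - i)) % 2 = 1 := by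
        intro i _
        rw [← Int.odd_iff]
        apply Odd.mul
        · exact (by decide : Odd (-1 : ℤ)).pow
        · exact (by exact_mod_cast hodd : Odd (p : ℤ)).pow
      rw [Finset.sum_congr rfl this]
      simp only [Finset.sum_const, Finset.card_range, nsmul_eq_mul, mul_one]
      exact_mod_cast Nat.odd_iff.1 hod
    have hcpos : 0 < c := by
      have h7 : 0 < (p : ℤ) ^ m + 1 := by positivity
      rw [hc] at h7
      exact (pos_iff_pos_of_mul_pos h7).1 (by positivity)
    -- c divides 2 ^ a
    have hc3 : c = 1 := by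
      have h8 : c ∣ 2 ^ a := by
        refine ⟨(p : ℤ) + 1, ?_⟩
        have : (2 : ℤ) ^ a = (p : ℤ) ^ m + 1 := by exact_mod_cast h.symm
        rw [this, hc]; ring
      have h9 : IsCoprime c (2 ^ a) := by
        apply IsCoprime.pow_right
        rw [Int.isCoprime_iff_gcd_eq_one]
        exact Int.isCoprime_iff_gcd_eq_one.1 (by
          obtain ⟨e, rfl⟩ := hc2
          exact ⟨1, -e, by ring⟩)
      have h10 : IsUnit c := h9.isUnit_of_dvd' dvd_rfl h8
      rcases Int.isUnit_iff.1 h10 with h | h <;> omega
    rw [hc3, mul_one] at hc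
    have h11 : (p : ℤ) ^ m = p := by linarith
    have h12 : p ^ m = p := by exact_mod_cast h11
    rw [h12]; exact hp

/-- The core: an element of prime order `r`, `r` a primitive prime divisor of `q ^ n - 1`, has irreducible minimal
polynomial of degree `n`. -/
theorem exists_algHom {F K : Type*} [Field F] [Fintype F] [Field K] [Fintype K] [Algebra F K] (n : ℕ) (hn : 2 ≤ n)
    (hdim : Module.finrank F K = n) {r : ℕ} (hr : r.Prime) (hord : orderOf ((Fintype.card F : ℕ) : ZMod r) = n)
    (u : Module.End F K) (hu : u ^ r = 1) (hu1 : u ≠ 1) :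
    ∃ ψ : K →ₐ[F] Module.End F K, ∃ b : K, ψ b = u := by
  classical
  obtain ⟨p, hpchar⟩ := CharP.exists F
  haveI := hpchar
  obtain ⟨⟨m, hm⟩, hp, hcard⟩ := FiniteField.card F p
  simp only [PNat.mk_coe] at hcard
  haveI : Fact p.Prime := ⟨hp⟩
  haveI : Fact r.Prime := ⟨hr⟩
  haveI hFK : FiniteDimensional F K := Module.finite_of_finrank_pos (by omega)
  have hpr : p ≠ r := by
    rintro rfl
    rw [hcard] at hord
    have h1 : (((p ^ m : ℕ)) : ZMod p) = 0 := by
      rw [Nat.cast_pow, ZMod.natCast_self, zero_pow hm.ne']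
    rw [h1, orderOf_zero] at hord
    omega
  have hcop : p.Coprime r := (Nat.coprime_primes hp hr).2 hpr
  have hint : IsIntegral F u := Algebra.IsIntegral.isIntegral u
  set f := minpoly F u with hf
  have hfmon : f.Monic := minpoly.monic hint
  have hfdvd : f ∣ X ^ r - 1 := by
    apply minpoly.dvd
    simp [hu]
  have hfac : (X ^ r - 1 : F[X]) = (X - 1) * cyclotomic r F := by
    rw [← cyclotomic_prime_mul_X_sub_one F r, mul_comm]
  -- common irreducible factor
  have hnc : ¬ IsCoprime f (cyclotomic r F) := by
    intro hc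
    have h1 : f ∣ X - 1 := by
      apply hc.dvd_of_dvd_mul_right
      rw [← hfac]; exact hfdvd
    have h2 : aeval u (X - 1 : F[X]) = 0 := by
      obtain ⟨g, hg⟩ := h1
      rw [hg, map_mul, hf, minpoly.aeval, zero_mul]
    apply hu1
    have h3 : u - 1 = 0 := by simpa using h2
    exact sub_eq_zero.1 h3
  have hex : ∃ g : F[X], Irreducible g ∧ g ∣ f ∧ g ∣ cyclotomic r F := by
    have hgcd : ¬ IsUnit (EuclideanDomain.gcd f (cyclotomic r F)) := by
      intro h
      exact hnc (EuclideanDomain.gcd_isUnit_iff.1 h)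
    have hg0 : EuclideanDomain.gcd f (cyclotomic r F) ≠ 0 := by
      intro h
      rw [EuclideanDomain.gcd_eq_zero_iff] at h
      exact hfmon.ne_zero h.1
    obtain ⟨g, hg, hgd⟩ := WfDvdMonoid.exists_irreducible_factor hgcd hg0
    exact ⟨g, hg, hgd.trans (EuclideanDomain.gcd_dvd_left _ _), hgd.trans (EuclideanDomain.gcd_dvd_right _ _)⟩
  obtain ⟨g, hgirr, hgf, hgc⟩ := hex
  have hgdeg : g.natDegree = n := by
    rw [natDegree_of_dvd_cyclotomic_of_irreducible hcard hcop hgc hgirr, ← hord, hcard,
      ← orderOf_units]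
    rfl
  have hfdeg : f.natDegree ≤ n := by
    have h1 := LinearMap.minpoly_dvd_charpoly u
    have h2 := natDegree_le_of_dvd h1 (LinearMap.charpoly_monic u).ne_zero
    rw [LinearMap.charpoly_natDegree, hdim] at h2
    exact h2
  -- f is irreducible of degree n
  have hfirr : Irreducible f := by
    have h1 : f.natDegree ≤ g.natDegree := by rw [hgdeg]; exact hfdeg
    exact (associated_of_dvd_of_natDegree_le hgf hfmon.ne_zero h1).irreducible hgirr
  have hfn : f.natDegree = n := by
    apply le_antisymm hfdeg
    rw [← hgdeg]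
    exact natDegree_le_of_dvd hgf hfmon.ne_zero
  haveI : Fact (Irreducible f) := ⟨hfirr⟩
  have hLdim : Module.finrank F (AdjoinRoot f) = n := by
    rw [(AdjoinRoot.powerBasis hfmon.ne_zero).finrank, AdjoinRoot.powerBasis_dim, hfn]
  obtain ⟨φ⟩ : Nonempty (K →ₐ[F] AdjoinRoot f) := by
    haveI : Module.Finite F (AdjoinRoot f) := Module.finite_of_finrank_pos (by omega)
    haveI : Finite (AdjoinRoot f) := Module.finite_of_finite F
    exact FiniteField.nonempty_algHom_of_finrank_dvd (by rw [hdim, hLdim])
  have hmin : minpoly F (AdjoinRoot.powerBasis hfmon.ne_zero).gen = f := by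
    rw [AdjoinRoot.powerBasis_gen]
    rw [AdjoinRoot.minpoly_root hfmon.ne_zero, hfmon.leadingCoeff, inv_one, C_1, mul_one]
  let χ : AdjoinRoot f →ₐ[F] Module.End F K := (AdjoinRoot.powerBasis hfmon.ne_zero).lift u (by
    rw [hmin, hf, minpoly.aeval])
  have hχ : χ (AdjoinRoot.root f) = u := by
    exact (AdjoinRoot.powerBasis hfmon.ne_zero).lift_gen u (by rw [hmin, hf, minpoly.aeval])
  haveI : Module.Finite F (AdjoinRoot f) := Module.finite_of_finrank_pos (by omega)
  have hφs : Function.Surjective φ := by
    have h1 : Function.Injective φ.toLinearMap := φ.toRingHom.injective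
    exact (LinearMap.injective_iff_surjective_of_finrank_eq_finrank (by rw [hdim, hLdim])).1 h1
  obtain ⟨b, hb⟩ := hφs (AdjoinRoot.root f)
  exact ⟨χ.comp φ, b, by rw [AlgHom.comp_apply, hb, hχ]⟩

/-- Let F ⊆ K be finite fields with |F| = q and [K : F] = n ≥ 2, regard K as an n-dimensional F-vector space, and let M ≤ GL_F(K) be the Singer group of multiplications by non-zero elements of K (cyclic of order q^n − 1). Assume (n, q) ≠ (6, 2), and that it is not the case that n = 2 with q a prime such that q + 1 is a power of 2. Then every abelian subgroup of GL_F(K) of order q^n − 1 is conjugate to M. -/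
theorem result {F K : Type*} [Field F] [Fintype F] [Field K] [Fintype K] [Algebra F K] (n : ℕ) (hn : 2 ≤ n) (hdim : Module.finrank F K = n)
    (hex1 : ¬ (n = 6 ∧ Fintype.card F = 2))
    (hex2 : ¬ (n = 2 ∧ (Fintype.card F).Prime ∧ ∃ a : ℕ, Fintype.card F + 1 = 2 ^ a))
    (U : Subgroup (Module.End F K)ˣ) (hU : IsMulCommutative U) (hcard : Nat.card U = Fintype.card K - 1) :
    ∃ g : (Module.End F K)ˣ, U.map (MulAut.conj g).toMonoidHom = (Units.map ((Algebra.lmul F K : K →ₐ[F] Module.End F K) : K →* Module.End F K)).range := by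
  classical
  haveI hFK : FiniteDimensional F K := Module.finite_of_finrank_pos (by omega)
  have hq2 : 2 ≤ Fintype.card F := Fintype.one_lt_card
  obtain ⟨r, hr, hord⟩ := Cfsg.Agent.Lib.Zsigmondy.exists_prime_orderOf (a := Fintype.card F) (n := n) hq2 hn
    (by
      rintro rfl ⟨k, hk⟩
      obtain ⟨p, hpchar⟩ := CharP.exists F
      haveI := hpchar
      obtain ⟨⟨m, hm⟩, hp, hcardF⟩ := FiniteField.card F p
      simp only [PNat.mk_coe] at hcardF
      refine hex2 ⟨rfl, ?_, k, hk⟩
      rw [hcardF] at hk ⊢
      exact prime_of_succ_eq_two_pow hp hm hk)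
    (fun h => hex1 ⟨h.2, h.1⟩)
  haveI : Fact r.Prime := ⟨hr⟩
  have hK : Fintype.card K = Fintype.card F ^ n := by
    rw [Module.card_eq_pow_finrank (K := F), hdim]
  have hrd : r ∣ Nat.card U := by
    rw [hcard, hK, Cfsg.Agent.Lib.Zsigmondy.dvd_pow_sub_one_iff (by omega), hord]
  haveI : Finite (Module.End F K) := Module.finite_of_finite F
  obtain ⟨u, hu⟩ := exists_prime_orderOf_dvd_card' r hrd
  have hu1 : ((u : (Module.End F K)ˣ) : Module.End F K) ≠ 1 := by
    intro h
    have h1 : (u : (Module.End F K)ˣ) = 1 := Units.ext h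
    have h2 : u = 1 := Subtype.ext h1
    rw [h2, orderOf_one] at hu
    exact hr.one_lt.ne' hu.symm
  have hur : ((u : (Module.End F K)ˣ) : Module.End F K) ^ r = 1 := by
    have h1 : u ^ r = 1 := by rw [← hu]; exact pow_orderOf_eq_one u
    have h2 := congrArg (fun x : U => ((x : (Module.End F K)ˣ) : Module.End F K)) h1
    simpa using h2
  obtain ⟨ψ, b, hb⟩ := exists_algHom n hn hdim hr hord _ hur hu1
  -- the linear bijection
  let θ : K →ₗ[F] K :=
    { toFun := fun x => ψ x 1
      map_add' := fun x y => by rw [map_add]; rfl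
      map_smul' := fun c x => by rw [map_smul]; rfl }
  have hθinj : Function.Injective θ := by
    rw [injective_iff_map_eq_zero]
    intro x hx
    by_contra hx0
    have h1 : ψ x⁻¹ (ψ x 1) = 1 := by
      have h2 : ψ x⁻¹ * ψ x = 1 := by rw [← map_mul, inv_mul_cancel₀ hx0, map_one]
      exact congrArg (fun v : Module.End F K => v 1) h2
    have h3 : ψ x 1 = 0 := hx
    rw [h3, map_zero] at h1
    exact zero_ne_one h1
  have hθbij : Function.Bijective θ := ⟨hθinj, (LinearMap.injective_iff_surjective).1 hθinj⟩
  let e : K ≃ₗ[F] K := LinearEquiv.ofBijective θ hθbij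
  have he : ∀ x, e x = ψ x 1 := fun x => rfl
  let g : (Module.End F K)ˣ := ⟨(e.symm : K →ₗ[F] K), (e : K →ₗ[F] K), by ext x; simp, by ext x; simp⟩
  have hgψ : ∀ x y : K, e.symm (ψ x (e y)) = x * y := by
    intro x y
    rw [LinearEquiv.symm_apply_eq, he, he, map_mul]
    rfl
  refine ⟨g, ?_⟩
  -- the conjugate of U is in the centralizer of the multiplications
  have hle : U.map (MulAut.conj g).toMonoidHom ≤
      (Units.map ((Algebra.lmul F K : K →ₐ[F] Module.End F K) : K →* Module.End F K)).range := by
    rw [← Cfsg.Agent.S5946.result n hn hdim]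
    rintro _ ⟨v, hv, rfl⟩
    -- v commutes with ψ b, hence with all ψ x
    have hvu : Commute ((v : (Module.End F K)ˣ) : Module.End F K) (ψ b) := by
      rw [hb]
      have h1 := congrArg (fun x : U => ((x : (Module.End F K)ˣ) : Module.End F K))
        (hU.is_comm.comm (⟨v, hv⟩ : U) u)
      exact h1
    -- every element of K is a polynomial in b
    have hgen : ∀ x : K, x ∈ Algebra.adjoin F {b} := by
      -- the conjugate of b generates: use the order argument
      intro x
      have hb1 : b ^ r = 1 := by
        have h1 : ψ (b ^ r) = 1 := by rw [map_pow, hb, hur]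
        have hψinj : Function.Injective ψ := ψ.toRingHom.injective
        exact hψinj (by rw [h1, map_one])
      have hb2 : b ≠ 1 := by
        rintro rfl
        rw [map_one] at hb
        exact hu1 hb.symm
      have hb0 : b ≠ 0 := by
        rintro rfl
        rw [zero_pow hr.ne_zero] at hb1
        exact zero_ne_one hb1
      have hbint : IsIntegral F b := Algebra.IsIntegral.isIntegral b
      have hfld : (IntermediateField.adjoin F {b}) = ⊤ := by
        -- its cardinality
        set E := IntermediateField.adjoin F {b} with hE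
        let b' : E := ⟨b, IntermediateField.mem_adjoin_simple_self F b⟩
        have hb'0 : b' ≠ 0 := fun h => hb0 (congrArg Subtype.val h)
        have hob : orderOf b = r := by
          exact orderOf_eq_prime hb1 hb2
        have hob' : orderOf (Units.mk0 b' hb'0) = r := by
          rw [← orderOf_units]
          have : orderOf (b' : E) = orderOf b := by
            rw [← orderOf_injective (E.val : E →* K) (Subtype.val_injective) b']
            rfl
          simpa [this] using hob
        have h3 : r ∣ Nat.card Eˣ := by rw [← hob']; exact orderOf_dvd_natCard _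
        have h4 : Nat.card Eˣ = Nat.card E - 1 := Nat.card_units E
        have h5 : Nat.card E = Fintype.card F ^ Module.finrank F E := by
          rw [Module.natCard_eq_pow_finrank (K := F), Nat.card_eq_fintype_card]
        rw [h4, h5, Cfsg.Agent.Lib.Zsigmondy.dvd_pow_sub_one_iff (by omega), hord] at h3
        have h6 : 0 < Module.finrank F E := Module.finrank_pos
        have h7 : n ≤ Module.finrank F E := Nat.le_of_dvd h6 h3
        apply IntermediateField.eq_of_le_of_finrank_le le_top
        rw [IntermediateField.finrank_top', hdim]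
        exact h7
      have h8 : (IntermediateField.adjoin F {b}).toSubalgebra = Algebra.adjoin F {b} :=
        IntermediateField.adjoin_simple_toSubalgebra_of_isAlgebraic hbint.isAlgebraic
      rw [← h8, hfld]
      trivial
    have hvx : ∀ x : K, Commute ((v : (Module.End F K)ˣ) : Module.End F K) (ψ x) := by
      intro x
      refine Algebra.adjoin_induction (p := fun x _ => Commute ((v : (Module.End F K)ˣ) : Module.End F K) (ψ x))
        ?_ ?_ ?_ ?_ (hgen x)
      · intro y hy
        rw [Set.mem_singleton_iff] at hy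
        rw [hy]; exact hvu
      · intro c
        rw [AlgHom.commutes]
        exact (Algebra.commutes c _).symm
      · intro y z _ _ hy hz
        rw [map_add]; exact hy.add_right hz
      · intro y z _ _ hy hz
        rw [map_mul]; exact hy.mul_right hz
    rw [Subgroup.mem_centralizer_iff]
    rintro _ ⟨w, rfl⟩
    apply Units.ext
    ext y
    change (w : K) * (e.symm ((v : Module.End F K) (e y))) = e.symm ((v : Module.End F K) (e ((w : K) * y)))
    have h1 : e ((w : K) * y) = ψ w (e y) := by
      rw [← hgψ, LinearEquiv.apply_symm_apply]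
    rw [h1]
    have h2 : (v : Module.End F K) (ψ w (e y)) = ψ w ((v : Module.End F K) (e y)) :=
      congrArg (fun x : Module.End F K => x (e y)) (hvx w)
    rw [h2]
    have h3 := hgψ w (e.symm ((v : Module.End F K) (e y)))
    rw [LinearEquiv.apply_symm_apply] at h3
    rw [h3]
  apply Subgroup.eq_of_le_of_card_ge hle
  rw [Subgroup.card_map_of_injective (MulAut.conj g).injective, hcard]
  have h1 : Nat.card (Units.map ((Algebra.lmul F K : K →ₐ[F] Module.End F K) : K →* Module.End F K)).range ≤ Nat.card Kˣ :=
    Nat.card_le_card_of_surjective _ (MonoidHom.rangeRestrict_surjective _)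
  rw [Nat.card_units] at h1
  rw [← Nat.card_eq_fintype_card]
  exact h1

end Cfsg.Agent.S5947
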